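import Cfsg.Agent.H3.ZassBasic

set_option autoImplicit false
set_option linter.unusedSectionVars false
set_option maxHeartbeats 400000

/-! Doubly transitive groups with an involution whose centraliser has constant fixity. -/

namespace CfsgH1

open MulAction Subgroup
open scoped Pointwise

structure FX (G Ω : Type*) [Group G] [MulAction G Ω] (i : ℕ) (t : G) : Prop where
  faith : ∀ g : G, (∀ x : Ω, g • x = x) → g = 1
  two : ∀ {a b c d : Ω}, a ≠ b → c ≠ d → ∃ g : G, g • a = c ∧ g • b = d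
  tt : t * t = 1
  t1 : t ≠ 1
  fix : ∀ g : G, g * t = t * g → g ≠ 1 → (fixedBy Ω g).ncard = i

variable {G Ω : Type*} [Group G] [Finite G] [Finite Ω] [MulAction G Ω] {i : ℕ}
  {t s g x y z d : G} {a b c e : Ω}

theorem fx_ncard_orb (X : Subgroup G) (a : Ω) :
    {b | ∃ g ∈ X, g • a = b}.ncard = (stabilizer G a).relIndex X := by
  have : {b | ∃ g ∈ X, g • a = b} = orbit X a := Set.ext fun _ =>
    ⟨fun ⟨g, a, b⟩ => ⟨⟨g, a⟩, b⟩, fun ⟨g, b⟩ => ⟨g, g.2, b⟩⟩
  rw [this, ← index_stabilizer]; rfl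

theorem fx_conj_fix (h : x • a = a) (g : G) : (g * x * g⁻¹) • g • a = g • a := by
  rw [mul_smul, inv_smul_smul, mul_smul, h]

theorem fx_comm_fix (h : x • a = a) (hg : g * x = x * g) : x • g • a = g • a := by
  rw [← mul_smul, ← hg, mul_smul, h]

theorem fx_ncard_conj (x g : G) : (fixedBy Ω (g * x * g⁻¹)).ncard = (fixedBy Ω x).ncard := by
  rw [← Set.ncard_image_of_injective (fixedBy Ω x) (MulAction.injective g)]
  congr 1
  ext a
  constructor
  · intro h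
    refine ⟨g⁻¹ • a, ?_, smul_inv_smul g a⟩
    have := fx_conj_fix h g⁻¹
    rwa [show g⁻¹ * (g * x * g⁻¹) * g⁻¹⁻¹ = x by group] at this
  · rintro ⟨b, h, rfl⟩
    exact fx_conj_fix h g

theorem fx_exists_invol (h : ¬ Odd (orderOf g)) : ∃ k : ℕ, g ^ k * g ^ k = 1 ∧ g ^ k ≠ 1 := by
  obtain ⟨k, hk⟩ := Nat.not_odd_iff_even.1 h
  have := orderOf_pos g
  exact ⟨k, by rw [← pow_add, ← hk, pow_orderOf_eq_one], pow_ne_one_of_lt_orderOf (by omega)
    (by omega)⟩

theorem fx_sqrt (h : Odd (orderOf g)) : ∃ k : ℕ, g ^ k * g ^ k = g := by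
  obtain ⟨k, hk⟩ := h
  exact ⟨k + 1, by rw [← pow_add, show k + 1 + (k + 1) = orderOf g + 1 by omega, pow_succ,
    pow_orderOf_eq_one, one_mul]⟩

theorem fx_inv_pow (h : s * x * s⁻¹ = x⁻¹) (k : ℕ) : s * x ^ k * s⁻¹ = (x ^ k)⁻¹ := by
  rw [← conj_pow, h, inv_pow]

/-- `x s` is conjugate to `s` under `⟨x⟩`. -/
theorem fx_conj_of_inv (h : s * x * s⁻¹ = x⁻¹) (ho : Odd (orderOf x)) :
    ∃ k : ℕ, x ^ k * s * (x ^ k)⁻¹ = x * s := by
  obtain ⟨k, hk⟩ := fx_sqrt ho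
  refine ⟨k, ?_⟩
  have := fx_inv_pow h k
  calc _ = x ^ k * (s * x ^ k * s⁻¹)⁻¹ * s := by group
    _ = _ := by rw [this, inv_inv, hk]

namespace FX

variable (h : FX G Ω i t)
include h

theorem exists_move (hg : g ≠ 1) : ∃ a : Ω, g • a ≠ a := by
  by_contra! e
  exact hg (h.faith g e)

theorem fix_t : (fixedBy Ω t).ncard = i := h.fix t rfl h.t1

theorem burnside : Nat.card (centralizer {t}) ∣ (fixedBy Ω t)ᶜ.ncard := by
  classical
  have := Fintype.ofFinite G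
  have := Fintype.ofFinite Ω
  have e := sum_card_fixedBy_eq_card_orbits_mul_card_group (centralizer {t}) Ω
  have e1 : ∀ g : centralizer {t}, Fintype.card (fixedBy Ω g) = (fixedBy Ω (g : G)).ncard :=
    fun g => by rw [← Nat.card_eq_fintype_card, Nat.card_coe_set_eq]; rfl
  simp only [e1] at e
  have e2 : ∑ g ∈ Finset.univ.erase (1 : centralizer {t}), (fixedBy Ω (g : G)).ncard =
      ∑ _g ∈ Finset.univ.erase (1 : centralizer {t}), i := Finset.sum_congr rfl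
    fun g hg => h.fix g (mem_centralizer_singleton_iff.1 g.2) fun e =>
      Finset.ne_of_mem_erase hg (Subtype.ext e)
  rw [← Finset.add_sum_erase _ _ (Finset.mem_univ 1), e2, Finset.sum_const, smul_eq_mul,
    Finset.card_erase_of_mem (Finset.mem_univ _), Finset.card_univ, OneMemClass.coe_one,
    fixedBy_one_eq_univ, Set.ncard_univ, ← Set.ncard_add_ncard_compl (fixedBy Ω t), h.fix_t,
    ← Nat.card_eq_fintype_card] at e
  obtain ⟨m, hm⟩ := Nat.exists_eq_add_one_of_ne_zero (Nat.card_pos (α := centralizer {t})).ne'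
  rw [hm, Nat.add_sub_cancel] at e
  rw [hm]
  exact (Nat.dvd_add_right (dvd_mul_left (m + 1) i)).1 ⟨_, by rw [mul_comm (m + 1), ← e]; ring⟩

theorem count (hab : a ≠ b) : Nat.card (centralizer {t}) = (fixedBy Ω t)ᶜ.ncard ∧
    ∀ s : G, s • a = b → s • b = a → ∃ g, g⁻¹ * t * g = s := by
  have m : ∀ x : ((fixedBy Ω t)ᶜ : Set Ω), ∃ g : G, g • a = x ∧ g • b = t • (x : Ω) := fun x =>
    h.two hab fun e => x.2 e.symm
  choose f f1 f2 using m
  let D := stabilizer G a ⊓ stabilizer G b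
  let X := {g : G | t • g • a = g • b}
  let S := {s : G | s • a = b ∧ s • b = a}
  let S' := {s : G | s ∈ S ∧ ∃ g, g⁻¹ * t * g = s}
  have i1 : Nat.card (((fixedBy Ω t)ᶜ : Set Ω) × D) ≤ Nat.card X := Nat.card_le_card_of_injective
    (fun p => ⟨f p.1 * p.2, by
      change t • (f p.1 * p.2) • a = (f p.1 * p.2) • b
      rw [mul_smul, mul_smul, p.2.2.1, p.2.2.2, f1, f2]⟩) fun p q e => by
      have e : f p.1 * p.2 = f q.1 * q.2 := congrArg Subtype.val e
      have e1 : p.1 = q.1 := Subtype.ext (by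
        rw [← f1, ← f1, ← p.2.2.1, ← mul_smul, e, mul_smul, q.2.2.1, p.2.2.1])
      exact Prod.ext e1 (Subtype.ext (mul_left_cancel (e1 ▸ e)))
  have m : ∀ s : S', ∃ g, g⁻¹ * t * g = s := fun s => s.2.2
  choose k hk using m
  have m : ∀ g : X, (g : G)⁻¹ * t * g ∈ S' := fun g => ⟨⟨by
    rw [mul_smul, mul_smul, g.2, inv_smul_smul], by
    rw [mul_smul, mul_smul, ← g.2, ← mul_smul t, h.tt, one_smul, inv_smul_smul]⟩, g, rfl⟩
  have i2 : Nat.card X ≤ Nat.card (S' × centralizer {t}) := Nat.card_le_card_of_injective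
    (fun g => (⟨_, m g⟩, ⟨g * (k ⟨_, m g⟩)⁻¹, mem_centralizer_singleton_iff.2 (by
      have := hk ⟨_, m g⟩
      calc _ = g * ((k ⟨_, m g⟩)⁻¹ * t * k ⟨_, m g⟩) * (k ⟨_, m g⟩)⁻¹ := by group
        _ = _ := by rw [this]; group)⟩)) fun p q e => by
      have e1 := congrArg Prod.fst e
      have e2 := congrArg (fun x => x.2.1) e
      simp only at e1 e2
      rw [e1] at e2
      exact Subtype.ext (mul_right_cancel e2)
  obtain ⟨s0, s1, s2⟩ := h.two hab hab.symm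
  have i3 : Nat.card S ≤ Nat.card D := Nat.card_le_card_of_injective
    (fun s => ⟨s0 * s, by change (s0 * s) • a = a; rw [mul_smul, s.2.1, s2],
      by change (s0 * s) • b = b; rw [mul_smul, s.2.2, s1]⟩) fun p q e =>
      Subtype.ext (mul_left_cancel (congrArg Subtype.val e))
  have i4 : S'.ncard ≤ S.ncard := Set.ncard_le_ncard fun _ hx => hx.1
  rw [Nat.card_prod, Nat.card_coe_set_eq] at i1 i2
  rw [Nat.card_coe_set_eq] at i1 i2 i3
  obtain ⟨c, hc⟩ := h.exists_move h.t1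
  have p1 : 0 < (fixedBy Ω t)ᶜ.ncard := (Set.ncard_pos (Set.toFinite _)).2 ⟨c, hc⟩
  have i5 := Nat.le_of_dvd p1 h.burnside
  have p2 : 0 < Nat.card D := Nat.card_pos
  refine ⟨le_antisymm i5 (Nat.le_of_mul_le_mul_right (c := Nat.card D) (by nlinarith) p2),
    fun s a1 a2 => ((Set.eq_of_subset_of_ncard_le (s := S') (t := S) (fun _ hx => hx.1)
      (i3.trans (Nat.le_of_mul_le_mul_left (c := (fixedBy Ω t)ᶜ.ncard) (by nlinarith) p1))).ge
      ⟨a1, a2⟩).2⟩

theorem card_C : Nat.card (centralizer {t}) + i = Nat.card Ω := by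
  obtain ⟨c, hc⟩ := h.exists_move h.t1
  rw [(h.count hc).1, ← h.fix_t, add_comm, Set.ncard_add_ncard_compl]

/-- every element with a `2`-cycle is conjugate to `t`. -/
theorem conj (hab : a ≠ b) (h1 : s • a = b) (h2 : s • b = a) : ∃ g, g * t * g⁻¹ = s :=
  let ⟨g, e⟩ := (h.count hab).2 s h1 h2; ⟨g⁻¹, by rwa [inv_inv]⟩

theorem sq (hab : a ≠ b) (h1 : s • a = b) (h2 : s • b = a) : s * s = 1 := by
  obtain ⟨g, rfl⟩ := h.conj hab h1 h2
  calc _ = g * (t * t) * g⁻¹ := by group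
    _ = 1 := by rw [h.tt]; group

theorem conj' (h1 : s * s = 1) (h2 : s ≠ 1) : ∃ g, g * t * g⁻¹ = s :=
  let ⟨a, ha⟩ := h.exists_move h2; h.conj ha.symm rfl (by rw [← mul_smul, h1, one_smul])

theorem of_invol (h1 : s * s = 1) (h2 : s ≠ 1) : FX G Ω i s := by
  obtain ⟨g, rfl⟩ := h.conj' h1 h2
  refine ⟨h.faith, h.two, h1, h2, fun x hx x1 => ?_⟩
  rw [← fx_ncard_conj x g⁻¹]
  refine h.fix _ ?_ fun e => x1 ?_
  · calc _ = g⁻¹ * (x * (g * t * g⁻¹)) * g := by group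
      _ = _ := by rw [hx]; group
  · calc x = g * (g⁻¹ * x * g⁻¹⁻¹) * g⁻¹ := by group
      _ = 1 := by rw [e]; group

theorem inv (hab : a ≠ b) (h1 : s • a = b) (h2 : s • b = a) (h3 : d • a = a) (h4 : d • b = b) :
    s * d * s⁻¹ = d⁻¹ := by
  have e := h.sq (s := s * d) hab (by rw [mul_smul, h3, h1]) (by rw [mul_smul, h4, h2])
  rw [inv_eq_of_mul_eq_one_right (h.sq hab h1 h2), eq_inv_iff_mul_eq_one, mul_assoc (s * d), e]

theorem comm (hab : a ≠ b) (h1 : x • a = a) (h2 : x • b = b) (h3 : d • a = a) (h4 : d • b = b) :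
    x * d = d * x := by
  obtain ⟨s, s1, s2⟩ := h.two hab hab.symm
  have e := h.inv (d := x * d) hab s1 s2 (by rw [mul_smul, h3, h1]) (by rw [mul_smul, h4, h2])
  rw [show s * (x * d) * s⁻¹ = s * x * s⁻¹ * (s * d * s⁻¹) by group, h.inv hab s1 s2 h1 h2,
    h.inv hab s1 s2 h3 h4, ← mul_inv_rev, inv_inj] at e
  exact e.symm

/-- an element fixing three points is inverted by an element fixing one of them. -/
theorem exists_inv (hab : a ≠ b) (hac : a ≠ c) (hbc : b ≠ c) (h1 : x • a = a) (h2 : x • b = b)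
    (h3 : x • c = c) : ∃ g : G, g • a = a ∧ g * x * g⁻¹ = x⁻¹ := by
  obtain ⟨s, s1, s2⟩ := h.two hab hab.symm
  obtain ⟨u, u1, u2⟩ := h.two hbc hbc.symm
  obtain ⟨v, v1, v2⟩ := h.two hac hac.symm
  refine ⟨v * u * s, by rw [mul_smul, mul_smul, s1, u1, v2], ?_⟩
  rw [show v * u * s * x * (v * u * s)⁻¹ = v * (u * (s * x * s⁻¹) * u⁻¹) * v⁻¹ by group,
    h.inv hab s1 s2 h1 h2, conj_inv.symm, h.inv hbc u1 u2 h2 h3, inv_inv, h.inv hac v1 v2 h1 h3]

/-- the case of an involution with at least three fixed points. -/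
theorem not_three (hab : a ≠ b) (hac : a ≠ c) (hbc : b ≠ c) (h1 : t • a = a) (h2 : t • b = b)
    (h3 : t • c = c) : False := by
  have ti : t⁻¹ = t := inv_eq_of_mul_eq_one_right h.tt
  have sw : ∀ {s : G} {a b : Ω}, a ≠ b → t • a = a → t • b = b → s • a = b → s • b = a →
      s * t = t * s := fun n a1 a2 a3 a4 => by
    have := h.inv n a3 a4 a1 a2
    rwa [ti, mul_inv_eq_iff_eq_mul] at this
  have F : ∀ g, g * t = t * g → g * g ≠ 1 → ∀ x : Ω, t • x = x → g • x = x := fun g g1 g2 => by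
    refine (Set.eq_of_subset_of_ncard_le (s := fixedBy Ω g) (t := fixedBy Ω t) (fun x hx => ?_)
      (by rw [h.fix_t, h.fix g g1 (by rintro rfl; simp at g2)])).ge
    by_contra e
    have hx : g • x = x := hx
    have e1 : (g * t) • x = t • x := by rw [g1, mul_smul, hx]
    have := h.sq (s := g * t) (Ne.symm e) e1 (by rw [mul_smul, ← mul_smul t, h.tt, one_smul, hx])
    rw [mul_assoc, ← mul_assoc t, ← g1, mul_assoc, h.tt, mul_one] at this
    exact g2 this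
  have E : ∀ g, g * t = t * g → g * g = 1 := fun d d1 => by
    by_contra d2
    obtain ⟨s, s1, s2⟩ := h.two hab hab.symm
    obtain ⟨u, u1, u2⟩ := h.two hac hac.symm
    have e1 : (u * s) • b = c := by rw [mul_smul, s2, u1]
    have e2 : u * s * (u * s) = 1 := by
      by_contra e
      exact hbc ((F _ (by rw [mul_assoc, sw hab h1 h2 s1 s2, ← mul_assoc, sw hac h1 h3 u1 u2,
        mul_assoc]) e b h2).symm.trans e1)
    have e3 := h.inv hbc e1 (by rw [← e1, ← mul_smul, e2, one_smul]) (F d d1 d2 b h2)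
      (F d d1 d2 c h3)
    rw [show u * s * d * (u * s)⁻¹ = u * (s * d * s⁻¹) * u⁻¹ by group,
      h.inv hab s1 s2 (F d d1 d2 a h1) (F d d1 d2 b h2), conj_inv.symm,
      h.inv hac u1 u2 (F d d1 d2 a h1) (F d d1 d2 c h3), inv_inv] at e3
    exact d2 (eq_inv_iff_mul_eq_one.1 e3)
  have A : ∀ x y, x * t = t * x → y * t = t * y → x * y = y * x := fun x y x1 y1 => by
    have := E (x * y) (by rw [mul_assoc, y1, ← mul_assoc, x1, mul_assoc])
    rw [← eq_inv_iff_mul_eq_one, mul_inv_rev, inv_eq_of_mul_eq_one_right (E x x1),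
      inv_eq_of_mul_eq_one_right (E y y1)] at this
    exact this
  have T : ∀ x : Ω, t • x = x → ∃ g, g * t = t * g ∧ g • a = x := fun x hx => by
    by_cases e : a = x
    · exact ⟨1, by simp, by simp [e]⟩
    obtain ⟨s, s1, s2⟩ := h.two e (Ne.symm e)
    exact ⟨s, sw e h1 hx s1 s2, s1⟩
  have K : ∀ d, d * t = t * d → d • a = a → d ≠ 1 → fixedBy Ω d = fixedBy Ω t := fun d d1 d2 d3 =>
    (Set.eq_of_subset_of_ncard_le (fun x hx => by
      obtain ⟨g, g1, rfl⟩ := T x hx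
      exact fx_comm_fix d2 (A g d g1 d1)) (by rw [h.fix_t, h.fix d d1 d3])).symm
  have o1 : fixedBy Ω t = {x | ∃ g ∈ centralizer {t}, g • a = x} := Set.ext fun x =>
    ⟨fun hx => let ⟨g, g1, g2⟩ := T x hx; ⟨g, mem_centralizer_singleton_iff.2 g1, g2⟩,
      fun ⟨g, g1, g2⟩ => g2 ▸ fx_comm_fix h1 (mem_centralizer_singleton_iff.1 g1)⟩
  have d1 : i ∣ Nat.card (centralizer {t}) := by
    rw [← h.fix_t, o1, fx_ncard_orb]
    exact relIndex_dvd_card _ _
  let U := stabilizer G a ⊓ stabilizer G (fixedBy Ω t)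
  have o2 : fixedBy Ω t \ {a} = {x | ∃ g ∈ U, g • b = x} := Set.ext fun x => ⟨fun hx => by
      obtain ⟨g, g1, g2⟩ := h.two hab (Ne.symm hx.2)
      refine ⟨g, ⟨g1, ?_⟩, g2⟩
      have e1 : (g * t * g⁻¹) • a = a := g1 ▸ fx_conj_fix h1 g
      change g • fixedBy Ω t = _
      rw [smul_fixedBy]
      exact K _ (h.comm (Ne.symm hx.2) e1 (g2 ▸ fx_conj_fix h2 g) h1 hx.1) e1
        (by simpa using h.t1), fun ⟨g, g1, g2⟩ => ⟨by
      have e : g • fixedBy Ω t = fixedBy Ω t := g1.2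
      rw [← e, ← g2]
      exact Set.smul_mem_smul_set h2, fun e => hab (MulAction.injective g
        (g1.1.trans (e.symm.trans g2.symm)))⟩⟩
  have o3 : ({a}ᶜ : Set Ω) = {x | ∃ g ∈ stabilizer G a, g • b = x} := Set.ext fun x =>
    ⟨fun hx => h.two hab (Ne.symm hx), fun ⟨g, g1, g2⟩ e => hab (MulAction.injective g
      (g1.trans (e.symm.trans g2.symm)))⟩
  have d2 : (fixedBy Ω t \ {a}).ncard ∣ ({a}ᶜ : Set Ω).ncard := by
    rw [o2, o3, fx_ncard_orb, fx_ncard_orb, ← inf_relIndex_right _ (stabilizer G a),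
      ← relIndex_mul_relIndex (stabilizer G b ⊓ stabilizer G a) U _ (fun d hd => ⟨hd.2, by
        by_cases e : d = 1
        · exact e ▸ one_mem _
        change d • fixedBy Ω t = _
        rw [smul_fixedBy, h.comm hab hd.2 hd.1 h1 h2, mul_inv_cancel_right]⟩) inf_le_left,
      ← inf_relIndex_right (stabilizer G b ⊓ stabilizer G a) U, inf_assoc,
      inf_eq_right.2 (show U ≤ stabilizer G a from inf_le_left), inf_relIndex_right]
    exact dvd_mul_right _ _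
  have c1 := Set.ncard_diff_singleton_add_one (s := fixedBy Ω t) h1
  have c2 := Set.ncard_add_ncard_compl ({a} : Set Ω)
  have c3 := h.card_C
  have c4 : 2 ≤ (fixedBy Ω t \ {a}).ncard := (Set.ncard_pair hbc).ge.trans
    (Set.ncard_le_ncard (by rintro x (rfl | rfl); exacts [⟨h2, hab.symm⟩, ⟨h3, hac.symm⟩]))
  rw [Set.ncard_singleton] at c2
  rw [h.fix_t] at c1
  obtain ⟨k, hk⟩ := (IsPGroup.iff_card (p := 2) (G := centralizer {t})).1 fun g =>
    ⟨1, Subtype.ext (by simpa [pow_two] using E g (mem_centralizer_singleton_iff.1 g.2))⟩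
  rw [show ({a}ᶜ : Set Ω).ncard = (fixedBy Ω t \ {a}).ncard + Nat.card (centralizer {t}) by omega,
    Nat.dvd_add_right dvd_rfl] at d2
  rw [hk] at d1 d2
  obtain ⟨j, -, e1⟩ := (Nat.dvd_prime_pow Nat.prime_two).1 d1
  obtain ⟨l, -, e2⟩ := (Nat.dvd_prime_pow Nat.prime_two).1 d2
  rcases j with _ | j
  · omega
  rcases l with _ | l <;> omega

theorem third (hab : a ≠ b) (h1 : t • a = a) (h2 : t • b = b) (hx : x • a = a) (hx' : x • b = b)
    (hac : a ≠ c) (hbc : b ≠ c) (h3 : x • c = c) : x = 1 := by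
  by_contra e
  have e1 := h.fix x (h.comm hab hx hx' h1 h2) e
  have e2 : (fixedBy Ω t).ncard ≤ 2 := (Set.ncard_le_ncard (t := {a, b}) fun y hy => by
    by_contra! f
    simp only [Set.mem_insert_iff, Set.mem_singleton_iff, not_or] at f
    exact h.not_three hab (Ne.symm f.1) (Ne.symm f.2) h1 h2 hy).trans (Set.ncard_pair hab).le
  have e3 := Set.ncard_le_ncard (s := {a, b, c}) (t := fixedBy Ω x)
    (by rintro y (rfl | rfl | rfl); exacts [hx, hx', h3])
  rw [Set.ncard_eq_three.2 ⟨a, b, c, hab, hac, hbc, rfl⟩, e1, ← h.fix_t] at e3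
  omega

section odd
variable (hu : ∀ a b : Ω, t • a = a → t • b = b → a = b)
include hu

theorem uniq (h1 : s * s = 1) (h2 : s ≠ 1) (h3 : s • a = a) (h4 : s • b = b) : a = b := by
  obtain ⟨g, rfl⟩ := h.conj' h1 h2
  have e : ∀ a : Ω, (g * t * g⁻¹) • a = a → t • g⁻¹ • a = g⁻¹ • a := fun a ha => by
    rw [eq_inv_smul_iff, ← mul_smul, ← mul_smul, ha]
  exact MulAction.injective g⁻¹ (hu _ _ (e a h3) (e b h4))

theorem odd (hab : a ≠ b) (h1 : x • a = a) (h2 : x • b = b) : Odd (orderOf x) := by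
  by_contra e
  obtain ⟨k, k1, k2⟩ := fx_exists_invol e
  exact hab (h.uniq hu k1 k2 (pow_mem (show x ∈ stabilizer G a from h1) k)
    (pow_mem (show x ∈ stabilizer G b from h2) k))

theorem eq_one (h1 : s * s = 1) (h2 : s ≠ 1) (hab : a ≠ b) (h3 : x • a = a) (h4 : x • b = b)
    (hc : x * s = s * x) : x = 1 := by
  by_contra e
  have e1 := (h.of_invol h1 h2).fix x hc e
  have e2 : (fixedBy Ω t).ncard ≤ 1 := Set.ncard_le_one_iff_subsingleton.2 fun a x b y => hu a b x y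
  have e3 := Set.ncard_le_ncard (s := {a, b}) (t := fixedBy Ω x)
    (by rintro y (rfl | rfl); exacts [h3, h4])
  rw [Set.ncard_pair hab, e1, ← h.fix_t] at e3
  omega

theorem exists_invol (hab : a ≠ b) (hac : a ≠ c) (hbc : b ≠ c) (h1 : x • a = a) (h2 : x • b = b)
    (h3 : x • c = c) (x1 : x ≠ 1) : ∃ s : G, s * s = 1 ∧ s ≠ 1 ∧ s • a = a ∧ s * x * s⁻¹ = x⁻¹ := by
  obtain ⟨g, g1, g2⟩ := h.exists_inv hab hac hbc h1 h2 h3
  have p : ∀ k : ℕ, g ^ k * x * (g ^ k)⁻¹ = if Even k then x else x⁻¹ := fun k => by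
    induction k with
    | zero => simp
    | succ k ih =>
      rw [pow_succ', show g * g ^ k * x * (g * g ^ k)⁻¹ = g * (g ^ k * x * (g ^ k)⁻¹) * g⁻¹ by group,
        ih]
      by_cases e : Even k
      · simp [e, Nat.even_add_one, g2]
      · simp only [e, Nat.even_add_one, not_false_eq_true, if_true, if_false]
        rw [← conj_inv, g2, inv_inv]
  have o : ¬ Odd (orderOf g) := fun o => by
    have := p (orderOf g)
    rw [pow_orderOf_eq_one, if_neg (Nat.not_even_iff_odd.2 o), one_mul, inv_one, mul_one] at this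
    exact hab (h.uniq hu (eq_inv_iff_mul_eq_one.1 this) x1 h1 h2)
  obtain ⟨k, k1, k2⟩ := fx_exists_invol o
  refine ⟨_, k1, k2, pow_mem (show g ∈ stabilizer G a from g1) k, ?_⟩
  by_cases e : Even k
  · have := p k
    rw [if_pos e, mul_inv_eq_iff_eq_mul] at this
    exact absurd (h.eq_one hu k1 k2 hab h1 h2 this.symm) x1
  · rw [p, if_neg e]

theorem trans_C (h1 : s * s = 1) (h2 : s ≠ 1) (h3 : s • a = a) (hab : a ≠ b) (hac : a ≠ c) :
    ∃ g : G, g * s * g⁻¹ = s ∧ g • b = c := by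
  have nb : b ≠ s • b := fun e => hab (h.uniq hu h1 h2 h3 e.symm)
  have nc : c ≠ s • c := fun e => hac (h.uniq hu h1 h2 h3 e.symm)
  have ss : ∀ b : Ω, s • s • b = b := fun b => by rw [← mul_smul, h1, one_smul]
  obtain ⟨g, g1, g2⟩ := h.two nb nc
  have e1 : (g * s * g⁻¹ * s) • c = c := by
    rw [mul_smul, mul_smul, mul_smul, inv_smul_eq_iff.2 g2.symm, ss, g1]
  have e2 : (g * s * g⁻¹ * s) • s • c = s • c := by
    rw [mul_smul, ss, mul_smul, mul_smul, inv_smul_eq_iff.2 g1.symm, g2]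
  obtain ⟨k, hk⟩ := fx_conj_of_inv (h.inv nc rfl (ss c) e1 e2) (h.odd hu nc e1 e2)
  rw [mul_assoc _ s s, h1, mul_one] at hk
  refine ⟨((g * s * g⁻¹ * s) ^ k)⁻¹ * g, ?_, ?_⟩
  · generalize (g * s * g⁻¹ * s) ^ k = y at hk
    calc _ = y⁻¹ * (g * s * g⁻¹) * y := by group
      _ = _ := by rw [← hk]; group
  · rw [mul_smul, g1]
    exact inv_mem (pow_mem (show _ ∈ stabilizer G c from e1) k)

theorem conj_D (h1 : s * s = 1) (h2 : s ≠ 1) (h3 : s • a = a) (hab : a ≠ b) (hg : g • a = a) :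
    ∃ d : G, d • a = a ∧ d • b = b ∧ d * s * d⁻¹ = g * s * g⁻¹ := by
  obtain ⟨k, k1, k2⟩ := h.trans_C hu h1 h2 h3 hab (c := g⁻¹ • b) fun e =>
    hab (hg.symm.trans (by rw [e, smul_inv_smul]))
  refine ⟨g * k, ?_, by rw [mul_smul, k2, smul_inv_smul], ?_⟩
  · have := fx_conj_fix h3 k
    rw [k1] at this
    rw [mul_smul, h.uniq hu h1 h2 this h3, hg]
  · calc _ = g * (k * s * k⁻¹) * g⁻¹ := by group
      _ = _ := by rw [k1]

theorem inv_all (hab : a ≠ b) (hac : a ≠ c) (hbc : b ≠ c) (h1 : x • a = a) (h2 : x • b = b)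
    (h3 : x • c = c) (s1 : s * s = 1) (s2 : s ≠ 1) (s3 : s • a = a) : s * x * s⁻¹ = x⁻¹ := by
  by_cases x1 : x = 1
  · simp [x1]
  obtain ⟨u, u1, u2, u3, u4⟩ := h.exists_invol hu hab hac hbc h1 h2 h3 x1
  obtain ⟨g, rfl⟩ := (h.of_invol u1 u2).conj' s1 s2
  obtain ⟨d, d1, d2, e⟩ := h.conj_D hu u1 u2 u3 hab (h.uniq hu s1 s2 (fx_conj_fix u3 g) s3)
  have c := h.comm hab d1 d2 h1 h2
  rw [← e]
  calc _ = d * (u * (d⁻¹ * (x * d)) * u⁻¹) * d⁻¹ := by group
    _ = _ := by rw [← c, inv_mul_cancel_left, u4, ← conj_inv, c, mul_inv_cancel_right]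

omit h hu in
/-- the elements of odd order of `G_a` inverted by all involutions of `G_a`. -/
def Zi (G : Type*) {Ω : Type*} [Group G] [Finite G] [MulAction G Ω] (a : Ω) {s : G}
    (s1 : s * s = 1) (s2 : s ≠ 1) (s3 : s • a = a) : Subgroup G where
  carrier := {z | z • a = a ∧ Odd (orderOf z) ∧
    ∀ u : G, u * u = 1 → u ≠ 1 → u • a = a → u * z * u⁻¹ = z⁻¹}
  one_mem' := ⟨one_smul _ _, by simp, by simp⟩
  inv_mem' := fun ⟨a1, a2, a3⟩ => ⟨inv_smul_eq_iff.2 a1.symm, by rwa [orderOf_inv],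
    fun u u1 u2 u3 => by rw [← conj_inv, a3 u u1 u2 u3]⟩
  mul_mem' := fun {x y} ⟨a1, a2, a3⟩ ⟨b1, b2, b3⟩ => by
    obtain ⟨k, hk⟩ := fx_conj_of_inv (a3 s s1 s2 s3) a2
    have e := b3 (x * s) (by
      rw [← hk]
      calc _ = x ^ k * (s * s) * (x ^ k)⁻¹ := by group
        _ = 1 := by rw [s1]; group) (by rw [← hk]; simpa using s2) (by rw [mul_smul, s3, a1])
    rw [show x * s * y * (x * s)⁻¹ = x * (s * y * s⁻¹) * x⁻¹ by group, b3 s s1 s2 s3, ← conj_inv,
      inv_inj, mul_inv_eq_iff_eq_mul] at e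
    refine ⟨by rw [mul_smul, b1, a1], (a2.mul b2).of_dvd_nat
      (Commute.orderOf_mul_dvd_mul_orderOf e), fun u u1 u2 u3 => ?_⟩
    rw [show u * (x * y) * u⁻¹ = u * x * u⁻¹ * (u * y * u⁻¹) by group, a3 u u1 u2 u3,
      b3 u u1 u2 u3, ← mul_inv_rev, e]

theorem third' (hab : a ≠ b) (hac : a ≠ c) (hbc : b ≠ c) (h1 : x • a = a) (h2 : x • b = b)
    (h3 : x • c = c) : x = 1 := by
  by_contra x1
  obtain ⟨s, s1, s2, s3, -⟩ := h.exists_invol hu hab hac hbc h1 h2 h3 x1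
  set Z := Zi G a s1 s2 s3 with hZ
  have m : ∀ {x : G} {b c : Ω}, a ≠ b → a ≠ c → b ≠ c → x • a = a → x • b = b → x • c = c →
      x ∈ Z := fun n1 n2 n3 f1 f2 f3 =>
    ⟨f1, h.odd hu n1 f1 f2, fun u => h.inv_all hu n1 n2 n3 f1 f2 f3⟩
  have n : ∀ g : G, g • a = a → ∀ z ∈ Z, g * z * g⁻¹ ∈ Z := fun g hg z hz =>
    ⟨hg ▸ fx_conj_fix hz.1 g, by
      rw [show g * z * g⁻¹ = MulAut.conj g z from rfl, MulEquiv.orderOf_eq]; exact hz.2.1, fun u u1 u2 u3 => by
      have := hz.2.2 (g⁻¹ * u * g) (by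
        calc _ = g⁻¹ * (u * u) * g := by group
          _ = 1 := by rw [u1]; group) (fun e => u2 (by
        calc u = g * (g⁻¹ * u * g) * g⁻¹ := by group
          _ = 1 := by rw [e]; group)) (by rw [mul_smul, mul_smul, hg, u3, inv_smul_eq_iff, hg])
      calc _ = g * (g⁻¹ * u * g * z * (g⁻¹ * u * g)⁻¹) * g⁻¹ := by group
        _ = _ := by rw [this]; group⟩
  have xZ := m hab hac hbc h1 h2 h3
  obtain ⟨b, hb⟩ := h.exists_move x1
  have hab : a ≠ b := fun e => hb (e ▸ h1)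
  have hac : a ≠ x • b := fun e => hab (MulAction.injective x (h1.trans e))
  let D : Subgroup G :=
    { carrier := {d | d • a = a ∧ d • b = b ∧ d * s * d⁻¹ * s ∈ Z}
      one_mem' := ⟨one_smul _ _, one_smul _ _, by simpa [s1] using one_mem Z⟩
      mul_mem' := fun {d e} ⟨a1, a2, a3⟩ ⟨b1, b2, b3⟩ => ⟨by rw [mul_smul, b1, a1],
        by rw [mul_smul, b2, a2], by
          have := mul_mem (n d a1 _ b3) a3
          rwa [show d * (e * s * e⁻¹ * s) * d⁻¹ * (d * s * d⁻¹ * s) =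
            d * e * s * e⁻¹ * (s * s) * d⁻¹ * s by group, s1, mul_one, mul_assoc _ e⁻¹,
            ← mul_inv_rev] at this⟩
      inv_mem' := fun {d} ⟨a1, a2, a3⟩ => ⟨inv_smul_eq_iff.2 a1.symm, inv_smul_eq_iff.2 a2.symm, by
        have := inv_mem (n d⁻¹ (inv_smul_eq_iff.2 a1.symm) _ a3)
        rwa [show (d⁻¹ * (d * s * d⁻¹ * s) * d⁻¹⁻¹)⁻¹ = d⁻¹ * s⁻¹ * d⁻¹⁻¹ * s⁻¹ by group,
          inv_eq_of_mul_eq_one_right s1] at this⟩ }
  have c1 : Nat.card Z ≤ Nat.card D := Nat.card_le_card_of_surjective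
    (fun d : D => (⟨_, d.2.2.2⟩ : Z)) fun z => by
      obtain ⟨k, hk⟩ := fx_conj_of_inv (z.2.2.2 s s1 s2 s3) z.2.2.1
      obtain ⟨d, d1, d2, e⟩ := h.conj_D hu s1 s2 s3 hab (pow_mem z.2 k).1
      have : d * s * d⁻¹ * s = z := by rw [e, hk, mul_assoc, s1, mul_one]
      exact ⟨⟨d, d1, d2, this ▸ z.2⟩, Subtype.ext this⟩
  have c2 : Nat.card ↥(stabilizer G (x • b) ⊓ D) ≤ Nat.card ↥(stabilizer G b ⊓ Z) :=
    card_le_of_le fun d hd => ⟨hd.2.2.1, m hab hac (Ne.symm hb) hd.2.1 hd.2.2.1 hd.1⟩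
  have c3 : {y | ∃ g ∈ D, g • x • b = y}.ncard < {y | ∃ g ∈ Z, g • b = y}.ncard :=
    Set.ncard_lt_ncard ⟨fun y ⟨g, g1, g2⟩ => ⟨g * x * g⁻¹, n g g1.1 x xZ, by
      rw [mul_smul, inv_smul_eq_iff.2 g1.2.1.symm, mul_smul, g2]⟩, fun f => by
      obtain ⟨g, g1, g2⟩ := f ⟨1, one_mem Z, one_smul G b⟩
      exact hb (MulAction.injective g (g2.trans g1.2.1.symm))⟩
  rw [fx_ncard_orb, fx_ncard_orb] at c3
  have c4 : ∀ A B : Subgroup G, Nat.card ↥(A ⊓ B) * A.relIndex B = Nat.card B := fun A B => by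
    rw [← inf_relIndex_right, relIndex, ← card_mul_index ((A ⊓ B).subgroupOf B),
      Nat.card_congr (subgroupOfEquivOfLe inf_le_right).toEquiv]
  have c5 := c4 (stabilizer G (x • b)) D
  have c6 := c4 (stabilizer G b) Z
  have : 0 < Nat.card ↥(stabilizer G b ⊓ Z) := Nat.card_pos
  nlinarith

end odd

/-- only the identity fixes three points. -/
theorem zt : CfsgH3.Zt G Ω := ⟨h.two, fun g a b c hab hbc hac h1 h2 h3 => by
  by_cases hu : ∀ a b : Ω, t • a = a → t • b = b → a = b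
  · exact h.third' hu hab hac hbc h1 h2 h3
  push Not at hu
  obtain ⟨x, y, a1, a2, a3⟩ := hu
  obtain ⟨k, rfl, rfl⟩ := h.two a3 hab
  have e := (h.of_invol (s := k * t * k⁻¹) (by
    calc _ = k * (t * t) * k⁻¹ := by group
      _ = 1 := by rw [h.tt]; group) (by simpa using h.t1))
  exact e.third hab (fx_conj_fix a1 k) (fx_conj_fix a2 k) h1 h2 hac hbc h3⟩

theorem simple (hZ : Cfsg.IsZassenhausGroup G Ω) : IsSimpleGroup G := by
  have : Nontrivial G := ⟨t, 1, h.t1⟩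
  refine ⟨fun N hN => or_iff_not_imp_left.2 fun hne => eq_top_iff.2 fun g _ => ?_⟩
  obtain ⟨a, ha⟩ := h.exists_move h.t1
  obtain ⟨s, s0, s1, s2⟩ := CfsgH3.zass_normal_two hZ N hne ha ha.symm
  have tN : t ∈ N := by
    obtain ⟨k, rfl⟩ := h.conj ha s1 s2
    simpa [mul_assoc] using hN.conj_mem _ s0 k⁻¹
  obtain ⟨n, n0, n1, n2⟩ := CfsgH3.zass_normal_two hZ N hne (c := g⁻¹ • a) (d := g⁻¹ • t • a) ha
    fun e => ha (MulAction.injective _ e).symm
  obtain ⟨k, hk⟩ := h.conj (s := g * n) ha (by rw [mul_smul, n1, smul_inv_smul])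
    (by rw [mul_smul, n2, smul_inv_smul])
  exact (mul_mem_cancel_right n0).1 (hk ▸ hN.conj_mem t tN k)

end FX

end CfsgH1
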