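import Cfsg.Agent.H1.L43Row
import Cfsg.Agent.H3.S3Lem
import Cfsg.Agent.H9.Loc3ST
import Cfsg.Agent.H6.ThompsonCompl

/-! General `3`-local lemmas. -/

set_option autoImplicit false
set_option linter.unusedSectionVars false

namespace CfsgH1.L43

open Subgroup CfsgH5 CfsgH6 CfsgFT CfsgH7 CfsgH9

universe u

variable {G : Type u} [Group G] [Finite G]

instance instFact3 : Fact (Nat.Prime 3) := ⟨Nat.prime_three⟩

theorem pg_of_exp {P : Subgroup G} {n : ℕ} (h : ∀ a ∈ P, a ^ 3 ^ n = 1) : IsPGroup 3 P :=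
  fun a => ⟨n, Subtype.ext (h a a.2)⟩

theorem pg_zp {p : ℕ} {x : G} (hx : x ^ p = 1) : IsPGroup p (zpowers x) :=
  CfsgFT.isPGroup_zpowers (k := 1) (by simpa using hx)

theorem syl_card {p n m : ℕ} [Fact p.Prime] {P X : Subgroup G} (h : P ≤ X) (h1 : Nat.card P = p ^ n)
    (h2 : Nat.card X = p ^ n * m) (h3 : ¬ p ∣ m) : SylIn p P X :=
  sylIn_of_not_dvd h (IsPGroup.of_card h1) (by rwa [relIndex_eq_of_mul h (h1 ▸ h2.symm)])

theorem syl_of_N {P X K : Subgroup G} (h : P ≤ X) (h1 : SylIn 3 P K) (h2 : X ⊓ N P ≤ K) :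
    SylIn 3 P X := sylIn_of_sylIn_N Nat.prime_three (h1.of_le (le_inf h (le_N P)) h2)

theorem transfer3 {X L : Subgroup G} (hL : L ≤ X) (hi : ¬ 3 ∣ L.relIndex X) {A : Type*} [CommGroup A]
    (φ : L →* A) {a : G} (ha : a ∈ L) (a3 : a ^ 3 = 1) (h1 : φ ⟨a, ha⟩ ≠ 1)
    (h : ∀ g ∈ X, g⁻¹ * a * g ∈ L → g ∈ L) : ∃ τ : X →* A, τ ⟨a, hL ha⟩ ≠ 1 := by
  classical
  let _ := (L.subgroupOf X).fintypeQuotientOfFiniteIndex
  let ψ := φ.comp (subgroupOfEquivOfLe hL).toMonoidHom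
  refine ⟨ψ.transfer, fun e => ?_⟩
  have h3 : φ ⟨a, ha⟩ ^ 3 = 1 := by rw [← map_pow, ← map_one φ]; congr 1; exact Subtype.ext a3
  rw [MonoidHom.transfer_eq_prod_quotient_orbitRel_zpowers_quot,
    Fintype.prod_congr _ (fun q => φ ⟨a, ha⟩ ^ Function.minimalPeriod ((⟨a, hL ha⟩ : X) • ·) q.out),
    Finset.prod_pow_eq_pow_sum, ← index_eq_sum_minimalPeriod] at e
  · exact hi (orderOf_eq_prime h3 h1 ▸ orderOf_dvd_of_pow_eq_one e)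
  intro q
  generalize_proofs _ _ p
  generalize Function.minimalPeriod ((⟨a, hL ha⟩ : X) • ·) q.out = n at p ⊢
  generalize q.out.out = g at p ⊢
  by_cases e1 : a ^ n = 1
  · have e2 : φ ⟨a, ha⟩ ^ n = 1 := by rw [← map_pow, ← map_one φ]; congr 1; exact Subtype.ext e1
    rw [e2, ← map_one ψ]
    congr 1
    exact Subtype.ext (Subtype.ext (by simp [e1]))
  · have hg : (g : G) ∈ L := h g g.2 (by
      have h4 : a ∈ zpowers (a ^ n) := by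
        rw [← eq_zpowers_of_prime_card (X := zpowers a) (by
          rw [Nat.card_zpowers, orderOf_eq_prime a3 fun e => e1 (by simp [e])]; norm_num)
          (pow_mem (mem_zpowers a) n) e1]
        exact mem_zpowers a
      obtain ⟨k, h4⟩ := h4
      have := zpow_mem (show g.1⁻¹ * a ^ n * g.1⁻¹⁻¹ ∈ L by simpa [mem_subgroupOf] using p) k
      simp only at h4
      rwa [conj_zpow, h4, inv_inv] at this)
    calc _ = φ (⟨g, hg⟩⁻¹ * ⟨a, ha⟩ ^ n * ⟨g, hg⟩) := rfl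
      _ = _ := by rw [map_mul, map_mul, map_inv, map_pow, inv_mul_cancel_comm]

theorem thom {X P : Subgroup G} (hP : IsPGroup 3 P) (hX : P ≤ X) {z : G} (hz : z ∈ Zo 3 P)
    (h1 : X ⊓ C1 z ≤ P) (h2 : ∀ B, Jt 3 P ≤ B → B ≤ P → X ⊓ N B ≤ P)
    (hs : Sig3 P) : X ≤ P := by
  have hS := syl_of_N hX (sylIn_self hP) (h2 P (Jt_le P) le_rfl)
  have h := thompson_pNil (by norm_num) hS
    (pNil_of_isPGroup (hP.to_le ((inf_le_inf_left X (C_le_C1 hz)).trans h1)))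
    (pNil_of_isPGroup (hP.to_le (h2 _ le_rfl (Jt_le P))))
  have h3 := hs h.compl ((Nat.Prime.coprime_iff_not_dvd Nat.prime_three).1
    (h.coprime_card_compl Nat.prime_three).symm) (h.nrm_compl (Nrm.of_le hX))
  refine (hS.eq_of_le le_rfl (fun a => ?_) hX).le
  obtain ⟨k, hk⟩ := h.pow_mem_compl Nat.prime_three a a.2
  exact ⟨k, Subtype.ext (mem_bot.1 (h3 ▸ hk))⟩

theorem st_sec {X P : Subgroup G} {d t : G} (hX : X ≤ C1 d) (hP : P ≤ X) (hd : d ∈ P) (d1 : d ≠ 1)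
    (exp : ∀ a ∈ P, a ^ 3 = 1) (hc : Nat.card P = 81)
    (ab : ∀ a ∈ P, ∀ b ∈ P, a * b * (b * a)⁻¹ ∈ zpowers d) (ht : t ∈ X) (t2 : t * t = 1)
    (hi : ∀ a ∈ P, t * a * t⁻¹ * a ∈ zpowers d) (hN : ∀ g ∈ X, g ∈ N P → g ∈ P ∨ g * t⁻¹ ∈ P)
    (h0 : Opc 3 X = ⊥) : X ≤ N P := by
  have hZ : zpowers d ≤ P := zpowers_le.2 hd
  have hp : IsPGroup 3 P := pg_of_exp (n := 1) exp
  obtain ⟨Q, _, _, π, h⟩ := exists_sec (hZ.trans hP) (nrm_of_le_C (by rwa [C_zpowers]))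
  have c3 : Nat.card (zpowers d) = 3 := by rw [Nat.card_zpowers, orderOf_three d1 (exp d hd)]
  have tP : ∀ a ∈ P, t * a * t⁻¹ ∈ P := fun a ha => by simpa using mul_mem (hZ (hi a ha)) (inv_mem ha)
  have hS : SylIn 3 P X := sylIn_of_sq hp hP fun g hg hg' => Or.inl (by
    rcases hN g hg hg' with e | e
    · exact pow_mem e 2
    · rw [show g ^ 2 = g * t⁻¹ * (t * (g * t⁻¹) * t⁻¹) * (t * t) by rw [pow_two]; group, t2, mul_one]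
      exact mul_mem e (tP _ e))
  have hT : img π X = ⊤ := eq_top_iff.2 fun q _ => by
    obtain ⟨g, rfl⟩ := h.surj q
    exact mem_img_of_mem π g.2 g.2
  have hS' := hT ▸ hS.img Nat.prime_three π le_rfl
  have m : ∀ q ∈ img π P, ∃ a, ∃ ha : a ∈ P, π ⟨a, hP ha⟩ = q := fun q hq =>
    let ⟨a, ha, _, e⟩ := mem_img'.1 hq; ⟨a, ha, e⟩
  have ab' : Ab (img π P) := ab_iff.2 fun p hp q hq => by
    obtain ⟨a, ha, rfl⟩ := m p hp
    obtain ⟨b, hb, rfl⟩ := m q hq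
    rw [← map_mul, ← map_mul, h.eq_iff]
    exact ab a ha b hb
  have hi' : ∀ q ∈ img π P, π ⟨t, ht⟩ * q * (π ⟨t, ht⟩)⁻¹ = q⁻¹ := fun q hq => by
    obtain ⟨a, ha, rfl⟩ := m q hq
    rw [← map_inv, ← map_inv, ← map_mul, ← map_mul, h.eq_iff]
    simpa using hi a ha
  have h1 := (pLen1_iff_nrm Nat.prime_three hS').1 (st_in hS' ab' (fun e => by
    obtain ⟨⟨q, hq⟩, e⟩ := e.exists_ofOrder_eq_natCard
    obtain ⟨a, ha, rfl⟩ := m q hq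
    have e1 := h.card_img hZ hP
    have e2 : orderOf (⟨_, hq⟩ : img π P) ∣ 3 := orderOf_dvd_of_pow_eq_one (Subtype.ext (by
      rw [coe_pow, ← map_pow, coe_one, ← map_one π]; congr 1; exact Subtype.ext (exp a ha)))
    rw [c3, hc, ← e] at e1
    have := Nat.le_of_dvd (by norm_num) e2
    omega) (fun n _ hn => by
    obtain ⟨g, rfl⟩ := h.surj n
    rcases hN g g.2 ((h.mem_N hZ hP).1 hn) with e | e
    · exact Or.inl fun q hq => by rw [ab'.comm (mem_img_of_mem π g.2 e) hq, mul_inv_cancel_right]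
    · refine Or.inr fun q hq => ?_
      have e1 : π g * (π ⟨t, ht⟩)⁻¹ ∈ img π P := by
        rw [← map_inv, ← map_mul]; exact mem_img_of_mem π (g * ⟨t, ht⟩⁻¹).2 e
      rw [show π g * q * (π g)⁻¹ = π g * (π ⟨t, ht⟩)⁻¹ * (π ⟨t, ht⟩ * q * (π ⟨t, ht⟩)⁻¹) *
        (π g * (π ⟨t, ht⟩)⁻¹)⁻¹ by group, hi' q hq, ab'.comm e1 (inv_mem hq), mul_inv_cancel_right])
    (mem_top _) hi')
  have hK : NormalIn (pre π (Opc 3 ⊤)) X := by
    simpa only [pre_top] using (normalIn_Opc 3 (⊤ : Subgroup Q)).pre π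
  have hZK : zpowers d ≤ pre π (Opc 3 ⊤) := fun a ha =>
    mem_pre.2 ⟨h.le ha, ((h.ker ⟨a, h.le ha⟩).2 ha).symm ▸ one_mem _⟩
  have h2 := ((sylIn_of_not_dvd hZK (hp.to_le hZ) (by
    have := h.card_img hZK hK.le
    rw [img_pre_of_le (by rw [MonoidHom.range_eq_top.2 h.surj]; exact le_top)] at this
    rw [relIndex_eq_of_mul hZK this]
    exact CfsgFT.not_dvd_card_Opc Nat.prime_three _)).sdp_of_le_C Nat.prime_three
      (inf_le_left.trans (hK.le.trans (by rwa [C_zpowers])))).sup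
  rw [show Opc 3 (pre π (Opc 3 ⊤)) = ⊥ from le_bot_iff.1 ((Opi_le_Opi_of_normalIn hK).trans h0.le),
    bot_sup_eq] at h2
  have h3 : Opc 3 (⊤ : Subgroup Q) = ⊥ := eq_bot_iff.2 fun q hq => by
    obtain ⟨g, rfl⟩ := h.surj q
    exact (h.ker g).2 (h2 ▸ coe_mem_pre.2 hq)
  rw [h3, bot_sup_eq] at h1
  exact fun g hg => (h.mem_N hZ hP (g := ⟨g, hg⟩)).1 (h1.le_N (mem_top _))

theorem s3c {X L : Subgroup G} (hL : L ≤ X) (ρ : L →* Equiv.Perm (Fin 3))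
    (hρ : Function.Surjective ρ)
    (ti : ∀ g ∈ X, ∀ a b : L, ρ a * ρ a ≠ 1 → ρ b * ρ b ≠ 1 → g * a * g⁻¹ = b → g ∈ L) {t : G}
    (ht : t ∈ X) (t2 : t * t = 1) (h2 : ∀ g ∈ X, ∀ a : L, g * t * g⁻¹ = a → ρ a = 1) :
    ∃ K, NormalIn K X ∧ t ∈ K ∧ ∀ a : L, a.1 ∈ K → ρ a * ρ a = 1 := by
  have hT : NormedTI {a | ∃ ha : a ∈ L, ρ ⟨a, ha⟩ * ρ ⟨a, ha⟩ ≠ 1} X L := ⟨by
    obtain ⟨a, e⟩ := hρ (finRotate 3)
    exact ⟨a, a.2, by rw [e]; decide⟩, hL, fun l hl a ⟨ha, e⟩ => ⟨mul_mem (mul_mem hl ha) (inv_mem hl), by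
      change ρ (⟨l, hl⟩ * ⟨a, ha⟩ * ⟨l, hl⟩⁻¹) * ρ (⟨l, hl⟩ * ⟨a, ha⟩ * ⟨l, hl⟩⁻¹) ≠ 1
      rwa [map_mul, map_mul, map_inv, conj_mul, Ne, conj_eq_one_iff]⟩,
    fun g hg a ⟨ha, e⟩ ⟨hb, e'⟩ => ti g hg ⟨a, ha⟩ ⟨_, hb⟩ e e' rfl⟩
  have key : ∀ g ∈ X, ∀ b, b * b = 1 → ∀ a : L, ρ a * ρ a ≠ 1 → g * t * g⁻¹ * b ≠ a := by
    intro g hg b hb a ha e
    have s2 : g * t * g⁻¹ * (g * t * g⁻¹) = 1 := by rw [conj_mul, t2]; simp
    have hs := mul_mem (mul_mem hg ht) (inv_mem hg)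
    have h3 := h2 g hg
    generalize g * t * g⁻¹ = s at *
    have e1 : s * a * s⁻¹ = (a⁻¹ : L) := by
      rw [coe_inv, ← e, ← mul_assoc, s2, one_mul, mul_inv_rev s b, inv_eq_of_mul_eq_one_right hb]
    have h4 := ti s hs a a⁻¹ ha (by rwa [map_inv, ← mul_inv_rev, Ne, inv_eq_one]) e1
    have e2 := congrArg ρ (Subtype.ext e1 : ⟨s, h4⟩ * a * ⟨s, h4⟩⁻¹ = a⁻¹)
    rw [map_mul, map_mul, map_inv, h3 ⟨s, h4⟩ rfl, map_inv] at e2
    exact ha (by simpa [eq_inv_iff_mul_eq_one] using e2)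
  obtain ⟨K, h1, h3, h4⟩ := CfsgH3.S3L.s3_lemma (hT.dadeHyp fun a ⟨ha, e⟩ => ⟨hL ha, fun e' =>
    e (by subst e'; rw [← map_mul, ← map_one ρ]; congr 1; exact one_mul _)⟩) ρ hρ (fun _ => Iff.rfl) ht (fun hs => by
      obtain ⟨a, ⟨ha, e⟩, k, hk, g, hg, e1⟩ := mem_DadeSupp.1 hs
      refine key g⁻¹ (inv_mem hg) 1 (one_mul 1) ⟨a, ha⟩ e ?_
      rw [e1, mem_bot.1 hk]; group) fun g hg g' _ hs => by
      obtain ⟨a, ⟨ha, e⟩, k, hk, x, hx, e1⟩ := mem_DadeSupp.1 hs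
      refine key (x⁻¹ * g) (mul_mem (inv_mem hx) hg) (x⁻¹ * g' * t * (x⁻¹ * g')⁻¹)
        (by rw [conj_mul, t2]; simp) ⟨a, ha⟩ e ?_
      calc _ = x⁻¹ * (g * t * g⁻¹ * (g' * t * g'⁻¹)) * x := by group
        _ = _ := by rw [e1, mem_bot.1 hk]; group
  exact ⟨K, h1, h3, fun a ha => by_contra fun e => h4 a ⟨a.2, e⟩ ha⟩

theorem exists_f {X Z L : Subgroup G} {Q : Type u} [Group Q] {π : X →* Q} (h : Sec X Z π)
    (hL : L ≤ X) {M : Type} [Group M] (ρ : L →* M) (hρ : Function.Surjective ρ)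
    (hk : ∀ a, ρ a = 1 ↔ a.1 ∈ Z) :
    ∃ f : M →* Q, Function.Injective f ∧ f.range = img π L := by
  obtain ⟨f, e⟩ : ∃ f : M →* Q, ∀ a, f (ρ a) = π ⟨a, hL a.2⟩ := ⟨ρ.liftOfSurjective hρ
    ⟨π.comp (inclusion hL), fun a ha => (h.ker _).2 ((hk a).1 ha)⟩, fun a =>
    MonoidHom.liftOfRightInverse_comp_apply _ _ _ _ a⟩
  refine ⟨f, (injective_iff_map_eq_one _).2 fun m hm => ?_, le_antisymm ?_ fun q hq => ?_⟩
  · obtain ⟨a, rfl⟩ := hρ m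
    exact (hk a).2 ((h.ker _).1 ((e a).symm.trans hm))
  · rintro _ ⟨m, rfl⟩
    obtain ⟨a, rfl⟩ := hρ m
    exact e a ▸ mem_img_of_mem π _ a.2
  · obtain ⟨a, ha, _, rfl⟩ := mem_img'.1 hq
    exact ⟨_, e ⟨a, ha⟩⟩

theorem final_of {H : Subgroup G} (hS : SE 3 H) {i : G} (hi : i * i = 1) (hC : C1 i ≤ H)
    (h3 : ∀ t ∈ H, t * t = 1 → ∃ y ∈ H, y ≠ 1 ∧ y ^ 3 = 1 ∧ y * t = t * y) (hne : H ≠ ⊤) :
    ∃ D ≤ H, ¬ 3 ∣ Nat.card D ∧ (∀ g, g * i * g⁻¹ ∉ D) ∧ Nat.card H ≤ Nat.card (C1 i) * Nat.card D := by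
  have hf : ∀ g, g * i * g⁻¹ ∈ H → g ∈ H := fun g hg => by
    obtain ⟨y, h1, h2, h4, h5⟩ := h3 _ hg (by rw [conj_mul, hi]; simp)
    refine (inv_mem_iff (x := g)).1 (hS y h1 h2 h4 _ (hC (mem_C1.2 ?_)))
    calc _ = g⁻¹ * (y * (g * i * g⁻¹)) * g := by group
      _ = _ := by rw [h5]; group
  obtain ⟨j, hj, h⟩ := bender_count hi hf hne
  refine ⟨_, inf_le_left, fun e => ?_, fun g hg => hj ?_, h⟩
  · obtain ⟨y, hy, e⟩ := exists_mem_orderOf_eq Nat.prime_three e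
    refine hj ((inv_mem_iff (x := j)).1 (hS y hy.1 (fun e' => by simp [e'] at e)
      (e ▸ pow_orderOf_eq_one y) _ (by simpa using mem_cj.1 hy.2)))
  · have := hf (j⁻¹ * g) (by simpa [mul_assoc] using mem_cj.1 hg.2)
    simpa using mul_mem (hf g hg.1) (inv_mem this)

theorem le_of_pLen1 {H Y : Subgroup G} (hS : SE 3 H) {a b : G} (h : B9 a b) (ha : a ∈ H) (hb : b ∈ H)
    (hD : SylIn 3 (D9 a b) Y) (h1 : PLen1 3 Y) : Y ≤ H := by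
  have h2 : Opc 3 Y ⊔ D9 a b ≤ H := sup_le (h.le_of_SE hS ha hb
    (nrm_Opc 3 Y a (hD.le (left_mem_D9 a b))) (nrm_Opc 3 Y b (hD.le (right_mem_D9 a b)))
    (CfsgFT.not_dvd_card_Opc Nat.prime_three Y)) (D9_le ha hb)
  exact fun g hg => hS a ha h.a1 h.a3 g (h2 ((pLen1_iff_nrm Nat.prime_three hD).1 h1 g hg a
    (mem_sup_right (left_mem_D9 a b))))

end CfsgH1.L43
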