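import Cfsg.Agent.H9.Row3Ker
import Cfsg.Agent.H7.Loc1

/-! A strongly `3`-embedded subgroup `3³ : S₃` of the alternating group of degree nine is not
proper. -/

set_option autoImplicit false
set_option linter.unusedSectionVars false

namespace CfsgH1.L43

open Cfsg CfsgL CfsgH8 CfsgH9 CfsgH7 CfsgFT Subgroup
open scoped ComplexConjugate

universe u

section row
variable {M G : Type*} [Group M] [Fintype M] [Group G] [Fintype G]

/-- multiplicities of the function induced from `θ` -/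
def RowC (f : M →* G) (θ : M → ℂ) (c : IrrCharacter G → ℤ) : Prop :=
  ∀ χ : IrrCharacter G, (Nat.card M : ℂ) * c χ = ∑ m, θ m * (χ : G → ℂ) (f m)

theorem exists_rowC (f : M →* G) {θ : M → ℂ} (hθ : IsGeneralizedCharacter M θ) :
    ∃ c, RowC f θ c := by
  choose c hc using fun χ : IrrCharacter G =>
    gen_inner_int (gen_comp f (gen_of_irr χ.2)) (gen_conj hθ)
  refine ⟨c, fun χ => ?_⟩
  rw [← hc, ← sum_mul_conj_eq]
  exact Finset.sum_congr rfl fun m _ => by simp [mul_comm]

variable {f : M →* G} {θ θ' : M → ℂ} {c c' : IrrCharacter G → ℤ}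

theorem RowC.sum_class (h : RowC f θ c) {ψ : G → ℂ} (hψ : IsClassFunction G ψ) :
    (Nat.card M : ℂ) * ∑ χ : IrrCharacter G, c χ * classInner ψ χ = ∑ m, θ m * ψ (f m) := by
  simp only [class_apply_eq_sum hψ, Finset.mul_sum]
  rw [Finset.sum_comm]
  refine Finset.sum_congr rfl fun χ _ => ?_
  rw [← mul_assoc, h χ, Finset.sum_mul]
  exact Finset.sum_congr rfl fun m _ => by ring

theorem RowC.one (h : RowC f θ c) (hn : ∑ m, θ m = Nat.card M) : c (irrOne G) = 1 := by
  have h1 := h (irrOne G)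
  simp only [irrOne, mul_one] at h1
  rw [hn, mul_eq_left₀ card_ne_zero'] at h1
  exact_mod_cast h1

theorem RowC.zero (h : RowC f θ c) {ψ : G → ℂ} (hψ : IsClassFunction G ψ)
    (h0 : ∀ m, θ m * ψ (f m) = 0) : ∑ χ : IrrCharacter G, c χ * classInner ψ χ = 0 := by
  have h2 := h.sum_class hψ
  rw [Finset.sum_eq_zero (s := Finset.univ) fun m _ => h0 m, mul_eq_zero] at h2
  exact h2.resolve_left card_ne_zero'

theorem RowC.inner (h : RowC f θ c) (h' : RowC f θ' c') (hf : Function.Injective f)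
    {A : M → Prop} (hA : IsTIModel f A) (hθ' : IsClassFunction M θ') (hs : ∀ m, ¬ A m → θ m = 0)
    (hs' : ∀ m, ¬ A m → θ' m = 0) {n : ℤ} (hn : ∑ m, θ m * conj (θ' m) = Nat.card M * n) :
    ∑ χ, c χ * c' χ = n := by
  let _ := Fintype.ofFinite f.range
  let e := MonoidHom.ofInjective hf
  let ψ : f.range → ℂ := fun x => conj (θ' (e.symm x))
  have hψ : IsClassFunction f.range ψ := fun x y => by
    simp only [ψ, map_mul, map_inv, hθ' _ _]
  have h1 : ∀ χ : IrrCharacter G, classInner (indFun f.range ψ) χ = c' χ := by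
    intro χ
    have h2 := congrArg conj (h' χ)
    simp only [map_mul, map_natCast, map_intCast, map_sum] at h2
    rw [inner_indFun_left _ _ (Irr_class χ), classInner, ← Nat.card_congr e.toEquiv,
      inv_mul_eq_iff_eq_mul₀ card_ne_zero', h2]
    refine (Fintype.sum_equiv e.toEquiv _ _ fun m => ?_).symm
    simp [ψ, e, MonoidHom.ofInjective_apply]
  have h2 := h.sum_class (indFun_class f.range ψ)
  simp only [h1] at h2
  have h3 : ∀ m, θ m * indFun f.range ψ (f m) = θ m * conj (θ' m) := by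
    intro m
    by_cases hm : A m
    · have := indFun_apply_of_TI f.range (f '' {m | A m}) (by
        rintro _ ⟨a, ha, rfl⟩ g ⟨b, hb, hg⟩
        exact hA a b ha hb g hg.symm) hψ (by
        intro x hx
        simp only [ψ, map_eq_zero]
        refine hs' _ fun h => hx ⟨_, h, ?_⟩
        exact congrArg Subtype.val (e.apply_symm_apply x)) (e m) ⟨m, hm, rfl⟩
      rw [show f m = (e m : G) from rfl, this]
      simp [ψ]
    · simp [hs m hm]
  simp only [h3, hn] at h2
  exact_mod_cast mul_left_cancel₀ card_ne_zero' h2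

theorem RowC.r3 [DecidableEq M] (h : RowC f θ c) (hf : Function.Injective f)
    (hA : IsTIModel f fun m => m * m ≠ 1) (hθ : IsClassFunction M θ)
    (hs : ∀ m, ¬ m * m ≠ 1 → θ m = 0) (hn : ∑ m, θ m * conj (θ m) = Nat.card M * (3 : ℤ))
    {s : M} (s2 : s * s = 1) (hK : ∀ m, IsConj (f s) (f m) ↔ (m * m = 1 ∧ m ≠ 1)) {B : ℂ}
    (hT : ∑ x with x * x = 1 ∧ x ≠ 1, ∑ y with y * y = 1 ∧ y ≠ 1, θ (x * y) = Nat.card M * B) :
    R3 (fun χ : IrrCharacter G => (χ : G → ℂ) 1) (cv (ind (IsConj (f s)))) c B := by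
  classical
  have hc := ind_class (P := IsConj (f s)) fun g x h => h.trans (isConj_iff.mpr ⟨x, rfl⟩)
  have hQ : ∀ g, ind (IsConj (f s)) g ≠ 0 → g * g = 1 := fun g h => by
    obtain ⟨x, rfl⟩ := isConj_iff.mp (of_ind_ne_zero h)
    rw [conj_mul, ← map_mul, s2]; simp
  have h2 : (Real.sqrt (Nat.card G) : ℂ) * (Real.sqrt (Nat.card G) : ℂ) = Nat.card G := by
    rw [← Complex.ofReal_mul, Real.mul_self_sqrt (Nat.cast_nonneg _)]
    simp
  refine ⟨h.inner h hf hA hθ hs hs hn, ?_, ?_, mul_left_cancel₀ (card_ne_zero' (G := M)) ?_⟩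
  · have := h.zero (char_isClass (char_reg (G := G))) fun m => by
      by_cases hm : m = 1
      · simp [hm, hs 1]
      · simp [regChar, map_eq_one_iff f hf, hm]
    simpa only [inner_reg_left, char_conj_one (irr_isChar (Subtype.prop _))] using this
  · rw [← mul_zero (Real.sqrt (Nat.card G) : ℂ), ← h.zero hc fun m => by
      by_cases e : IsConj (f s) (f m)
      · rw [hs m (not_not.2 ((hK m).1 e).1), zero_mul]
      · rw [ind_of_not e, mul_zero], Finset.mul_sum]
    refine Finset.sum_congr rfl fun χ _ => ?_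
    have := irr_one_ne_zero χ.2
    unfold cv
    field_simp
  · have e : ∀ m, ind (IsConj (f s)) (f m) = if m * m = 1 ∧ m ≠ 1 then 1 else 0 := fun m => by
      simp only [ind, hK]
    calc _ = ∑ m, θ m * conv (ind (IsConj (f s))) (ind (IsConj (f s))) (f m) := by
          rw [← h.sum_class (conv_class hc hc)]
          congr 1
          refine Finset.sum_congr rfl fun χ _ => ?_
          have := irr_one_ne_zero χ.2
          rw [inner_conv _ hc χ.2, ← h2]
          unfold cv
          field_simp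
      _ = ∑ m, ∑ x, θ m * (ind (IsConj (f s)) (f x) * ind (IsConj (f s)) (f (x⁻¹ * m))) := by
          refine Finset.sum_congr rfl fun m _ => ?_
          by_cases hm : m * m = 1
          · simp [hs m (not_not.2 hm)]
          rw [← Finset.mul_sum]
          congr 1
          refine (Finset.sum_of_injOn f hf.injOn (by simp) (fun x _ hx => ?_) fun x _ => by
            rw [map_mul, map_inv]).symm
          by_contra hne
          obtain ⟨y, rfl⟩ := hA.mem_of_invol (fun m hm h => hm (by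
            rw [← mul_inv_rev, inv_eq_one] at h; exact h)) (hQ _ (left_ne_zero_of_mul hne))
            (hQ _ (right_ne_zero_of_mul hne)) hm (mul_inv_cancel_left _ _)
          exact hx ⟨y, by simp, rfl⟩
      _ = _ := by
          rw [← hT, Finset.sum_comm, Finset.sum_filter]
          refine Finset.sum_congr rfl fun x _ => ?_
          rw [← Equiv.sum_comp (Equiv.mulLeft x), Finset.sum_filter]
          simp only [e, Equiv.coe_mulLeft, inv_mul_cancel_left]
          split_ifs <;> simp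

end row

theorem alg2 {ι : Type*} [Fintype ι] {d U : ι → ℂ} (hd : ∀ i, d i ≠ 0) {i0 : ι} (hd0 : d i0 = 1)
    {a b : ι → ℤ} {B : ℂ} (hB : B ≠ 0) (ha : R3 d U a (3 * B)) (hb : R3 d U b B) (a0 : a i0 = 1)
    (b0 : b i0 = 1) (hab : ∑ i, a i * b i = 0) : ∃ k, -a k * d k = -1 ∧ U k ≠ U i0 := by
  classical
  obtain ⟨x, hx⟩ := exists_neg_of_sum_neg (c := fun i => a i * b i - if i = i0 then 1 else 0)
    (by simp [hab])
  have h0 : i0 ≠ x := by rintro rfl; simp [a0, b0] at hx
  rw [if_neg h0.symm, sub_zero] at hx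
  have h1 := left_ne_zero_of_mul hx.ne
  have h2 := right_ne_zero_of_mul hx.ne
  have h3 : b x = -a x := by
    rcases unit_of_mul_self_le h1 ((sq_le_sum_sq a x).trans ha.n.le) with h3 | h3 <;>
      rcases unit_of_mul_self_le h2 ((sq_le_sum_sq b x).trans hb.n.le) with h4 | h4 <;>
      simp [h3, h4] at hx ⊢
  have e1 := (ha.dist hd h0 (by simp [a0]) h1).2
  have e2 := (hb.dist hd h0 (by simp [b0]) h2).2
  rw [h3] at e2
  simp only [a0, b0, hd0] at e1 e2
  push_cast at e1 e2
  have e3 : a x * d x = -2 := mul_left_cancel₀ hB (by linear_combination -(e1 + e2) / 2)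
  obtain ⟨k, k1, -, k2, -, k3⟩ := norm3_third ha.n h0 (by simp [a0]) h1
  have e4 := (k3 (fun i => a i * d i) fun l e => by simp [e]).symm.trans ha.h0
  refine ⟨k, ?_, fun e => k1 (ha.eq_of_ne_zero hd (mul_ne_zero (by norm_num) hB) k2 (by simp [a0]) e)⟩
  simp only [a0, hd0] at e4
  push_cast at e4
  linear_combination -e4 + e3

/-! ### the model -/

abbrev T3 : Type := Fin 3 × Fin 3 × Fin 3

def sg3 (s : Bool) (x : Fin 3) : Fin 3 := if s then -x else x
def vg (v : T3) (k : Fin 3) : Fin 3 := if k = 0 then v.1 else if k = 1 then v.2.1 else v.2.2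
def ac3 (p : Fin 3) (s : Bool) (v : T3) : T3 :=
  (sg3 s (vg v (sg3 s (0 - p))), sg3 s (vg v (sg3 s (1 - p))), sg3 s (vg v (sg3 s (2 - p))))

theorem ac3_add : ∀ p s v w, ac3 p s (v + w) = ac3 p s v + ac3 p s w := by decide +kernel
theorem ac3_ac3 : ∀ p s q t v, ac3 (p + sg3 s q) (xor s t) v = ac3 p s (ac3 q t v) := by
  decide +kernel
theorem sg3_assoc : ∀ (s t : Bool) (x y z : Fin 3),
    x + sg3 s y + sg3 (xor s t) z = x + sg3 s (y + sg3 t z) := by decide

@[ext] structure M6 where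
  v : T3
  p : Fin 3
  s : Bool
  deriving DecidableEq, Fintype

instance instGroupM6 : Group M6 where
  mul x y := ⟨x.v + ac3 x.p x.s y.v, x.p + sg3 x.s y.p, xor x.s y.s⟩
  one := ⟨0, 0, false⟩
  inv x := ⟨-ac3 (-sg3 x.s x.p) x.s x.v, -sg3 x.s x.p, x.s⟩
  mul_assoc x y z := M6.ext (by
    change _ + _ + ac3 (x.p + sg3 x.s y.p) (xor x.s y.s) _ = _ + ac3 _ _ (_ + _)
    rw [ac3_add, ac3_ac3, add_assoc]) (sg3_assoc _ _ _ _ _) (Bool.xor_assoc _ _ _)
  one_mul := by decide +kernel
  mul_one := by decide +kernel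
  inv_mul_cancel := by decide +kernel

def M6.σ (m : M6) (j : Fin 3) : Fin 3 := m.p + sg3 m.s j
def M6.lam (m : M6) (j : Fin 3) : Fin 3 := vg m.v (m.σ j + 1) - vg m.v (m.σ j + 2)

theorem M6.σ_mul (m n : M6) (j : Fin 3) : (m * n).σ j = m.σ (n.σ j) := sg3_assoc _ _ _ _ _

theorem M6.lam_mul (m n : M6) (j : Fin 3) : (m * n).lam j = m.lam (n.σ j) + n.lam j := by
  rw [M6.lam, M6.σ_mul, M6.lam, M6.lam, M6.σ]
  change vg (m.v + ac3 _ _ _) _ - vg (m.v + ac3 _ _ _) _ = _
  generalize n.σ j = k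
  exact (by decide +kernel : ∀ (v w : T3) p s k, vg (v + ac3 p s w) (p + sg3 s k + 1) -
    vg (v + ac3 p s w) (p + sg3 s k + 2) = vg v (p + sg3 s k + 1) - vg v (p + sg3 s k + 2) +
      (vg w (k + 1) - vg w (k + 2))) _ _ _ _ _

theorem exists_om : ∃ ω : ℂ, ω * ω = -1 - ω ∧ conj ω = -1 - ω := by
  have h : √3 * √3 = (3 : ℝ) := Real.mul_self_sqrt (by norm_num)
  refine ⟨⟨-1 / 2, √3 / 2⟩, Complex.ext ?_ ?_, Complex.ext ?_ ?_⟩ <;> simp <;> nlinarith

def re3 (a : Fin 3) : ℤ := if a = 0 then 1 else if a = 1 then 0 else -1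
def im3 (a : Fin 3) : ℤ := if a = 0 then 0 else if a = 1 then 1 else -1
def fx (m : M6) (F : Fin 3 → ℤ) : ℤ := ∑ j, if m.σ j = j then F (m.lam j) else 0
def al (m : M6) : ℤ := 2 + (if m.s then -1 else 1) - fx m fun _ => 1
def bp (m : M6) : ℤ := fx m (fun _ => 1) - fx m re3
def bq (m : M6) : ℤ := -fx m im3

theorem gen_fx : IsGenInt fun m => fx m fun _ => 1 :=
  (IsGenInt.of_action M6.σ (by decide) M6.σ_mul).congr fun m => by simp [fx]

theorem gen_al : IsGenInt al :=
  (((IsGenInt.one.add IsGenInt.one).add (IsGenInt.of_hom (fun m : M6 => if m.s then -1 else 1) rfl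
    fun x y => by
      change (if xor x.s y.s then _ else _) = _
      cases x.s <;> cases y.s <;> rfl)).sub gen_fx).congr fun _ => rfl

theorem gen_be {ω : ℂ} (h : ω * ω = -1 - ω) : IsGeneralizedCharacter M6 fun m => bp m + bq m * ω := by
  let e : Fin 3 → ℂ := fun a => re3 a + im3 a * ω
  have he : ∀ a b, e (a + b) = e a * e b := fun a b => by
    have h1 : ∀ a b, re3 (a + b) = re3 a * re3 b - im3 a * im3 b ∧
      im3 (a + b) = re3 a * im3 b + im3 a * re3 b - im3 a * im3 b := by decide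
    simp only [e, h1]
    push_cast
    linear_combination -(im3 a * im3 b : ℂ) * h
  let F : M6 →* Matrix (Fin 3) (Fin 3) ℂ :=
    { toFun := fun m => Matrix.of fun i j => if m.σ j = i then e (m.lam j) else 0
      map_one' := by
        ext i j
        simp [(by decide : ∀ j, M6.σ 1 j = j), (by decide : ∀ j, M6.lam 1 j = 0), e, re3, im3,
          Matrix.one_apply, eq_comm]
      map_mul' := fun m n => by
        ext i j
        simp [Matrix.mul_apply, M6.σ_mul, M6.lam_mul, he] }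
  have h1 := gen_of_char (isCharacter_of_rep (G := M6) (V := Fin 3 → ℂ)
    (Matrix.toLinAlgEquiv'.toMulEquiv.toMonoidHom.comp F))
  convert gen_sub gen_fx h1 using 2 with m
  have : ∀ A : Matrix (Fin 3) (Fin 3) ℂ, LinearMap.trace ℂ _ (Matrix.toLinAlgEquiv' A) = A.trace :=
    Matrix.trace_toLin'_eq
  simp only [Pi.sub_apply, Representation.character]
  erw [this]
  simp only [bp, bq, fx, Matrix.trace, F, e, Matrix.diag, Fin.sum_univ_three, MonoidHom.coe_mk,
    OneHom.coe_mk, Matrix.of_apply]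
  push_cast
  split_ifs <;> ring

def i6 : M6 := ⟨0, 0, true⟩
def z6 : M6 := ⟨(1, 1, 1), 0, false⟩
def a6 : M6 := ⟨(1, 0, 0), 0, false⟩

theorem t162 {G : Type u} [Group G] [Finite G] {f : M6 →* G} (hf : Function.Injective f)
    (hS : SE 3 f.range) : f.range = ⊤ := by
  classical
  let _ := Fintype.ofFinite G
  obtain ⟨ω, h1, h2⟩ := exists_om
  have ti : ∀ a : M6, a * a ≠ 1 → ∀ g, g * f a * g⁻¹ ∈ f.range → g ∈ f.range := fun a ha g hg => by
    obtain ⟨n, e1, e2⟩ := (by decide +kernel : ∀ a : M6, a * a ≠ 1 → ∃ n : Fin 7,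
      a ^ n.val ≠ 1 ∧ (a ^ n.val) ^ 3 = 1) a ha
    refine hS (f (a ^ n.val)) ⟨_, rfl⟩ (by rwa [Ne, map_eq_one_iff f hf])
      (by rw [← map_pow, e2, map_one]) g ?_
    rw [map_pow, ← conj_pow]
    exact pow_mem hg _
  have hA : IsTIModel f fun m => m * m ≠ 1 := fun a b ha _ g e => ti a ha g ⟨b, e.symm⟩
  have i2 : i6 * i6 = 1 := by decide
  have hK : ∀ m, IsConj (f i6) (f m) ↔ (m * m = 1 ∧ m ≠ 1) := fun m => ⟨fun e => by
    obtain ⟨g, e⟩ := isConj_iff.1 e
    refine ⟨hf (by rw [map_mul, ← e, conj_mul, ← map_mul, i2]; simp), fun e' => ?_⟩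
    rw [e', map_one, conj_eq_one_iff, map_eq_one_iff f hf] at e
    exact absurd e (by decide), fun ⟨e1, e2⟩ => by
    obtain ⟨g, rfl⟩ := (by decide +kernel : ∀ m : M6, m * m = 1 → m ≠ 1 → ∃ g, g * i6 * g⁻¹ = m)
      m e1 e2
    exact isConj_iff.2 ⟨f g, by simp⟩⟩
  have hc : (Nat.card M6 : ℂ) = 162 := by
    rw [Nat.card_eq_fintype_card, show Fintype.card M6 = 162 by decide +kernel]; norm_num
  have s1 : ∀ m : M6, ¬ m * m ≠ 1 → al m = 0 ∧ bp m = 0 ∧ bq m = 0 := by decide +kernel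
  have sm : ∀ (s : Finset M6) (p q : M6 → ℤ), ∑ m ∈ s, (p m + q m * ω : ℂ) =
      (∑ m ∈ s, p m : ℤ) + (∑ m ∈ s, q m : ℤ) * ω := fun s p q => by
    simp [Finset.sum_add_distrib, Finset.sum_mul]
  have cj : ∀ p q p' q' : ℤ, (p + q * ω : ℂ) * conj (p' + q' * ω : ℂ) =
      (p * p' - p * q' + q * q' : ℤ) + (q * p' - p * q' : ℤ) * ω := fun p q p' q' => by
    simp only [map_add, map_mul, map_intCast, h2]
    push_cast
    linear_combination -(q * q' : ℂ) * h1
  have ga : IsGeneralizedCharacter M6 fun m => al m + (0 : ℤ) * ω := by simpa [IsGenInt] using gen_al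
  obtain ⟨a, ha⟩ := exists_rowC f ga
  obtain ⟨b, hb⟩ := exists_rowC f (gen_be h1)
  have sa : ∀ m : M6, ¬ m * m ≠ 1 → (al m + (0 : ℤ) * ω : ℂ) = 0 := fun m e => by simp [s1 m e]
  have sb : ∀ m : M6, ¬ m * m ≠ 1 → (bp m + bq m * ω : ℂ) = 0 := fun m e => by simp [s1 m e]
  obtain ⟨k, k1, k2⟩ := alg2 (i0 := irrOne G) (B := 3) (fun χ => irr_one_ne_zero χ.2) rfl
    (by norm_num) (ha.r3 hf hA (gen_class ga) sa (by
      simp only [cj, sm, hc]
      rw [show ∑ m, (al m * al m - al m * 0 + 0 * 0) = 486 by decide +kernel]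
      norm_num) i2 hK (by
      simp only [sm, hc]
      rw [show ∑ x with x * x = 1 ∧ x ≠ 1, ∑ y with y * y = 1 ∧ y ≠ 1, al (x * y) = 1458 by
        decide +kernel]
      norm_num)) (hb.r3 hf hA (gen_class (gen_be h1)) sb (by
      simp only [cj, sm, hc]
      rw [show ∑ m, (bp m * bp m - bp m * bq m + bq m * bq m) = 486 by decide +kernel]
      simp [mul_comm]
      norm_num) i2 hK (by
      simp only [sm, hc]
      rw [show ∑ x with x * x = 1 ∧ x ≠ 1, ∑ y with y * y = 1 ∧ y ≠ 1, bp (x * y) = 486 by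
        decide +kernel, show ∑ x with x * x = 1 ∧ x ≠ 1, ∑ y with y * y = 1 ∧ y ≠ 1,
          bq (x * y) = 0 by decide +kernel]
      norm_num)) (ha.one (by
      rw [sm, hc, show ∑ m, al m = 162 by decide +kernel]
      norm_num)) (hb.one (by
      rw [sm, hc, show ∑ m, bp m = 162 by decide +kernel, show ∑ m, bq m = 0 by decide +kernel]
      norm_num)) (ha.inner hb hf hA (gen_class (gen_be h1)) sa sb (by
      simp only [cj, sm]
      rw [show ∑ m, (al m * bp m - al m * bq m + 0 * bq m) = 0 by decide +kernel,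
        show ∑ m, (0 * bp m - al m * bq m) = 0 by decide +kernel]
      norm_num))
  obtain ⟨l, hl⟩ := irr_hom_of_mul_eq k (c := -a k) (by simpa using k1)
  have l1 : l (f i6) ≠ 1 := fun e => k2 (by
    unfold cv
    rw [inner_ind_conj _ (Irr_class k), inner_ind_conj _ (Irr_class _), hl, e]
    simp [irrOne])
  let K := ((powMonoidHom 9).comp l).ker
  have hK : ∀ m : M6, f m ∈ K ↔ m.s = false := fun m => by
    have h3 : ∀ m : M6, m.s = false → f m ∈ K := fun m e => by
      change l _ ^ 9 = 1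
      rw [← map_pow, ← map_pow, (by decide +kernel : ∀ m : M6, m.s = false → m ^ 9 = 1) m e]
      simp
    refine ⟨fun e => by_contra fun e' => l1 ?_, h3 m⟩
    have h4 := mul_mem (inv_mem e) (h3 _ ((by decide +kernel : ∀ m : M6, ¬ m.s = false →
      (m * i6).s = false) m e'))
    rw [map_mul, inv_mul_cancel_left] at h4
    rw [← show l _ ^ 9 = 1 from h4, ← map_pow, ← map_pow, show i6 ^ 9 = i6 by decide +kernel]
  have h5 : K ≤ K ⊓ f.range := le_of_TI_of_pp inf_le_left (fun g hg t ht t1 e => ⟨hg, by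
      obtain ⟨h6, m, rfl⟩ := ht
      exact ti m ((by decide +kernel : ∀ m : M6, m.s = false → m ≠ 1 → m * m ≠ 1) m ((hK m).1 h6)
        fun e => t1 (by rw [e, map_one])) g e.2⟩) Nat.prime_three (z := f z6) (a := f a6)
    ⟨(hK _).2 rfl, _, rfl⟩ ⟨(hK _).2 rfl, _, rfl⟩
    (by rw [orderOf_injective f hf]; exact orderOf_eq_prime (hp := ⟨Nat.prime_three⟩)
          (by decide +kernel) (by decide))
    (by rw [← map_pow, show a6 ^ 3 = 1 by decide +kernel, map_one])
    (by rw [← map_mul, ← map_mul]; congr 1)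
    (by rw [← MonoidHom.map_zpowers, mem_map_iff_mem hf]
        exact not_mem_zpowers_of_lt (n := 3) (by norm_num) (by decide +kernel) (by decide +kernel))
  exact eq_top_iff.2 fun g _ => ti z6 (by decide) g
    (h5 ((MonoidHom.normal_ker _).conj_mem _ ((hK z6).2 rfl) g)).2

end CfsgH1.L43
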