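import Cfsg.Agent.H9.MA

set_option autoImplicit false
set_option linter.unusedSectionVars false
set_option linter.unusedSimpArgs false
set_option maxHeartbeats 800000

/-! S3717: case E2 of `C(t) = 2 × L₂(7)`. -/

namespace CfsgM11

open Subgroup CfsgH5 CfsgH6 CfsgFT

variable {G : Type*} [Group G] [Finite G]

theorem e2ct {a b c : G} (h : a * b = c) : a * b = c ∧ ∀ r, a * (b * r) = c * r :=
  ⟨h, fun r => by rw [← mul_assoc, h]⟩

theorem e2sq {a : G} (h : a * a = 1) : a⁻¹ = a ∧ a * a = 1 ∧ ∀ r, a * (a * r) = r :=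
  ⟨inv_of_sq h, h, mul_sq_l h⟩

structure E2Q (t z v1 v2 b : G) : Prop where
  tt : t * t = 1
  zz : z * z = 1
  z1 : z ≠ 1
  v11 : v1 * v1 = 1
  v22 : v2 * v2 = 1
  bb : b * b = 1
  zt : z * t = t * z
  zb : z * b = b * z
  zv1 : z * v1 = v1 * z
  zv2 : z * v2 = v2 * z
  v21 : v2 * v1 = v1 * v2 * z
  v1t : v1 * t = t * v1
  v2t : v2 * t = t * v2
  v1b : v1 * b = b * v1
  v2b : v2 * b = b * v2
  bt : b * t = t * b * z
  hT : ∀ y, y * t = t * y → y * z = z * y → ∃ d, (d = 1 ∨ d = z ∨ d = v1 ∨ d = v1 * z ∨ d = v2 ∨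
    d = v2 * z ∨ d = v1 * v2 ∨ d = v2 * v1) ∧ (y = d ∨ y = d * t)

structure E2B (t z v b1 : G) : Prop where
  bb : b1 * b1 = 1
  bz : b1 * z = z * b1
  bv : b1 * v = v * b1
  bt : b1 * t = t * v * b1

variable {t z v1 v2 b b1 b2 v : G}

theorem E2Q.R (h : E2Q t z v1 v2 b) :
    (t⁻¹ = t ∧ t * t = 1 ∧ ∀ r, t * (t * r) = r) ∧
    (z⁻¹ = z ∧ z * z = 1 ∧ ∀ r, z * (z * r) = r) ∧
    (v1⁻¹ = v1 ∧ v1 * v1 = 1 ∧ ∀ r, v1 * (v1 * r) = r) ∧
    (v2⁻¹ = v2 ∧ v2 * v2 = 1 ∧ ∀ r, v2 * (v2 * r) = r) ∧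
    (b⁻¹ = b ∧ b * b = 1 ∧ ∀ r, b * (b * r) = r) ∧
    (z * t = t * z ∧ ∀ r, z * (t * r) = t * z * r) ∧
    (z * b = b * z ∧ ∀ r, z * (b * r) = b * z * r) ∧
    (z * v1 = v1 * z ∧ ∀ r, z * (v1 * r) = v1 * z * r) ∧
    (z * v2 = v2 * z ∧ ∀ r, z * (v2 * r) = v2 * z * r) ∧
    (v2 * v1 = v1 * v2 * z ∧ ∀ r, v2 * (v1 * r) = v1 * v2 * z * r) ∧
    (v1 * t = t * v1 ∧ ∀ r, v1 * (t * r) = t * v1 * r) ∧
    (v2 * t = t * v2 ∧ ∀ r, v2 * (t * r) = t * v2 * r) ∧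
    (v1 * b = b * v1 ∧ ∀ r, v1 * (b * r) = b * v1 * r) ∧
    (v2 * b = b * v2 ∧ ∀ r, v2 * (b * r) = b * v2 * r) ∧
    (b * t = t * b * z ∧ ∀ r, b * (t * r) = t * b * z * r) :=
  ⟨e2sq h.tt, e2sq h.zz, e2sq h.v11, e2sq h.v22, e2sq h.bb, e2ct h.zt, e2ct h.zb, e2ct h.zv1, e2ct h.zv2, e2ct h.v21, e2ct h.v1t, e2ct h.v2t, e2ct h.v1b, e2ct h.v2b, e2ct h.bt⟩

theorem E2B.R (h : E2B t z v b1) : (b1⁻¹ = b1 ∧ b1 * b1 = 1 ∧ ∀ r, b1 * (b1 * r) = r) ∧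
    (b1 * z = z * b1 ∧ ∀ r, b1 * (z * r) = z * b1 * r) ∧
    (b1 * v = v * b1 ∧ ∀ r, b1 * (v * r) = v * b1 * r) ∧
    (b1 * t = t * v * b1 ∧ ∀ r, b1 * (t * r) = t * v * b1 * r) :=
  ⟨e2sq h.bb, e2ct h.bz, e2ct h.bv, e2ct h.bt⟩

theorem E2Q.symm (h : E2Q t z v1 v2 b) : E2Q t z v2 v1 b :=
  { h with
    v11 := h.v22, v22 := h.v11, zv1 := h.zv2, zv2 := h.zv1, v1t := h.v2t, v2t := h.v1t
    v1b := h.v2b, v2b := h.v1b
    v21 := by simp only [mul_assoc, h.R, mul_one]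
    hT := fun y h1 h2 => by
      obtain ⟨d, hd, e⟩ := h.hT y h1 h2
      exact ⟨d, by tauto, e⟩ }

theorem E2Q.nc (h : E2Q t z v1 v2 b) : v1 * v2 ≠ v2 * v1 := fun e => h.z1 (by
  rw [h.v21] at e; exact (mul_eq_left.1 e.symm))

theorem E2Q.zne (h : E2Q t z v1 v2 b) {x y : G} (e : x = y) (e2 : x⁻¹ * y = z) : False :=
  h.z1 (by rw [← e2, e, inv_mul_cancel])

theorem E2Q.e1c (h : E2Q t z v1 v2 b) {y : G} (h1 : y * t = t * y) (h2 : y * z = z * y)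
    (h3 : y * v1 = v1 * y) : ∃ d, (d = 1 ∨ d = z ∨ d = v1 ∨ d = v1 * z) ∧ (y = d ∨ y = d * t) := by
  obtain ⟨d, hd, e⟩ := h.hT y h1 h2
  refine ⟨d, ?_, e⟩
  rcases hd with rfl | rfl | rfl | rfl | rfl | rfl | rfl | rfl
  iterate 4 tauto
  all_goals
    exfalso
    rcases e with rfl | rfl <;> exact h.zne h3 (by simp only [mul_assoc, mul_inv_rev, h.R, mul_one])

theorem E2Q.dich (h : E2Q t z v1 v2 b) (B : E2B t z v1 b1) :
    (b1 * b = b * b1 ∧ (b1 * v2 = b * v2 * b1 ∨ b1 * v2 = b * v2 * z * b1)) ∨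
    (b1 * b = b * v1 * z * b1 ∧
      (b1 * v2 = t * b * v1 * v2 * b1 ∨ b1 * v2 = t * b * v1 * v2 * z * b1)) := by
  obtain ⟨c, hc⟩ : ∃ c, c = v2 * b1 * v2 := ⟨_, rfl⟩
  have C : E2B t z (v1 * z) c := by
    refine ⟨?_, ?_, ?_, ?_⟩ <;> rw [hc]
    · simp only [mul_assoc, h.R, B.R, mul_one]
    · calc v2 * b1 * v2 * z = v2 * (b1 * z) * v2 := by simp only [mul_assoc, h.R, mul_one]
        _ = z * (v2 * b1 * v2) := by rw [B.bz, ← mul_assoc v2, ← h.zv2]; simp only [mul_assoc]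
    · calc v2 * b1 * v2 * (v1 * z) = v2 * (b1 * v1) * v2 := by simp only [mul_assoc, h.R, mul_one]
        _ = _ := by rw [B.bv]; simp only [mul_assoc, h.R, B.R, mul_one]
    · calc v2 * b1 * v2 * t = v2 * (b1 * t) * v2 := by simp only [mul_assoc, h.R, mul_one]
        _ = _ := by rw [B.bt]; simp only [mul_assoc, h.R, B.R, mul_one]
  have cv : c * v1 = v1 * c := by
    calc c * v1 = c * (v1 * z) * z := by simp only [mul_assoc, h.R, mul_one]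
      _ = _ := by rw [C.bv]; simp only [mul_assoc, h.R, C.R, mul_one]
  have cv' := e2ct cv
  obtain ⟨d, hd, e⟩ := h.e1c (y := b * b1 * c)
    (by simp only [mul_assoc, h.R, B.R, C.R, cv', mul_one])
    (by simp only [mul_assoc, h.R, B.R, C.R, cv', mul_one])
    (by simp only [mul_assoc, h.R, B.R, C.R, cv', mul_one])
  have sq : b1 * v2 * b1 * (b1 * v2 * b1) = 1 := by simp only [mul_assoc, h.R, B.R, mul_one]
  have e1 : b1 * v2 * b1 = b * (b * b1 * c) * v2 := by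
    rw [hc]; simp only [mul_assoc, h.R, B.R, mul_one]
  have e2 : b * b1 = (b * b1 * c) * c := by simp only [mul_assoc, C.R, mul_one]
  have e3 : b1 * b = b1 * b * (b * b1 * (b * b1)) * (b * b1 * (b * b1))⁻¹ := by group
  have e4 : b1 * v2 = b1 * v2 * b1 * b1 := by simp only [mul_assoc, B.R, mul_one]
  have e5 : b1 * b * (b * b1 * (b * b1)) = b * b1 := by simp only [mul_assoc, h.R, B.R, mul_one]
  rw [e5] at e3
  generalize b * b1 * c = m at e e1 e2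
  have q : b * b1 * (b * b1) = m * c * (m * c) := by rw [e2]
  rw [q] at e3
  rw [e1] at sq e4
  rcases e with rfl | rfl <;> rcases hd with rfl | rfl | rfl | rfl
  · exact .inl ⟨by rw [e3]; simp only [mul_assoc, mul_inv_rev, h.R, B.R, C.R, cv', mul_one, one_mul, inv_one],
      .inl (by rw [e4]; simp only [mul_assoc, h.R, mul_one, one_mul])⟩
  · exact .inl ⟨by rw [e3]; simp only [mul_assoc, mul_inv_rev, h.R, B.R, C.R, cv', mul_one, one_mul, inv_one],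
      .inr (by rw [e4]; simp only [mul_assoc, h.R, mul_one, one_mul])⟩
  · exact (h.zne sq (by simp only [mul_assoc, mul_inv_rev, h.R, mul_one, one_mul])).elim
  · exact (h.zne sq (by simp only [mul_assoc, mul_inv_rev, h.R, mul_one, one_mul])).elim
  · exact (h.zne sq (by simp only [mul_assoc, mul_inv_rev, h.R, mul_one, one_mul])).elim
  · exact (h.zne sq (by simp only [mul_assoc, mul_inv_rev, h.R, mul_one, one_mul])).elim
  · exact .inr ⟨by rw [e3]; simp only [mul_assoc, mul_inv_rev, h.R, B.R, C.R, cv', mul_one, one_mul, inv_one],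
      .inr (by rw [e4]; simp only [mul_assoc, h.R, mul_one, one_mul])⟩
  · exact .inr ⟨by rw [e3]; simp only [mul_assoc, mul_inv_rev, h.R, B.R, C.R, cv', mul_one, one_mul, inv_one],
      .inl (by rw [e4]; simp only [mul_assoc, h.R, mul_one, one_mul])⟩

/-- mixed case -/
theorem E2Q.mixed (h : E2Q t z v1 v2 b) (B : E2B t z v1 b1) (B2 : E2B t z v2 b2)
    (n1 : ∀ x, x * t * x⁻¹ ≠ v1) (e0 : b1 * b = b * b1)
    (e1 : b1 * v2 = b * v2 * b1 ∨ b1 * v2 = b * v2 * z * b1)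
    (e2 : b2 * v1 = t * b * v2 * v1 * b2 ∨ b2 * v1 = t * b * v2 * v1 * z * b2) : False := by
  have k : b1 * (b2 * v1 * b2) * b1 = t * v2 ∨ b1 * (b2 * v1 * b2) * b1 = t * v2 * z := by
    have f0 := e2ct e0
    rcases e1 with e1 | e1 <;> rcases e2 with e2 | e2 <;> have f1 := e2ct e1 <;> rw [e2] <;>
      simp only [mul_assoc, h.R, B.R, B2.R, f0, f1, mul_one, true_or, or_true]
  have k1 : t * v2 = b2 * t * b2 := by simp only [mul_assoc, h.R, B2.R, mul_one]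
  have k2 : t * v2 * z = v1 * (b2 * t * b2) * v1 := by simp only [mul_assoc, h.R, B2.R, mul_one]
  have k3 : v1 = b2 * b1 * (b1 * (b2 * v1 * b2) * b1) * b1 * b2 := by
    simp only [mul_assoc, mul_sq_l B.bb, mul_sq_l B2.bb, B2.bb, mul_one]
  rcases k with k | k
  · refine n1 (b2 * b1 * b2) ?_
    rw [k3, k, k1]; simp only [mul_assoc, mul_inv_rev, inv_of_sq B.bb, inv_of_sq B2.bb]
  · refine n1 (b2 * b1 * v1 * b2) ?_
    conv_rhs => rw [k3, k, k2]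
    simp only [mul_assoc, mul_inv_rev, inv_of_sq B.bb, inv_of_sq B2.bb, inv_of_sq h.v11]

/-- case `(1,1)` -/
theorem E2Q.oneone (h : E2Q t z v1 v2 b) (B : E2B t z v1 b1) (B2 : E2B t z v2 b2)
    (e0 : b1 * b = b * v1 * z * b1)
    (e1 : b1 * v2 = t * b * v1 * v2 * b1 ∨ b1 * v2 = t * b * v1 * v2 * z * b1)
    (e0' : b2 * b = b * v2 * z * b2)
    (e2 : b2 * v1 = t * b * v2 * v1 * b2 ∨ b2 * v1 = t * b * v2 * v1 * z * b2) :
    3 ∣ orderOf (b1 * b2) := by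
  let Y : G → Prop := fun y => y = 1 ∨ y = z ∨ y = t * b ∨ y = t * b * z
  have f0 := e2ct e0
  have f0' := e2ct e0'
  obtain ⟨ρ, hρ⟩ : ∃ ρ, ρ = b1 * b2 := ⟨_, rfl⟩
  have s1 : ∀ y, Y y → ∃ y', Y y' ∧ ρ * (v1 * y) * ρ⁻¹ = v2 * y' := by
    intro y hy
    refine ⟨v2 * (ρ * (v1 * y) * ρ⁻¹), ?_, by rw [mul_sq_l h.v22]⟩
    rcases e1 with e1 | e1 <;> rcases e2 with e2 | e2 <;> have f1 := e2ct e1 <;> have f2 := e2ct e2 <;>
    rcases hy with rfl | rfl | rfl | rfl <;>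
      simp only [Y, hρ, mul_assoc, mul_inv_rev, h.R, B.R, B2.R, f0, f0', f1, f2, mul_one, true_or, or_true]
  have s2 : ∀ y, Y y → ∃ y', Y y' ∧ ρ * (v2 * y) * ρ⁻¹ = v1 * v2 * y' := by
    intro y hy
    refine ⟨(v1 * v2)⁻¹ * (ρ * (v2 * y) * ρ⁻¹), ?_, by group⟩
    rcases e1 with e1 | e1 <;> rcases e2 with e2 | e2 <;> have f1 := e2ct e1 <;> have f2 := e2ct e2 <;>
    rcases hy with rfl | rfl | rfl | rfl <;>
      simp only [Y, hρ, mul_assoc, mul_inv_rev, h.R, B.R, B2.R, f0, f0', f1, f2, mul_one, true_or, or_true]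
  have s3 : ∀ y, Y y → ∃ y', Y y' ∧ ρ * (v1 * v2 * y) * ρ⁻¹ = v1 * y' := by
    intro y hy
    refine ⟨v1 * (ρ * (v1 * v2 * y) * ρ⁻¹), ?_, by rw [mul_sq_l h.v11]⟩
    rcases e1 with e1 | e1 <;> rcases e2 with e2 | e2 <;> have f1 := e2ct e1 <;> have f2 := e2ct e2 <;>
    rcases hy with rfl | rfl | rfl | rfl <;>
      simp only [Y, hρ, mul_assoc, mul_inv_rev, h.R, B.R, B2.R, f0, f0', f1, f2, mul_one, true_or, or_true]
  have st : ∀ n : ℕ, ρ ^ (n + 1) * v1 * (ρ ^ (n + 1))⁻¹ = ρ * (ρ ^ n * v1 * (ρ ^ n)⁻¹) * ρ⁻¹ := fun n => by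
    rw [pow_succ']; group
  have s : ∀ k : ℕ, ∃ y, Y y ∧ ρ ^ (3 * k) * v1 * (ρ ^ (3 * k))⁻¹ = v1 * y := by
    intro k
    induction k with
    | zero => exact ⟨1, .inl rfl, by simp⟩
    | succ k ih =>
      obtain ⟨y, hy, e⟩ := ih
      obtain ⟨y1, hy1, a1⟩ := s1 y hy
      obtain ⟨y2, hy2, a2⟩ := s2 y1 hy1
      obtain ⟨y3, hy3, a3⟩ := s3 y2 hy2
      exact ⟨y3, hy3, by rw [show 3 * (k + 1) = 3 * k + 1 + 1 + 1 by ring, st, st, st, e, a1, a2, a3]⟩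
  rw [← hρ]
  have hp := pow_orderOf_eq_one ρ
  generalize orderOf ρ = n at hp
  obtain ⟨y, hy, e⟩ := s (n / 3)
  obtain ⟨y1, hy1, a1⟩ := s1 y hy
  obtain ⟨y2, hy2, a2⟩ := s2 y1 hy1
  have yc : ∀ y, Y y → y * v1 = v1 * y := fun y hy => by
    rcases hy with rfl | rfl | rfl | rfl <;> simp only [mul_assoc, h.R, mul_one, one_mul]
  by_contra h3
  have : n = 3 * (n / 3) + 1 ∨ n = 3 * (n / 3) + 1 + 1 := by omega
  rcases this with hn | hn
  · have := st (3 * (n / 3))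
    rw [← hn, hp, e, a1, one_mul, inv_one, mul_one] at this
    refine h.nc ?_
    have e2 : v2 = v1 * y1⁻¹ := by rw [this]; group
    have c : Commute y1 v1 := yc y1 hy1
    rw [e2, mul_assoc, c.inv_left.eq]
  · have := st (3 * (n / 3) + 1)
    rw [← hn, hp, st, e, a1, a2, one_mul, inv_one, mul_one] at this
    refine h.nc ?_
    have e2 : v2 = y2⁻¹ := by
      rw [mul_assoc, left_eq_mul] at this; exact eq_inv_of_mul_eq_one_left this
    have c : Commute y2 v1 := yc y2 hy2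
    rw [e2, c.inv_left.eq]

end CfsgM11
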