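import Cfsg.Agent.H1.ME

set_option autoImplicit false
set_option linter.unusedSectionVars false
set_option linter.unusedSimpArgs false
set_option maxHeartbeats 800000

/-! S3717: case E2 of `C(t) = 2 × L₂(7)`, subcase `(0,0)`. -/

namespace CfsgM11

open Subgroup CfsgH5 CfsgH6 CfsgFT

variable {G : Type*} [Group G] [Finite G] {t z v1 v2 b b1 b2 v : G}

def In4 (p q y : G) : Prop := y = 1 ∨ y = p ∨ y = q ∨ y = q * p

theorem e2_mem_ins {k : Set G} {u y : G} (hu : u * u = 1) (hn : u ∈ N (closure k))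
    (hy : y ∈ closure (insert u k)) : y ∈ closure k ∨ y * u ∈ closure k := by
  induction hy using closure_induction with
  | mem x hx =>
    rcases hx with rfl | hx
    · exact .inr (hu ▸ one_mem _)
    · exact .inl (subset_closure hx)
  | one => exact .inl (one_mem _)
  | mul x y _ _ hx hy =>
    rcases hx with hx | hx <;> rcases hy with hy | hy
    · exact .inl (mul_mem hx hy)
    · exact .inr (mul_assoc x y u ▸ mul_mem hx hy)
    · refine .inr ?_
      have := mul_mem hx (conj_mem_of_mem_N hn hy)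
      simpa only [mul_assoc, inv_of_sq hu, mul_sq_l hu] using this
    · refine .inl ?_
      have := mul_mem hx (conj_mem_of_mem_N hn hy)
      simpa only [mul_assoc, inv_of_sq hu, mul_sq_l hu, hu, mul_one] using this
  | inv x _ hx =>
    rcases hx with hx | hx
    · exact .inl (inv_mem hx)
    · refine .inr ?_
      have := inv_mem (conj_mem_of_mem_N hn hx)
      simpa only [mul_assoc, mul_inv_rev, inv_of_sq hu, mul_sq_l hu, hu, mul_one] using this

theorem E2Q.zc (h : E2Q t z v1 v2 b) {y : G} (h1 : y * t = t * y) (h2 : y * z = z * y)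
    (h3 : y * v1 = v1 * y) (h4 : y * v2 = v2 * y) (h5 : y * b = b * y) : y = 1 ∨ y = z := by
  obtain ⟨d, hd, e⟩ := h.e1c h1 h2 h3
  rcases e with rfl | rfl <;> rcases hd with rfl | rfl | rfl | rfl
  · exact .inl rfl
  · exact .inr rfl
  · exact (h.zne h4 (by simp only [mul_assoc, mul_inv_rev, h.R, mul_one, one_mul])).elim
  · exact (h.zne h4 (by simp only [mul_assoc, mul_inv_rev, h.R, mul_one, one_mul])).elim
  · exact (h.zne h5 (by simp only [mul_assoc, mul_inv_rev, h.R, mul_one, one_mul])).elim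
  · exact (h.zne h5 (by simp only [mul_assoc, mul_inv_rev, h.R, mul_one, one_mul])).elim
  · exact (h.zne h4 (by simp only [mul_assoc, mul_inv_rev, h.R, mul_one, one_mul])).elim
  · exact (h.zne h4 (by simp only [mul_assoc, mul_inv_rev, h.R, mul_one, one_mul])).elim

theorem E2Q.g0 (h : E2Q t z v1 v2 b) (B : E2B t z v1 b1) (B2 : E2B t z v2 b2) {q y : G}
    (q1 : q * t = t * q) (q2 : q * z = z * q) (qq : q * q = 1) (qn1 : q ≠ 1) (qz : q ≠ z)
    (qc : ∀ x, x * t * x⁻¹ ≠ q) (h1 : y * t = t * y) (h2 : y * z = z * y) (h3 : y * q = q * y) :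
    In4 z q y ∨ In4 z q (y * t) := by
  have a1 : ∀ {v1 v2 : G}, E2Q t z v1 v2 b → y * v1 = v1 * y → In4 z v1 y ∨ In4 z v1 (y * t) :=
    fun h h3 => by
      obtain ⟨d, hd, e⟩ := h.e1c h1 h2 h3
      rcases e with rfl | rfl
      · exact .inl hd
      · exact .inr (by rw [mul_assoc, h.tt, mul_one]; exact hd)
  have a2 : ∀ {v1 v2 : G}, E2Q t z v1 v2 b → y * (v1 * z) = v1 * z * y →
      In4 z (v1 * z) y ∨ In4 z (v1 * z) (y * t) := fun {v1 v2} h h3 => by
    have h4 : y * v1 = v1 * y := by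
      rw [← mul_assoc, mul_assoc v1, ← h2, ← mul_assoc] at h3; exact mul_right_cancel h3
    have a3 : ∀ x, In4 z v1 x → In4 z (v1 * z) x := fun x hx => by
      unfold In4 at hx ⊢
      rw [mul_assoc, h.zz, mul_one]; tauto
    exact (a1 h h4).imp (a3 _) (a3 _)
  obtain ⟨d, hd, e⟩ := h.hT q q1 q2
  rcases e with rfl | rfl <;> rcases hd with rfl | rfl | rfl | rfl | rfl | rfl | rfl | rfl
  · exact (qn1 rfl).elim
  · exact (qz rfl).elim
  · exact a1 h h3
  · exact a2 h h3
  · exact a1 h.symm h3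
  · exact a2 h.symm h3
  · exact (h.zne qq (by simp only [mul_assoc, mul_inv_rev, h.R, mul_one, one_mul])).elim
  · exact (h.zne qq (by simp only [mul_assoc, mul_inv_rev, h.R, mul_one, one_mul])).elim
  · exact (qc 1 (by simp)).elim
  · exact (qc b (by simp only [mul_assoc, mul_inv_rev, h.R, mul_one, one_mul])).elim
  · exact (qc b1 (by simp only [mul_assoc, mul_inv_rev, h.R, B.R, mul_one, one_mul])).elim
  · exact (qc (v2 * b1) (by simp only [mul_assoc, mul_inv_rev, h.R, B.R, mul_one, one_mul])).elim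
  · exact (qc b2 (by simp only [mul_assoc, mul_inv_rev, h.R, B2.R, mul_one, one_mul])).elim
  · exact (qc (v1 * b2) (by simp only [mul_assoc, mul_inv_rev, h.R, B2.R, mul_one, one_mul])).elim
  · exact (h.zne qq (by simp only [mul_assoc, mul_inv_rev, h.R, mul_one, one_mul])).elim
  · exact (h.zne qq (by simp only [mul_assoc, mul_inv_rev, h.R, mul_one, one_mul])).elim

theorem In4.conj {p q y : G} (c : G) (h : In4 (c⁻¹ * p * c) (c⁻¹ * q * c) (c⁻¹ * y * c)) : In4 p q y := by
  have e : y = c * (c⁻¹ * y * c) * c⁻¹ := by group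
  rcases h with h | h | h | h <;> rw [h] at e
  · exact .inl (by rw [e]; group)
  · exact .inr (.inl (by rw [e]; group))
  · exact .inr (.inr (.inl (by rw [e]; group)))
  · exact .inr (.inr (.inr (by rw [e]; group)))

theorem e2cc {x y : G} (c : G) (h : x * y = y * x) :
    c⁻¹ * x * c * (c⁻¹ * y * c) = c⁻¹ * y * c * (c⁻¹ * x * c) := by
  calc _ = c⁻¹ * (x * y) * c := by group
    _ = _ := by rw [h]; group

theorem E2Q.g1 (h : E2Q t z v1 v2 b) (B : E2B t z v1 b1) (B2 : E2B t z v2 b2)
    (ncl : ∀ x, x * t * x⁻¹ ≠ z)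
    (hinv : ∀ e, e * t = t * e → e * e = 1 → e ≠ 1 → (∀ x, x * t * x⁻¹ ≠ e) →
      ∃ c, c * t = t * c ∧ c * z * c⁻¹ = e) {x u q y : G} (hu : x * t * x⁻¹ = u)
    (zu : z * u = u * z) (q1 : q * u = u * q) (q2 : q * z = z * q) (qq : q * q = 1) (qn1 : q ≠ 1)
    (qz : q ≠ z) (qc : ∀ x, x * t * x⁻¹ ≠ q) (h1 : y * u = u * y) (h2 : y * z = z * y)
    (h3 : y * q = q * y) : In4 z q y ∨ In4 z q (y * u) := by
  have ht : x⁻¹ * u * x = t := by rw [← hu]; group
  obtain ⟨c, c1, c2⟩ := hinv (x⁻¹ * z * x) (ht ▸ e2cc x zu)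
    (by calc _ = x⁻¹ * (z * z) * x := by group
          _ = 1 := by rw [h.zz]; group)
    (fun e => h.z1 (cj1 e)) (fun w e => ncl (x * w) (by
      calc _ = x * (w * t * w⁻¹) * x⁻¹ := by group
        _ = z := by rw [e]; group))
  have hz : (x * c)⁻¹ * z * (x * c) = z := by
    calc _ = c⁻¹ * (x⁻¹ * z * x) * c := by group
      _ = z := by rw [← c2]; group
  have ht' : (x * c)⁻¹ * u * (x * c) = t := by
    calc _ = c⁻¹ * (x⁻¹ * u * x) * c := by group
      _ = t := by rw [ht, mul_assoc, ← c1]; group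
  generalize x * c = g at hz ht'
  have := h.g0 B B2 (q := g⁻¹ * q * g) (y := g⁻¹ * y * g) (ht' ▸ e2cc g q1)
    (by have := e2cc g q2; rwa [hz] at this)
    (by calc _ = g⁻¹ * (q * q) * g := by group
          _ = 1 := by rw [qq]; group)
    (fun e => qn1 (cj1 e))
    (fun e => qz (by rw [← hz] at e; exact mul_left_cancel (mul_right_cancel e)))
    (fun w e => qc (g * w) (by
      calc _ = g * (w * t * w⁻¹) * g⁻¹ := by group
        _ = q := by rw [e]; group))
    (ht' ▸ e2cc g h1) (by have := e2cc g h2; rwa [hz] at this) (e2cc g h3)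
  rcases this with e | e
  · exact .inl (In4.conj g (by rwa [hz]))
  · refine .inr (In4.conj g ?_)
    rw [hz, show g⁻¹ * (y * u) * g = g⁻¹ * y * g * (g⁻¹ * u * g) by group, ht']
    exact e

theorem E2Q.in4 (h : E2Q t z v1 v2 b) {y : G} (hy : y ∈ closure ({z, b} : Set G)) : In4 z b y := by
  induction hy using closure_induction with
  | mem x hx => rcases hx with rfl | rfl <;> simp only [In4, true_or, or_true]
  | one => exact .inl rfl
  | mul x y _ _ hx hy =>
    rcases hx with rfl | rfl | rfl | rfl <;> rcases hy with rfl | rfl | rfl | rfl <;>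
      simp only [In4, mul_assoc, h.R, one_mul, mul_one, true_or, or_true]
  | inv x _ hx =>
    rcases hx with rfl | rfl | rfl | rfl <;>
      simp only [In4, mul_inv_rev, inv_one, mul_assoc, h.R, one_mul, mul_one, true_or, or_true]

/-- normal form in `A₁` -/
theorem E2Q.nf (h : E2Q t z v1 v2 b) (B : E2B t z v1 b1) (e0 : b1 * b = b * b1) {a : G}
    (ha : a ∈ closure ({b1, v1, z, b} : Set G)) :
    ∃ k, In4 z b k ∧ (a = k ∨ a = k * v1 ∨ a = k * b1 ∨ a = k * v1 * b1) := by
  have f0 := e2ct e0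
  have s1 : ∀ a ∈ closure ({v1, z, b} : Set G), ∃ k, In4 z b k ∧ (a = k ∨ a = k * v1) := fun a ha => by
    rcases e2_mem_ins h.v11 (mem_N_closure (by
      rintro x (rfl | rfl) <;> refine subset_closure ?_ <;>
        simp only [mul_assoc, h.R, mul_one, Set.mem_insert_iff, Set.mem_singleton_iff, true_or,
          or_true])) ha with e | e
    · exact ⟨a, h.in4 e, .inl rfl⟩
    · exact ⟨a * v1, h.in4 e, .inr (by rw [mul_assoc, h.v11, mul_one])⟩
  rcases e2_mem_ins B.bb (mem_N_closure (by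
      rintro x (rfl | rfl | rfl) <;> refine subset_closure ?_ <;>
        simp only [mul_assoc, B.R, f0, mul_one, Set.mem_insert_iff, Set.mem_singleton_iff, true_or,
          or_true])) ha with e | e
  · obtain ⟨k, hk, e⟩ := s1 _ e
    exact ⟨k, hk, by tauto⟩
  · obtain ⟨k, hk, e⟩ := s1 _ e
    refine ⟨k, hk, .inr (.inr (e.imp ?_ ?_))⟩ <;> intro e <;> rw [← e, mul_assoc, B.bb, mul_one]

end CfsgM11
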