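import Cfsg.Agent.H1.ME2

set_option autoImplicit false
set_option linter.unusedSectionVars false
set_option linter.unusedSimpArgs false
set_option maxHeartbeats 1600000

/-! S3717: case E2 of `C(t) = 2 × L₂(7)`, subcase `(0,0)` and the end. -/

namespace CfsgM11

open Subgroup CfsgH5 CfsgH6 CfsgFT

variable {G : Type*} [Group G] [Finite G] {t z v1 v2 b b1 b2 v κ : G}

structure E2Z (t z v1 v2 b b1 b2 κ : G) : Prop where
  h : E2Q t z v1 v2 b
  B : E2B t z v1 b1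
  B2 : E2B t z v2 b2
  e0 : b1 * b = b * b1
  e1 : b1 * v2 = b * v2 * b1 ∨ b1 * v2 = b * v2 * z * b1
  e0' : b2 * b = b * b2
  e2 : b2 * v1 = b * v1 * b2 ∨ b2 * v1 = b * v1 * z * b2
  hk : In4 z b κ
  k1 : b1 * b2 * b1 = κ * b2
  k2 : b2 * b1 * b2 = κ * b1

theorem E2Z.symm (X : E2Z t z v1 v2 b b1 b2 κ) : E2Z t z v2 v1 b b2 b1 κ :=
  ⟨X.h.symm, X.B2, X.B, X.e0', X.e2, X.e0, X.e1, X.hk, X.k2, X.k1⟩

theorem E2Q.mkZ (h : E2Q t z v1 v2 b) (B : E2B t z v1 b1) (B2 : E2B t z v2 b2)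
    (e0 : b1 * b = b * b1) (e1 : b1 * v2 = b * v2 * b1 ∨ b1 * v2 = b * v2 * z * b1)
    (e0' : b2 * b = b * b2) (e2 : b2 * v1 = b * v1 * b2 ∨ b2 * v1 = b * v1 * z * b2) :
    E2Z t z v1 v2 b b1 b2 (b1 * b2 * b1 * b2) := by
  have f0 := e2ct e0
  have f0' := e2ct e0'
  have hk : In4 z b (b1 * b2 * b1 * b2) := by
    have a1 : ∀ y, y = b1 * b2 * b1 * b2 → y * t = t * y → y * z = z * y → y * v1 = v1 * y →
        y * v2 = v2 * y → y * b = b * y → In4 z b (b1 * b2 * b1 * b2) := fun y e h1 h2 h3 h4 h5 => by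
      rcases h.zc h1 h2 h3 h4 h5 with e' | e' <;> rw [← e, e'] <;> simp only [In4, true_or, or_true]
    have a2 : ∀ y, y = b * (b1 * b2 * b1 * b2) → y * t = t * y → y * z = z * y → y * v1 = v1 * y →
        y * v2 = v2 * y → y * b = b * y → In4 z b (b1 * b2 * b1 * b2) := fun y e h1 h2 h3 h4 h5 => by
      have e3 : b1 * b2 * b1 * b2 = b * y := by rw [e, mul_sq_l h.bb]
      rcases h.zc h1 h2 h3 h4 h5 with e' | e' <;> rw [e3, e'] <;>
        simp only [In4, mul_one, true_or, or_true]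
    rcases e1 with e1 | e1 <;> rcases e2 with e2 | e2 <;> have f1 := e2ct e1 <;> have f2 := e2ct e2 <;>
    first
      | (refine a1 _ rfl ?_ ?_ ?_ ?_ ?_ <;>
          simp only [mul_assoc, h.R, B.R, B2.R, f0, f0', f1, f2, mul_one]; done)
      | (refine a2 _ rfl ?_ ?_ ?_ ?_ ?_ <;>
          simp only [mul_assoc, h.R, B.R, B2.R, f0, f0', f1, f2, mul_one]; done)
  refine ⟨h, B, B2, e0, e1, e0', e2, hk, by rw [mul_assoc _ b2 b2, B2.bb, mul_one], ?_⟩
  have c : b1 * (b1 * b2 * b1 * b2) = b1 * b2 * b1 * b2 * b1 := by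
    generalize b1 * b2 * b1 * b2 = k at hk
    rcases hk with rfl | rfl | rfl | rfl <;> simp only [mul_assoc, h.R, B.R, f0, mul_one, one_mul]
  rw [← c]; simp only [mul_assoc, mul_sq_l B.bb]

theorem E2Q.b1' (h : E2Q t z v1 v2 b) : b ≠ 1 := fun e =>
  h.zne (x := b * t) (y := t * b * z * z) (by rw [e, mul_assoc, h.zz]; simp)
    (by simp only [mul_assoc, mul_inv_rev, h.R, mul_one])

theorem E2Q.bz' (h : E2Q t z v1 v2 b) : b ≠ z := fun e =>
  h.zne (x := b * t) (y := t * b) (by rw [e, h.zt]) (by simp only [mul_assoc, mul_inv_rev, h.R, mul_one])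

theorem E2Q.bne (h : E2Q t z v1 v2 b) {x y : G} (e : x = y) (e2 : x⁻¹ * y = z ∨ x⁻¹ * y = b ∨
    x⁻¹ * y = b * z) : False := by
  rw [e, inv_mul_cancel] at e2
  rcases e2 with e2 | e2 | e2
  · exact h.z1 e2.symm
  · exact h.b1' e2.symm
  · exact h.bz' ((eq_inv_of_mul_eq_one_left e2.symm).trans (inv_of_sq h.zz))

abbrev E2A (z b v1 b1 : G) : Subgroup G := closure ({b1, v1, z, b} : Set G)

theorem E2Z.gen (_X : E2Z t z v1 v2 b b1 b2 κ) : b1 ∈ E2A z b v1 b1 ∧ v1 ∈ E2A z b v1 b1 ∧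
    z ∈ E2A z b v1 b1 ∧ b ∈ E2A z b v1 b1 := by
  refine ⟨?_, ?_, ?_, ?_⟩ <;> exact subset_closure (by simp)

theorem E2Z.in4_mem (X : E2Z t z v1 v2 b b1 b2 κ) {k : G} (hk : In4 z b k) : k ∈ E2A z b v1 b1 := by
  rcases hk with rfl | rfl | rfl | rfl
  · exact one_mem _
  · exact X.gen.2.2.1
  · exact X.gen.2.2.2
  · exact mul_mem X.gen.2.2.2 X.gen.2.2.1

theorem E2Z.cm (X : E2Z t z v1 v2 b b1 b2 κ) : ∀ x ∈ ({b1, v1, z, b} : Set G), ∀ y ∈ ({b1, v1, z, b} : Set G),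
    x * y = y * x := by
  have f0 := e2ct X.e0
  rintro x (rfl | rfl | rfl | rfl) y (rfl | rfl | rfl | rfl) <;>
    simp only [X.h.R, X.B.R, f0]

theorem E2Z.ab (X : E2Z t z v1 v2 b b1 b2 κ) {p q : G} (hp : p ∈ E2A z b v1 b1) (hq : q ∈ E2A z b v1 b1) :
    p * q = q * p := closure_comm X.cm p hp q hq

theorem E2Z.sq (X : E2Z t z v1 v2 b b1 b2 κ) {p : G} (hp : p ∈ E2A z b v1 b1) : p * p = 1 :=
  closure_sq X.cm (by rintro x (rfl | rfl | rfl | rfl) <;> simp only [X.h.R, X.B.R]) p hp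

theorem E2Z.tN (X : E2Z t z v1 v2 b b1 b2 κ) : t ∈ N (E2A z b v1 b1) := by
  obtain ⟨g1, g2, g3, g4⟩ := X.gen
  refine mem_N_closure ?_
  rintro x (rfl | rfl | rfl | rfl) <;> simp only [mul_assoc, X.h.R, X.B.R, mul_one]
  · exact mul_mem g2 g1
  · exact g2
  · exact g3
  · exact mul_mem g4 g3

theorem E2Z.nrm (X : E2Z t z v1 v2 b b1 b2 κ) : E2A z b v2 b2 ≤ N (E2A z b v1 b1) := by
  obtain ⟨g1, g2, g3, g4⟩ := X.gen
  have f0 := e2ct X.e0
  have f0' := e2ct X.e0'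
  rw [closure_le]
  rintro x (rfl | rfl | rfl | rfl)
  · refine mem_N_closure ?_
    rintro y (rfl | rfl | rfl | rfl)
    · rw [inv_of_sq X.B2.bb, X.k2]; exact mul_mem (X.in4_mem X.hk) g1
    · rcases X.e2 with e | e <;> rw [e] <;> simp only [mul_assoc, X.B2.R, mul_one]
      · exact mul_mem g4 g2
      · exact mul_mem g4 (mul_mem g2 g3)
    · simpa only [mul_assoc, X.B2.R, mul_one] using g3
    · simpa only [mul_assoc, X.B2.R, f0', mul_one] using g4
  · refine mem_N_closure ?_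
    rintro y (rfl | rfl | rfl | rfl)
    · rcases X.e1 with e | e <;> simp only [mul_assoc, X.h.R, e, mul_one]
      · exact mul_mem g4 g1
      · exact mul_mem g4 (mul_mem g3 g1)
    · simpa only [mul_assoc, X.h.R, mul_one] using mul_mem g2 g3
    · rw [← X.h.zv2]; simpa only [mul_assoc, mul_inv_cancel, mul_one] using g3
    · simpa only [mul_assoc, X.h.R, mul_one] using g4
  · exact le_N _ g3
  · exact le_N _ g4

theorem E2Z.ncA (X : E2Z t z v1 v2 b b1 b2 κ) {a : G} (ha : a ∈ E2A z b v1 b1)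
    (hc : a * v2 = v2 * a) : In4 z b a := by
  have f0 := e2ct X.e0
  obtain ⟨k, hk, e⟩ := X.h.nf X.B X.e0 ha
  rcases e with rfl | rfl | rfl | rfl
  · exact hk
  all_goals
    exfalso
    refine X.h.bne hc ?_
    rcases X.e1 with e | e <;> have f1 := e2ct e <;> rcases hk with rfl | rfl | rfl | rfl <;>
      simp only [mul_assoc, mul_inv_rev, X.h.R, X.B.R, f0, f1, mul_one, one_mul, true_or, or_true]

theorem E2Z.key (X : E2Z t z v1 v2 b b1 b2 κ) {a : G} (ha : a ∈ E2A z b v1 b1)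
    (hc : a * (t * a * t) * v2 = v2 * (a * (t * a * t))) : ∃ k, In4 z b k ∧ (a = k ∨ a = k * v1) := by
  have f0 := e2ct X.e0
  obtain ⟨k, hk, e⟩ := X.h.nf X.B X.e0 ha
  refine ⟨k, hk, ?_⟩
  rcases e with rfl | rfl | rfl | rfl
  · exact .inl rfl
  · exact .inr rfl
  all_goals
    exfalso
    refine X.h.bne hc ?_
    rcases hk with rfl | rfl | rfl | rfl <;>
      simp only [mul_assoc, mul_inv_rev, X.h.R, X.B.R, f0, mul_one, one_mul, true_or, or_true]

theorem E2Z.in4_mul (X : E2Z t z v1 v2 b b1 b2 κ) {x y : G} (hx : In4 z b x) (hy : In4 z b y) :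
    In4 z b (x * y) := by
  rcases hx with rfl | rfl | rfl | rfl <;> rcases hy with rfl | rfl | rfl | rfl <;>
    simp only [In4, mul_assoc, X.h.R, one_mul, mul_one, true_or, or_true]

theorem E2Z.in4_c (X : E2Z t z v1 v2 b b1 b2 κ) {x : G} (hx : In4 z b x) : x * v2 = v2 * x :=
  X.symm.ab (X.symm.in4_mem hx) X.symm.gen.2.1

/-- an element of `A₁` whose centraliser is small does not exist -/
theorem E2Z.noA (X : E2Z t z v1 v2 b b1 b2 κ) {u : G} (hu : u ∈ E2A z b v1 b1)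
    (hG : ∀ y, y * u = u * y → y * z = z * y → y * b = b * y → In4 z b y ∨ In4 z b (y * u)) : False := by
  obtain ⟨g1, g2, g3, g4⟩ := X.gen
  have f0 := e2ct X.e0
  have n1 : ¬ In4 z b v1 := fun e => X.h.nc (X.in4_c e)
  have n2 : ¬ In4 z b b1 := fun e => X.h.bne (X.in4_c e) (by
    rcases X.e1 with e | e <;> have f1 := e2ct e <;>
      simp only [mul_assoc, mul_inv_rev, X.h.R, X.B.R, f0, f1, mul_one, one_mul, true_or, or_true])
  have n3 : ¬ In4 z b (v1 * b1) := fun e => X.h.bne (X.in4_c e) (by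
    rcases X.e1 with e | e <;> have f1 := e2ct e <;>
      simp only [mul_assoc, mul_inv_rev, X.h.R, X.B.R, f0, f1, mul_one, one_mul, true_or, or_true])
  have a1 := (hG v1 (X.ab g2 hu) (X.ab g2 g3) (X.ab g2 g4)).resolve_left n1
  have a2 := (hG b1 (X.ab g1 hu) (X.ab g1 g3) (X.ab g1 g4)).resolve_left n2
  have := X.in4_mul a1 a2
  rw [X.ab g1 hu, mul_assoc, mul_sq_l (X.sq hu)] at this
  exact n3 this

theorem E2Z.false (X : E2Z t z v1 v2 b b1 b2 κ) (simp : ∀ N : Subgroup G, N.index ≠ 2)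
    (ncl : ∀ x, x * t * x⁻¹ ≠ z) (n1 : ∀ x, x * t * x⁻¹ ≠ v1)
    (hinv : ∀ e, e * t = t * e → e * e = 1 → e ≠ 1 → (∀ x, x * t * x⁻¹ ≠ e) →
      ∃ c, c * t = t * c ∧ c * z * c⁻¹ = e) : False := by
  haveI : Fact (Nat.Prime 2) := ⟨Nat.prime_two⟩
  have h := X.h
  obtain ⟨g1, g2, g3, g4⟩ := X.gen
  obtain ⟨g1', g2', -, -⟩ := X.symm.gen
  have f0 := e2ct X.e0
  have f0' := e2ct X.e0'
  have v1z : v1 ≠ z := fun e => h.nc (by rw [e, h.zv2])
  have v11 : v1 ≠ 1 := fun e => h.nc (by rw [e]; simp)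
  have nb : ∀ x, x * t * x⁻¹ ≠ b := fun x hx => by
    rcases h.g1 X.B X.B2 ncl hinv hx h.zb h.v1b h.zv1.symm h.v11 v11 v1z n1 X.e0 X.B.bz X.B.bv with e | e
    · have : b1 * v2 * b1 * v2 = 1 ∨ b1 * v2 * b1 * v2 = z := by
        rcases e with rfl | rfl | rfl | rfl <;>
          simp only [mul_assoc, h.R, mul_one, one_mul, true_or, or_true]
      rcases X.e1 with e | e <;> rw [e] at this <;> rcases this with e' | e' <;>
        exact h.bne e'.symm (by simp only [mul_assoc, mul_inv_rev, inv_one, h.R, X.B.R, f0, e2ct e, mul_one,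
          one_mul, true_or, or_true])
    · have : b1 * b * v2 * (b1 * b) * v2 = 1 ∨ b1 * b * v2 * (b1 * b) * v2 = z := by
        generalize b1 * b = y at e
        rcases e with rfl | rfl | rfl | rfl <;>
          simp only [mul_assoc, h.R, mul_one, one_mul, true_or, or_true]
      rcases X.e1 with e | e <;> rcases this with e' | e' <;>
        exact h.bne e'.symm (by simp only [mul_assoc, mul_inv_rev, inv_one, h.R, X.B.R, f0, e2ct e, mul_one,
          one_mul, true_or, or_true])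
  set A1 := E2A z b v1 b1 with hA1
  set A2 := E2A z b v2 b2 with hA2
  have hn : Nrm A2 A1 := nrm_of_le_N X.nrm
  have hP : IsPGroup 2 (A2 ⊔ A1 : Subgroup G) :=
    isPGroup_sup Nat.prime_two (pg_of_sq fun _ => X.symm.sq) (pg_of_sq fun _ => X.sq) (.inl hn)
  have Pz : A2 ⊔ A1 ≤ C1 z := sup_le (fun y hy => mem_C1.2 (X.symm.ab hy X.symm.gen.2.2.1))
    fun y hy => mem_C1.2 (X.ab hy g3)
  have Pb : A2 ⊔ A1 ≤ C1 b := sup_le (fun y hy => mem_C1.2 (X.symm.ab hy X.symm.gen.2.2.2))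
    fun y hy => mem_C1.2 (X.ab hy g4)
  have tP : t ∈ N (A2 ⊔ A1) :=
    Subgroup.normalizer_inf_normalizer_le_normalizer_sup A2 A1 ⟨X.symm.tN, X.tN⟩
  have noT : ∀ u ∈ A2 ⊔ A1, ∀ x, x * t * x⁻¹ ≠ u := fun u hu x hx => by
    have hG : ∀ y, y * u = u * y → y * z = z * y → y * b = b * y → In4 z b y ∨ In4 z b (y * u) :=
      fun y h1 h2 h3 => h.g1 X.B X.B2 ncl hinv hx (mem_C1.1 (Pz hu)).symm (mem_C1.1 (Pb hu)).symm
        h.zb.symm h.bb h.b1' h.bz' nb h1 h2 h3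
    have uu : u * u = 1 := hx ▸ sq_conj h.tt x
    obtain ⟨a2, h2, a1, h1, rfl⟩ := (mem_sup_nrm hn).1 hu
    have c := comm_of_sq (X.symm.sq h2) (X.sq h1) uu
    rcases hG a2 (by rw [mul_assoc a2 a1 a2, ← c]) (X.symm.ab h2 X.symm.gen.2.2.1)
      (X.symm.ab h2 X.symm.gen.2.2.2) with e | e
    · exact X.noA (mul_mem (X.in4_mem e) h1) hG
    · rw [mul_sq_l (X.symm.sq h2)] at e
      exact X.symm.noA (mul_mem h2 (X.symm.in4_mem e)) hG
  have m1 : ∀ {y}, y ∈ A1 → y ∈ A2 ⊔ A1 := fun hy => mem_sup_right hy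
  have m2 : ∀ {y}, y ∈ A2 → y ∈ A2 ⊔ A1 := fun hy => mem_sup_left hy
  have invS : ∀ y ∈ A2 ⊔ A1, y * t * (y * t) = 1 → ∃ p ∈ A2 ⊔ A1, y * t = p * t * p⁻¹ := by
    have tr : ∀ {u q : G}, q ∈ A2 ⊔ A1 → (∃ p ∈ A2 ⊔ A1, q * u * q⁻¹ = p * t * p⁻¹) →
        ∃ p ∈ A2 ⊔ A1, u = p * t * p⁻¹ := fun {u q} hq ⟨p, hp, e⟩ =>
      ⟨q⁻¹ * p, mul_mem (inv_mem hq) hp, by
        calc u = q⁻¹ * (q * u * q⁻¹) * q := by group
          _ = _ := by rw [e]; group⟩
    have c0 : ∀ k, In4 z b k → k * t * (k * t) = 1 → ∃ p ∈ A2 ⊔ A1, k * t = p * t * p⁻¹ := by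
      rintro k (rfl | rfl | rfl | rfl) e
      · exact ⟨1, one_mem _, by simp⟩
      · exact ⟨b, m1 g4, by simp only [mul_assoc, h.R, mul_one]⟩
      · exact (h.zne e (by simp only [mul_assoc, mul_inv_rev, h.R, mul_one])).elim
      · exact (h.zne e (by simp only [mul_assoc, mul_inv_rev, h.R, mul_one])).elim
    have c1 : ∀ k, In4 z b k → k * v1 * t * (k * v1 * t) = 1 →
        ∃ p ∈ A2 ⊔ A1, k * v1 * t = p * t * p⁻¹ := fun k hk e => by
      have e2 : b1 * (k * v1 * t) * b1⁻¹ = k * t := by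
        rcases hk with rfl | rfl | rfl | rfl <;> simp only [mul_assoc, h.R, X.B.R, f0, mul_one, one_mul]
      exact tr (m1 g1) (e2 ▸ c0 k hk (e2 ▸ sq_conj e b1))
    have c2 : ∀ k, In4 z b k → k * v2 * t * (k * v2 * t) = 1 →
        ∃ p ∈ A2 ⊔ A1, k * v2 * t = p * t * p⁻¹ := fun k hk e => by
      have e2 : b2 * (k * v2 * t) * b2⁻¹ = k * t := by
        rcases hk with rfl | rfl | rfl | rfl <;> simp only [mul_assoc, h.R, X.B2.R, f0', mul_one, one_mul]
      exact tr (m2 g1') (e2 ▸ c0 k hk (e2 ▸ sq_conj e b2))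
    have c3 : ∀ k, In4 z b k → k * v2 * v1 * t * (k * v2 * v1 * t) = 1 →
        ∃ p ∈ A2 ⊔ A1, k * v2 * v1 * t = p * t * p⁻¹ := fun k hk e => by
      obtain ⟨k', hk', e2⟩ : ∃ k', In4 z b k' ∧ b1 * (k * v2 * v1 * t) * b1⁻¹ = k' * v2 * t := by
        refine ⟨b1 * (k * v2 * v1 * t) * b1⁻¹ * t * v2, ?_, by
          simp only [mul_assoc, mul_sq_l h.v22, h.tt, mul_one]⟩
        rcases X.e1 with e | e <;> have f1 := e2ct e <;> rcases hk with rfl | rfl | rfl | rfl <;>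
          simp only [In4, mul_assoc, h.R, X.B.R, f0, f1, mul_one, one_mul, true_or, or_true]
      exact tr (m1 g1) (e2 ▸ c2 k' hk' (e2 ▸ sq_conj e b1))
    intro y hy e
    obtain ⟨a2, h2, a1, h1, rfl⟩ := (mem_sup_nrm hn).1 hy
    have t1 : t * a1 * t ∈ A1 := by simpa only [inv_of_sq h.tt] using conj_mem_of_mem_N X.tN h1
    have t2 : t * a2 * t ∈ A2 := by simpa only [inv_of_sq h.tt] using conj_mem_of_mem_N X.symm.tN h2
    have e' : a2 * a1 * (t * a2 * t) * (t * a1 * t) = 1 := by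
      rw [← e]; simp only [mul_assoc, mul_sq_l h.tt]
    have q1 : a1 * (t * a1 * t) ∈ A2 := by
      have : a1 * (t * a1 * t) = (a1 * (t * a2 * t) * a1⁻¹)⁻¹ * a2⁻¹ := by
        calc _ = (a1 * (t * a2 * t) * a1⁻¹)⁻¹ * a2⁻¹ * (a2 * a1 * (t * a2 * t) * (t * a1 * t)) := by group
          _ = _ := by rw [e', mul_one]
      rw [this]
      exact mul_mem (inv_mem (conj_mem_of_mem_N (X.symm.nrm h1) t2)) (inv_mem h2)
    have q2 : a2 * (t * a2 * t) ∈ A1 := by
      have : a2 * (t * a2 * t) = (a2 * a1 * a2⁻¹)⁻¹ * (t * a1 * t)⁻¹ := by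
        calc _ = (a2 * a1 * a2⁻¹)⁻¹ * (a2 * a1 * (t * a2 * t) * (t * a1 * t)) * (t * a1 * t)⁻¹ := by group
          _ = _ := by rw [e', mul_one]
      rw [this]
      exact mul_mem (inv_mem (conj_mem_of_mem_N (X.nrm h2) h1)) (inv_mem t1)
    obtain ⟨k1, hk1, r1⟩ := X.key h1 (X.symm.ab q1 g2')
    obtain ⟨k2, hk2, r2⟩ := X.symm.key h2 (X.ab q2 g2)
    have hk := X.in4_mul hk2 hk1
    have cc := X.in4_c hk1
    rcases r1 with rfl | rfl <;> rcases r2 with rfl | rfl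
    · exact c0 _ hk e
    · rw [mul_assoc k2 v2, ← cc, ← mul_assoc k2] at e ⊢; exact c2 _ hk e
    · rw [← mul_assoc a2] at e ⊢; exact c1 _ hk e
    · rw [← mul_assoc (k2 * v2), mul_assoc k2 v2, ← cc, ← mul_assoc k2] at e ⊢; exact c3 _ hk e
  set P := A2 ⊔ A1 with hPd
  set S := closure (insert t (P : Set G)) with hS
  have PS : P ≤ S := fun y hy => subset_closure (.inr hy)
  have tS : t ∈ S := subset_closure (.inl rfl)
  have mS : ∀ y ∈ S, y ∈ P ∨ y * t ∈ P := fun y hy => by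
    have := e2_mem_ins h.tt (by rwa [closure_eq]) hy
    rwa [closure_eq] at this
  have Sz : S ≤ C1 z := (closure_le _).2 (by
    rintro y (rfl | hy)
    · exact mem_C1.2 h.zt.symm
    · exact Pz hy)
  have hS2 : IsPGroup 2 S := by
    have hz : IsPGroup 2 (zpowers t) := pg_of_sq fun y hy => by
      obtain ⟨n, rfl⟩ := mem_zpowers_iff.1 hy
      rw [← ((Commute.refl t).mul_zpow n), h.tt, one_zpow]
    refine (hz.to_sup_of_normal_right' hP (by rwa [zpowers_le])).to_le ((closure_le _).2 ?_)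
    rintro y (rfl | hy)
    · exact mem_sup_left (mem_zpowers _)
    · exact mem_sup_right hy
  have tP' : t ∉ P := fun e => noT t e 1 (by simp)
  have syl : SylIn 2 S ⊤ := by
    refine ⟨le_top, hS2, fun T _ hT hST => ?_⟩
    by_contra hne
    obtain ⟨g, -, gS, gN⟩ := exists_nrm_of_lt hT (lt_of_le_of_ne hST (Ne.symm hne))
    have uS := conj_mem_of_mem_N gN tS
    have uP := (mS _ uS).resolve_left fun e => noT _ e g rfl
    have e0 : g * t * g⁻¹ * t * t = g * t * g⁻¹ := by rw [mul_assoc _ t t, h.tt, mul_one]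
    obtain ⟨p, hp, e⟩ := invS _ uP (by rw [e0]; exact sq_conj h.tt g)
    rw [e0] at e
    have cN : p⁻¹ * g ∈ N S := mul_mem (inv_mem (le_N S (PS hp))) gN
    have ct : p⁻¹ * g * t = t * (p⁻¹ * g) := by
      calc _ = p⁻¹ * (g * t * g⁻¹) * g := by group
        _ = _ := by rw [e]; group
    have key : p⁻¹ * g ∈ S := by
      generalize p⁻¹ * g = c at cN ct
      have zc : ∀ y ∈ S, c * z * c⁻¹ * y = y * (c * z * c⁻¹) := fun y hy => by
        have := mem_C1.1 (Sz (conj_mem_of_mem_N (inv_mem cN) hy))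
        calc _ = c * (z * (c⁻¹ * y * c⁻¹⁻¹)) * c⁻¹ := by group
          _ = _ := by rw [← this]; group
      have cz : c * z = z * c := by
        rcases h.zc (zc t tS) (zc z (PS (m1 g3))) (zc v1 (PS (m1 g2))) (zc v2 (PS (m2 g2')))
          (zc b (PS (m1 g4))) with e | e
        · exact (h.z1 (cj1 (c := c⁻¹) (by simpa using e))).elim
        · exact mul_inv_eq_iff_eq_mul.1 e
      obtain ⟨d, hd, e⟩ := h.hT c ct cz
      have dS : d ∈ S := PS (by
        rcases hd with rfl | rfl | rfl | rfl | rfl | rfl | rfl | rfl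
        · exact one_mem _
        · exact m1 g3
        · exact m1 g2
        · exact mul_mem (m1 g2) (m1 g3)
        · exact m2 g2'
        · exact mul_mem (m2 g2') (m1 g3)
        · exact mul_mem (m1 g2) (m2 g2')
        · exact mul_mem (m2 g2') (m1 g2))
      rcases e with rfl | rfl
      · exact dS
      · exact mul_mem dS tS
    exact gS (by simpa using mul_mem (PS hp) key)
  obtain ⟨g, hg⟩ := thompson_transfer' syl PS (relIndex_eq_two_iff.2 ⟨t, tS, fun y hy => by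
    rcases mS y hy with e | e
    · exact .inr ⟨e, fun e' => tP' (by simpa using mul_mem (inv_mem e) e')⟩
    · exact .inl ⟨e, fun e' => tP' (by simpa using mul_mem (inv_mem e') e)⟩⟩) simp h.tt
  exact noT _ hg g rfl

end CfsgM11
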