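import Cfsg.Agent.H1.ME3

set_option autoImplicit false
set_option linter.unusedSectionVars false
set_option linter.unusedSimpArgs false
set_option maxHeartbeats 800000

/-! S3717: case E2 of `C(t) = 2 × L₂(7)`, the theorem. -/

namespace CfsgM11

open Subgroup CfsgH5 CfsgH6 CfsgFT

variable {G : Type*} [Group G] [Finite G] {t z v1 v2 b b1 b2 v : G}

theorem E2Q.mkB (h : E2Q t z v1 v2 b) {c : G} (ct : c * t = t * c) (cz : c * z * c⁻¹ = v1)
    (cv : c * v1 * c⁻¹ = z * v1) : E2B t z v1 (c * b * c⁻¹) := by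
  have a1 : c * b * c⁻¹ * v1 = v1 * (c * b * c⁻¹) := by
    conv_lhs => rw [← cz]
    conv_rhs => rw [← cz]
    exact comm_conj' h.zb.symm c
  have a2 : c * b * c⁻¹ * (z * v1) = z * v1 * (c * b * c⁻¹) := cv ▸ comm_conj' h.v1b.symm c
  refine ⟨sq_conj h.bb c, ?_, a1, ?_⟩
  · rw [← mul_assoc, mul_assoc z, ← a1, ← mul_assoc] at a2
    exact mul_right_cancel a2
  · have e : c⁻¹ * t = t * c⁻¹ := by
      rw [eq_mul_inv_iff_mul_eq, mul_assoc, ← ct, inv_mul_cancel_left]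
    calc c * b * c⁻¹ * t = c * (b * t) * c⁻¹ := by rw [mul_assoc, e]; group
      _ = c * t * (z * b) * c⁻¹ := by rw [h.bt, h.zb]; group
      _ = t * (c * z * c⁻¹) * (c * b * c⁻¹) := by rw [ct]; group
      _ = _ := by rw [cz]

theorem E2Q.false (h : E2Q t z v1 v2 b) (simp : ∀ N : Subgroup G, N.index ≠ 2)
    (ncl : ∀ x, x * t * x⁻¹ ≠ z)
    (hinv : ∀ e, e * t = t * e → e * e = 1 → e ≠ 1 → (∀ x, x * t * x⁻¹ ≠ e) →
      ∃ c, c * t = t * c ∧ c * z * c⁻¹ = e)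
    (no3 : ∀ y : G, y ^ 3 = 1 → y * z = z * y → y = 1) {c1 c2 : G}
    (ct1 : c1 * t = t * c1) (cz1 : c1 * z * c1⁻¹ = v1) (cv1 : c1 * v1 * c1⁻¹ = z * v1)
    (ct2 : c2 * t = t * c2) (cz2 : c2 * z * c2⁻¹ = v2) (cv2 : c2 * v2 * c2⁻¹ = z * v2) : False := by
  have B := h.mkB ct1 cz1 cv1
  have B2 := h.symm.mkB ct2 cz2 cv2
  have nn : ∀ {c v : G}, c * z * c⁻¹ = v → ∀ x, x * t * x⁻¹ ≠ v := fun {c v} e x e2 =>
    ncl (c⁻¹ * x) (by
      calc _ = c⁻¹ * (x * t * x⁻¹) * c := by group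
        _ = z := by rw [e2, ← e]; group)
  generalize c1 * b * c1⁻¹ = b1 at B
  generalize c2 * b * c2⁻¹ = b2 at B2
  rcases h.dich B with ⟨e0, e1⟩ | ⟨e0, e1⟩ <;> rcases h.symm.dich B2 with ⟨e0', e2⟩ | ⟨e0', e2⟩
  · exact (h.mkZ B B2 e0 e1 e0' e2).false simp ncl (nn cz1) hinv
  · exact h.mixed B B2 (nn cz1) e0 e1 e2
  · exact h.symm.mixed B2 B (nn cz2) e0' e2 e1
  · obtain ⟨n, hn⟩ := h.oneone B B2 e0 e1 e0' e2
    have c : Commute (b1 * b2) z := by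
      show _ = _
      rw [mul_assoc, B2.bz, ← mul_assoc, B.bz, mul_assoc]
    have := no3 ((b1 * b2) ^ n) (by rw [← pow_mul, mul_comm, ← hn, pow_orderOf_eq_one]) (c.pow_left n)
    have h1 := Nat.le_of_dvd (by have := orderOf_pos (b1 * b2); omega) (orderOf_dvd_of_pow_eq_one this)
    have := orderOf_pos (b1 * b2)
    omega

theorem E2 (simp : ∀ N : Subgroup G, N.index ≠ 2) {t z v1 v2 w c1 c2 : G} (tt : t * t = 1)
    (zz : z * z = 1) (z1 : z ≠ 1) (v11 : v1 * v1 = 1) (v22 : v2 * v2 = 1)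
    (vz : v1 * v2 * v1 * v2 = z) (tv1 : t * v1 = v1 * t) (tv2 : t * v2 = v2 * t)
    (hT : ∀ y, y * t = t * y → y * z = z * y →
      ∃ d ∈ [1, z, v1, v1 * z, v2, v2 * z, v1 * v2, v2 * v1], y = d ∨ y = d * t)
    (ncl : ∀ x, x * t * x⁻¹ ≠ z)
    (hinv : ∀ e, e * t = t * e → e * e = 1 → e ≠ 1 → (∀ x, x * t * x⁻¹ ≠ e) →
      ∃ c, c * t = t * c ∧ c * z * c⁻¹ = e)
    (no3 : ∀ y : G, y ^ 3 = 1 → y * z = z * y → y = 1)
    (ct1 : c1 * t = t * c1) (cz1 : c1 * z * c1⁻¹ = v1) (cv1 : c1 * v1 * c1⁻¹ = z * v1)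
    (ct2 : c2 * t = t * c2) (cz2 : c2 * z * c2⁻¹ = v2) (cv2 : c2 * v2 * c2⁻¹ = z * v2)
    (wtw : w * t * w⁻¹ = z * t) (wz : w * z = z * w)
    (wv1 : w * v1 * w⁻¹ = v1 ∨ w * v1 * w⁻¹ = v1 * z) (wv2 : w * v2 * w⁻¹ = v2 ∨ w * v2 * w⁻¹ = v2 * z) :
    False := by
  have hT' : ∀ y, y * t = t * y → y * z = z * y → ∃ d, (d = 1 ∨ d = z ∨ d = v1 ∨ d = v1 * z ∨ d = v2 ∨
      d = v2 * z ∨ d = v1 * v2 ∨ d = v2 * v1) ∧ (y = d ∨ y = d * t) := fun y h1 h2 => by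
    obtain ⟨d, hd, e⟩ := hT y h1 h2
    exact ⟨d, by simpa using hd, e⟩
  have vz' : v2 * v1 * v2 * v1 = z := by
    rw [← inv_of_sq zz, ← vz]; simp only [mul_inv_rev, inv_of_sq v11, inv_of_sq v22, mul_assoc]
  have zv1 : z * v1 = v1 * z := by
    conv_lhs => rw [← vz']
    conv_rhs => rw [← vz]
    simp only [mul_assoc, v11, mul_one, mul_sq_l v11]
  have zv2 : z * v2 = v2 * z := by
    conv_lhs => rw [← vz]
    conv_rhs => rw [← vz']
    simp only [mul_assoc, v22, mul_one, mul_sq_l v22]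
  have zt : z * t = t * z := by
    rw [← vz]; simp only [mul_assoc, ← tv1, ← tv2, (e2ct tv1.symm).2, (e2ct tv2.symm).2]
  have v21 : v2 * v1 = v1 * v2 * z := by
    rw [← vz']; simp only [mul_assoc, mul_sq_l v11, mul_sq_l v22]
  have R := And.intro (e2sq tt) <| And.intro (e2sq zz) <| And.intro (e2sq v11) <| And.intro (e2sq v22) <|
    And.intro (e2ct zt) <| And.intro (e2ct zv1) <| And.intro (e2ct zv2) <| And.intro (e2ct v21) <|
    And.intro (e2ct tv1.symm) (e2ct tv2.symm)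
  have wt : w * t = t * z * w := by rw [← zt, ← wtw]; group
  obtain ⟨β, b1, b2, b3, b4⟩ : ∃ β, β * t = t * z * β ∧ β * z = z * β ∧ β * v1 = v1 * β ∧
      β * v2 = v2 * β := by
    have f1 := e2ct wt
    have f2 := e2ct wz
    rcases wv1 with e1 | e1 <;> rcases wv2 with e2 | e2 <;>
      have f3 := e2ct (mul_inv_eq_iff_eq_mul.1 e1) <;> have f4 := e2ct (mul_inv_eq_iff_eq_mul.1 e2)
    · exact ⟨w, wt, wz, f3.1, f4.1⟩
    · refine ⟨v1 * w, ?_, ?_, ?_, ?_⟩ <;> simp only [mul_assoc, R, f1, f2, f3, f4, mul_one]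
    · refine ⟨v2 * w, ?_, ?_, ?_, ?_⟩ <;> simp only [mul_assoc, R, f1, f2, f3, f4, mul_one]
    · refine ⟨v1 * v2 * w, ?_, ?_, ?_, ?_⟩ <;> simp only [mul_assoc, R, f1, f2, f3, f4, mul_one]
  have f1 := e2ct b1
  have f2 := e2ct b2
  have f3 := e2ct b3
  have f4 := e2ct b4
  have mk : ∀ b, b * b = 1 → b * t = t * z * b → b * z = z * b → b * v1 = v1 * b → b * v2 = v2 * b →
      False := fun b bb a1 a2 a3 a4 =>
    E2Q.false ⟨tt, zz, z1, v11, v22, bb, zt, a2.symm, zv1, zv2, v21, tv1.symm, tv2.symm, a3.symm,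
      a4.symm, by rw [a1, mul_assoc, ← a2, mul_assoc], hT'⟩ simp ncl hinv no3 ct1 cz1 cv1 ct2 cz2 cv2
  have zne : ∀ {x y : G}, x = y → x⁻¹ * y = z → False := fun e e2 => z1 (by rw [← e2, e, inv_mul_cancel])
  obtain ⟨d, hd, e⟩ := hT' (β * β) (by simp only [mul_assoc, R, f1, f2, mul_one])
    (by simp only [mul_assoc, f2])
  have q1 : β * β * v1 = v1 * (β * β) := by simp only [mul_assoc, f3]
  have q2 : β * β * v2 = v2 * (β * β) := by simp only [mul_assoc, f4]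
  have q3 : β * β * β = β * (β * β) := mul_assoc ..
  rcases e with e | e <;> rw [e] at q1 q2 q3 <;>
    rcases hd with rfl | rfl | rfl | rfl | rfl | rfl | rfl | rfl
  · exact mk β e b1 b2 b3 b4
  · refine mk (t * β) ?_ ?_ ?_ ?_ ?_ <;> simp only [mul_assoc, R, f1, f2, f3, f4, e, mul_one]
  iterate 6
    focus first
      | (refine zne q1 ?_; simp only [mul_assoc, mul_inv_rev, R, mul_one]; done)
      | (refine zne q2 ?_; simp only [mul_assoc, mul_inv_rev, R, mul_one]; done)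
  · rw [one_mul, b1, mul_left_inj] at q3
    exact z1 (left_eq_mul.1 q3)
  · rw [← mul_assoc, b2, mul_assoc, mul_assoc, b1, mul_right_inj, mul_left_inj] at q3
    exact z1 (left_eq_mul.1 q3)
  iterate 6
    focus first
      | (refine zne q1 ?_; simp only [mul_assoc, mul_inv_rev, R, mul_one]; done)
      | (refine zne q2 ?_; simp only [mul_assoc, mul_inv_rev, R, mul_one]; done)

end CfsgM11
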