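import Cfsg.Agent.H1.Q4L0

set_option autoImplicit false
set_option linter.unusedSectionVars false

/-! Levels with blocks of size four. -/

namespace CfsgH1.Q4

open MulAction Subgroup CfsgH5 CfsgH6 CfsgFT

universe u

variable {G : Type u} {Ω : Type*} [Group G] [Finite G] [MulAction G Ω] [Finite Ω]

theorem exists_comm_eq {D : Subgroup G} {a : G} (hn : a ∈ N D) (hf : ∀ x ∈ D, Commute a x → x = 1)
    {y : G} (hy : y ∈ D) : ∃ x ∈ D, x⁻¹ * (a * x * a⁻¹) = y := by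
  obtain ⟨x, hx⟩ := Finite.injective_iff_surjective.1 (show Function.Injective
    (fun x : D => (⟨(x : G)⁻¹ * (a * x * a⁻¹), mul_mem (inv_mem x.2) (conj_mem_of_mem_N hn x.2)⟩ : D)) from
    fun x z e => by
      have e' : (x : G)⁻¹ * (a * x * a⁻¹) = (z : G)⁻¹ * (a * z * a⁻¹) := congrArg Subtype.val e
      have := hf (z * (x : G)⁻¹) (mul_mem z.2 (inv_mem x.2)) (by
        show a * (z * (x : G)⁻¹) = z * (x : G)⁻¹ * a
        calc a * (z * (x : G)⁻¹) = z * ((z : G)⁻¹ * (a * z * a⁻¹)) * (a * (x : G)⁻¹) := by group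
          _ = _ := by rw [← e']; group)
      exact Subtype.ext (mul_inv_eq_one.1 this).symm) ⟨y, hy⟩
  exact ⟨x, x.2, congrArg Subtype.val hx⟩

theorem inv_of_fpf {D : Subgroup G} {a : G} (ha : a * a = 1) (hn : a ∈ N D)
    (hf : ∀ x ∈ D, Commute a x → x = 1) {y : G} (hy : y ∈ D) : a * y * a⁻¹ = y⁻¹ := by
  obtain ⟨x, -, rfl⟩ := exists_comm_eq hn hf hy
  have := inv_eq_of_invol ha
  calc a * (x⁻¹ * (a * x * a⁻¹)) * a⁻¹ = a * x⁻¹ * (a * x * (a * a)⁻¹) := by group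
    _ = _ := by rw [ha]; simp [mul_assoc, this]

theorem comm_of_inv {a b y : G} (h1 : a * y * a⁻¹ = y⁻¹) (h2 : b * y * b⁻¹ = y⁻¹) : Commute (a * b) y := by
  have h3 : a * y⁻¹ * a⁻¹ = y := by
    have := congrArg Inv.inv h1
    simpa [mul_assoc] using this
  show a * b * y = y * (a * b)
  calc a * b * y = a * (b * y * b⁻¹) * a⁻¹ * (a * b) := by group
    _ = _ := by rw [h2, h3]

theorem eq_one_of_odd {D : Subgroup G} (hD : ¬ 2 ∣ Nat.card D) {r : G} (hr : r ∈ D) (h : r * r = 1) :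
    r = 1 := by
  by_contra e
  exact hD (orderOf_invol h e ▸ orderOf_dvd_card' hr)

theorem isPGroup_of_Opc {K : Subgroup G} (hK : Group.IsNilpotent K) (h : Opc 2 K = ⊥) : IsPGroup 2 K := by
  have := (dp_Op_of_nilpotent Nat.prime_two hK).sup
  rw [h, sup_bot_eq] at this
  exact this ▸ isPGroup_Op' Nat.prime_two K

theorem eq_one_of_two_three {K : Subgroup G} (hK : IsPGroup 2 K) {g : G} (hg : g ∈ K) (h : g ^ 3 = 1) :
    g = 1 :=
  eq_one_of_coprime_of_mem hK hg (Nat.Coprime.coprime_dvd_left (orderOf_dvd_of_pow_eq_one h) (by decide))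

/-- an involution fixing exactly two points of a `4`-set it preserves swaps the other two -/
theorem swap_of {w : G} {a b c d : Ω} (h : D4 a b c d)
    (hm : ∀ x ∈ ({a, b, c, d} : Set Ω), w • x ∈ ({a, b, c, d} : Set Ω)) (ha : w • a = a) (hb : w • b = b)
    (hc : w • c ≠ c) : w • c = d := by
  rcases hm c (by simp) with e | e | e | e
  · exact absurd (MulAction.injective w (e.trans ha.symm)) h.2.1.symm
  · exact absurd (MulAction.injective w (e.trans hb.symm)) h.2.2.2.1.symm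
  · exact absurd e hc
  · exact e

/-- `τ` is a `3`-cycle with support `S` -/
def Cyc (τ : G) (S : Set Ω) : Prop := τ ^ 3 = 1 ∧ Fx Ω τ = Sᶜ ∧ S.ncard = 3

theorem Cyc.conj {τ : G} {S : Set Ω} (h : Cyc τ S) (g : G) : Cyc (g * τ * g⁻¹) ((g • ·) '' S) :=
  ⟨by rw [conj_pow, h.1]; simp, by
    rw [Fx_conj, h.2.1, Set.image_compl_eq (MulAction.bijective g)], by rw [ncard_smul, h.2.2]⟩

theorem Cyc.maps {τ : G} {S : Set Ω} (h : Cyc τ S) : ∀ x ∈ S, τ • x ∈ S := fun x hx => by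
  by_contra e
  have : τ • τ • x = τ • x := (h.2.1 ▸ e : τ • x ∈ Fx Ω τ)
  exact (h.2.1 ▸ MulAction.injective τ this : x ∈ Sᶜ) hx

theorem Cyc.trans {τ : G} {S : Set Ω} (h : Cyc τ S) {x y : Ω} (hx : x ∈ S) (hy : y ∈ S) :
    ∃ n : ℕ, τ ^ n • x = y := by
  have k : ∀ z ∈ S, τ • z ≠ z := fun z hz e => (h.2.1 ▸ e : z ∈ Sᶜ) hz
  have e := eq_triple hx (h.maps x hx) (h.maps _ (h.maps x hx)) (k x hx).symm (fun e => k x hx (by
    have := congrArg (τ • ·) e
    simp only [← mul_smul] at this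
    rwa [← pow_three, h.1, one_smul] at this)) (k _ (h.maps x hx)).symm h.2.2.le
  rcases e ▸ hy with e | e | e
  exacts [⟨0, by simp [e]⟩, ⟨1, by simp [e]⟩, ⟨2, by rw [pow_two, mul_smul]; exact e.symm⟩]

namespace Lv

variable {L : Lv G Ω} {B : Set Ω} {u : G} {x : Ω} (hk : L.k = 4)
include hk

theorem bl4 (hB : B.ncard = 4) : L.bl B = B :=
  (Set.eq_of_subset_of_ncard_le (L.sub hB) (by rw [L.card_bl hB, hk, hB])).symm

theorem w4 {a b c d : Ω} (hd : D4 a b c d) (h : L.Cf {a, b, c, d} u x) :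
    ∃ w ∈ L.K {a, b, x, u • x}, w * w = 1 ∧ Commute u w ∧ Fx Ω w = {a, b, x, u • x} ∧ w • c = d := by
  have e := bl4 hk h.hB
  have ha : a ∈ L.bl {a, b, c, d} := by rw [e]; simp
  have hb : b ∈ L.bl {a, b, c, d} := by rw [e]; simp
  obtain ⟨w, h1, h2, h3, h4⟩ := h.exists_w ha hb hd.1
  have h5 := (L.Fx_eq (h.d4 ha hb hd.1).ncard h1 h3).trans (bl4 hk (h.d4 ha hb hd.1).ncard)
  refine ⟨w, h1, h2, h4, h5, swap_of hd (e ▸ h.maps h4.symm) (L.fix h1 (h.a_mem ha hb hd.1))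
    (L.fix h1 (h.b_mem ha hb hd.1)) fun e' => ?_⟩
  have hc : c ∈ L.bl {a, b, c, d} := by rw [e]; simp
  rcases (h5 ▸ e' : c ∈ ({a, b, x, u • x} : Set Ω)) with e | e | e | e
  exacts [hd.2.1 e.symm, hd.2.2.2.1 e.symm, h.out (e ▸ hc), h.out' (e ▸ hc)]

theorem two4 (hB : B.ncard = 4) : IsPGroup 2 (L.K B) := by
  obtain ⟨u, x, h⟩ := L.exists_Cf hB
  obtain ⟨a, b, c, d, hd, rfl⟩ := exists_D4 hB
  have e := bl4 hk hB
  refine isPGroup_of_Opc (L.nilp hB) ?_
  set O := Opc 2 (L.K {a, b, c, d})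
  have hO : ¬ 2 ∣ Nat.card O := not_dvd_card_Opc Nat.prime_two _
  have k : ∀ {a' b' w}, a' ∈ ({a, b, c, d} : Set Ω) → b' ∈ ({a, b, c, d} : Set Ω) → w * w = 1 → Commute u w →
      Fx Ω w = {a', b', x, u • x} → ∀ r ∈ O, w * r * w⁻¹ = r⁻¹ := fun {a' b' w} ha hb h1 h2 h3 r hr => by
    refine inv_of_fpf h1 (((nrm_N _).Opi _).le_N (L.mem_N_of_comm hB h.mem h.ne h2.symm)) ?_ hr
    intro s hs hc
    have hs' := Opi_le _ _ hs
    have h4 : s • x ∈ Fx Ω w := smul_mem_Fx hc.symm (by rw [h3]; simp)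
    have h5 : s • u • x ∈ Fx Ω w := smul_mem_Fx hc.symm (by rw [h3]; simp)
    have h6 : ∀ y ∈ ({a, b, c, d} : Set Ω), ∀ z, z ∉ L.bl {a, b, c, d} → s • z ≠ y := fun y hy z hz e' =>
      maps_compl (fun t ht => by rw [L.fix hs' ht]; exact ht) z hz (by rw [e', e]; exact hy)
    refine eq_one_of_odd hO hs (L.eq_one hB (mul_mem hs' hs') h.out ?_)
    rw [h3] at h4 h5
    rcases h4 with e4 | e4 | e4 | e4
    · exact absurd e4 (h6 _ ha _ h.out)
    · exact absurd e4 (h6 _ hb _ h.out)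
    · rw [mul_smul, e4, e4]
    rcases h5 with e5 | e5 | e5 | e5
    · exact absurd e5 (h6 _ ha _ h.out')
    · exact absurd e5 (h6 _ hb _ h.out')
    · rw [mul_smul, e4, e5]
    · exact absurd (MulAction.injective s (e4.trans (show s • u • x = u • x from e5).symm)) h.ne_x
  have hd' : D4 c d a b := ⟨hd.2.2.2.2.2, hd.2.1.symm, hd.2.2.2.1.symm, hd.2.2.1.symm, hd.2.2.2.2.1.symm, hd.1⟩
  have e' : ({c, d, a, b} : Set Ω) = {a, b, c, d} := by ext; simp; tauto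
  obtain ⟨w, w1, w2, w3, w4', w5⟩ := w4 hk hd h
  obtain ⟨v, v1, v2, v3, v4, v5⟩ := w4 hk hd' (e'.symm ▸ h)
  have wa : w • a = a := (w4' ▸ by simp : a ∈ Fx Ω w)
  have wb : w • b = b := (w4' ▸ by simp : b ∈ Fx Ω w)
  have wx : w • x = x := (w4' ▸ by simp : x ∈ Fx Ω w)
  have vc : v • c = c := (v4 ▸ by simp : c ∈ Fx Ω v)
  have vd : v • d = d := (v4 ▸ by simp : d ∈ Fx Ω v)
  have vx : v • x = x := (v4 ▸ by simp : x ∈ Fx Ω v)
  have wd : w • d = c := by rw [← w5, invol_smul w2]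
  have vb : v • b = a := by rw [← v5, invol_smul v2]
  have cu : Commute (w * v) u := w3.symm.mul_left v3.symm
  have tx : (w * v) • x = x := by rw [mul_smul, vx, wx]
  have t2 : w * v * (w * v) = 1 := h.eq_one (cu.mul_left cu) (by rw [mul_smul, tx, tx]) (by
    rw [e]
    exact hd.le_ncard ⟨by simp, by simp [mem_Fx, mul_smul, *]⟩ ⟨by simp, by simp [mem_Fx, mul_smul, *]⟩
      ⟨by simp, by simp [mem_Fx, mul_smul, *]⟩ ⟨by simp, by simp [mem_Fx, mul_smul, *]⟩)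
  have dis : ∀ y ∈ Fx Ω (w * v), y ∉ L.bl {a, b, c, d} := fun y hy hy' => by
    rw [e] at hy'
    rw [mem_Fx, mul_smul] at hy
    rcases hy' with rfl | rfl | rfl | rfl
    · exact hd.1 (by rw [v5, wb] at hy; exact hy.symm)
    · exact hd.1 (by rw [vb, wa] at hy; exact hy)
    · exact hd.2.2.2.2.2 (by rw [vc, w5] at hy; exact hy.symm)
    · exact hd.2.2.2.2.2 (by rw [vd, wd] at hy; exact hy)
  have dv := card_dvd_of_free (E := O) (S := Fx Ω (w * v)) (fun r hr _ => smul_mem_Fx (comm_of_inv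
    (k (by simp) (by simp) w2 w3 w4' r hr) (k (by simp) (by simp) v2 v3 v4 r hr)).symm)
    fun r hr y hy => L.eq_one hB (Opi_le _ _ hr) (dis y hy)
  have p2 := ncard_modEq2 (fun _ => smul_mem_Fx cu.symm) h.sq (S := Fx Ω (w * v))
  rw [h.Fx_eq, Set.eq_empty_of_forall_notMem (s := Fx Ω (w * v) ∩ _) fun y hy => dis y hy.1 hy.2,
    Set.ncard_empty] at p2
  have p3 := two_le_ncard (S := Fx Ω (w * v)) tx (h.fix_y cu tx) h.ne_x
  have p4 : (Fx Ω (w * v)).ncard ≤ 4 := by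
    by_contra H
    obtain ⟨D, d1, d2⟩ := exists_four (F := Fx Ω (w * v)) (by omega)
    rw [L.Fx_eq d2 (L.mem_invol d2 t2 d1) (fun e'' => dis a (by rw [e'']; exact one_smul _ _)
      (by rw [e]; simp)), L.card_bl d2] at H
    omega
  refine card_eq_one_iff.1 (Nat.Coprime.eq_one_of_dvd (m := 4) ?_ ?_)
  · exact Nat.Coprime.pow_right 2 ((Nat.prime_two.coprime_iff_not_dvd).2 hO).symm
  · obtain e4 | e4 : (Fx Ω (w * v)).ncard = 2 ∨ (Fx Ω (w * v)).ncard = 4 := by omega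
    · exact (e4 ▸ dv).trans (by decide)
    · exact e4 ▸ dv

theorem card_compl (hB : B.ncard = 4) : Bᶜ.ncard + 4 = Nat.card Ω := by
  rw [← hB, add_comm, Set.ncard_add_ncard_compl]

theorem maps4 (hB : B.ncard = 4) {g : G} (hg : g ∈ L.K B) : ∀ y ∈ Bᶜ, g • y ∈ Bᶜ :=
  maps_compl fun y hy => by rw [L.le_St hB hg y hy]; exact hy

theorem free4 (hB : B.ncard = 4) : ∀ g ∈ L.K B, ∀ y ∈ Bᶜ, g • y = y → g = 1 :=
  fun _ hg _ hy => L.eq_one hB hg ((bl4 hk hB).symm ▸ hy)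

theorem dvd4 (hB : B.ncard = 4) : Nat.card (L.K B) ∣ Bᶜ.ncard :=
  card_dvd_of_free (fun _ hg => maps4 hk hB hg) (free4 hk hB)

theorem two_dvd4 (hB : B.ncard = 4) : 2 ∣ Nat.card (L.K B) :=
  let ⟨_, h1, h2⟩ := L.inv hB
  h2 ▸ orderOf_dvd_card' h1

/-- the coset count -/
theorem coset4 {a b c d : Ω} (hd : D4 a b c d) (h : L.Cf {a, b, c, d} u x) {w : G} (w2 : w * w = 1)
    (w3 : Commute u w) (wa : w • a = a) (wb : w • b = b) (w5 : w • c = d) :
    ({a, b, c, d} : Set Ω)ᶜ.ncard ≤ Nat.card (L.K {a, b, c, d}) ∨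
      (({a, b, c, d} : Set Ω)ᶜ.ncard = 2 * Nat.card (L.K {a, b, c, d}) ∧
        ∀ p ∈ L.K {a, b, c, d}, w * p * w⁻¹ = p⁻¹) := by
  classical
  have e := bl4 hk h.hB
  have k : ∀ y : Ω, ∃ v : G, y ∉ ({a, b, c, d} : Set Ω) →
      v * v = 1 ∧ Fx Ω v = {a, b, y, u • y} ∧ v * w ∈ L.K {a, b, c, d} := fun y => by
    by_cases hy : y ∈ ({a, b, c, d} : Set Ω)
    · exact ⟨1, fun h => absurd hy h⟩
    obtain ⟨v, -, v2, v3, v4, v5⟩ := w4 hk hd (h.other (y := y) (e.symm ▸ hy))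
    have va : v • a = a := (v4 ▸ by simp : a ∈ Fx Ω v)
    have vb : v • b = b := (v4 ▸ by simp : b ∈ Fx Ω v)
    have wd : w • d = c := by rw [← w5, invol_smul w2]
    have vd : v • d = c := by rw [← v5, invol_smul v2]
    exact ⟨v, fun _ => ⟨v2, v4, L.cen h.hB h.mem h.ne (mem_St4.2 (by simp [mul_smul, *]))
      (v3.symm.mul_left w3.symm)⟩⟩
  choose v hv using k
  haveI := Fintype.ofFinite Ω
  haveI := Fintype.ofFinite G
  let S : Finset Ω := Finset.univ.filter (· ∉ ({a, b, c, d} : Set Ω))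
  have hS : S.card = ({a, b, c, d} : Set Ω)ᶜ.ncard := by
    rw [← Set.ncard_coe_finset]; congr 1; ext y; simp [S]
  have h1 := Finset.card_le_mul_card_image (f := fun y => v y * w) S 2 fun p hp => by
    obtain ⟨y, hy, rfl⟩ := Finset.mem_image.1 hp
    have hy' := (Finset.mem_filter.1 hy).2
    refine (Finset.card_le_card (t := {y, u • y}) fun z hz => ?_).trans Finset.card_le_two
    obtain ⟨z1, z2⟩ := Finset.mem_filter.1 hz
    have z3 := (Finset.mem_filter.1 z1).2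
    have : z ∈ Fx Ω (v z) := by rw [(hv z z3).2.1]; simp
    rw [mul_right_cancel z2, (hv y hy').2.1] at this
    rcases this with rfl | rfl | rfl | rfl
    exacts [absurd (by simp) z3, absurd (by simp) z3, by simp, by simp]
  have h2 : ((S.image fun y => v y * w : Finset G) : Set G) ⊆ L.K {a, b, c, d} := by
    intro p hp
    obtain ⟨y, hy, rfl⟩ := Finset.mem_image.1 (Finset.mem_coe.1 hp)
    exact (hv y (Finset.mem_filter.1 hy).2).2.2
  have h3 := Set.ncard_le_ncard h2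
  have h4 : (L.K {a, b, c, d} : Set G).ncard = Nat.card (L.K {a, b, c, d}) := rfl
  rw [Set.ncard_coe_finset, h4] at h3
  obtain ⟨j, hj⟩ := dvd4 hk h.hB
  have h5 := card_pos (L.K {a, b, c, d})
  by_cases hj1 : j ≤ 1
  · exact .inl (by nlinarith)
  have h6 : ({a, b, c, d} : Set Ω)ᶜ.ncard = 2 * Nat.card (L.K {a, b, c, d}) := by nlinarith
  refine .inr ⟨h6, fun p hp => ?_⟩
  rw [← SetLike.mem_coe, ← Set.eq_of_subset_of_ncard_le h2 (by
    rw [Set.ncard_coe_finset, h4]; omega)] at hp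
  obtain ⟨y, hy, rfl⟩ := Finset.mem_image.1 (Finset.mem_coe.1 hp)
  rw [mul_inv_rev, inv_eq_of_invol (hv y (Finset.mem_filter.1 hy).2).1, inv_eq_of_invol w2, mul_assoc,
    mul_assoc, w2, mul_one]

theorem cyc_step (h8 : Nat.card Ω = 8) {τ : G} {S : Set Ω} (h : Cyc τ S) {s t : Ω} (hs : s ∈ S)
    (ht : t ∉ S) : ∃ τ' : G, Cyc τ' (insert t S \ {s}) := by
  have c4 : (insert t S).ncard = 4 := by rw [Set.ncard_insert_of_notMem ht, h.2.2]
  have hB : (insert t S)ᶜ.ncard = 4 := by have := card_compl hk c4; omega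
  obtain ⟨v, v1, -, v2⟩ := L.exists_inv hB
  have m : ∀ y ∈ insert t S, v • y ∈ insert t S := by simpa using maps4 hk hB v1
  obtain ⟨n, hn⟩ := h.trans ((m t (by simp)).resolve_left fun e =>
    v2 (free4 hk hB v v1 t (by simp) e)) hs
  have τt : τ • t = t := (h.2.1 ▸ ht : t ∈ Fx Ω τ)
  have m' : ∀ y ∈ insert t S, τ • y ∈ insert t S := by
    rintro y (rfl | hy)
    exacts [.inl τt, .inr (h.maps y hy)]
  have m'' : ∀ y ∈ insert t S, τ ^ n • y ∈ insert t S := fun y hy => by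
    clear hn
    induction n with
    | zero => simpa using hy
    | succ n ih => rw [pow_succ', mul_smul]; exact m' _ ih
  refine ⟨_, (show ((τ ^ n * v) • ·) '' S = insert t S \ {s} from ?_) ▸ h.conj (τ ^ n * v)⟩
  have e := image_eq_of_maps (g := τ ^ n * v) (S := insert t S) fun y hy => by
    rw [mul_smul]; exact m'' _ (m y hy)
  rw [← e, ← hn, ← mul_smul, ← Set.image_singleton (f := ((τ ^ n * v) • ·)),
    ← Set.image_diff (MulAction.injective _), Set.insert_diff_self_of_notMem ht]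

theorem reg4 (hB : B.ncard = 4) : Bᶜ.ncard ≤ Nat.card (L.K B) := by
  obtain ⟨u, x, h⟩ := L.exists_Cf hB
  obtain ⟨a, b, c, d, hd, rfl⟩ := exists_D4 hB
  have e := bl4 hk hB
  have hd' : D4 a c b d := ⟨hd.2.1, hd.1, hd.2.2.1, hd.2.2.2.1.symm, hd.2.2.2.2.2, hd.2.2.2.2.1⟩
  have e' : ({a, c, b, d} : Set Ω) = {a, b, c, d} := by ext; simp; tauto
  obtain ⟨w, w1, w2, w3, w4', w5⟩ := w4 hk hd h
  obtain ⟨v, v1, v2, v3, v4, v5⟩ := w4 hk hd' (e'.symm ▸ h)
  have wa : w • a = a := (w4' ▸ by simp : a ∈ Fx Ω w)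
  have wb : w • b = b := (w4' ▸ by simp : b ∈ Fx Ω w)
  have wx : w • x = x := (w4' ▸ by simp : x ∈ Fx Ω w)
  have va : v • a = a := (v4 ▸ by simp : a ∈ Fx Ω v)
  have vc : v • c = c := (v4 ▸ by simp : c ∈ Fx Ω v)
  have vx : v • x = x := (v4 ▸ by simp : x ∈ Fx Ω v)
  have wd : w • d = c := by rw [← w5, invol_smul w2]
  have vd : v • d = b := by rw [← v5, invol_smul v2]
  refine (coset4 hk hd h w2 w3 wa wb w5).elim id fun ⟨c2, iw⟩ => ?_
  have H := coset4 hk hd' (e'.symm ▸ h) v2 v3 va vc v5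
  rw [e'] at H
  refine H.elim id fun ⟨_, iv⟩ => False.elim ?_
  have cu : Commute (w * v) u := w3.symm.mul_left v3.symm
  have tx : (w * v) • x = x := by rw [mul_smul, vx, wx]
  have t3 : (w * v) ^ 3 = 1 := h.eq_one (cu.pow_left 3) (Fx_le_pow _ 3 tx) (by
    rw [e]
    exact hd.le_ncard ⟨by simp, by simp [mem_Fx, pow_three, mul_smul, *]⟩
      ⟨by simp, by simp [mem_Fx, pow_three, mul_smul, *]⟩
      ⟨by simp, by simp [mem_Fx, pow_three, mul_smul, *]⟩ ⟨by simp, by simp [mem_Fx, pow_three, mul_smul, *]⟩)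
  set ρ := w * v with hρ
  have K2 := two4 hk hB
  have f1 : ({a, b, c, d} : Set Ω)ᶜ ∩ Fx Ω ρ = ({a, b, c, d} : Set Ω)ᶜ := by
    refine Set.eq_of_subset_of_ncard_le Set.inter_subset_left ?_
    obtain ⟨j, hj⟩ := card_dvd_of_free (E := L.K {a, b, c, d}) (S := ({a, b, c, d} : Set Ω)ᶜ ∩ Fx Ω ρ)
      (fun p hp y hy => ⟨maps4 hk hB hp y hy.1, smul_mem_Fx (comm_of_inv (iw p hp) (iv p hp)).symm hy.2⟩)
      fun p hp y hy => free4 hk hB p hp y hy.1
    have m := ncard_modEq1 Nat.prime_three (maps_compl (e ▸ h.maps cu)) t3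
    have p := (Set.ncard_pos (s := ({a, b, c, d} : Set Ω)ᶜ ∩ Fx Ω ρ)).2 ⟨x, e ▸ h.out, tx⟩
    have n3 : ¬ 3 ∣ Nat.card (L.K {a, b, c, d}) := fun h3 => by
      obtain ⟨g, g1, g2⟩ := exists_mem_orderOf_eq Nat.prime_three h3
      rw [eq_one_of_two_three K2 g1 (g2 ▸ pow_orderOf_eq_one g)] at g2
      simp at g2
    change ({a, b, c, d} : Set Ω)ᶜ.ncard ≡ (({a, b, c, d} : Set Ω)ᶜ ∩ Fx Ω ρ).ncard [MOD 3] at m
    rw [c2, hj] at m ⊢
    rw [hj] at p
    rcases j with _ | _ | j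
    · simp at p
    · unfold Nat.ModEq at m; omega
    · nlinarith
  have cy : Cyc ρ ({b, c, d} : Set Ω) := by
    refine ⟨t3, Set.ext fun y => ⟨fun hy => ?_, fun hy => ?_⟩,
      ncard_triple hd.2.2.2.1 hd.2.2.2.2.1 hd.2.2.2.2.2⟩
    · rw [mem_Fx, hρ, mul_smul] at hy
      rintro (rfl | rfl | rfl)
      · exact hd.2.2.2.1 (by rw [v5, wd] at hy; exact hy.symm)
      · exact hd.2.2.2.2.2 (by rw [vc, w5] at hy; exact hy.symm)
      · exact hd.2.2.2.2.1 (by rw [vd, wb] at hy; exact hy)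
    · by_cases ya : y = a
      · rw [ya, mem_Fx, hρ, mul_smul, va, wa]
      · exact (f1.ge (show y ∈ ({a, b, c, d} : Set Ω)ᶜ from fun h' => h'.elim ya hy)).2
  have c3 := card_compl hk hB
  obtain ⟨j, hj⟩ := two_dvd4 hk hB
  have c4 := card_pos (L.K {a, b, c, d})
  have c8 : Nat.card Ω = 8 := by
    obtain ⟨D, d1, d2⟩ := exists_four (F := ({a, b, c, d} : Set Ω)ᶜ) (by omega)
    obtain ⟨t, t1, t2, t4⟩ := L.exists_inv d2
    have r1 : ρ ∈ St G D := fun y hy => (f1.ge (d1 hy)).2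
    have r2 : ρ * t * ρ⁻¹ * t⁻¹ ≠ 1 := fun e'' => by
      have := eq_one_of_two_three (two4 hk d2) (L.cen d2 t1 t4 r1
        (commutatorElement_eq_one_iff_commute.1 e'')) t3
      have h5 := cy.2.1
      rw [this] at h5
      exact (h5.le (one_smul G b)) (by simp)
    have r3 : Dᶜ ⊆ {b, c, d} ∪ (t • ·) '' {b, c, d} := fun y hy => by
      by_contra H
      rw [Set.mem_union, not_or] at H
      refine r2 (free4 hk d2 _ (mul_mem (L.conj_mem_St d2 r1 t1) (inv_mem t1)) y hy ?_)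
      have a1 : ρ • y = y := cy.2.1.ge H.1
      have a2 : ρ⁻¹ • t⁻¹ • y = t⁻¹ • y := by
        rw [← mem_Fx, Fx_inv]
        exact cy.2.1.ge fun h' => H.2 ⟨_, h', smul_inv_smul t y⟩
      rw [mul_smul, mul_smul, mul_smul, a2, smul_inv_smul, a1]
    have r4 := (Set.ncard_le_ncard r3).trans (Set.ncard_union_le _ _)
    rw [ncard_smul, cy.2.2] at r4
    have := card_compl hk d2
    omega
  obtain ⟨p, q, r, s, hp, e4⟩ := exists_D4 (B := ({a, b, c, d} : Set Ω)ᶜ) (by omega)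
  have hp' : ∀ y ∈ ({p, q, r, s} : Set Ω), y ≠ b ∧ y ≠ c ∧ y ≠ d := fun y hy => by
    rw [← e4] at hy
    exact ⟨by rintro rfl; exact hy (by simp), by rintro rfl; exact hy (by simp),
      by rintro rfl; exact hy (by simp)⟩
  obtain ⟨p1, p2, p3⟩ := hp' p (by simp)
  obtain ⟨q1, q2, q3⟩ := hp' q (by simp)
  obtain ⟨r1, r2, r3⟩ := hp' r (by simp)
  obtain ⟨τ1, s1⟩ := cyc_step hk c8 cy (s := b) (t := p) (by simp) (by simp [*])
  obtain ⟨τ2, s2⟩ := cyc_step hk c8 s1 (s := c) (t := q) (by simp [hd.2.2.2.1.symm])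
    (by simp [*, hp.1.symm])
  obtain ⟨τ, s3⟩ := cyc_step hk c8 s2 (s := d) (t := r) (by simp [hd.2.2.2.2.1.symm, hd.2.2.2.2.2.symm])
    (by simp [*, hp.2.1.symm, hp.2.2.2.1.symm])
  have τ1' : τ ∈ St G ({a, b, c, d} : Set Ω) := fun y hy => s3.2.1.ge (by
    have k : ∀ z ∈ ({p, q, r, s} : Set Ω), y ≠ z := fun z hz e => (e4.ge hz) (e ▸ hy)
    have k1 := k p (by simp)
    have k2 := k q (by simp)
    have k3 := k r (by simp)
    simp only [Set.mem_compl_iff, Set.mem_diff, Set.mem_insert_iff, Set.mem_singleton_iff]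
    tauto)
  have τ2' : τ * u * τ⁻¹ = u := by
    classical
    have := L.conj_mem_St hB τ1' h.mem
    rw [eq_zpowers_of_prime_card (X := L.K {a, b, c, d}) (by
      rw [show Nat.card (L.K {a, b, c, d}) = 2 by omega]; exact Nat.prime_two) h.mem h.ne,
      mem_zpowers_iff_mem_range_orderOf, orderOf_invol h.sq h.ne] at this
    obtain ⟨i, i1, i2⟩ := Finset.mem_image.1 this
    obtain rfl | rfl : i = 0 ∨ i = 1 := by have := Finset.mem_range.1 i1; omega
    · exact absurd (by simpa using i2.symm) h.ne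
    · simpa using i2.symm
  have := eq_one_of_two_three K2 (L.cen hB h.mem h.ne τ1' (mul_inv_eq_iff_eq_mul.1 τ2')) s3.1
  have h5 := s3.2.1
  rw [this] at h5
  exact (h5.le (one_smul G r)) (by simp [r3])

theorem cardK4 (hB : B.ncard = 4) : Nat.card (L.K B) + 4 = Nat.card Ω := by
  have h1 := reg4 hk hB
  have h2 := card_compl hk hB
  have h3 := L.lt
  have h4 := Nat.le_of_dvd (by omega) (dvd4 hk hB)
  omega

theorem trans4 (hB : B.ncard = 4) {x y : Ω} (hx : x ∉ B) (hy : y ∉ B) : ∃ g ∈ L.K B, g • x = y :=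
  trans_of_free (fun _ hg => maps4 hk hB hg) (free4 hk hB) (reg4 hk hB) hx hy

theorem six_le : 6 ≤ Nat.card Ω ∧ 2 ∣ Nat.card Ω := by
  obtain ⟨B, hB⟩ := L.exists_B
  have h1 := cardK4 hk hB
  have h2 := two_dvd4 hk hB
  have h3 := card_pos (L.K B)
  omega

theorem move4 {A : Set Ω} (hA : A.ncard ≤ 4) {x y : Ω} (hx : x ∉ A) (hy : y ∉ A) :
    ∃ g ∈ St G A, g • x = y := by
  have h1 := Set.ncard_add_ncard_compl ({x, y} : Set Ω)
  have h2 : ({x, y} : Set Ω).ncard ≤ 2 := (Set.ncard_insert_le _ _).trans (by simp)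
  have h3 := (six_le hk).1
  obtain ⟨D, d1, d2, d3⟩ := Set.exists_subsuperset_card_eq (s := A) (t := {x, y}ᶜ) (n := 4)
    (by rintro z hz (rfl | rfl); exacts [hx hz, hy hz]) hA (by omega)
  obtain ⟨g, g1, g2⟩ := trans4 hk d3 (x := x) (y := y) (fun h => d2 h (by simp)) fun h => d2 h (by simp)
  exact ⟨g, St_mono d1 (L.le_St d3 g1), g2⟩

theorem T4_stab (p : Ω) : T4 (stabilizer G p) ({p}ᶜ : Set Ω) := by
  intro a b c d a' b' c' d' h h' ha hb hc hd ha' hb' hc' hd'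
  have k : ∀ {g : G} {y z : Ω}, y ≠ z → g • y ≠ g • z := fun h e => h (MulAction.injective _ e)
  obtain ⟨g1, a1, a2⟩ := move4 hk (A := {p}) (by simp) ha ha'
  have p1 : g1 • p = p := a1 p rfl
  obtain ⟨g2, b1, b2⟩ := move4 hk (A := {p, a'}) ((Set.ncard_insert_le _ _).trans (by simp)) (x := g1 • b)
    (y := b') (by rintro (e | e); exacts [k hb (e.trans p1.symm), k h.1.symm (e.trans a2.symm)])
    (by rintro (e | e); exacts [hb' e, h'.1 e.symm])
  have p2 : g2 • p = p := b1 p (by simp)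
  have q2 : g2 • a' = a' := b1 a' (by simp)
  obtain ⟨g3, c1, c2⟩ := move4 hk (A := {p, a', b'})
    ((Set.ncard_insert_le _ _).trans (by have := Set.ncard_insert_le a' {b'}; simp at this ⊢; omega))
    (x := g2 • g1 • c) (y := c') (by
      rintro (e | e | e)
      exacts [k (k hc) (e.trans (by rw [p1, p2])), k (k h.2.1.symm) (e.trans (by rw [a2, q2])),
        k (k h.2.2.2.1.symm) (e.trans b2.symm)])
    (by rintro (e | e | e); exacts [hc' e, h'.2.1 e.symm, h'.2.2.2.1 e.symm])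
  have p3 : g3 • p = p := c1 p (by simp)
  have q3 : g3 • a' = a' := c1 a' (by simp)
  have r3 : g3 • b' = b' := c1 b' (by simp)
  obtain ⟨g4, d1, d2⟩ := move4 hk (A := {p, a', b', c'})
    (D4.ncard ⟨Ne.symm ha', Ne.symm hb', Ne.symm hc', h'.1, h'.2.1, h'.2.2.2.1⟩).le
    (x := g3 • g2 • g1 • d) (y := d') (by
      rintro (e | e | e | e)
      exacts [k (k (k hd)) (e.trans (by rw [p1, p2, p3])), k (k (k h.2.2.1.symm)) (e.trans (by rw [a2, q2, q3])),
        k (k (k h.2.2.2.2.1.symm)) (e.trans (by rw [b2, r3])), k (k (k h.2.2.2.2.2.symm)) (e.trans c2.symm)])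
    (by rintro (e | e | e | e); exacts [hd' e, h'.2.2.1 e.symm, h'.2.2.2.2.1 e.symm, h'.2.2.2.2.2 e.symm])
  obtain ⟨p4, q4, r4, s4⟩ := mem_St4.1 d1
  exact ⟨g4 * g3 * g2 * g1, by simp [mul_smul, *], by simp [mul_smul, *], by simp [mul_smul, *],
    by simp [mul_smul, *], by simp [mul_smul, *]⟩

theorem hall4 (hH : HallThm G Ω) (p : Ω) : HallC (stabilizer G p) ({p}ᶜ : Set Ω) := by
  have h1 := Set.ncard_add_ncard_compl ({p} : Set Ω)
  have h3 := (six_le hk).1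
  rw [Set.ncard_singleton] at h1
  refine hH _ _ (fun g hg x hx e => hx (MulAction.injective g (e.trans hg.symm))) (T4_stab hk p) (by omega)
    fun g hg h4 => ⟨orderOf g, ?_, fun x _ => by rw [pow_orderOf_eq_one, one_smul]⟩
  obtain ⟨D, d1, d2⟩ := exists_four h4
  by_cases e : g ∈ L.K D
  · rw [free4 hk d2 g e p (fun h => (d1 h).1 rfl) hg]; simp
  · exact Nat.coprime_two_right.1 ((L.cop d2 (fun x hx => (d1 hx).2) e).coprime_dvd_right L.two_dvd)

theorem card4 (hH : HallThm G Ω) : Nat.card Ω = 6 ∨ Nat.card Ω = 8 ∨ Nat.card Ω = 12 := by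
  have h3 := six_le hk
  obtain ⟨p⟩ : Nonempty Ω := (Nat.card_pos_iff.1 (by omega)).1
  have h1 := Set.ncard_add_ncard_compl ({p} : Set Ω)
  have h2 := (hall4 hk hH p).card
  rw [Set.ncard_singleton] at h1
  omega

theorem triv4 (hH : HallThm G Ω) (h8 : Nat.card Ω ≠ 8) {g : G} (h5 : 5 ≤ (Fx Ω g).ncard) : g = 1 := by
  obtain ⟨p, hp⟩ := (Set.ncard_pos (s := Fx Ω g)).1 (by omega)
  have h1 := Set.ncard_add_ncard_compl ({p} : Set Ω)
  rw [Set.ncard_singleton] at h1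
  have h2 := (hall4 hk hH p).triv (by omega) g hp (by
    rw [Set.inter_comm, ← Set.diff_eq, Set.ncard_diff_singleton_of_mem hp]; omega)
  exact L.faith g fun x => by
    by_cases e : x = p
    exacts [e ▸ hp, h2 x e]

theorem cyc4 (hH : HallThm G Ω) (h8 : Nat.card Ω = 8) {a b c : Ω} (h1 : a ≠ b) (h2 : a ≠ c) (h3 : b ≠ c) :
    ∃ g : G, g • a = b ∧ g • b = c ∧ g • c = a ∧ ∀ x, x ≠ a → x ≠ b → x ≠ c → g • x = x := by
  obtain ⟨p, -, hp⟩ := Set.exists_mem_notMem_of_ncard_lt_ncard (s := {a, b, c}) (t := Set.univ)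
    (by rw [ncard_triple h1 h2 h3, Set.ncard_univ, h8]; omega)
  simp only [Set.mem_insert_iff, Set.mem_singleton_iff, not_or] at hp
  have h4 := Set.ncard_add_ncard_compl ({p} : Set Ω)
  rw [Set.ncard_singleton] at h4
  obtain ⟨g, g1, g2, g3, g4, g5⟩ := (hall4 hk hH p).cyc (by omega) a (Ne.symm hp.1) b (Ne.symm hp.2.1) c
    (Ne.symm hp.2.2) h1 h2 h3
  exact ⟨g, g2, g3, g4, fun x a1 a2 a3 => by
    by_cases e : x = p
    exacts [e ▸ g1, g5 x e a1 a2 a3]⟩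

end Lv

end CfsgH1.Q4
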