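import Cfsg.Agent.H1.Q4L7c
import Cfsg.Agent.H1.Q4L4

set_option autoImplicit false
set_option linter.unusedSectionVars false

/-! Frobenius four-point stabilizers with kernel of even order: blocks and complement elements. -/

namespace CfsgH1.Q4

open MulAction Subgroup CfsgH5 CfsgH6 CfsgFT

universe u

variable {G : Type u} {Ω : Type*} [Group G] [Finite G] [MulAction G Ω] [Finite Ω]

theorem comm_three {T : Set Ω} (hT : T.ncard = 3) {M : Subgroup G}
    (hm : ∀ g ∈ M, ∀ x ∈ T, g • x ∈ T) (hs : ∀ g ∈ M, ∀ t ∈ T, g • t = t → ∀ y ∈ T, g • y = y)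
    {x c : G} (hx : x ∈ M) (hc : c ∈ M) : ∀ y ∈ T, (x⁻¹ * (c * x * c⁻¹)) • y = y := by
  have key : ∀ y ∈ T, c • x • y = x • c • y := fun y hy => by
    by_cases h1 : x • y = y
    · rw [h1, hs x hx y hy h1 _ (hm c hc y hy)]
    by_cases h2 : c • y = y
    · rw [h2, hs c hc y hy h2 _ (hm x hx y hy)]
    by_cases h3 : x • y = c • y
    · have := hs (x⁻¹ * c) (M.mul_mem (M.inv_mem hx) hc) y hy (by rw [mul_smul, ← h3, inv_smul_smul])
        _ (hm x hx y hy)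
      rw [mul_smul, inv_smul_eq_iff] at this
      rw [this, h3]
    have e := eq_triple hy (hm x hx y hy) (hm c hc y hy) (Ne.symm h1) (Ne.symm h2) h3 hT.le
    have a1 : c • x • y = y := by
      have := hm c hc _ (hm x hx y hy)
      rw [e] at this
      rcases this with h | h | h
      · exact h
      · exact absurd (hs c hc _ (hm x hx y hy) h y hy) h2
      · exact absurd (smul_left_cancel c h) h1
    have a2 : x • c • y = y := by
      have := hm x hx _ (hm c hc y hy)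
      rw [e] at this
      rcases this with h | h | h
      · exact h
      · exact absurd (smul_left_cancel x h) h2
      · exact absurd (hs x hx _ (hm c hc y hy) h y hy) h1
    rw [a1, a2]
  intro y hy
  rw [mul_smul, mul_smul, mul_smul, key _ (hm _ (M.inv_mem hc) y hy), smul_inv_smul, inv_smul_smul]

/-- an element acting with odd order on three points and fixing one of them fixes all -/
theorem fix_three {T : Set Ω} (hT : T.ncard = 3) {g : G} (hm : ∀ x ∈ T, g • x ∈ T) {m : ℕ} (ho : Odd m)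
    (h : ∀ x ∈ T, g ^ m • x = x) {t : Ω} (ht : t ∈ T) (h1 : g • t = t) : ∀ y ∈ T, g • y = y := by
  intro y hy
  by_contra e
  have yt : y ≠ t := fun q => e (q ▸ h1)
  have gt : g • y ≠ t := fun q => yt (smul_left_cancel g (q.trans h1.symm))
  have e3 := eq_triple ht hy (hm y hy) yt.symm gt.symm (Ne.symm e) hT.le
  have a : g • g • y = y := by
    have := hm _ (hm y hy)
    rw [e3] at this
    rcases this with q | q | q
    · exact absurd (smul_left_cancel g (q.trans h1.symm)) gt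
    · exact q
    · exact absurd (smul_left_cancel g q) e
  obtain ⟨j, rfl⟩ := ho
  have b : (g ^ 2) ^ j • y = y := Fx_le_pow (g ^ 2) j (by rw [mem_Fx, pow_two, mul_smul, a])
  have := h y hy
  rw [pow_succ', mul_smul, pow_mul, b] at this
  exact e this

theorem mem_of_pow_mem {M : Subgroup G} {g : G} {n : ℕ} (h : (orderOf g).Coprime n) (hm : g ^ n ∈ M) :
    g ∈ M := by
  obtain ⟨m, hm'⟩ := exists_pow_eq_self_of_coprime h.symm
  exact hm' ▸ M.pow_mem hm m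

theorem comm_of_odd_of_sq {g c : G} (ho : Odd (orderOf g)) (h : Commute (g ^ 2) c) : Commute g c :=
  mem_C1.1 (mem_of_pow_mem (M := C1 c) (Nat.coprime_two_right.2 ho) (mem_C1.2 h))

theorem Loc.mem_N2 (L : Loc G Ω) {B : Set Ω} (hB : B.ncard = 4) {g : G}
    (h : ∀ x ∈ L.bl B, g • x ∈ L.bl B) : g ∈ N (L.K B) :=
  mem_N_of_conj fun x hx => (L.mem_K hB).2 ⟨by
    rw [Fx_conj, ← image_eq_of_maps h]
    exact Set.image_mono ((L.mem_K hB).1 hx).1, by rw [conj_pow, L.pow hB hx]; group⟩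

theorem Loc.St_le_N (L : Loc G Ω) {B : Set Ω} (hB : B.ncard = 4) : St G B ≤ N (L.K B) :=
  fun _ h => L.mem_N hB fun x hx => (h x hx).symm ▸ hx

namespace Fr

variable (F : Fr G Ω) {B B' : Set Ω} {g h c c' w : G}

theorem exists_B (F : Fr G Ω) : ∃ B : Set Ω, B.ncard = 4 := by
  obtain ⟨B, -, h⟩ := exists_four (F := (Set.univ : Set Ω)) (by rw [Set.ncard_univ]; exact F.four)
  exact ⟨B, h⟩

/-- the size of the blocks -/
noncomputable def k : ℕ := (F.bl F.exists_B.choose).ncard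

theorem card_bl (hB : B.ncard = 4) : (F.bl B).ncard = F.k := by
  obtain ⟨g, rfl⟩ := F.tr.map F.exists_B.choose_spec hB
  rw [F.bl_smul F.exists_B.choose_spec, ncard_smul]; rfl

theorem K_eq (hB : B.ncard = 4) (hB' : B'.ncard = 4) (h : B' ⊆ F.bl B) : F.K B' = F.K B :=
  (eq_of_le_of_card_eq (F.le_of_sub hB hB' h) ((F.card hB).trans (F.card hB').symm)).symm

theorem bl_eq (hB : B.ncard = 4) (hB' : B'.ncard = 4) (h : B' ⊆ F.bl B) : F.bl B' = F.bl B := by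
  unfold Loc.bl; rw [F.K_eq hB hB' h]

theorem K_ne (hB : B.ncard = 4) : F.K B ≠ ⊥ := one_lt_card.1 ((F.card hB).symm ▸ F.one_lt)

theorem four_le : 4 ≤ F.k := by
  obtain ⟨B, hB⟩ := F.exists_B
  exact hB ▸ F.card_bl hB ▸ Set.ncard_le_ncard (F.sub hB)

theorem k_lt : F.k < Nat.card Ω := by
  obtain ⟨B, hB⟩ := F.exists_B
  rw [← F.card_bl hB, ← Set.ncard_univ]
  refine Set.ncard_lt_ncard (Set.ssubset_univ_iff.2 fun e => F.K_ne hB ?_)
  exact (eq_bot_iff_forall _).2 fun g hg => F.faith g fun x => F.fix hg (e ▸ Set.mem_univ x)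

theorem card_Opi (π : Set ℕ) (hB : B.ncard = 4) (hB' : B'.ncard = 4) :
    Nat.card (Opi π (F.K B')) = Nat.card (Opi π (F.K B)) := by
  obtain ⟨g, rfl⟩ := F.tr.map hB hB'
  rw [F.K_smul hB, ← cj_Opi, card_cj]

theorem Opi_eq {π : Set ℕ} (hB : B.ncard = 4) (hB' : B'.ncard = 4)
    (h : Opi π (F.K B) ≤ St G B') : Opi π (F.K B') = Opi π (F.K B) :=
  (eq_of_le_of_card_eq (le_Opi_of_nilpotent (F.nilp hB') (fun _ hg =>
    F.mem_of hB hB' (Opi_le _ _ hg) (h hg)) (piG_Opi _ _)) (F.card_Opi π hB' hB)).symm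

theorem pow_card {M : Subgroup G} (hB : B.ncard = 4) (hM : M ≤ F.K B) : Nat.card M ∣ F.κ :=
  F.card hB ▸ card_dvd_of_le' hM

theorem comm_eq (hB : B.ncard = 4) (hg : g ∈ F.K B) : ∃ x ∈ F.K B, ∃ c ∈ St G B,
    x⁻¹ * (c * x * c⁻¹) = g := by
  obtain ⟨c, c1, c2⟩ := F.ne hB
  obtain ⟨x, x1, x2⟩ := exists_comm_eq (F.St_le_N hB c1) (fun x hx hc => F.fpf hB c1 c2 hx hc) hg
  exact ⟨x, x1, c, c1, x2⟩

theorem not_mem_of_prime {r : ℕ} (hr : r.Prime) (hκ : ¬ r ∣ F.κ) (hB : B.ncard = 4)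
    (hg : r ∣ orderOf g) : g ∉ F.K B :=
  fun h => hκ (hg.trans (orderOf_dvd_of_pow_eq_one (F.pow hB h)))

variable (hκ : 2 ∣ F.κ)
include hκ

theorem odd (hB : B.ncard = 4) (hh : h ∈ St G B) (hn : h ∉ F.K B) : Odd (orderOf h) :=
  Nat.coprime_two_right.1 ((F.cop hB hh hn).coprime_dvd_right hκ)

theorem isCyclic {r : ℕ} (hr : r.Prime) (hd : ¬ r ∣ F.κ) (hB : B.ncard = 4) {S : Subgroup G}
    (h1 : S ≤ St G B) (h2 : IsPGroup r S) : IsCyclic S := by
  haveI := Fact.mk hr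
  have sr : SemiReg (F.K B) S := semiReg_iff.2 fun e he e1 k hk hc =>
    F.fpf hB (h1 he) (F.not_mem_of_prime hr hd hB (by
      obtain ⟨n, hn⟩ := h2.exists_orderOf_eq_pow ⟨e, he⟩
      rw [orderOf_mk] at hn
      rcases n with _ | n
      · exact absurd (orderOf_eq_one_iff.1 hn) e1
      · exact hn ▸ dvd_pow_self r n.succ_ne_zero)) hk hc.symm
  obtain ⟨n, hn⟩ := h2.exists_card_eq
  refine sr.isCyclic_of_nilpotent (nrm_of_le_N (h1.trans (F.St_le_N hB))) (F.K_ne hB) ?_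
    h2.isNilpotent
  rw [hn]
  exact (hr.odd_of_ne_two fun e => hd (e ▸ hκ)).pow

/-- subgroups of prime order outside the kernel are conjugate -/
theorem conj_r {r : ℕ} (hr : r.Prime) (hd : ¬ r ∣ F.κ) (hB : B.ncard = 4) {M X Y : Subgroup G}
    (hM : M ≤ St G B) (hX : X ≤ M) (hY : Y ≤ M) (cX : Nat.card X = r) (cY : Nat.card Y = r) :
    ∃ m ∈ M, cj m Y = X := by
  haveI := Fact.mk hr
  obtain ⟨S, h1, h2⟩ := exists_sylIn_ge (p := r) hX (IsPGroup.of_card (n := 1) (by rw [cX, pow_one]))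
  obtain ⟨m, m1, m2⟩ := h2.exists_le_cj hY (IsPGroup.of_card (n := 1) (by rw [cY, pow_one]))
  exact ⟨m⁻¹, M.inv_mem m1, eq_of_isCyclic_of_card_eq
    (F.isCyclic hκ hr hd hB (h2.le.trans hM) h2.isPGroup) h1 (le_cj_iff.1 m2) (by rw [card_cj, cX, cY])⟩

theorem odd_N {r : ℕ} (hr : r.Prime) (hd : ¬ r ∣ F.κ) (hc : orderOf c = r) (hB : B.ncard = 4)
    (h1 : c ∈ St G B) (h2 : g ∈ St G B) (h3 : g ∈ N (zpowers c)) : Odd (orderOf g) := by
  by_cases hg : g ∈ F.K B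
  · have e : zpowers c ⊓ F.K B = ⊥ := inf_eq_bot_of_coprime' (by
      rw [Nat.card_zpowers, hc, F.card hB]; exact (Nat.Prime.coprime_iff_not_dvd hr).2 hd)
    have m : g * c * g⁻¹ * c⁻¹ ∈ zpowers c ⊓ F.K B := mem_inf.2 ⟨mul_mem (conj_mem_of_mem_N h3 (mem_zpowers c))
      (inv_mem (mem_zpowers c)), by
        have := mul_mem hg (F.conj_mem_St hB h1 (inv_mem hg))
        simpa [mul_assoc] using this⟩
    rw [e, mem_bot, mul_inv_eq_one, mul_inv_eq_iff_eq_mul] at m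
    rw [F.fpf hB h1 (F.not_mem_of_prime hr hd hB hc.symm.dvd) hg m.symm, orderOf_one]
    exact odd_one
  · exact F.odd hκ hB h2 hg

variable (hH : HallThm G Ω)
include hH

theorem T4K (hB : B.ncard = 4) : T4 (N (F.K B)) (F.bl B) :=
  witt F.tr _ fun B' h1 h2 g h3 => ⟨1, one_mem _, by
    rw [cj_one, ← F.K_eq hB h2 h1]
    refine eq_of_le_of_card_eq (fun x hx => (F.mem h2).2 ⟨h3 (by rwa [← F.K_eq hB h2 h1]), ?_⟩)
      (card_cj _ _)
    obtain ⟨y, y1, rfl⟩ := mem_cj'.1 hx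
    rw [conj_pow, F.pow h2 y1]; group⟩

theorem hallK (hB : B.ncard = 4) : HallC (N (F.K B)) (F.bl B) := by
  refine hH _ _ (fun g hg => F.maps hg) (F.T4K hκ hH hB) (F.card_bl hB ▸ F.four_le) fun g _ h4 => ?_
  obtain ⟨B', h1, h2⟩ := exists_four h4
  by_cases hg : g ∈ F.K B'
  · rw [F.K_eq hB h2 (h1.trans Set.inter_subset_left)] at hg
    exact ⟨1, odd_one, fun x hx => by rw [pow_one, F.fix hg hx]⟩
  · exact ⟨_, F.odd hκ h2 (h1.trans Set.inter_subset_right) hg, fun x _ => by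
      rw [pow_orderOf_eq_one, one_smul]⟩

theorem k_cases : F.k = 4 ∨ F.k = 5 ∨ F.k = 6 ∨ F.k = 7 ∨ F.k = 11 := by
  obtain ⟨B, hB⟩ := F.exists_B
  exact F.card_bl hB ▸ (F.hallK hκ hH hB).card

/-- the Sylow `2`-subgroup of the kernel fixes only the block -/
theorem FxS_two (hB : B.ncard = 4) : FxS Ω (Opi {2} (F.K B)) ⊆ F.bl B := by
  set P := Opi {2} (F.K B) with hP
  have sub : B ⊆ FxS Ω P := le_St_iff.1 ((Opi_le _ _).trans (F.le_St hB))
  have od : ∀ g ∈ N P, 4 ≤ (FxS Ω P ∩ Fx Ω g).ncard → ∃ m, Odd m ∧ ∀ x ∈ FxS Ω P, g ^ m • x = x := by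
    intro g _ h4
    obtain ⟨B', h1, h2⟩ := exists_four h4
    by_cases hg : g ∈ F.K B'
    · obtain ⟨a, m, m1, m2⟩ := Nat.exists_eq_two_pow_mul_odd (orderOf_pos g).ne'
      refine ⟨m, m1, fun x hx => hx _ ?_⟩
      rw [hP, ← F.Opi_eq hB h2 (le_St_iff.2 (h1.trans Set.inter_subset_left))]
      refine le_Opi_of_nilpotent (F.nilp h2) (zpowers_le.2 (pow_mem hg m)) (piE_iff_piG.1
        ((piE_single Nat.prime_two).2 ⟨a, ?_⟩)) (mem_zpowers _)
      rw [← pow_mul, mul_comm, ← m2, pow_orderOf_eq_one]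
    · exact ⟨_, F.odd hκ h2 (h1.trans Set.inter_subset_right) hg, fun x _ => by
        rw [pow_orderOf_eq_one, one_smul]⟩
  have H : HallC (N P) (FxS Ω P) := hH _ _ (fun g hg x hx => smul_mem_FxS hg hx)
    (witt F.tr _ fun B' h1 h2 g h3 => ⟨1, one_mem _, by
      have e : cj g P = Opi {2} (F.K ((g • ·) '' B)) := by rw [F.K_smul hB, ← cj_Opi]
      rw [e] at h3
      rw [cj_one, e, ← F.Opi_eq (by rw [ncard_smul, hB]) h2 h3, F.Opi_eq hB h2 (le_St_iff.2 h1)]⟩)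
    (hB ▸ Set.ncard_le_ncard sub) od
  have hN : St G B ≤ N P := ((nrm_of_le_N (F.St_le_N hB)).Opi _).le_N
  have h4 : ∀ g ∈ St G B, 4 ≤ (FxS Ω P ∩ Fx Ω g).ncard := fun g hg =>
    hB ▸ Set.ncard_le_ncard (Set.subset_inter sub hg)
  intro y hy g hg
  by_cases h7 : (FxS Ω P).ncard = 7
  · by_cases hyB : y ∈ B
    · exact F.le_St hB hg y hyB
    have c3 : (FxS Ω P \ B).ncard = 3 := by rw [Set.ncard_diff sub, h7, hB]
    have mp : ∀ g ∈ St G B, ∀ x ∈ FxS Ω P \ B, g • x ∈ FxS Ω P \ B := fun g hg x hx =>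
      ⟨smul_mem_FxS (hN hg) hx.1, maps_compl (fun z hz => (hg z hz).symm ▸ hz) x hx.2⟩
    obtain ⟨x, x1, c, c1, rfl⟩ := F.comm_eq hB hg
    refine comm_three c3 mp (fun g hg t ht h1 => ?_) (F.le_St hB x1) c1 y ⟨hy, hyB⟩
    obtain ⟨m, m1, m2⟩ := od g (hN hg) (h4 g hg)
    exact fix_three c3 (mp g hg) m1 (fun x hx => m2 x hx.1) ht h1
  · exact H.triv h7 g (hN (F.le_St hB hg)) (h4 g (F.le_St hB hg)) y hy

theorem hallC {r : ℕ} (hr : r.Prime) (hd : ¬ r ∣ F.κ) (hc : orderOf c = r) (h4 : 4 ≤ (Fx Ω c).ncard) :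
    HallC (N (zpowers c)) (Fx Ω c) := by
  rw [← FxS_zpowers] at h4 ⊢
  refine hH _ _ (fun g hg x hx => smul_mem_FxS hg hx) (witt F.tr _ fun B h1 h2 g h3 =>
    F.conj_r hκ hr hd h2 le_rfl (le_St_iff.2 h1) h3 (by rw [Nat.card_zpowers, hc])
      (by rw [card_cj, Nat.card_zpowers, hc])) h4 fun g hg h4 => ?_
  obtain ⟨B', h1, h2⟩ := exists_four h4
  exact ⟨_, F.odd_N hκ hr hd hc h2 (le_St_iff.2 (h1.trans Set.inter_subset_left) (mem_zpowers c))
    (h1.trans Set.inter_subset_right) hg, fun x _ => by rw [pow_orderOf_eq_one, one_smul]⟩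

omit hH in
theorem same_Fx {r : ℕ} (hr : r.Prime) (hd : ¬ r ∣ F.κ) (hc : orderOf c = r) (hc' : orderOf c' = r)
    (h4 : 4 ≤ (Fx Ω c).ncard) (h4' : 4 ≤ (Fx Ω c').ncard) : (Fx Ω c).ncard = (Fx Ω c').ncard := by
  obtain ⟨B, h1, h2⟩ := exists_four h4
  obtain ⟨B', h1', h2'⟩ := exists_four h4'
  obtain ⟨g, rfl⟩ := F.tr.map h2' h2
  obtain ⟨m, -, e⟩ := F.conj_r hκ hr hd h2 le_rfl (X := zpowers c) (Y := zpowers (g * c' * g⁻¹))
    (zpowers_le.2 h1) (zpowers_le.2 (conj_mem_St.2 h1')) (by rw [Nat.card_zpowers, hc])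
    (by rw [← cj_zpowers, card_cj, Nat.card_zpowers, hc'])
  rw [← FxS_zpowers c, ← e, FxS_cj, ncard_smul, FxS_zpowers, ncard_Fx_conj]

theorem real_le (hd : ¬ 3 ∣ F.κ) (hc : orderOf c = 3) (hw : w * c * w⁻¹ = c⁻¹) :
    (Fx Ω c).ncard ≤ 5 := by
  by_contra h6
  have c2 : c ^ 2 = c⁻¹ := by rw [eq_inv_iff_mul_eq_one, ← pow_succ]; exact orderOf_dvd_iff_pow_eq_one.1 hc.dvd
  have c1 : c ≠ 1 := fun e => by rw [e, orderOf_one] at hc; omega
  have ci : c⁻¹ ≠ c := fun e => c1 (by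
    rw [← c2, pow_two] at e; exact mul_eq_left.1 e)
  have dich : ∀ g ∈ N (zpowers c), g * c * g⁻¹ = c ∨ g * c * g⁻¹ = c⁻¹ := fun g hg => by
    rcases mem_zpowers_three hc (conj_mem_of_mem_N hg (mem_zpowers c)) with e | e | e
    · exact absurd e (conj_ne_one c1)
    · exact Or.inl e
    · exact Or.inr (e.trans c2)
  have two : ∀ g g' : G, g * c * g⁻¹ = c⁻¹ → g' * c * g'⁻¹ = c⁻¹ → g * g' ∈ C1 c := fun g g' e e' => by
    rw [mem_C1_iff_conj, show g * g' * c * (g * g')⁻¹ = g * (g' * c * g'⁻¹) * g⁻¹ by group, e',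
      show g * c⁻¹ * g⁻¹ = (g * c * g⁻¹)⁻¹ by group, e, inv_inv]
  have wN : w ∈ N (zpowers c) := mem_N.2 (by rw [cj_zpowers, hw, zpowers_inv])
  have wC : w ∉ C1 c := fun e => ci (hw.symm.trans (mem_C1_iff_conj.1 e))
  obtain ⟨B, h1, h2⟩ := exists_four (F := Fx Ω c) (by omega)
  refine (F.hallC hκ hH Nat.prime_three hd hc (by omega)).idx (by omega) (C1 c) (fun g hg hf => ?_)
    (relIndex_eq_two_iff_exists_notMem_and.2 ⟨w, wN, wC, fun b hb => ?_⟩)
  · rcases dich g hg with e | e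
    · exact mem_C1_iff_conj.2 e
    · exact mem_C1.2 (comm_of_odd_of_sq (F.odd_N hκ Nat.prime_three hd hc h2 h1
        (fun x hx => hf x (h1 hx)) hg) (mem_C1.1 (by rw [pow_two]; exact two g g e e)))
  · rcases dich b hb with e | e
    · exact Or.inr (mem_C1_iff_conj.2 e)
    · exact Or.inl (two b w e hw)

end Fr

end CfsgH1.Q4
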