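import Cfsg.Agent.H1.Q4A1

set_option autoImplicit false
set_option linter.unusedSectionVars false

/-! Frobenius four-point stabilizers with kernel of even order: the next level. -/

namespace CfsgH1.Q4

open MulAction Subgroup CfsgH5 CfsgH6 CfsgFT

universe u

variable {G : Type u} {Ω : Type*} [Group G] [Finite G] [MulAction G Ω] [Finite Ω]

theorem grow_Opi (π : Set ℕ) {K A : Subgroup G} (hK : Group.IsNilpotent K) (hA : A ≤ K)
    (h : ¬ Opi π K ≤ A) : ∃ p ∈ Opi π K, p ∈ N A ∧ p ∉ A := by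
  have lt : Opi π K ⊓ A < Opi π K := inf_lt_left.2 h
  obtain ⟨p, p1, p2⟩ := SetLike.exists_of_lt
    (lt_inf_N_of_nilpotent (nilpotent_of_le hK (Opi_le _ _)) lt)
  refine ⟨p, p1.1, mem_N_of_conj fun a ha => ?_, fun e => p2 ⟨p1.1, e⟩⟩
  obtain ⟨y, y1, y2, y3⟩ := exists_ppart π a
  have yA : y ∈ A := zpowers_le.2 ha y1
  have zA : y⁻¹ * a ∈ A := mul_mem (inv_mem yA) ha
  have m1 : y ∈ Opi π K :=
    le_Opi_of_nilpotent hK (zpowers_le.2 (hA yA)) (piE_iff_piG.1 y2) (mem_zpowers _)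
  have m2 : y⁻¹ * a ∈ Opi πᶜ K :=
    le_Opi_of_nilpotent hK (zpowers_le.2 (hA zA)) (piE_iff_piG.1 y3) (mem_zpowers _)
  have c := mem_C.1 (Opi_le_C_compl π K p1.1) _ m2
  have e : p * a * p⁻¹ = p * y * p⁻¹ * (y⁻¹ * a) := by
    rw [show p * a * p⁻¹ = p * y * p⁻¹ * (p * (y⁻¹ * a)) * p⁻¹ by group, ← c]; group
  rw [e]
  exact mul_mem (conj_mem_of_mem_N p1.2 (mem_inf.2 ⟨m1, yA⟩)).2 zA

theorem exists_real {A : Subgroup G} (hA : ¬ 3 ∣ Nat.card A) {g w : G} (h3 : orderOf g = 3)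
    (hg : g ∈ N A) (hw : w ∈ N A) (h : w * g * w⁻¹ * g ∈ A) : ∃ v : G, v * g * v⁻¹ = g⁻¹ := by
  haveI := Fact.mk Nat.prime_three
  have n1 : Nrm (zpowers g) A := nrm_zpowers_iff.2 hg
  have s : SylIn 3 (zpowers g) (A ⊔ zpowers g) := sylIn_of_not_dvd le_sup_right (isPGroup_zpowers h3) (by
    rw [relIndex_sup' (Or.inr n1)]
    exact fun e => hA (e.trans (relIndex_dvd_card' _ _)))
  have m0 : w * g * w⁻¹ ∈ A ⊔ zpowers g := by
    have := mul_mem (mem_sup_left h) (mem_sup_right (S := A) (inv_mem (mem_zpowers g)))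
    rwa [mul_inv_cancel_right] at this
  have e : cj w (A ⊔ zpowers g) = A ⊔ zpowers g := mem_N.1 (mem_N_of_cj_le (by
    rw [cj_sup, mem_N.1 hw, cj_zpowers]; exact sup_le le_sup_left (zpowers_le.2 m0)))
  have s' := s.cjj w
  rw [e] at s'
  obtain ⟨m, m1, m2⟩ := s'.conj s
  rw [cj_cj, cj_zpowers] at m2
  obtain ⟨a, ha, z, hz, rfl⟩ := (mem_sup_nrm' n1).1 m1
  have cz : z * g = g * z := (ab_zpowers g).comm hz (mem_zpowers g)
  have g1 : g ≠ 1 := fun e => by rw [e, orderOf_one] at h3; omega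
  rcases mem_zpowers_three h3 (m2 ▸ mem_zpowers _) with q | q | q
  · exact absurd q (conj_ne_one g1)
  · exfalso
    have k : g ^ 2 = a * (z * (w * g * w⁻¹ * g) * z⁻¹) * (g⁻¹ * a⁻¹ * g⁻¹⁻¹) := by
      rw [pow_two]; nth_rewrite 1 [← q]
      rw [show a * (z * (w * g * w⁻¹ * g) * z⁻¹) * (g⁻¹ * a⁻¹ * g⁻¹⁻¹) =
        a * z * w * g * w⁻¹ * (g * z⁻¹ * g⁻¹) * a⁻¹ * g by group,
        show g * z⁻¹ * g⁻¹ = z⁻¹ * (z * g) * z⁻¹ * g⁻¹ by group, cz]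
      group
    have : g ∈ A := mem_of_pow_mem (n := 2) (by rw [h3]; norm_num) (k ▸ mul_mem (mul_mem ha
      (n1 z hz _ h)) (conj_mem_of_mem_N (inv_mem hg) (inv_mem ha)))
    exact hA (h3 ▸ orderOf_dvd_card' this)
  · exact ⟨_, q.trans (by
      rw [eq_inv_iff_mul_eq_one, ← pow_succ]; exact orderOf_dvd_iff_pow_eq_one.1 h3.dvd)⟩

/-- a subgroup of kernel type of maximal order fixing more points than a block -/
structure Mx (F : Fr G Ω) (A : Subgroup G) : Prop where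
  pw : ∀ g ∈ A, g ^ F.κ = 1
  lt : F.k < (FxS Ω A).ncard
  mx : ∀ W : Subgroup G, (∀ g ∈ W, g ^ F.κ = 1) → F.k < (FxS Ω W).ncard → Nat.card W ≤ Nat.card A

theorem FxS_bot : FxS Ω (⊥ : Subgroup G) = Set.univ :=
  Set.eq_univ_of_forall fun x g hg => by rw [mem_bot.1 hg, one_smul]

theorem Fr.exists_Mx (F : Fr G Ω) : ∃ A, Mx F A := by
  obtain ⟨A, h1, h2⟩ := exists_max_card
    (P := fun W : Subgroup G => (∀ g ∈ W, g ^ F.κ = 1) ∧ F.k < (FxS Ω W).ncard)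
    ⟨⊥, fun g hg => by rw [mem_bot.1 hg, one_pow], by rw [FxS_bot, Set.ncard_univ]; exact F.k_lt⟩
  exact ⟨A, h1.1, h1.2, fun W a b => h2 W ⟨a, b⟩⟩

namespace Mx

variable {F : Fr G Ω} {A A' : Subgroup G} (M : Mx F A) {B : Set Ω} {g h : G} {x : Ω}
include M

theorem le_K (hB : B.ncard = 4) (h : B ⊆ FxS Ω A) : A ≤ F.K B :=
  fun g hg => (F.mem hB).2 ⟨le_St_iff.2 h hg, M.pw g hg⟩

theorem bl_sub (hB : B.ncard = 4) (h : B ⊆ FxS Ω A) : F.bl B ⊆ FxS Ω A :=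
  fun _ hx _ hg => F.fix (M.le_K hB h hg) hx

theorem mem_A (hB : B.ncard = 4) (h : B ⊆ FxS Ω A) (hg : g ∈ F.K B) (hx : x ∈ FxS Ω A)
    (hx' : x ∉ F.bl B) (e : g • x = x) : g ∈ A := by
  have le : A ⊔ zpowers g ≤ F.K B := sup_le (M.le_K hB h) (zpowers_le.2 hg)
  have sub : insert x (F.bl B) ⊆ FxS Ω (A ⊔ zpowers g) := Set.insert_subset
    (show A ⊔ zpowers g ≤ stabilizer G x from sup_le hx (zpowers_le.2 e)) fun y hy k hk => F.fix (le hk) hy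
  have := Set.ncard_le_ncard sub
  rw [Set.ncard_insert_of_notMem hx', F.card_bl hB] at this
  rw [eq_of_le_of_card_le le_sup_left (M.mx _ (fun k hk => F.pow hB (le hk)) this)]
  exact mem_sup_right (mem_zpowers g)

theorem exists_B : ∃ B ⊆ FxS Ω A, B.ncard = 4 := exists_four (F.four_le.trans M.lt.le)

theorem exists_out (hB : B.ncard = 4) : ∃ x ∈ FxS Ω A, x ∉ F.bl B :=
  Set.exists_mem_notMem_of_ncard_lt_ncard (F.card_bl hB ▸ M.lt)

theorem mem_of (h1 : g ^ F.κ = 1) (h2 : FxS Ω A ⊆ Fx Ω g) : g ∈ A := by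
  obtain ⟨B, b1, b2⟩ := M.exists_B
  obtain ⟨x, x1, x2⟩ := M.exists_out b2
  exact M.mem_A b2 b1 ((F.mem b2).2 ⟨b1.trans h2, h1⟩) x1 x2 (h2 x1)

theorem mem_N (h : ∀ x ∈ FxS Ω A, g • x ∈ FxS Ω A) : g ∈ N A :=
  mem_N_of_conj fun a ha => M.mem_of (by rw [conj_pow, M.pw a ha]; group) (by
    rw [Fx_conj]; nth_rewrite 1 [← image_eq_of_maps h]
    exact Set.image_mono fun y hy => hy a ha)

theorem cjj (g : G) : Mx F (cj g A) where
  pw x hx := by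
    obtain ⟨y, y1, rfl⟩ := mem_cj'.1 hx
    rw [conj_pow, M.pw y y1]; group
  lt := by rw [FxS_cj, ncard_smul]; exact M.lt
  mx W h1 h2 := by rw [card_cj]; exact M.mx W h1 h2

theorem eq_of (M' : Mx F A') (hB : B.ncard = 4) (h : B ⊆ FxS Ω A) (h' : B ⊆ FxS Ω A')
    (hx : x ∈ FxS Ω A) (hx' : x ∈ FxS Ω A') (hn : x ∉ F.bl B) : A' = A :=
  le_antisymm (fun g hg => M.mem_A hB h (M'.le_K hB h' hg) hx hn (hx' g hg))
    fun g hg => M'.mem_A hB h' (M.le_K hB h hg) hx' hn (hx g hg)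

theorem card_dvd : Nat.card A ∣ F.κ :=
  let ⟨_, b1, b2⟩ := M.exists_B
  F.pow_card b2 (M.le_K b2 b1)

theorem mem_N_of_fix (hB : B.ncard = 4) (h : B ⊆ FxS Ω A) (hg : g ∈ N (F.K B)) (hx : x ∈ FxS Ω A)
    (hx' : x ∉ F.bl B) (e : g • x = x) : g ∈ N A :=
  mem_N_of_conj fun a ha => M.mem_A hB h (conj_mem_of_mem_N hg (M.le_K hB h ha)) hx hx' (by
    have := (smul_mem_Fx_conj (h := g)).2 (show x ∈ Fx Ω a from hx a ha)
    rwa [e] at this)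

theorem lift3 (hd : ¬ 3 ∣ F.κ) (h : g ^ 3 ∈ A) : ∃ n : ℕ, (g ^ n) ^ 3 = 1 ∧ ∃ a ∈ A, g ^ n = g * a := by
  have : ∃ j, F.κ * F.κ = 3 * j + 1 := ⟨F.κ * F.κ / 3, by
    have : F.κ % 3 = 1 ∨ F.κ % 3 = 2 := by omega
    have h2 := Nat.mul_mod F.κ F.κ 3
    rcases this with e | e <;> rw [e] at h2 <;> omega⟩
  obtain ⟨j, hj⟩ := this
  refine ⟨F.κ * F.κ, ?_, _, pow_mem h j, by rw [hj, pow_succ', pow_mul]⟩
  rw [← pow_mul, mul_comm, ← mul_assoc, pow_mul, pow_mul, M.pw _ h, one_pow]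

variable (hκ : 2 ∣ F.κ) (hH : HallThm G Ω)
include hκ hH

theorem exists_two (hB : B.ncard = 4) (h : B ⊆ FxS Ω A) :
    ∃ p ∈ F.K B, p ∈ N A ∧ p ∉ A ∧ ∃ n, p ^ 2 ^ n = 1 := by
  obtain ⟨p, p1, p2, p3⟩ := grow_Opi {2} (F.nilp hB) (M.le_K hB h) fun e => by
    have := Set.ncard_le_ncard (show FxS Ω A ⊆ F.bl B from
      fun y hy => F.FxS_two hκ hH hB fun g hg => hy g (e hg))
    exact absurd M.lt (F.card_bl hB ▸ this).not_gt
  exact ⟨p, Opi_le _ _ p1, p2, p3, (piE_single Nat.prime_two).1 ((piG_Opi _ _).piE p1)⟩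

/-- the kernel of the action of `N(A)` on the fixed points of `A` -/
theorem ker (hg : g ∈ N A) (h : FxS Ω A ⊆ Fx Ω g) : g ∈ A := by
  obtain ⟨B, b1, b2⟩ := M.exists_B
  by_cases hK : g ∈ F.K B
  · exact M.mem_of (F.pow b2 hK) h
  exfalso
  obtain ⟨r, hr, hd⟩ := Nat.exists_prime_and_dvd (n := orderOf g) fun e =>
    hK (orderOf_eq_one_iff.1 e ▸ one_mem _)
  have hr' : ¬ r ∣ F.κ := fun e => hr.one_lt.ne'
    (Nat.eq_one_of_dvd_coprimes (F.cop b2 (b1.trans h) hK) hd e)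
  obtain ⟨c, c1, c2⟩ := exists_mem_orderOf_eq (X := zpowers g) hr (by rwa [Nat.card_zpowers])
  have cW : c ∈ N A ⊓ St G (FxS Ω A) := zpowers_le.2 (mem_inf.2 ⟨hg, h⟩) c1
  obtain ⟨p, p1, p2, p3, n, p4⟩ := M.exists_two hκ hH b2 b1
  have mp : ∀ x ∈ FxS Ω A, p • x ∈ FxS Ω A := fun x hx => smul_mem_FxS p2 hx
  have le : N A ⊓ St G (FxS Ω A) ≤ St G B := inf_le_right.trans (St_mono b1)
  obtain ⟨m, m1, m2⟩ := F.conj_r hκ hr hr' b2 le (zpowers_le.2 cW) (Y := cj p (zpowers c)) (by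
    rw [cj_zpowers]
    refine zpowers_le.2 (mem_inf.2 ⟨mul_mem (mul_mem p2 cW.1) (inv_mem p2), ?_⟩)
    have := (conj_mem_St (h := p)).2 cW.2
    rwa [image_eq_of_maps mp] at this) (by rw [Nat.card_zpowers, c2])
    (by rw [card_cj, Nat.card_zpowers, c2])
  rw [cj_cj] at m2
  have od := F.odd_N hκ hr hr' c2 b2 (le cW) (mul_mem (le m1) (F.le_St b2 p1)) (CfsgFT.mem_N.2 m2)
  have key : ∀ j : ℕ, ∀ x ∈ FxS Ω A, (m * p) ^ j • x = p ^ j • x := fun j => by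
    induction j with
    | zero => intro x _; rw [pow_zero, pow_zero]
    | succ j ih => intro x hx; rw [pow_succ, pow_succ, mul_smul, mul_smul, mul_smul, m1.2 _ (mp x hx),
        ih _ (mp x hx)]
  refine p3 (mem_of_pow_mem (n := orderOf (m * p)) ?_ (M.mem_of (F.pow b2 (pow_mem p1 _)) fun x hx => by
    rw [mem_Fx, ← key _ x hx, pow_orderOf_eq_one, one_smul]))
  exact Nat.Coprime.coprime_dvd_left (orderOf_dvd_of_pow_eq_one p4)
    (Nat.Coprime.pow_left _ (Nat.coprime_two_left.2 od))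

end Mx

end CfsgH1.Q4
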