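import Cfsg.Agent.H1.Q4A2

set_option autoImplicit false
set_option linter.unusedSectionVars false

/-! The level structure on `N(A)/A` acting on the fixed points of `A`. -/

namespace CfsgH1.Q4

open MulAction Subgroup CfsgH5 CfsgH6 CfsgFT

universe u

variable {G : Type u} {Ω : Type*} [Group G] [Finite G] [MulAction G Ω] [Finite Ω]

/-- the action of `N(A)` on the fixed points of `A` -/
def nact (Ω : Type*) {G : Type u} [Group G] [Finite G] [MulAction G Ω] [Finite Ω] (A : Subgroup G) :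
    N A →* Equiv.Perm (FxS Ω A) :=
  MonoidHom.toHomPerm
    { toFun := fun g x => ⟨(g : G) • (x : Ω), smul_mem_FxS g.2 x.2⟩
      map_one' := funext fun x => Subtype.ext (one_smul G x.1)
      map_mul' := fun a b => funext fun x => Subtype.ext (mul_smul (a : G) (b : G) x.1) }

/-- the action of `N(A)/A` on the fixed points of `A` -/
def qact (Ω : Type*) {G : Type u} [Group G] [Finite G] [MulAction G Ω] [Finite Ω] (A : Subgroup G) :
    Quo A →* Equiv.Perm (FxS Ω A) :=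
  QuotientGroup.lift _ (nact Ω A) fun g hg => Equiv.ext fun x => Subtype.ext (x.2 g hg)

instance qAct (A : Subgroup G) : MulAction (Quo A) (FxS Ω A) := MulAction.compHom _ (qact Ω A)

section
variable {A : Subgroup G}

theorem qm_smul (g : N A) (x : FxS Ω A) : ((qm A g • x : FxS Ω A) : Ω) = (g : G) • (x : Ω) := rfl

theorem qm_smul_eq {g : N A} {x y : FxS Ω A} : qm A g • x = y ↔ (g : G) • (x : Ω) = y :=
  Subtype.ext_iff

theorem ncard_val {S : Set Ω} (B : Set S) : (Subtype.val '' B).ncard = B.ncard :=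
  Set.ncard_image_of_injective _ Subtype.val_injective

theorem val_sub {S : Set Ω} (B : Set S) : Subtype.val '' B ⊆ S := by
  rintro _ ⟨x, -, rfl⟩; exact x.2

theorem val_pre {S T : Set Ω} (h : T ⊆ S) : Subtype.val '' (Subtype.val ⁻¹' T : Set S) = T := by
  rw [Subtype.image_preimage_coe, Set.inter_eq_right.2 h]

theorem ncard_pre {S T : Set Ω} (h : T ⊆ S) : (Subtype.val ⁻¹' T : Set S).ncard = T.ncard := by
  rw [← ncard_val, val_pre h]

theorem St_qm {g : N A} {B : Set (FxS Ω A)} :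
    qm A g ∈ St (Quo A) B ↔ (g : G) ∈ St G (Subtype.val '' B) := by
  simp only [mem_St, qm_smul_eq, Set.forall_mem_image]

theorem Fx_qm (g : N A) : Subtype.val '' Fx (FxS Ω A) (qm A g) = FxS Ω A ∩ Fx Ω (g : G) := by
  ext x
  exact ⟨fun ⟨y, h1, h2⟩ => h2 ▸ ⟨y.2, qm_smul_eq.1 h1⟩, fun h => ⟨⟨x, h.1⟩, qm_smul_eq.2 h.2, rfl⟩⟩

theorem ncard_Fx_qm (g : N A) :
    (Fx (FxS Ω A) (qm A g)).ncard = (FxS Ω A ∩ Fx Ω (g : G)).ncard := by
  rw [← Fx_qm, ncard_val]

end

namespace Mx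

variable {F : Fr G Ω} {A : Subgroup G} (M : Mx F A) {B : Set (FxS Ω A)}
include M

theorem mem_quo (hB : B.ncard = 4) {g : N A} :
    qm A g ∈ quo A (F.K (Subtype.val '' B)) ↔ (g : G) ∈ F.K (Subtype.val '' B) := by
  refine ⟨fun h => ?_, fun h => mem_img_of_mem _ g.2 h⟩
  obtain ⟨k, k1, k2, k3⟩ := mem_img'.1 h
  have := mul_mem k1 (M.le_K (by rw [ncard_val, hB]) (val_sub B) (qm_eq_iff.1 k3))
  rwa [mul_inv_cancel_left] at this

theorem lift3' (hd : ¬ 3 ∣ F.κ) {g : Quo A} (h : orderOf g = 3) :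
    ∃ t : N A, qm A t = g ∧ orderOf (t : G) = 3 := by
  obtain ⟨g, rfl⟩ := qm_surjective A g
  obtain ⟨n, h1, a, h2, h3⟩ := M.lift3 hd (g := g) (by
    have := orderOf_dvd_iff_pow_eq_one.1 h.dvd
    rw [← map_pow] at this
    exact qm_eq_one.1 this)
  have e : qm A (g ^ n) = qm A g := (qm_eq_iff.2 (by
    rw [SubgroupClass.coe_pow, h3, inv_mul_cancel_left]; exact h2)).symm
  haveI := Fact.mk Nat.prime_three
  refine ⟨g ^ n, e, orderOf_eq_prime h1 fun q => ?_⟩
  rw [show g ^ n = 1 from Subtype.ext q, map_one] at e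
  rw [← e, orderOf_one] at h; omega

variable (hκ : 2 ∣ F.κ) (hH : HallThm G Ω)
include hκ hH

/-- the local structure of the quotient -/
def loc : Loc (Quo A) (FxS Ω A) where
  κ := F.κ
  K B := quo A (F.K (Subtype.val '' B))
  pos := F.pos
  faith g h := by
    obtain ⟨g, rfl⟩ := qm_surjective A g
    exact qm_eq_one.2 (M.ker hκ hH g.2 fun x hx => qm_smul_eq.1 (h ⟨x, hx⟩))
  mem {B} hB g := by
    obtain ⟨g, rfl⟩ := qm_surjective A g
    have hB' : (Subtype.val '' B).ncard = 4 := by rw [ncard_val, hB]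
    rw [M.mem_quo hB, St_qm, ← map_pow, qm_eq_one, SubgroupClass.coe_pow]
    refine ⟨fun h => ⟨F.le_St hB' h, F.pow hB' h ▸ one_mem _⟩, fun h => ?_⟩
    by_contra e
    exact e (mem_of_pow_mem (F.cop hB' h.1 e) (M.le_K hB' (val_sub B) h.2))
  nilp {B} hB := nilpotent_quo _ (F.nilp (by rw [ncard_val, hB]))
  cen {B} hB k h h1 h2 h3 h4 := by
    obtain ⟨k, rfl⟩ := qm_surjective A k
    obtain ⟨h, rfl⟩ := qm_surjective A h
    have hB' : (Subtype.val '' B).ncard = 4 := by rw [ncard_val, hB]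
    rw [M.mem_quo hB] at h1 ⊢
    rw [St_qm] at h3
    by_contra e
    have le := M.le_K hB' (val_sub B)
    have m : (k : G)⁻¹ * (h * k * (h : G)⁻¹) ∈ A := qm_eq_iff.1
      (show qm A k = qm A (h * k * h⁻¹) by rw [map_mul, map_mul, h4.eq, map_inv, mul_inv_cancel_right])
    obtain ⟨x, x1, x2⟩ := exists_comm_eq h.2 (fun x hx hc => F.fpf hB' h3 e (le hx) hc) m
    have := F.fpf hB' h3 e (mul_mem h1 (inv_mem (le x1))) (show (h : G) * (k * x⁻¹) = k * x⁻¹ * h by
      rw [inv_mul_eq_iff_eq_mul] at x2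
      rw [show (h : G) * (k * x⁻¹) = h * k * (h : G)⁻¹ * (h * x * (h : G)⁻¹)⁻¹ * h by group, x2]
      group)
    exact h2 (qm_eq_one.2 (mul_inv_eq_one.1 this ▸ x1))
  cop {B} hB h h1 h2 := by
    obtain ⟨h, rfl⟩ := qm_surjective A h
    rw [M.mem_quo hB] at h2
    exact (F.cop (by rw [ncard_val, hB]) (St_qm.1 h1) h2).coprime_dvd_left
      ((orderOf_map_dvd _ h).trans (orderOf_coe h).symm.dvd)

theorem Fx_loc (hB : B.ncard = 4) {g : Quo A} (hg : g ∈ quo A (F.K (Subtype.val '' B))) (h1 : g ≠ 1) :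
    Fx (FxS Ω A) g = Subtype.val ⁻¹' F.bl (Subtype.val '' B) := by
  obtain ⟨g, rfl⟩ := qm_surjective A g
  rw [M.mem_quo hB] at hg
  ext x
  refine ⟨fun h => ?_, fun h => qm_smul_eq.2 (F.fix hg h)⟩
  by_contra e
  exact h1 (qm_eq_one.2 (M.mem_A (by rw [ncard_val, hB]) (val_sub B) hg x.2 e (qm_smul_eq.1 h)))

theorem inv_loc (hB : B.ncard = 4) : ∃ u ∈ quo A (F.K (Subtype.val '' B)), orderOf u = 2 := by
  obtain ⟨p, p1, p2, p3, n, p4⟩ := M.exists_two hκ hH (by rw [ncard_val, hB]) (val_sub B)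
  refine exists_mem_orderOf_eq Nat.prime_two (dvd_trans ?_
    (orderOf_dvd_card' ((M.mem_quo hB (g := ⟨p, p2⟩)).2 p1)))
  obtain ⟨j, -, hj⟩ := (Nat.dvd_prime_pow Nat.prime_two).1
    (orderOf_dvd_of_pow_eq_one (x := qm A ⟨p, p2⟩) (n := 2 ^ n) (by
      rw [← map_pow, show (⟨p, p2⟩ : N A) ^ 2 ^ n = 1 from Subtype.ext p4, map_one]))
  rcases j with _ | j
  · exact absurd (qm_eq_one.1 (orderOf_eq_one_iff.1 hj)) p3
  · exact hj ▸ dvd_pow_self 2 j.succ_ne_zero

theorem bl_loc (hB : B.ncard = 4) : FxS (FxS Ω A) (quo A (F.K (Subtype.val '' B))) =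
    Subtype.val ⁻¹' F.bl (Subtype.val '' B) := by
  obtain ⟨u, u1, u2⟩ := M.inv_loc hκ hH hB
  refine subset_antisymm (M.Fx_loc hκ hH hB u1 (invol_of_orderOf u2).2 ▸ fun x hx => hx u u1)
    fun x hx g hg => ?_
  obtain ⟨g, rfl⟩ := qm_surjective A g
  exact qm_smul_eq.2 (F.fix ((M.mem_quo hB).1 hg) hx)

theorem real5 (hd : ¬ 3 ∣ F.κ) {g w : G} (h3 : orderOf g = 3) (hg : g ∈ N A) (hw : w ∈ N A)
    (h : w * g * w⁻¹ * g ∈ A) : (Fx Ω g).ncard ≤ 5 :=
  let ⟨_, hv⟩ := exists_real (fun e => hd (e.trans M.card_dvd)) h3 hg hw h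
  F.real_le hκ hH hd h3 hv

/-- the level structure of the quotient -/
noncomputable def lv : Lv (Quo A) (FxS Ω A) where
  toLoc := M.loc hκ hH
  k := F.k
  inv hB := M.inv_loc hκ hH hB
  semi hB _ hg h1 := (M.Fx_loc hκ hH hB hg h1).trans (M.bl_loc hκ hH hB).symm
  blk {B} hB := by
    have hB' : (Subtype.val '' B).ncard = 4 := by rw [ncard_val, hB]
    exact (congrArg Set.ncard (M.bl_loc hκ hH hB)).trans
      ((ncard_pre (M.bl_sub hB' (val_sub B))).trans (F.card_bl hB'))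
  four := F.four_le
  lt := M.lt
  r5 {g g' w} hd h1 h2 h3 h4 := by
    obtain ⟨g, rfl, g3⟩ := M.lift3' hd h1
    obtain ⟨g', rfl, g3'⟩ := M.lift3' hd h2
    obtain ⟨w, rfl⟩ := qm_surjective A w
    have a := M.real5 hκ hH hd g3' g'.2 w.2 (qm_eq_one.1
      (show qm A (w * g' * w⁻¹ * g') = 1 by rw [map_mul, map_mul, map_mul, map_inv, h4, inv_mul_cancel]))
    rw [ncard_Fx_qm] at h3 ⊢
    have l1 := Set.ncard_le_ncard (Set.inter_subset_right (s := FxS Ω A) (t := Fx Ω (g : G)))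
    have l2 := Set.ncard_le_ncard (Set.inter_subset_right (s := FxS Ω A) (t := Fx Ω (g' : G)))
    by_contra e
    have := F.same_Fx hκ Nat.prime_three hd g3 g3' (by omega) (by omega)
    omega

theorem lv_bl (hB : B.ncard = 4) : (M.lv hκ hH).bl B = Subtype.val ⁻¹' F.bl (Subtype.val '' B) :=
  M.bl_loc hκ hH hB

theorem lv_K (hB : B.ncard = 4) {g : N A} :
    qm A g ∈ (M.lv hκ hH).K B ↔ (g : G) ∈ F.K (Subtype.val '' B) := M.mem_quo hB

end Mx

theorem Mx.Fx_bot {F : Fr G Ω} (M : Mx F ⊥) {B : Set Ω} (hB : B.ncard = 4) {g : G} (hg : g ∈ F.K B)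
    (h1 : g ≠ 1) : Fx Ω g = F.bl B :=
  subset_antisymm (fun x hx => by
    by_contra e
    exact h1 (mem_bot.1 (M.mem_A hB (by rw [FxS_bot]; exact Set.subset_univ _) hg
      (by rw [FxS_bot]; exact Set.mem_univ _) e hx))) fun _ hx => F.fix hg hx

/-- the level structure of the group itself when the kernels are semiregular -/
noncomputable def Mx.lv0 {F : Fr G Ω} (M : Mx F ⊥) (hκ : 2 ∣ F.κ) (hH : HallThm G Ω) : Lv G Ω where
  toLoc := F.toLoc
  k := F.k
  inv hB := exists_mem_orderOf_eq Nat.prime_two ((F.card hB).symm ▸ hκ)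
  semi hB _ hg h1 := M.Fx_bot hB hg h1
  blk hB := F.card_bl hB
  four := F.four_le
  lt := F.k_lt
  r5 {g g' w} hd h1 h2 h3 h4 := by
    have a := F.real_le hκ hH hd h2 h4
    by_contra e
    have := F.same_Fx hκ Nat.prime_three hd h1 h2 (by omega) h3
    omega

end CfsgH1.Q4
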