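import Cfsg.Agent.H1.Q4A3
import Cfsg.Agent.H8.Q4Hall

set_option autoImplicit false
set_option linter.unusedSectionVars false

/-! Kernel of even order, trivial blocks: the next level has eight points. -/

namespace CfsgH1.Q4

open MulAction Subgroup CfsgH5 CfsgH6 CfsgFT

universe u

variable {G : Type u} {Ω : Type*} [Group G] [Finite G] [MulAction G Ω] [Finite Ω]

theorem nrm_Stb (B : Set Ω) : Nrm (Stb G B) (St G B) := fun g hg h hh => by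
  have := (conj_mem_St (h := g)).2 hh
  rwa [image_eq_of_maps hg] at this

theorem St_le_Stb (B : Set Ω) : St G B ≤ Stb G B := fun _ h x hx => (h x hx).symm ▸ hx

namespace Fr

variable (F : Fr G Ω) {B : Set Ω} {g h c : G}

theorem bl4 (hk : F.k = 4) (hB : B.ncard = 4) : F.bl B = B :=
  (Set.eq_of_subset_of_ncard_le (F.sub hB) (by rw [F.card_bl hB, hk, hB])).symm

/-- a complement element centralized modulo the kernel by all commutators -/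
theorem exists_chief (hκ : 2 ∣ F.κ) (hB : B.ncard = 4) : ∃ e ∈ St G B, e ∉ F.K B ∧ ∀ s ∈ Stb G B,
    ∀ t ∈ Stb G B, ∃ x ∈ F.K B, Commute (x * (s * t * s⁻¹ * t⁻¹)) e := by
  have n : Nrm (St G B) (F.K B) := nrm_of_le_N (F.St_le_N hB)
  have nd : ∀ r : ℕ, r.Prime → r ∣ Nat.card (quo (F.K B) (St G B)) → ¬ r ∣ F.κ := fun r hr hd e => by
    obtain ⟨u, u1, u2⟩ := exists_mem_orderOf_eq hr hd
    obtain ⟨h, h1, h2, rfl⟩ := mem_img'.1 u1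
    refine hr.one_lt.ne' (Nat.eq_one_of_dvd_coprimes (F.cop hB h1 fun q => ?_)
      (u2 ▸ (orderOf_map_dvd _ _).trans (orderOf_coe _).symm.dvd) e)
    rw [(qm_eq_one (x := ⟨h, h2⟩)).2 q, orderOf_one] at u2
    exact hr.one_lt.ne u2
  obtain ⟨r, hr, h1, h2⟩ := exists_Op_ne_bot (NormalIn.refl (quo (F.K B) (St G B))) (fun q => by
    obtain ⟨h, h1, h2⟩ := F.ne hB
    exact h2 ((quo_eq_bot n).1 q h1)) (feit_thompson _ (Nat.not_even_iff_odd.1 fun q =>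
      nd 2 Nat.prime_two (even_iff_two_dvd.1 q) hκ))
  have hd := nd r hr h1
  obtain ⟨E, e1, e2⟩ := exists_isPGroup_quo_eq hr (isPGroup_Op' hr (quo (F.K B) (St G B)))
  have le : E ≤ St G B := e1.le.trans (coq_le_of_le_quo (F.le_St hB) (Op_le _ _))
  obtain ⟨e, e3, e4⟩ := exists_mem_orderOf_eq hr (prime_dvd_card_of_isPGroup hr e1.isPGroup fun q =>
    h2 (by rw [← e2, q, quo_bot]))
  have eK := F.not_mem_of_prime hr hd hB e4.symm.dvd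
  have eN := n.le_N (le e3)
  refine ⟨e, le e3, eK, fun s hs t ht => ?_⟩
  have sN := F.mem_N hB hs
  have tN := F.mem_N hB ht
  have cy : IsCyclic (Op r (quo (F.K B) (St G B))) :=
    e2 ▸ isCyclic_quo _ (F.isCyclic hκ hr hd hB le e1.isPGroup)
  have zl : zpowers (qm (F.K B) ⟨e, eN⟩) ≤ Op r (quo (F.K B) (St G B)) :=
    zpowers_le.2 (by rw [← e2]; exact mem_img_of_mem _ eN e3)
  have := mem_C.1 (D_le_C_of_isCyclic (isCyclic_of_le' cy zl)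
    (nrm_of_isCyclic cy zl (((nrm_Stb B).quo _).Op' hr))
    (commutator_mem_commutator (mem_img_of_mem _ sN hs) (mem_img_of_mem _ tN ht))) _ (mem_zpowers _)
  obtain ⟨x, x1, x2⟩ := exists_comm_eq eN (fun x hx hc => F.fpf hB (le e3) eK hx hc)
    (y := s * t * s⁻¹ * t⁻¹ * e * (s * t * s⁻¹ * t⁻¹)⁻¹ * e⁻¹) (qm_eq_one.1
      (show qm (F.K B) (⟨s, sN⟩ * ⟨t, tN⟩ * ⟨s, sN⟩⁻¹ * ⟨t, tN⟩⁻¹ * ⟨e, eN⟩ *
        (⟨s, sN⟩ * ⟨t, tN⟩ * ⟨s, sN⟩⁻¹ * ⟨t, tN⟩⁻¹)⁻¹ * ⟨e, eN⟩⁻¹) = 1 by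
        rw [commutatorElement_def] at this
        simp only [map_mul, map_inv]
        rw [← this]; group))
  refine ⟨x, x1, ?_⟩
  generalize s * t * s⁻¹ * t⁻¹ = w at x2
  show x * w * e = e * (x * w)
  rw [show x * w * e = x * (w * e * w⁻¹ * e⁻¹) * e * w by group, ← x2]; group

end Fr

namespace Mx

variable {F : Fr G Ω} {A : Subgroup G} (M : Mx F A) (hκ : 2 ∣ F.κ) (hk : F.k = 4)
  {B : Set Ω} {g h : G} {x y z : Ω}
include M hκ hk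

theorem card4 : (FxS Ω A).ncard = 6 ∨ (FxS Ω A).ncard = 8 ∨ (FxS Ω A).ncard = 12 :=
  (M.lv hκ (hall _ _)).card4 hk (hall _ _)

theorem trans4 (hB : B.ncard = 4) (h : B ⊆ FxS Ω A) (hx : x ∈ FxS Ω A \ B) (hy : y ∈ FxS Ω A \ B) :
    ∃ g ∈ F.K B, g ∈ N A ∧ g • x = y := by
  have hB' := (ncard_pre h).trans hB
  obtain ⟨g, g1, g2⟩ := (M.lv hκ (hall _ _)).trans4 hk hB' (x := ⟨x, hx.1⟩) (y := ⟨y, hy.1⟩) hx.2 hy.2
  obtain ⟨g, rfl⟩ := qm_surjective A g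
  rw [M.lv_K hκ _ hB', val_pre h] at g1
  exact ⟨g, g1, g.2, qm_smul_eq.1 g2⟩

theorem triv4 (h8 : (FxS Ω A).ncard ≠ 8) (hg : g ∈ N A) (h5 : 5 ≤ (FxS Ω A ∩ Fx Ω g).ncard) : g ∈ A :=
  (qm_eq_one (x := ⟨g, hg⟩)).1 ((M.lv hκ (hall _ _)).triv4 hk (hall _ _) h8 (by rwa [ncard_Fx_qm]))

theorem T4p {p a b c d a' b' c' d' : Ω} (hp : p ∈ FxS Ω A) (h : D4 a b c d) (h' : D4 a' b' c' d')
    (s : {a, b, c, d} ⊆ FxS Ω A \ {p}) (s' : {a', b', c', d'} ⊆ FxS Ω A \ {p}) :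
    ∃ g ∈ N A, g • p = p ∧ g • a = a' ∧ g • b = b' ∧ g • c = c' ∧ g • d = d' := by
  simp only [Set.insert_subset_iff, Set.singleton_subset_iff] at s s'
  have k : ∀ {u v : Ω} {hu : u ∈ FxS Ω A} {hv : v ∈ FxS Ω A}, u ≠ v →
      (⟨u, hu⟩ : FxS Ω A) ≠ ⟨v, hv⟩ := fun h e => h (congrArg Subtype.val e)
  obtain ⟨g, g0, g1, g2, g3, g4⟩ := (M.lv hκ (hall _ _)).T4_stab hk ⟨p, hp⟩
    (a := ⟨a, s.1.1⟩) (b := ⟨b, s.2.1.1⟩) (c := ⟨c, s.2.2.1.1⟩) (d := ⟨d, s.2.2.2.1⟩)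
    (a' := ⟨a', s'.1.1⟩) (b' := ⟨b', s'.2.1.1⟩) (c' := ⟨c', s'.2.2.1.1⟩) (d' := ⟨d', s'.2.2.2.1⟩)
    ⟨k h.1, k h.2.1, k h.2.2.1, k h.2.2.2.1, k h.2.2.2.2.1, k h.2.2.2.2.2⟩
    ⟨k h'.1, k h'.2.1, k h'.2.2.1, k h'.2.2.2.1, k h'.2.2.2.2.1, k h'.2.2.2.2.2⟩
    (k s.1.2) (k s.2.1.2) (k s.2.2.1.2) (k s.2.2.2.2) (k s'.1.2) (k s'.2.1.2) (k s'.2.2.1.2) (k s'.2.2.2.2)
  obtain ⟨g, rfl⟩ := qm_surjective A g
  exact ⟨g, g.2, qm_smul_eq.1 g0, qm_smul_eq.1 g1, qm_smul_eq.1 g2, qm_smul_eq.1 g3, qm_smul_eq.1 g4⟩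

theorem cyc4 (h8 : (FxS Ω A).ncard = 8) {a b c : Ω} (ha : a ∈ FxS Ω A) (hb : b ∈ FxS Ω A)
    (hc : c ∈ FxS Ω A) (h1 : a ≠ b) (h2 : a ≠ c) (h3 : b ≠ c) : ∃ g ∈ N A, g • a = b ∧ g • b = c ∧
    g • c = a ∧ ∀ x ∈ FxS Ω A, x ≠ a → x ≠ b → x ≠ c → g • x = x := by
  have k : ∀ {u v : Ω} {hu : u ∈ FxS Ω A} {hv : v ∈ FxS Ω A}, u ≠ v →
      (⟨u, hu⟩ : FxS Ω A) ≠ ⟨v, hv⟩ := fun h e => h (congrArg Subtype.val e)
  obtain ⟨g, g1, g2, g3, g4⟩ := (M.lv hκ (hall _ _)).cyc4 hk (hall _ _) h8 (a := ⟨a, ha⟩) (b := ⟨b, hb⟩)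
    (c := ⟨c, hc⟩) (k h1) (k h2) (k h3)
  obtain ⟨g, rfl⟩ := qm_surjective A g
  exact ⟨g, g.2, qm_smul_eq.1 g1, qm_smul_eq.1 g2, qm_smul_eq.1 g3, fun x hx a1 a2 a3 =>
    qm_smul_eq.1 (g4 ⟨x, hx⟩ (k a1) (k a2) (k a3))⟩

theorem odd_le (hB : B.ncard = 4) (h : B ⊆ FxS Ω A) : Opi {2}ᶜ (F.K B) ≤ A := by
  by_contra e
  obtain ⟨q, q1, q2, q3⟩ := grow_Opi {2}ᶜ (F.nilp hB) (M.le_K hB h) e
  have hB' := (ncard_pre h).trans hB
  obtain ⟨n, hn⟩ := (M.lv hκ (hall _ _)).two4 hk hB' ⟨qm A ⟨q, q2⟩, (M.lv_K hκ _ hB').2 (by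
    rw [val_pre h]; exact Opi_le _ _ q1)⟩
  have := congrArg Subtype.val hn
  rw [SubgroupClass.coe_pow, ← map_pow, OneMemClass.coe_one, qm_eq_one] at this
  exact q3 (mem_of_pow_mem (((piE_compl_single Nat.prime_two).1 ((piG_Opi _ _).piE q1)).pow_right n) this)

theorem mem_A4 (hB : B.ncard = 4) (h : B ⊆ FxS Ω A) (hg : g ∈ F.K B) (hx : x ∈ FxS Ω A \ B)
    (e : g • x = x) : g ∈ A := M.mem_A hB h hg hx.1 (by rw [F.bl4 hk hB]; exact hx.2) e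

omit M hκ hk in
theorem maps_diff (hg : g ∈ N A) (h : g ∈ Stb G B) : ∀ x ∈ FxS Ω A \ B, g • x ∈ FxS Ω A \ B :=
  fun x hx => ⟨smul_mem_FxS hg hx.1, maps_compl h x hx.2⟩

variable (h8 : (FxS Ω A).ncard ≠ 8)
include h8

theorem five (hB : B.ncard = 4) (h : B ⊆ FxS Ω A) (hg : g ∈ N A) (h1 : g ∈ St G B)
    (hx : x ∈ FxS Ω A \ B) (e : g • x = x) : g ∈ A :=
  M.triv4 hκ hk h8 hg (by
    rw [show 5 = (insert x B).ncard by rw [Set.ncard_insert_of_notMem hx.2, hB]]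
    exact Set.ncard_le_ncard (Set.insert_subset ⟨hx.1, e⟩ (Set.subset_inter h h1)))

theorem mem_K4 (hB : B.ncard = 4) (h : B ⊆ FxS Ω A) (hg : g ∈ N A) (h1 : g ∈ St G B) : g ∈ F.K B := by
  obtain ⟨x, x1, x2⟩ := M.exists_out hB
  rw [F.bl4 hk hB] at x2
  obtain ⟨k, k1, k2, k3⟩ := M.trans4 hκ hk hB h ⟨x1, x2⟩ (maps_diff hg (St_le_Stb B h1) x ⟨x1, x2⟩)
  have := mul_mem k1 (M.le_K hB h (M.five hκ hk h8 hB h (mul_mem (inv_mem k2) hg)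
    (mul_mem (inv_mem (F.le_St hB k1)) h1) ⟨x1, x2⟩ (by rw [mul_smul, ← k3, inv_smul_smul])))
  rwa [mul_inv_cancel_left] at this

theorem sep (hB : B.ncard = 4) (h : B ⊆ FxS Ω A) (h1 : g ∈ St G B) (h2 : g ∉ F.K B)
    (hy : y ∈ FxS Ω A \ B) (hz : z ∈ FxS Ω A \ B) : g • y ≠ z := fun e => by
  obtain ⟨k, k1, -, k3⟩ := M.trans4 hκ hk hB h hy hz
  have m := mul_mem (inv_mem (F.le_St hB k1)) h1
  have := mul_mem k1 (M.mem_K4 hκ hk h8 hB h (M.mem_N_of_fix hB h (F.St_le_N hB m) hy.1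
    (by rw [F.bl4 hk hB]; exact hy.2) (by rw [mul_smul, e, ← k3, inv_smul_smul])) m)
  rw [mul_inv_cancel_left] at this
  exact h2 this

theorem endgame {a b c d p : Ω} (D : D4 a b c d) (h : {a, b, c, d} ⊆ FxS Ω A)
    (hp : p ∈ FxS Ω A \ {a, b, c, d}) {e s : G} (e1 : e ∈ St G ({a, b, c, d} : Set Ω))
    (e2 : e ∉ F.K {a, b, c, d}) (hc : Commute g e) (g3 : g ^ 3 = 1) (ga : g • a = b) (gb : g • b = c)
    (gc : g • c = a) (gd : g • d = d) (gp : g • p = p) (sN : s ∈ N A) (sa : s • a = b) (sb : s • b = a)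
    (sc : s • c = c) (sd : s • d = d) (sp : s • p = p) : False := by
  have hB := D.ncard
  have gS : g ∈ Stb G ({a, b, c, d} : Set Ω) := by
    rintro x (rfl | rfl | rfl | rfl) <;> simp [*]
  have gN : g ∈ N A := M.mem_N_of_fix hB h (F.mem_N hB gS) hp.1 (by rw [F.bl4 hk hB]; exact hp.2) gp
  have g1 : g ≠ 1 := fun q => D.1 (by rw [← ga, q, one_smul])
  haveI := Fact.mk Nat.prime_three
  have o3 : orderOf g = 3 := orderOf_eq_prime g3 g1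
  have m := ncard_modEq1 Nat.prime_three (maps_diff gN gS) g3
  rw [Set.ncard_diff h, hB] at m
  obtain ⟨p', p1, p2⟩ := Set.exists_ne_of_one_lt_ncard (s := (FxS Ω A \ {a, b, c, d}) ∩ Fx Ω g) (by
    unfold Nat.ModEq at m
    rcases M.card4 hκ hk with q | q | q <;> rw [q] at m <;> omega) p
  have ee : e * e ∉ F.K {a, b, c, d} := fun q => e2 (mem_of_pow_mem (n := 2)
    (Nat.coprime_two_right.2 (F.odd hκ hB e1 e2)) (by rwa [pow_two]))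
  have s1 := fun {y z} hy hz => M.sep hκ hk h8 hB h e1 e2 (y := y) (z := z) hy hz
  have s2 := fun {y z} hy hz => M.sep hκ hk h8 hB h (mul_mem e1 e1) ee (y := y) (z := z) hy hz
  have fx : ∀ {y : Ω}, g • y = y → g • e • y = e • y := fun hy => smul_mem_Fx hc.symm hy
  have out : ∀ {y}, y ∉ ({a, b, c, d} : Set Ω) → e • y ∉ ({a, b, c, d} : Set Ω) :=
    fun hy => maps_compl (St_le_Stb _ e1) _ hy
  have nd : ∀ {y}, y ∉ ({a, b, c, d} : Set Ω) → d ≠ y := fun hy q => hy (q ▸ by simp)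
  by_cases hd : 3 ∣ F.κ
  · have D' : D4 d p p' (e • p) := ⟨nd hp.2, nd p1.1.2, nd (out hp.2), p2.symm, (s1 hp hp).symm,
      (s1 hp p1.1).symm⟩
    have Q := M.odd_le hκ hk hB h
    have := F.Opi_eq (π := {2}ᶜ) hB D'.ncard fun q hq => mem_St4.2 ⟨h (by simp) q (Q hq), hp.1 q (Q hq),
      p1.1.1 q (Q hq), by
        have := hp.1 _ (Q (((nrm_of_le_N (F.St_le_N hB)).Opi _).conj' e1 hq))
        rw [mul_smul, mul_smul, inv_smul_eq_iff] at this; exact this⟩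
    have m : g ∈ Opi {2}ᶜ (F.K {d, p, p', e • p}) := le_Opi_of_nilpotent (F.nilp D'.ncard)
      (zpowers_le.2 ((F.mem D'.ncard).2 ⟨mem_St4.2 ⟨gd, gp, p1.2, fx gp⟩, by
        obtain ⟨j, hj⟩ := hd; rw [hj, pow_mul, g3, one_pow]⟩))
      (piE_iff_piG.1 ((piE_compl_single Nat.prime_two).2 (by rw [o3]; norm_num))) (mem_zpowers _)
    rw [this] at m
    exact D.1 ((F.le_St hB (Opi_le _ _ m) a (by simp)).symm.trans ga)
  · have si : ∀ {y z : Ω}, s • y = z → s⁻¹ • z = y := fun q => inv_smul_eq_iff.2 q.symm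
    have l := M.real5 hκ (hall _ _) hd o3 gN sN (M.five hκ hk h8 hB h
      (mul_mem (mul_mem (mul_mem sN gN) (inv_mem sN)) gN) (mem_St4.2 (by
        simp only [mul_smul, ga, gb, gc, gd, si sa, si sb, si sc, si sd, sa, sb, sc, sd, and_self])) hp
      (by simp only [mul_smul, gp, si sp, sp]))
    have k : ∀ {y z : Ω}, y ≠ z → e • y ≠ e • z := fun h q => h (smul_left_cancel e q)
    have := Set.ncard_le_ncard (show {d, p, p', e • p, e • p', e • e • p} ⊆ Fx Ω g by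
      rintro x (rfl | rfl | rfl | rfl | rfl | rfl)
      exacts [gd, gp, p1.2, fx gp, fx p1.2, fx (fx gp)])
    rw [Set.ncard_insert_of_notMem (by
        simp [nd hp.2, nd p1.1.2, nd (out hp.2), nd (out p1.1.2), nd (out (out hp.2))]),
      Set.ncard_insert_of_notMem (by
        simp [p2.symm, (s1 hp hp).symm, (s1 p1.1 hp).symm, (mul_smul e e p ▸ s2 hp hp).symm]),
      Set.ncard_insert_of_notMem (by
        simp [(s1 hp p1.1).symm, (s1 p1.1 p1.1).symm, (mul_smul e e p ▸ s2 hp p1.1).symm]),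
      ncard_triple (k p2.symm) (k (s1 hp hp).symm) (k (s1 hp p1.1).symm)] at this
    omega

omit h8 in
theorem eight : (FxS Ω A).ncard = 8 := by
  by_contra h8
  obtain ⟨B, h, hB⟩ := M.exists_B
  obtain ⟨a, b, c, d, D, rfl⟩ := exists_D4 hB
  obtain ⟨p, p1, p2⟩ := M.exists_out hB
  rw [F.bl4 hk hB] at p2
  have sub : ∀ {u v w : Ω}, u ∈ ({a, b, c, d} : Set Ω) → v ∈ ({a, b, c, d} : Set Ω) →
      w ∈ ({a, b, c, d} : Set Ω) → {u, v, w, d} ⊆ FxS Ω A \ {p} := fun hu hv hw => by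
    rintro x (rfl | rfl | rfl | rfl)
    exacts [⟨h hu, fun q => p2 (q ▸ hu)⟩, ⟨h hv, fun q => p2 (q ▸ hv)⟩, ⟨h hw, fun q => p2 (q ▸ hw)⟩,
      ⟨h (by simp), fun q => p2 (q ▸ by simp)⟩]
  obtain ⟨s, sN, sp, sa, sb, sc, sd⟩ := M.T4p hκ hk p1 D
    (⟨D.1.symm, D.2.2.2.1, D.2.2.2.2.1, D.2.1, D.2.2.1, D.2.2.2.2.2⟩ : D4 b a c d)
    (sub (by simp) (by simp) (by simp)) (sub (by simp) (by simp) (by simp))
  obtain ⟨t, tN, tp, ta, tb, tc, td⟩ := M.T4p hκ hk p1 D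
    (⟨D.2.2.2.1, D.1.symm, D.2.2.2.2.1, D.2.1.symm, D.2.2.2.2.2, D.2.2.1⟩ : D4 b c a d)
    (sub (by simp) (by simp) (by simp)) (sub (by simp) (by simp) (by simp))
  have sS : s ∈ Stb G ({a, b, c, d} : Set Ω) := by rintro x (rfl | rfl | rfl | rfl) <;> simp [*]
  have tS : t ∈ Stb G ({a, b, c, d} : Set Ω) := by rintro x (rfl | rfl | rfl | rfl) <;> simp [*]
  obtain ⟨e, e1, e2, e3⟩ := F.exists_chief hκ hB
  obtain ⟨x, x1, x2⟩ := e3 s sS t tS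
  have i : ∀ {s : G} {y z : Ω}, s • y = z → s⁻¹ • z = y := fun q => inv_smul_eq_iff.2 q.symm
  have w0 : s * t * s⁻¹ * t⁻¹ ∈ N A := mul_mem (mul_mem (mul_mem sN tN) (inv_mem sN)) (inv_mem tN)
  have w1 : s * t * s⁻¹ * t⁻¹ ∈ N (F.K {a, b, c, d}) :=
    F.mem_N hB (mul_mem (mul_mem (mul_mem sS tS) (inv_mem sS)) (inv_mem tS))
  have w2 : (s * t * s⁻¹ * t⁻¹) • a = b ∧ (s * t * s⁻¹ * t⁻¹) • b = c ∧ (s * t * s⁻¹ * t⁻¹) • c = a ∧
      (s * t * s⁻¹ * t⁻¹) • d = d ∧ (s * t * s⁻¹ * t⁻¹) • p = p := by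
    simp only [mul_smul, i ta, i tb, i tc, i td, i tp, i sa, i sb, i sc, i sd, i sp, sa, sb, sc, sd, sp, ta,
      tb, tc, td, tp, and_self]
  generalize s * t * s⁻¹ * t⁻¹ = w at x2 w0 w1 w2
  obtain ⟨wa, wb, wc, wd, wp⟩ := w2
  have w3 : w * w * w ∈ F.K {a, b, c, d} := M.mem_K4 hκ hk h8 hB h (mul_mem (mul_mem w0 w0) w0)
    (mem_St4.2 (by simp only [mul_smul, wa, wb, wc, wd, and_self]))
  have g3 : (x * w) ^ 3 = 1 := F.fpf hB e1 e2 (by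
    rw [show (x * w) ^ 3 = x * (w * x * w⁻¹) * (w * (w * x * w⁻¹) * w⁻¹) * (w * w * w) by
      rw [pow_succ, pow_two]; group]
    exact mul_mem (mul_mem (mul_mem x1 (conj_mem_of_mem_N w1 x1))
      (conj_mem_of_mem_N w1 (conj_mem_of_mem_N w1 x1))) w3) (x2.pow_left 3).symm
  obtain ⟨_, ⟨k, k1, rfl⟩, k2⟩ := exists_fixed Nat.prime_three 1 (g := x * w)
    (S := {y | ∃ k ∈ F.K {a, b, c, d}, k • p = y}) (by
      rintro _ ⟨k, k1, rfl⟩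
      exact ⟨x * (w * k * w⁻¹), mul_mem x1 (conj_mem_of_mem_N w1 k1), by
        simp only [mul_smul, i wp]⟩) (fun y _ => by rw [pow_one, g3, one_smul]) (by
      rw [← relIndex_stab]
      haveI := Fact.mk Nat.prime_three
      exact fun q => (sylIn_Op_of_nilpotent Nat.prime_three (F.nilp hB)).not_dvd_relIndex (q.trans
        (relIndex_dvd_of_le_left _ ((Op_le_Opc Nat.prime_three (by norm_num) _).trans
          ((M.odd_le hκ hk hB h).trans p1)))))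
  obtain ⟨xa, xb, xc, xd⟩ := mem_St4.1 (F.le_St hB x1)
  obtain ⟨ka, kb, kc, kd⟩ := mem_St4.1 (F.le_St hB k1)
  have kS := F.le_St hB k1
  exact M.endgame hκ hk h8 D h ⟨p1, p2⟩ (g := k⁻¹ * (x * w) * k) (e := k⁻¹ * e * k)
    (mul_mem (mul_mem (inv_mem kS) e1) kS) (fun q => e2 (by
      simpa [mul_assoc] using mul_mem (mul_mem k1 q) (inv_mem k1)))
    (by simpa using x2.map (MulAut.conj k⁻¹)) (by
      have := conj_pow (a := k⁻¹) (b := x * w) (i := 3)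
      rw [inv_inv] at this; rw [this, g3]; group)
    (by simp only [mul_smul, ka, wa, xb, i kb]) (by simp only [mul_smul, kb, wb, xc, i kc])
    (by simp only [mul_smul, kc, wc, xa, i ka]) (by simp only [mul_smul, kd, wd, xd, i kd])
    (by rw [mul_smul, mul_smul, k2, inv_smul_smul]) sN sa sb sc sd sp

end Mx

end CfsgH1.Q4
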