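import Cfsg.Agent.H1.Q4Base

set_option autoImplicit false
set_option linter.unusedSectionVars false

/-! Levels: blocks, the basic configuration, and block sizes `5, 6, 11`. -/

namespace CfsgH1.Q4

open MulAction Subgroup CfsgH5 CfsgH6 CfsgFT

universe u

variable {G : Type u} {Ω : Type*} [Group G] [Finite G] [MulAction G Ω] [Finite Ω]

theorem relIndex_stab (H : Subgroup G) (x : Ω) :
    (stabilizer G x).relIndex H = {y | ∃ g ∈ H, g • x = y}.ncard := by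
  have : (stabilizer G x).relIndex H = (stabilizer H x).index := rfl
  rw [this, index_stabilizer]
  congr 1
  ext y
  exact ⟨fun ⟨g, hg⟩ => ⟨g, g.2, hg⟩, fun ⟨g, h1, h2⟩ => ⟨⟨g, h1⟩, h2⟩⟩

theorem invol_smul {u : G} (hu : u * u = 1) (x : Ω) : u • u • x = x := by rw [← mul_smul, hu, one_smul]

theorem inv_eq_of_invol {u : G} (hu : u * u = 1) : u⁻¹ = u := inv_eq_of_mul_eq_one_right hu

theorem orderOf_invol {u : G} (hu : u * u = 1) (h1 : u ≠ 1) : orderOf u = 2 :=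
  orderOf_eq_prime (by rw [pow_two, hu]) h1

theorem invol_of_orderOf {u : G} (h : orderOf u = 2) : u * u = 1 ∧ u ≠ 1 :=
  ⟨by rw [← pow_two, ← h, pow_orderOf_eq_one], by rintro rfl; simp at h⟩

theorem ncard_modEq2 {u : G} {S : Set Ω} (hS : ∀ x ∈ S, u • x ∈ S) (hu : u * u = 1) :
    S.ncard % 2 = (S ∩ Fx Ω u).ncard % 2 :=
  ncard_modEq1 Nat.prime_two hS (by rw [pow_two, hu])

theorem two_le_ncard {S : Set Ω} {a b : Ω} (ha : a ∈ S) (hb : b ∈ S) (h : a ≠ b) : 2 ≤ S.ncard :=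
  Set.ncard_pair h ▸ Set.ncard_le_ncard (by rintro x (rfl | rfl) <;> assumption)

theorem ncard_triple {a b c : Ω} (h1 : a ≠ b) (h2 : a ≠ c) (h3 : b ≠ c) :
    ({a, b, c} : Set Ω).ncard = 3 := by
  rw [Set.ncard_insert_of_notMem (by simp [h1, h2]), Set.ncard_pair h3]

theorem three_le_ncard {S : Set Ω} {a b c : Ω} (ha : a ∈ S) (hb : b ∈ S) (hc : c ∈ S) (h1 : a ≠ b)
    (h2 : a ≠ c) (h3 : b ≠ c) : 3 ≤ S.ncard :=
  ncard_triple h1 h2 h3 ▸ Set.ncard_le_ncard (by rintro x (rfl | rfl | rfl) <;> assumption)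

theorem eq_pair {S : Set Ω} {a b : Ω} (ha : a ∈ S) (hb : b ∈ S) (h : a ≠ b) (hS : S.ncard ≤ 2) :
    S = {a, b} :=
  (Set.eq_of_subset_of_ncard_le (by rintro x (rfl | rfl) <;> assumption)
    (by rw [Set.ncard_pair h]; exact hS)).symm

theorem eq_triple {S : Set Ω} {a b c : Ω} (ha : a ∈ S) (hb : b ∈ S) (hc : c ∈ S) (h1 : a ≠ b)
    (h2 : a ≠ c) (h3 : b ≠ c) (hS : S.ncard ≤ 3) : S = {a, b, c} :=
  (Set.eq_of_subset_of_ncard_le (by rintro x (rfl | rfl | rfl) <;> assumption)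
    (by rw [ncard_triple h1 h2 h3]; exact hS)).symm

theorem eq_quad {S : Set Ω} {a b c d : Ω} (h : D4 a b c d) (ha : a ∈ S) (hb : b ∈ S) (hc : c ∈ S)
    (hd : d ∈ S) (hS : S.ncard ≤ 4) : S = {a, b, c, d} :=
  (Set.eq_of_subset_of_ncard_le (by rintro x (rfl | rfl | rfl | rfl) <;> assumption)
    (by rw [h.ncard]; exact hS)).symm

theorem exists_third {S : Set Ω} {a b : Ω} (ha : a ∈ S) (hb : b ∈ S) (h : a ≠ b) (hS : S.ncard = 3) :
    ∃ e, e ≠ a ∧ e ≠ b ∧ S = {a, b, e} := by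
  obtain ⟨e, he, h1⟩ := Set.exists_mem_notMem_of_ncard_lt_ncard (s := {a, b}) (t := S)
    (by rw [Set.ncard_pair h, hS]; omega)
  simp only [Set.mem_insert_iff, Set.mem_singleton_iff, not_or] at h1
  exact ⟨e, h1.1, h1.2, eq_triple ha hb he h (Ne.symm h1.1) (Ne.symm h1.2) hS.le⟩

/-- the block of a `4`-set -/
def Loc.bl (L : Loc G Ω) (B : Set Ω) : Set Ω := FxS Ω (L.K B)

theorem Loc.sub (L : Loc G Ω) {B : Set Ω} (hB : B.ncard = 4) : B ⊆ L.bl B := L.sub_blk hB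

theorem Loc.bl_smul (L : Loc G Ω) {B : Set Ω} (hB : B.ncard = 4) (h : G) :
    L.bl ((h • ·) '' B) = (h • ·) '' L.bl B := L.smul_blk hB h

theorem Loc.K_smul (L : Loc G Ω) {B : Set Ω} (hB : B.ncard = 4) (h : G) :
    L.K ((h • ·) '' B) = cj h (L.K B) := by
  ext g
  rw [mem_cj, ← L.conj_mem (h := h) hB]
  simp [mul_assoc]

theorem Loc.mem_N (L : Loc G Ω) {B : Set Ω} (hB : B.ncard = 4) {g : G} (h : ∀ x ∈ B, g • x ∈ B) :
    g ∈ N (L.K B) :=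
  CfsgFT.mem_N.2 (by rw [← L.K_smul hB, image_eq_of_maps h])

theorem Loc.mem_K (L : Loc G Ω) {B : Set Ω} (hB : B.ncard = 4) {g : G} :
    g ∈ L.K B ↔ L.bl B ⊆ Fx Ω g ∧ g ^ L.κ = 1 :=
  ⟨fun h => ⟨fun _ hx => hx g h, L.pow hB h⟩, fun h => (L.mem hB).2 ⟨(L.sub hB).trans h.1, h.2⟩⟩

theorem Loc.fix (L : Loc G Ω) {B : Set Ω} {g : G} (h : g ∈ L.K B) {x : Ω} (hx : x ∈ L.bl B) :
    g • x = x := hx g h

theorem Loc.maps (L : Loc G Ω) {B : Set Ω} {g : G} (h : g ∈ N (L.K B)) : ∀ x ∈ L.bl B, g • x ∈ L.bl B :=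
  fun _ hx => smul_mem_FxS h hx

/-- an involution normalizing a nilpotent group of even order centralizes an involution of it -/
theorem exists_comm_invol {K : Subgroup G} (hK : Group.IsNilpotent K) {v : G} (hv : v ∈ K)
    (h2 : orderOf v = 2) {u : G} (hu : u * u = 1) (hn : u ∈ N K) :
    ∃ w ∈ K, w * w = 1 ∧ w ≠ 1 ∧ Commute u w := by
  have h1 : IsPGroup 2 (zpowers v) := IsPGroup.of_card (n := 1) (by rw [Nat.card_zpowers, h2]; rfl)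
  have h3 : Op 2 K ≠ ⊥ := fun e => (invol_of_orderOf h2).2
    (mem_bot.1 (e ▸ le_Op_of_nilpotent Nat.prime_two hK ((zpowers_le).2 hv) h1 (mem_zpowers v)))
  have h4 : IsPGroup 2 (zpowers u) := by
    by_cases e : u = 1
    · rw [e, zpowers_one_eq_bot]; exact IsPGroup.of_bot
    · exact IsPGroup.of_card (n := 1) (by rw [Nat.card_zpowers, orderOf_invol hu e]; rfl)
  have h5 := inf_C_ne_bot_of_isPGroup Nat.prime_two (isPGroup_Op' Nat.prime_two K) h4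
    ((nrm_zpowers_iff.2 hn).Op' Nat.prime_two) h3
  obtain ⟨w, hw, h6⟩ := exists_mem_orderOf_eq Nat.prime_two (prime_dvd_card_of_isPGroup Nat.prime_two
    ((isPGroup_Op' Nat.prime_two K).to_le inf_le_left) h5)
  exact ⟨w, Op_le 2 K hw.1, (invol_of_orderOf h6).1, (invol_of_orderOf h6).2,
    mem_C.1 hw.2 u (mem_zpowers u)⟩

namespace Lv

section
variable (L : Lv G Ω) {B B' : Set Ω} {g h k u w : G} {a b x : Ω}

theorem Fx_eq (hB : B.ncard = 4) (hg : g ∈ L.K B) (h1 : g ≠ 1) : Fx Ω g = L.bl B := L.semi hB hg h1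

theorem card_bl (hB : B.ncard = 4) : (L.bl B).ncard = L.k := L.blk hB

theorem eq_one (hB : B.ncard = 4) (hg : g ∈ L.K B) (hx : x ∉ L.bl B) (h : g • x = x) : g = 1 := by
  by_contra e
  exact hx (L.Fx_eq hB hg e ▸ h)

theorem exists_B (L : Lv G Ω) : ∃ B : Set Ω, B.ncard = 4 := by
  obtain ⟨B, -, h⟩ := exists_four (F := (Set.univ : Set Ω)) (by
    rw [Set.ncard_univ]; exact L.four.trans L.lt.le)
  exact ⟨B, h⟩

theorem two_dvd : 2 ∣ L.κ := by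
  obtain ⟨B, hB⟩ := L.exists_B
  obtain ⟨u, h1, h2⟩ := L.inv hB
  exact h2 ▸ orderOf_dvd_of_pow_eq_one (L.pow hB h1)

theorem pow_invol (hu : u * u = 1) : u ^ L.κ = 1 := by
  obtain ⟨m, hm⟩ := L.two_dvd
  rw [hm, pow_mul, pow_two, hu, one_pow]

theorem mem_invol (hB : B.ncard = 4) (hu : u * u = 1) (h : B ⊆ Fx Ω u) : u ∈ L.K B :=
  (L.mem hB).2 ⟨h, L.pow_invol hu⟩

theorem exists_inv (hB : B.ncard = 4) : ∃ u ∈ L.K B, u * u = 1 ∧ u ≠ 1 :=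
  let ⟨u, h1, h2⟩ := L.inv hB
  ⟨u, h1, invol_of_orderOf h2⟩

theorem bl_eq (hB : B.ncard = 4) (hB' : B'.ncard = 4) (h : B' ⊆ L.bl B) : L.bl B' = L.bl B := by
  obtain ⟨u, h1, -, h2⟩ := L.exists_inv hB
  rw [← L.Fx_eq hB h1 h2, L.Fx_eq hB' (L.le_of_sub hB hB' h h1) h2]

theorem K_eq_of (hB : B.ncard = 4) (hB' : B'.ncard = 4) (h : L.bl B' = L.bl B) : L.K B' = L.K B := by
  ext g; rw [L.mem_K hB, L.mem_K hB', h]

theorem K_eq (hB : B.ncard = 4) (hB' : B'.ncard = 4) (h : B' ⊆ L.bl B) : L.K B' = L.K B :=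
  L.K_eq_of hB hB' (L.bl_eq hB hB' h)

theorem bl_eq_of_four (hB : B.ncard = 4) (hB' : B'.ncard = 4) (h : 4 ≤ (L.bl B ∩ L.bl B').ncard) :
    L.bl B' = L.bl B := by
  obtain ⟨D, h1, h2⟩ := exists_four h
  rw [← L.bl_eq hB h2 (h1.trans Set.inter_subset_left), L.bl_eq hB' h2 (h1.trans Set.inter_subset_right)]

theorem bl_eq_of_D4 (hB : B.ncard = 4) (hB' : B'.ncard = 4) {c d : Ω} (h : D4 a b c d) (ha : a ∈ L.bl B)
    (hb : b ∈ L.bl B) (hc : c ∈ L.bl B) (hd : d ∈ L.bl B) (ha' : a ∈ L.bl B') (hb' : b ∈ L.bl B')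
    (hc' : c ∈ L.bl B') (hd' : d ∈ L.bl B') : L.bl B' = L.bl B :=
  L.bl_eq_of_four hB hB' (h.le_ncard ⟨ha, ha'⟩ ⟨hb, hb'⟩ ⟨hc, hc'⟩ ⟨hd, hd'⟩)

theorem cen' (hB : B.ncard = 4) (hk : k ∈ L.K B) (h1 : k ≠ 1) (hc : Commute h k)
    (h4 : 4 ≤ (L.bl B ∩ Fx Ω h).ncard) : h ∈ L.K B := by
  obtain ⟨D, h2, h3⟩ := exists_four h4
  have e := L.K_eq hB h3 (h2.trans Set.inter_subset_left)
  exact e ▸ L.cen h3 (e ▸ hk) h1 (h2.trans Set.inter_subset_right) hc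

theorem mem_N' (hB : B.ncard = 4) (h : ∀ x ∈ L.bl B, g • x ∈ L.bl B) : g ∈ N (L.K B) :=
  CfsgFT.mem_N.2 (by
    rw [← L.K_smul hB]
    exact L.K_eq hB (by rw [ncard_smul, hB]) (by rintro _ ⟨x, hx, rfl⟩; exact h x (L.sub hB hx)))

theorem mem_N_of_comm (hB : B.ncard = 4) (hk : k ∈ L.K B) (h1 : k ≠ 1) (hc : Commute h k) :
    h ∈ N (L.K B) :=
  L.mem_N' hB fun _ hx => L.Fx_eq hB hk h1 ▸ smul_mem_Fx hc (L.Fx_eq hB hk h1 ▸ hx)

theorem maps_of_comm (hB : B.ncard = 4) (hk : k ∈ L.K B) (h1 : k ≠ 1) (hc : Commute h k) :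
    ∀ x ∈ L.bl B, h • x ∈ L.bl B := L.maps (L.mem_N_of_comm hB hk h1 hc)

theorem exists_out (hB : B.ncard = 4) : ∃ x, x ∉ L.bl B := by
  obtain ⟨x, -, h⟩ := Set.exists_mem_notMem_of_ncard_lt_ncard (s := L.bl B) (t := Set.univ)
    (by rw [L.card_bl hB, Set.ncard_univ]; exact L.lt)
  exact ⟨x, h⟩

/-- elements of two different kernels normalizing each other commute -/
theorem comm_of_N (hB : B.ncard = 4) (hB' : B'.ncard = 4) (hne : L.bl B' ≠ L.bl B) (hg : g ∈ L.K B)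
    (hh : h ∈ L.K B') (h1 : g ∈ N (L.K B')) (h2 : h ∈ N (L.K B)) : Commute g h := by
  have a1 : g * h * g⁻¹ * h⁻¹ ∈ L.K B' := mul_mem (conj_mem_of_mem_N h1 hh) (inv_mem hh)
  have a2 : g * h * g⁻¹ * h⁻¹ ∈ L.K B := by
    have := mul_mem hg (conj_mem_of_mem_N h2 (inv_mem hg))
    simpa only [mul_assoc] using this
  by_contra e
  have e' : g * h * g⁻¹ * h⁻¹ ≠ 1 := fun e' => e (commutatorElement_eq_one_iff_commute.1 e')
  exact hne ((L.Fx_eq hB' a1 e').symm.trans (L.Fx_eq hB a2 e'))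

/-- the basic configuration: an involution `u` of `K B` and a point `x` outside the block -/
structure Cf (B : Set Ω) (u : G) (x : Ω) : Prop where
  hB : B.ncard = 4
  mem : u ∈ L.K B
  sq : u * u = 1
  ne : u ≠ 1
  out : x ∉ L.bl B

theorem exists_Cf (hB : B.ncard = 4) : ∃ u x, L.Cf B u x :=
  let ⟨u, h1, h2, h3⟩ := L.exists_inv hB
  let ⟨x, hx⟩ := L.exists_out hB
  ⟨u, x, hB, h1, h2, h3, hx⟩

end

namespace Cf

variable {L : Lv G Ω} {B : Set Ω} {g u w : G} {a b x : Ω} (h : L.Cf B u x)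
include h

theorem Fx_eq : Fx Ω u = L.bl B := L.Fx_eq h.hB h.mem h.ne

theorem out' : u • x ∉ L.bl B := maps_compl (fun y hy => by rw [L.fix h.mem hy]; exact hy) x h.out

theorem ne_x : x ≠ u • x := fun e => h.out (h.Fx_eq ▸ e.symm)

theorem other {y : Ω} (hy : y ∉ L.bl B) : L.Cf B u y := ⟨h.hB, h.mem, h.sq, h.ne, hy⟩

theorem d4 (ha : a ∈ L.bl B) (hb : b ∈ L.bl B) (hab : a ≠ b) : D4 a b x (u • x) :=
  ⟨hab, fun e => h.out (e ▸ ha), fun e => h.out' (e ▸ ha), fun e => h.out (e ▸ hb),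
    fun e => h.out' (e ▸ hb), h.ne_x⟩

theorem mem_N (ha : a ∈ L.bl B) (hb : b ∈ L.bl B) (hab : a ≠ b) : u ∈ N (L.K {a, b, x, u • x}) :=
  L.mem_N (h.d4 ha hb hab).ncard (by
    rintro y (rfl | rfl | rfl | rfl) <;> simp [L.fix h.mem ha, L.fix h.mem hb, invol_smul h.sq])

theorem exists_w (ha : a ∈ L.bl B) (hb : b ∈ L.bl B) (hab : a ≠ b) :
    ∃ w ∈ L.K {a, b, x, u • x}, w * w = 1 ∧ w ≠ 1 ∧ Commute u w :=
  let ⟨_, h1, h2⟩ := L.inv (h.d4 ha hb hab).ncard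
  exists_comm_invol (L.nilp (h.d4 ha hb hab).ncard) h1 h2 h.sq (h.mem_N ha hb hab)

theorem x_mem (ha : a ∈ L.bl B) (hb : b ∈ L.bl B) (hab : a ≠ b) : x ∈ L.bl {a, b, x, u • x} :=
  L.sub (h.d4 ha hb hab).ncard (by simp)

theorem a_mem (ha : a ∈ L.bl B) (hb : b ∈ L.bl B) (hab : a ≠ b) : a ∈ L.bl {a, b, x, u • x} :=
  L.sub (h.d4 ha hb hab).ncard (by simp)

theorem b_mem (ha : a ∈ L.bl B) (hb : b ∈ L.bl B) (hab : a ≠ b) : b ∈ L.bl {a, b, x, u • x} :=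
  L.sub (h.d4 ha hb hab).ncard (by simp)

theorem y_mem (ha : a ∈ L.bl B) (hb : b ∈ L.bl B) (hab : a ≠ b) : u • x ∈ L.bl {a, b, x, u • x} :=
  L.sub (h.d4 ha hb hab).ncard (by simp)

theorem inter_le (ha : a ∈ L.bl B) (hb : b ∈ L.bl B) (hab : a ≠ b) :
    (L.bl B ∩ L.bl {a, b, x, u • x}).ncard ≤ 3 := by
  by_contra e
  exact h.out (L.bl_eq_of_four h.hB (h.d4 ha hb hab).ncard (by omega) ▸ h.x_mem ha hb hab)

theorem inter_mod (ha : a ∈ L.bl B) (hb : b ∈ L.bl B) (hab : a ≠ b) :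
    (L.bl B ∩ L.bl {a, b, x, u • x}).ncard % 2 = L.k % 2 := by
  rw [← L.card_bl (h.d4 ha hb hab).ncard, ncard_modEq2 (L.maps (h.mem_N ha hb hab)) h.sq, h.Fx_eq,
    Set.inter_comm]

theorem inter_odd (hk : L.k % 2 = 1) (ha : a ∈ L.bl B) (hb : b ∈ L.bl B) (hab : a ≠ b) :
    (L.bl B ∩ L.bl {a, b, x, u • x}).ncard = 3 := by
  have h1 := h.inter_le ha hb hab
  have h2 := h.inter_mod ha hb hab
  have h3 := two_le_ncard (S := L.bl B ∩ L.bl {a, b, x, u • x}) ⟨ha, h.a_mem ha hb hab⟩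
    ⟨hb, h.b_mem ha hb hab⟩ hab
  omega

theorem inter_even (hk : L.k % 2 = 0) (ha : a ∈ L.bl B) (hb : b ∈ L.bl B) (hab : a ≠ b) :
    L.bl B ∩ L.bl {a, b, x, u • x} = {a, b} := by
  have h1 := h.inter_le ha hb hab
  have h2 := h.inter_mod ha hb hab
  exact eq_pair ⟨ha, h.a_mem ha hb hab⟩ ⟨hb, h.b_mem ha hb hab⟩ hab (by omega)

theorem bl_congr {c d : Ω} (ha : a ∈ L.bl B) (hb : b ∈ L.bl B) (hab : a ≠ b) (hc : c ∈ L.bl B)
    (hd : d ∈ L.bl B) (hcd : c ≠ d) (hc' : c ∈ L.bl {a, b, x, u • x}) (hd' : d ∈ L.bl {a, b, x, u • x}) :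
    L.bl {c, d, x, u • x} = L.bl {a, b, x, u • x} :=
  L.bl_eq (h.d4 ha hb hab).ncard (h.d4 hc hd hcd).ncard (by
    rintro y (rfl | rfl | rfl | rfl)
    exacts [hc', hd', h.x_mem ha hb hab, h.y_mem ha hb hab])

/-- the centralizer of `u` fixing `x` is faithful on the block -/
theorem eq_one (hc : Commute g u) (hx : g • x = x) (h4 : 4 ≤ (L.bl B ∩ Fx Ω g).ncard) : g = 1 :=
  L.eq_one h.hB (L.cen' h.hB h.mem h.ne hc h4) h.out hx

theorem maps (hc : Commute g u) : ∀ y ∈ L.bl B, g • y ∈ L.bl B := L.maps_of_comm h.hB h.mem h.ne hc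

theorem fix_y (hc : Commute g u) (hx : g • x = x) : g • u • x = u • x := by
  rw [← mul_smul, hc.eq, mul_smul, hx]

end Cf

theorem three_dvd (L : Lv G Ω) (hk : L.k % 2 = 1) : 3 ∣ L.k * (L.k - 1) := by
  obtain ⟨B, hB⟩ := L.exists_B
  obtain ⟨u, x, h⟩ := L.exists_Cf hB
  have k : ∀ a b : Ω, ∃ e, a ∈ L.bl B → b ∈ L.bl B → a ≠ b →
      e ≠ a ∧ e ≠ b ∧ L.bl B ∩ L.bl {a, b, x, u • x} = {a, b, e} := fun a b => by
    by_cases H : a ∈ L.bl B ∧ b ∈ L.bl B ∧ a ≠ b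
    · obtain ⟨e, he⟩ := exists_third (S := L.bl B ∩ L.bl {a, b, x, u • x}) ⟨H.1, h.a_mem H.1 H.2.1 H.2.2⟩ ⟨H.2.1, h.b_mem H.1 H.2.1 H.2.2⟩ H.2.2
        (h.inter_odd hk H.1 H.2.1 H.2.2)
      exact ⟨e, fun _ _ _ => he⟩
    · exact ⟨a, fun h1 h2 h3 => absurd ⟨h1, h2, h3⟩ H⟩
  choose e he using k
  rw [← L.card_bl hB]
  refine three_dvd_sts e fun a ha b hb hab => ?_
  obtain ⟨h1, h2, h3⟩ := he a b ha hb hab
  have h4 : e a b ∈ L.bl B ∩ L.bl {a, b, x, u • x} := by rw [h3]; simp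
  refine ⟨h4.1, h1, h2, ?_⟩
  obtain ⟨h5, h6, h7⟩ := he b (e a b) hb h4.1 h2.symm
  rw [h.bl_congr ha hb hab hb h4.1 h2.symm (h.b_mem ha hb hab) h4.2, h3] at h7
  have : e b (e a b) ∈ ({a, b, e a b} : Set Ω) := by rw [h7]; simp
  simpa [h5, h6] using this

/-- the blocks through three points partition the remaining points -/
theorem dvd_card (L : Lv G Ω) : (L.k - 3) ∣ Nat.card Ω - 3 := by
  classical
  obtain ⟨B, hB⟩ := L.exists_B
  obtain ⟨a, b, c, d, hd, rfl⟩ := exists_D4 hB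
  have k : ∀ {y : Ω}, y ∉ ({a, b, c} : Set Ω) → D4 a b c y := fun {y} hy => by
    simp only [Set.mem_insert_iff, Set.mem_singleton_iff, not_or] at hy
    exact ⟨hd.1, hd.2.1, Ne.symm hy.1, hd.2.2.2.1, Ne.symm hy.2.1, Ne.symm hy.2.2⟩
  have k3 := ncard_triple hd.1 hd.2.1 hd.2.2.2.1
  haveI := Fintype.ofFinite Ω
  let S : Finset Ω := Finset.univ.filter (· ∉ ({a, b, c} : Set Ω))
  have hS : S.card = Nat.card Ω - 3 := by
    rw [← Set.ncard_univ, ← k3, ← Set.ncard_diff (Set.subset_univ _), ← Set.ncard_coe_finset]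
    congr 1; ext y; simp [S]
  rw [← hS, Finset.card_eq_sum_card_image (fun y => L.bl {a, b, c, y}) S]
  refine Finset.dvd_sum fun β hβ => dvd_of_eq ?_
  obtain ⟨y, hy, rfl⟩ := Finset.mem_image.1 hβ
  have hy' := k (Finset.mem_filter.1 hy).2
  have sub : ({a, b, c} : Set Ω) ⊆ L.bl {a, b, c, y} := fun z hz => L.sub hy'.ncard (by
    rcases hz with rfl | rfl | rfl <;> simp)
  rw [← L.card_bl hy'.ncard, ← k3, ← Set.ncard_diff sub, ← Set.ncard_coe_finset]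
  congr 1
  ext z
  simp only [S, Finset.coe_filter, Finset.mem_filter, Finset.mem_univ, true_and, Set.mem_diff,
    Set.mem_setOf_eq]
  refine ⟨fun ⟨h1, h2⟩ => ⟨h2, L.bl_eq hy'.ncard (k h2).ncard ?_⟩,
    fun ⟨h1, h2⟩ => ⟨h2 ▸ L.sub (k h1).ncard (by simp), h1⟩⟩
  rintro t (rfl | rfl | rfl | rfl)
  exacts [sub (by simp), sub (by simp), sub (by simp), h1]

theorem not_six (L : Lv G Ω) (hk : L.k = 6)
    (a6 : ∀ (B : Set Ω) (h : G), B.ncard = 4 → h ≠ 1 → B ⊆ Fx Ω h → Fx Ω h = L.bl B)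
    (b6 : ∀ (B : Set Ω) (g : G), B.ncard = 4 → g ∈ N (L.K B) → g * g = 1 → 2 ≤ (L.bl B ∩ Fx Ω g).ncard) :
    False := by
  obtain ⟨B, hB⟩ := L.exists_B
  obtain ⟨u, x, h⟩ := L.exists_Cf hB
  have c6 : (L.bl B).ncard = 6 := hk ▸ L.card_bl hB
  let Y : Subgroup G := C1 u ⊓ stabilizer G x
  have hw : ∀ a ∈ L.bl B, ∀ b ∈ L.bl B, a ≠ b → ∃ w ∈ Y, w * w = 1 ∧ L.bl B ∩ Fx Ω w = {a, b} :=
    fun a ha b hb hab => by
      obtain ⟨w, h1, h2, h3, h4⟩ := h.exists_w ha hb hab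
      exact ⟨w, ⟨mem_C1.2 h4.symm.eq, L.fix h1 (h.x_mem ha hb hab)⟩, h2, by
        rw [L.Fx_eq (h.d4 ha hb hab).ncard h1 h3, h.inter_even (by rw [hk]) ha hb hab]⟩
  obtain ⟨a, ha, b, hb, c, hc, d, hd, h4⟩ := exists_D4_mem (F := L.bl B) (by omega)
  let O : Set Ω := {y | ∃ g ∈ Y, g • a = y}
  have hO : O ⊆ L.bl B := by rintro _ ⟨g, hg, rfl⟩; exact h.maps (mem_C1.1 hg.1) a ha
  have hO' : ∀ w ∈ Y, ∀ y ∈ O, w • y ∈ O := by
    rintro w hw _ ⟨g, hg, rfl⟩; exact ⟨w * g, mul_mem hw hg, mul_smul _ _ _⟩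
  have ha' : a ∈ O := ⟨1, one_mem _, one_smul _ _⟩
  have par : ∀ e ∈ L.bl B, a ≠ e → O.ncard % 2 = (O ∩ {a, e}).ncard % 2 := fun e he hae => by
    obtain ⟨w, h1, h2, h3⟩ := hw a ha e he hae
    rw [ncard_modEq2 (hO' w h1) h2, ← h3, ← Set.inter_assoc, Set.inter_eq_left.2 hO]
  have hO6 : O = L.bl B := by
    refine Set.Subset.antisymm hO fun e he => by_contra fun he' => ?_
    obtain ⟨w, h1, -, h3⟩ := hw b hb c hc h4.2.2.2.1
    have h5 : a ≠ w • a := fun e => by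
      have : a ∈ ({b, c} : Set Ω) := h3 ▸ ⟨ha, e.symm⟩
      simp [h4.1, h4.2.1] at this
    have h6 := par e he (fun e' => he' (e' ▸ ha'))
    have h7 := par _ (hO (hO' w h1 a ha')) h5
    rw [Set.inter_eq_right.2 (by rintro _ (rfl | rfl); exacts [ha', hO' w h1 a ha']),
      Set.ncard_pair h5] at h7
    rw [show O ∩ {a, e} = {a} from Set.ext fun z => ⟨fun ⟨z1, z2⟩ => z2.elim id fun e' =>
      absurd ((show z = e from e') ▸ z1) he', fun e' => (show z = a from e').symm ▸ ⟨ha', by simp⟩⟩,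
      Set.ncard_singleton] at h6
    omega
  obtain ⟨g, hg, h3⟩ := exists_mem_orderOf_eq (X := Y) Nat.prime_three (by
    refine Dvd.dvd.trans ?_ (relIndex_dvd_card' (stabilizer G a) Y)
    rw [relIndex_stab]
    change 3 ∣ O.ncard
    rw [hO6, c6]; decide)
  have g3 : g ^ 3 = 1 := h3 ▸ pow_orderOf_eq_one g
  have g1 : g ≠ 1 := by rintro rfl; simp at h3
  have gc : Commute g u := mem_C1.1 hg.1
  have gx : g • x = x := hg.2
  have e0 : L.bl B ∩ Fx Ω g = ∅ := by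
    have m := ncard_modEq1 Nat.prime_three (h.maps gc) g3
    by_contra e
    have := (Set.ncard_pos (Set.toFinite _)).2 (Set.nonempty_iff_ne_empty.2 e)
    have h2 : 3 ≤ (L.bl B ∩ Fx Ω g).ncard := by rw [c6] at m; unfold Nat.ModEq at m; omega
    obtain ⟨p, hp, q, hq, hpq⟩ := (Set.one_lt_ncard (Set.toFinite _)).1
      (show 1 < (L.bl B ∩ Fx Ω g).ncard by omega)
    rw [a6 _ g (h.d4 hp.1 hq.1 hpq).ncard g1 (by
      rintro _ (rfl | rfl | rfl | rfl); exacts [hp.2, hq.2, gx, h.fix_y gc gx]),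
      h.inter_even (by rw [hk]) hp.1 hq.1 hpq, Set.ncard_pair hpq] at h2
    omega
  have e1 : Fx Ω g ∩ Fx Ω u = ∅ := by rw [h.Fx_eq, Set.inter_comm, e0]
  have e2 := ncard_modEq2 (fun _ => smul_mem_Fx gc.symm) h.sq (S := Fx Ω g)
  rw [e1, Set.ncard_empty] at e2
  have e3 : (Fx Ω g).ncard < 4 := by
    by_contra e
    obtain ⟨D, d1, d2⟩ := exists_four (not_lt.1 e)
    have d3 := a6 D g d2 g1 d1
    have := b6 D u d2 (L.mem_N' d2 (d3 ▸ fun _ => smul_mem_Fx gc.symm)) h.sq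
    rw [← d3, e1, Set.ncard_empty] at this
    omega
  have e4 := two_le_ncard (S := Fx Ω g) gx (h.fix_y gc gx) h.ne_x
  have e5 := card_modEq (Ω := Ω) Nat.prime_three g3
  have e6 := L.dvd_card
  have e7 := L.lt
  rw [hk] at e6 e7
  unfold Nat.ModEq at e5
  omega

end Lv

end CfsgH1.Q4
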