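import Cfsg.Agent.H1.Q4L4

set_option autoImplicit false
set_option linter.unusedSectionVars false

/-! Levels with blocks of size seven: the Fano plane, a real element of order three, a rich line. -/

namespace CfsgH1.Q4

open MulAction Subgroup CfsgH5 CfsgH6 CfsgFT

universe u

variable {G : Type u} {Ω : Type*} [Group G] [Finite G] [MulAction G Ω] [Finite Ω]

theorem two_swap {T : Set Ω} (hT : T.ncard ≤ 2) {t y z : Ω} (ht : t ∈ T) (hy : y ∈ T) (hz : z ∈ T)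
    (h1 : y ≠ t) (h2 : z ≠ t) : y = z := by
  have e := eq_pair ht hy h1.symm hT
  exact ((e ▸ hz : z ∈ ({t, y} : Set Ω)).resolve_left h2).symm

theorem eq_four {V : Subgroup G} (hV : Nat.card V ≤ 4) {v w : G} (hv : v ∈ V) (hw : w ∈ V)
    (v2 : v * v = 1) (w2 : w * w = 1) (v1 : v ≠ 1) (w1 : w ≠ 1) (h : v ≠ w) :
    (∀ t ∈ V, t = 1 ∨ t = v ∨ t = w ∨ t = v * w) ∧ (∀ t ∈ V, t * t = 1) ∧ Nat.card V = 4 := by
  have d : D4 1 v w (v * w) := ⟨v1.symm, w1.symm, fun e => h (by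
    rw [← inv_eq_of_invol w2]; exact eq_inv_of_mul_eq_one_left e.symm), h,
    fun e => w1 (by simpa using e), fun e => v1 (by simpa using e)⟩
  have e := eq_quad (S := (V : Set G)) d V.one_mem hv hw (V.mul_mem hv hw) hV
  have k : ∀ t ∈ V, t = 1 ∨ t = v ∨ t = w ∨ t = v * w := fun t ht => by
    simpa using (e ▸ ht : t ∈ ({1, v, w, v * w} : Set G))
  refine ⟨k, fun t ht => ?_, (congrArg Set.ncard e).trans d.ncard⟩
  rcases k t ht with rfl | rfl | rfl | rfl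
  · simp
  · exact v2
  · exact w2
  rcases k _ (V.mul_mem hw hv) with e | e | e | e
  · exact absurd (by rw [← inv_eq_of_invol v2]; exact (eq_inv_of_mul_eq_one_left e).symm) h
  · exact absurd (by simpa using e) w1
  · exact absurd (by simpa using e) v1
  · calc v * w * (v * w) = v * (w * v) * w := by group
      _ = 1 := by rw [e, ← mul_assoc, v2, one_mul, w2]

theorem exists_three {ρ : G} (h : 3 ∣ orderOf ρ) : ∃ n : ℕ, orderOf (ρ ^ n) = 3 :=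
  ⟨orderOf ρ / 3, orderOf_pow_orderOf_div (orderOf_pos ρ).ne' h⟩

namespace Lv

variable {L : Lv G Ω} {B B' : Set Ω} {u g w : G} {x a b c : Ω}

namespace Cf

variable (h : L.Cf B u x)
include h

theorem ln_smul (hc : Commute g u) (hx : g • x = x) (ha : a ∈ L.bl B) (hb : b ∈ L.bl B) (hab : a ≠ b)
    (hc' : c ∈ L.bl {a, b, x, u • x}) : g • c ∈ L.bl {g • a, g • b, x, u • x} := by
  have := L.bl_smul (h.d4 ha hb hab).ncard g
  simp only [Set.image_insert_eq, Set.image_singleton, hx, h.fix_y hc hx] at this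
  exact this ▸ ⟨c, hc', rfl⟩

variable (hk : L.k = 7)
include hk

theorem ln_eq (ha : a ∈ L.bl B) (hb : b ∈ L.bl B) (hab : a ≠ b) (hc : c ∈ L.bl B)
    (hc' : c ∈ L.bl {a, b, x, u • x}) (h1 : a ≠ c) (h2 : b ≠ c) {d : Ω} (hd : d ∈ L.bl B)
    (hd' : d ∈ L.bl {a, b, x, u • x}) : d = a ∨ d = b ∨ d = c := by
  have e := eq_triple (S := L.bl B ∩ L.bl {a, b, x, u • x}) ⟨ha, h.a_mem ha hb hab⟩
    ⟨hb, h.b_mem ha hb hab⟩ ⟨hc, hc'⟩ hab h1 h2 (h.inter_le ha hb hab)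
  simpa using (e ▸ ⟨hd, hd'⟩ : d ∈ ({a, b, c} : Set Ω))

theorem exists_e (ha : a ∈ L.bl B) (hb : b ∈ L.bl B) (hab : a ≠ b) :
    ∃ e ∈ L.bl B, e ∈ L.bl {a, b, x, u • x} ∧ a ≠ e ∧ b ≠ e := by
  obtain ⟨e, h1, h2, h3⟩ := exists_third (S := L.bl B ∩ L.bl {a, b, x, u • x}) ⟨ha, h.a_mem ha hb hab⟩
    ⟨hb, h.b_mem ha hb hab⟩ hab (h.inter_odd (by rw [hk]) ha hb hab)
  have : e ∈ L.bl B ∩ L.bl {a, b, x, u • x} := by rw [h3]; simp
  exact ⟨e, this.1, this.2, h1.symm, h2.symm⟩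

/-- the third line through a point -/
theorem third_line {o d : Ω} (ho : o ∈ L.bl B) (ha : a ∈ L.bl B) (hb : b ∈ L.bl B) (hc : c ∈ L.bl B)
    (hd : d ∈ L.bl B) (oa : o ≠ a) (hb' : b ∉ L.bl {o, a, x, u • x})
    (c1 : c ∉ L.bl {o, a, x, u • x}) (c2 : c ∉ L.bl {o, b, x, u • x})
    (d1 : d ∉ L.bl {o, a, x, u • x}) (d2 : d ∉ L.bl {o, b, x, u • x}) : d ∈ L.bl {o, c, x, u • x} := by
  have ob : o ≠ b := fun e => hb' (e ▸ h.a_mem ho ha oa)
  have oc : o ≠ c := fun e => c1 (e ▸ h.a_mem ho ha oa)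
  obtain ⟨e, e1, e2, e3, e4⟩ := h.exists_e hk ho hc oc
  have k : ∀ {a}, a ∈ L.bl B → o ≠ a → c ∉ L.bl {o, a, x, u • x} → e ∉ L.bl {o, a, x, u • x} :=
    fun {a} ha oa c1 H => c1 (by
      rw [← h.bl_congr ho ha oa ho e1 e3 (h.a_mem ho ha oa) H,
        h.bl_congr ho hc oc ho e1 e3 (h.a_mem ho hc oc) e2]
      exact h.b_mem ho hc oc)
  by_cases dc : d = c
  · rw [dc]; exact h.b_mem ho hc oc
  have i1 := h.inter_odd (by rw [hk]) ho ha oa
  have i2 := h.inter_odd (by rw [hk]) ho hb ob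
  have i3 : (L.bl B ∩ L.bl {o, a, x, u • x} ∩ (L.bl B ∩ L.bl {o, b, x, u • x})).ncard ≤ 1 :=
    (Set.ncard_le_one (Set.toFinite _)).2 fun p hp q hq => by
      by_contra pq
      refine hb' ?_
      rw [← h.bl_congr ho ha oa hp.1.1 hq.1.1 pq hp.1.2 hq.1.2,
        h.bl_congr ho hb ob hp.1.1 hq.1.1 pq hp.2.2 hq.2.2]
      exact h.b_mem ho hb ob
  have i4 := Set.ncard_union_add_ncard_inter (L.bl B ∩ L.bl {o, a, x, u • x}) (L.bl B ∩ L.bl {o, b, x, u • x})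
  have i5 := Set.ncard_diff (s := L.bl B ∩ L.bl {o, a, x, u • x} ∪ L.bl B ∩ L.bl {o, b, x, u • x})
    (t := L.bl B) (Set.union_subset Set.inter_subset_left Set.inter_subset_left)
  rw [L.card_bl h.hB, hk] at i5
  rw [two_swap (T := L.bl B \ (L.bl B ∩ L.bl {o, a, x, u • x} ∪ L.bl B ∩ L.bl {o, b, x, u • x}))
    (by omega) ⟨hc, fun H => H.elim (c1 ·.2) (c2 ·.2)⟩ ⟨hd, fun H => H.elim (d1 ·.2) (d2 ·.2)⟩
    ⟨e1, fun H => H.elim (k ha oa c1 ·.2) (k hb ob c2 ·.2)⟩ dc e4.symm]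
  exact e2

theorem real3 {o : Ω} {v : G} (ho : o ∈ L.bl B) (ha : a ∈ L.bl B) (hb : b ∈ L.bl B) (oa : o ≠ a)
    (hb' : b ∉ L.bl {o, a, x, u • x}) (w1 : w ∈ L.K {o, a, x, u • x}) (w2 : w * w = 1) (w3 : Commute u w)
    (v1 : v ∈ L.K {o, b, x, u • x}) (v2 : v * v = 1) (v3 : Commute u v)
    (wb : w • b ∉ L.bl {o, b, x, u • x}) (va : v • a ∉ L.bl {o, a, x, u • x}) :
    ∃ g w : G, orderOf g = 3 ∧ Commute g u ∧ g • x = x ∧ w * g * w⁻¹ = g⁻¹ := by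
  have ob : o ≠ b := fun e => hb' (e ▸ h.a_mem ho ha oa)
  have wo := L.fix w1 (h.a_mem ho ha oa)
  have wx := L.fix w1 (h.x_mem ho ha oa)
  have vo := L.fix v1 (h.a_mem ho hb ob)
  have vx := L.fix v1 (h.x_mem ho hb ob)
  have ha' : a ∉ L.bl {o, b, x, u • x} := fun H => hb' (by
    rw [h.bl_congr ho hb ob ho ha oa (h.a_mem ho hb ob) H]; exact h.b_mem ho hb ob)
  have wb1 := h.maps w3.symm b hb
  have va1 := h.maps v3.symm a ha
  have wb2 : w • b ∉ L.bl {o, a, x, u • x} :=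
    maps_compl (fun y hy => by rw [L.fix w1 hy]; exact hy) b hb'
  have va2 : v • a ∉ L.bl {o, b, x, u • x} :=
    maps_compl (fun y hy => by rw [L.fix v1 hy]; exact hy) a ha'
  have oc : o ≠ w • b := fun e => wb2 (e ▸ h.a_mem ho ha oa)
  have od : o ≠ v • a := fun e => va2 (e ▸ h.a_mem ho hb ob)
  have eN : L.bl {o, v • a, x, u • x} = L.bl {o, w • b, x, u • x} :=
    h.bl_congr ho wb1 oc ho va1 od (h.a_mem ho wb1 oc)
      (h.third_line hk ho ha hb wb1 va1 oa hb' wb2 wb va va2)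
  have s1 : ∀ y ∈ L.bl {o, a, x, u • x}, (w * v) • y ∈ L.bl {o, b, x, u • x} := fun y hy => by
    have := h.ln_smul v3.symm vx ho ha oa hy
    rw [vo, eN] at this
    have := h.ln_smul w3.symm wx ho wb1 oc this
    rwa [wo, invol_smul w2, ← mul_smul] at this
  have s2 : ∀ y ∈ L.bl {o, b, x, u • x}, (w * v) • y ∈ L.bl {o, w • b, x, u • x} := fun y hy => by
    have := h.ln_smul w3.symm wx ho hb ob hy
    rwa [wo, ← L.fix v1 hy, ← mul_smul] at this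
  have s3 : ∀ y ∈ L.bl {o, w • b, x, u • x}, (w * v) • y ∈ L.bl {o, a, x, u • x} := fun y hy => by
    have := h.ln_smul v3.symm vx ho va1 od (eN ▸ hy)
    rw [vo, invol_smul v2] at this
    rw [mul_smul, L.fix w1 this]
    exact this
  have s4 : ∀ j : ℕ, (w * v) ^ (3 * j) • a ∈ L.bl {o, a, x, u • x} := fun j => by
    induction j with
    | zero => simpa using h.b_mem ho ha oa
    | succ j ih =>
      rw [show 3 * (j + 1) = 3 * j + 1 + 1 + 1 by ring, pow_succ', mul_smul (w * v), pow_succ',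
        mul_smul (w * v), pow_succ', mul_smul (w * v)]
      exact s3 _ (s2 _ (s1 _ ih))
  have h3 : 3 ∣ orderOf (w * v) := by
    have e := pow_orderOf_eq_one (w * v)
    obtain ⟨j, hj | hj | hj⟩ : ∃ j, orderOf (w * v) = 3 * j ∨ orderOf (w * v) = 3 * j + 1 ∨
      orderOf (w * v) = 3 * j + 1 + 1 := ⟨orderOf (w * v) / 3, by omega⟩
    · exact ⟨j, hj⟩
    · have := s1 _ (s4 j)
      rw [← mul_smul, ← pow_succ', ← hj, e, one_smul] at this
      exact absurd this ha'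
    · have := s2 _ (s1 _ (s4 j))
      rw [← mul_smul, ← mul_smul, mul_assoc, ← pow_succ', ← pow_succ', ← hj, e, one_smul] at this
      exact absurd (h.bl_congr ho wb1 oc ho ha oa (h.a_mem ho wb1 oc) this ▸ h.b_mem ho wb1 oc) wb2
  obtain ⟨n, hn⟩ := exists_three h3
  refine ⟨_, w, hn, (w3.symm.mul_left v3.symm).pow_left n, Fx_le_pow _ n (by
    rw [mem_Fx, mul_smul, vx, wx]), ?_⟩
  rw [← conj_pow, ← inv_pow, mul_inv_rev, inv_eq_of_invol w2, inv_eq_of_invol v2, ← mul_assoc, w2, one_mul]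

theorem fix_iff (ha : a ∈ L.bl B) (hb : b ∈ L.bl B) (hab : a ≠ b) (w1 : w ∈ L.K {a, b, x, u • x})
    (w2 : w ≠ 1) : w • c = c ↔ c ∈ L.bl {a, b, x, u • x} := by
  rw [← L.Fx_eq (h.d4 ha hb hab).ncard w1 w2]; rfl

theorem exists_real :
    ∃ g w : G, orderOf g = 3 ∧ Commute g u ∧ g • x = x ∧ w * g * w⁻¹ = g⁻¹ := by
  have c7 : (L.bl B).ncard = 7 := hk ▸ L.card_bl h.hB
  obtain ⟨a, ha, b, hb, -, -, -, -, hab, -⟩ := exists_D4_mem (F := L.bl B) (by omega)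
  obtain ⟨w, w1, w2, w3, w4⟩ := h.exists_w ha hb hab
  have wx := L.fix w1 (h.x_mem ha hb hab)
  obtain ⟨p, hp, hp'⟩ := Set.exists_mem_notMem_of_ncard_lt_ncard
    (s := L.bl B ∩ L.bl {a, b, x, u • x}) (t := L.bl B) (by have := h.inter_le ha hb hab; omega)
  replace hp' : p ∉ L.bl {a, b, x, u • x} := fun H => hp' ⟨hp, H⟩
  have hq := h.maps w4.symm p hp
  have pq : p ≠ w • p := fun e => hp' ((h.fix_iff hk ha hb hab w1 w3).1 e.symm)
  obtain ⟨o, o1, o2, o3, o4⟩ := h.exists_e hk hp hq pq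
  have o5 : o ∈ L.bl {a, b, x, u • x} := by
    have := h.ln_smul w4.symm wx hp hq pq o2
    rw [invol_smul w2, h.bl_congr hp hq pq hq hp pq.symm (h.b_mem hp hq pq) (h.a_mem hp hq pq)] at this
    rcases h.ln_eq hk hp hq pq o1 o2 o3 o4 (h.maps w4.symm o o1) this with e | e | e
    · exact absurd (by rw [← e, invol_smul w2]) o4
    · exact absurd (MulAction.injective w e).symm o3
    · exact (h.fix_iff hk ha hb hab w1 w3).1 e
  obtain ⟨r, r1, r2, r3⟩ : ∃ r ∈ L.bl B, r ∈ L.bl {a, b, x, u • x} ∧ r ≠ o := by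
    by_cases e : a = o
    exacts [⟨b, hb, h.b_mem ha hb hab, e ▸ hab.symm⟩, ⟨a, ha, h.a_mem ha hb hab, e⟩]
  have e1 := h.bl_congr ha hb hab r1 o1 r3 r2 o5
  obtain ⟨s, s1, s2, s3, s4⟩ := h.exists_e hk r1 o1 r3
  rw [e1] at s2
  -- the general step
  have key : ∀ r s, r ∈ L.bl B → r ∈ L.bl {a, b, x, u • x} → r ≠ o → s ∈ L.bl B →
      s ∈ L.bl {a, b, x, u • x} → r ≠ s → o ≠ s → ∀ v ∈ L.K {r, p, x, u • x}, v * v = 1 → v ≠ 1 → Commute u v →
      (∃ g w : G, orderOf g = 3 ∧ Commute g u ∧ g • x = x ∧ w * g * w⁻¹ = g⁻¹) ∨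
        (v • s = o ∧ o ∉ L.bl {r, p, x, u • x} ∧ s ∉ L.bl {r, p, x, u • x}) := by
    intro r s r1 r2 r3 s1 s2 s3 s4 v v1 v2 v3 v4
    have rp : r ≠ p := fun e => hp' (e ▸ r2)
    have k : ∀ t ∈ L.bl B, t ∈ L.bl {a, b, x, u • x} → r ≠ t → t ∉ L.bl {r, p, x, u • x} :=
      fun t t1 t2 t3 H => hp' (by
        rw [← h.bl_congr ha hb hab r1 t1 t3 r2 t2, h.bl_congr r1 hp rp r1 t1 t3 (h.a_mem r1 hp rp) H]
        exact h.b_mem r1 hp rp)
    have e2 := h.bl_congr ha hb hab r1 s1 s3 r2 s2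
    by_cases H : v • s ∈ L.bl {a, b, x, u • x}
    · refine .inr ⟨?_, k o o1 o5 r3, k s s1 s2 s3⟩
      rcases h.ln_eq hk r1 s1 s3 o1 (e2 ▸ o5) r3 s4.symm (h.maps v4.symm s s1) (e2 ▸ H) with e | e | e
      · exact absurd (MulAction.injective v (e.trans (L.fix v1 (h.a_mem r1 hp rp)).symm)) s3.symm
      · exact absurd ((h.fix_iff hk r1 hp rp v1 v3).1 e) (k s s1 s2 s3)
      · exact e
    · exact .inl (h.real3 hk r1 s1 hp s3 (e2 ▸ hp')
        (L.K_eq_of (h.d4 ha hb hab).ncard (h.d4 r1 s1 s3).ncard e2 ▸ w1) w2 w4 v1 v2 v4 (fun H' => k o o1 o5 r3 (by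
          rw [← h.bl_congr r1 hp rp hp hq pq (h.b_mem r1 hp rp) H']; exact o2)) (e2 ▸ H))
  have rp : r ≠ p := fun e => hp' (e ▸ r2)
  have sp : s ≠ p := fun e => hp' (e ▸ s2)
  obtain ⟨v, v1, v2, v3, v4⟩ := h.exists_w r1 hp rp
  obtain ⟨t, t1, t2, t3, t4⟩ := h.exists_w s1 hp sp
  refine (key r s r1 r2 r3 s1 s2 s3 s4 v v1 v2 v3 v4).elim id fun ⟨a1, a2, a3⟩ => ?_
  refine (key s r s1 s2 s4.symm r1 r2 s3.symm r3.symm t t1 t2 t3 t4).elim id fun ⟨b1, b2, _⟩ => ?_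
  have e3 : ({p, r, x, u • x} : Set Ω) = {r, p, x, u • x} := Set.insert_comm _ _ _
  have e4 : ({p, s, x, u • x} : Set Ω) = {s, p, x, u • x} := Set.insert_comm _ _ _
  exact h.real3 hk hp r1 s1 rp.symm (e3 ▸ a3) (e3 ▸ v1) v2 v4 (e4 ▸ t1) t2 t4 (e4 ▸ a1 ▸ b2) (e3 ▸ b1 ▸ a2)

theorem fix_one (h3 : orderOf g = 3) (hc : Commute g u) (hx : g • x = x) :
    (L.bl B ∩ Fx Ω g).ncard = 1 := by
  have m := ncard_modEq1 Nat.prime_three (h.maps hc) (h3 ▸ pow_orderOf_eq_one g)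
  rw [L.card_bl h.hB, hk] at m
  have : ¬ 4 ≤ (L.bl B ∩ Fx Ω g).ncard := fun H => by
    rw [h.eq_one hc hx H] at h3; simp at h3
  unfold Nat.ModEq at m
  omega

theorem inv_line (h3 : orderOf g = 3) (hc : Commute g u) (hx : g • x = x) :
    ∃ a ∈ L.bl B, g • a ≠ a ∧ g • g • a ∈ L.bl {a, g • a, x, u • x} := by
  have c7 : (L.bl B).ncard = 7 := hk ▸ L.card_bl h.hB
  obtain ⟨p, hp⟩ := Set.ncard_eq_one.1 (h.fix_one hk h3 hc hx)
  have p1 : p ∈ L.bl B ∩ Fx Ω g := by rw [hp]; rfl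
  have g3 : ∀ y : Ω, g • g • g • y = y := fun y => by
    rw [← mul_smul, ← mul_smul, mul_assoc, ← pow_three, ← h3, pow_orderOf_eq_one, one_smul]
  have m := h.maps hc
  have k0 : ∀ y ∈ L.bl B, y ≠ p → g • y ≠ y ∧ g • y ≠ p ∧ g • g • y ≠ y := fun y hy e =>
    have a1 : g • y ≠ y := fun e' => e (hp ▸ ⟨hy, e'⟩ : y ∈ ({p} : Set Ω))
    ⟨a1, fun e' => e (MulAction.injective g (e'.trans p1.2.symm)), fun e' => a1 (by
      have := g3 y; rwa [e'] at this)⟩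
  have k1 : ∀ y ∈ L.bl B, y ≠ p → p ∈ L.bl {y, g • y, x, u • x} → g • g • y ∈ L.bl {y, g • y, x, u • x} :=
    fun y hy e H => by
      obtain ⟨a1, a2, -⟩ := k0 y hy e
      have a3 := (k0 _ (m y hy) a2).1
      have := h.ln_smul hc hx hy (m y hy) a1.symm H
      rw [show g • p = p from p1.2] at this
      rw [← h.bl_congr hy (m y hy) a1.symm (m y hy) p1.1 a2 (h.b_mem hy (m y hy) a1.symm) H,
        h.bl_congr (m y hy) (m _ (m y hy)) a3.symm (m y hy) p1.1 a2 (h.a_mem (m y hy) (m _ (m y hy)) a3.symm) this]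
      exact h.b_mem (m y hy) (m _ (m y hy)) a3.symm
  obtain ⟨a, ha, ap⟩ := Set.exists_mem_notMem_of_ncard_lt_ncard (s := {p}) (t := L.bl B) (by simp [c7])
  replace ap : a ≠ p := ap
  obtain ⟨a1, a2, a3⟩ := k0 a ha ap
  obtain ⟨b1, b2, -⟩ := k0 _ (m a ha) a2
  by_cases H : g • g • a ∈ L.bl {a, g • a, x, u • x}
  · exact ⟨a, ha, a1, H⟩
  obtain ⟨e, e1, e2, e3, e4⟩ := h.exists_e hk ha (m a ha) a1.symm
  have e5 : e ≠ p := fun e' => H (k1 a ha ap (e' ▸ e2))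
  have e6 : e ≠ g • g • a := fun e' => H (e' ▸ e2)
  obtain ⟨c1, c2, c3⟩ := k0 e e1 e5
  obtain ⟨d1, d2, -⟩ := k0 _ (m e e1) c2
  refine ⟨e, e1, c1, ?_⟩
  by_cases H' : p ∈ L.bl {e, g • e, x, u • x}
  · exact k1 e e1 e5 H'
  obtain ⟨f, f1, f2, f3, f4⟩ := h.exists_e hk e1 (m e e1) c1.symm
  have i : ∀ {y z : Ω}, y ≠ z → g • y ≠ g • z := fun h e => h (MulAction.injective g e)
  have n1 : g • e ≠ a := fun e' => i e6 (by rw [g3, e'])
  have n2 : g • g • e ≠ a := fun e' => i (i e4.symm) (by rw [g3, e'])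
  have n3 : g • g • e ≠ g • a := i n1
  have l2 := h.ln_smul hc hx ha (m a ha) a1.symm e2
  have k2 : ∀ t ∈ L.bl B, t ∈ L.bl {a, g • a, x, u • x} → e ≠ t → t ∉ L.bl {e, g • e, x, u • x} :=
    fun t t1 t2 t3 t4 => by
      have := h.b_mem e1 (m e e1) c1.symm
      rw [← h.bl_congr e1 (m e e1) c1.symm e1 t1 t3 (h.a_mem e1 (m e e1) c1.symm) t4,
        h.bl_congr ha (m a ha) a1.symm e1 t1 t3 e2 t2] at this
      rcases h.ln_eq hk ha (m a ha) a1.symm e1 e2 e3 e4 (m e e1) this with e' | e' | e'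
      exacts [n1 e', i e3 e'.symm, c1 e']
  have k3 : g • g • a ∉ L.bl {e, g • e, x, u • x} := fun t4 => by
    have := h.a_mem e1 (m e e1) c1.symm
    rw [← h.bl_congr e1 (m e e1) c1.symm (m e e1) (m _ (m a ha)) (i e4).symm (h.b_mem e1 (m e e1) c1.symm) t4,
      h.bl_congr (m a ha) (m _ (m a ha)) b1.symm (m e e1) (m _ (m a ha)) (i e4).symm l2
        (h.b_mem (m a ha) (m _ (m a ha)) b1.symm)] at this
    rcases h.ln_eq hk (m a ha) (m _ (m a ha)) b1.symm (m e e1) l2 (i e3) (i e4) e1 this with e' | e' | e'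
    exacts [e4 e'.symm, e6 e', c1 e'.symm]
  have c6 : ({p, a, g • a, g • g • a, e, g • e} : Set Ω).ncard = 6 := by
    rw [Set.ncard_insert_of_notMem (by simp [ap.symm, a2.symm, b2.symm, e5.symm, c2.symm]),
      Set.ncard_insert_of_notMem (by simp [a1.symm, a3.symm, e3, n1.symm]),
      D4.ncard ⟨b1.symm, e4, i e3, e6.symm, i e4, c1.symm⟩]
  have i5 := Set.ncard_diff (s := ({p, a, g • a, g • g • a, e, g • e} : Set Ω)) (t := L.bl B) (by
    rintro _ (rfl | rfl | rfl | rfl | rfl | rfl)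
    exacts [p1.1, ha, m a ha, m _ (m a ha), e1, m e e1])
  rw [(Set.ncard_le_one (s := L.bl B \ {p, a, g • a, g • g • a, e, g • e}) (Set.toFinite _)).1 (by omega)
    (g • g • e) ⟨m _ (m e e1), by simp [d2, n2, n3, i (i e3.symm), c3, d1]⟩ f ⟨f1, ?_⟩]
  · exact f2
  rintro (rfl | rfl | rfl | rfl | rfl | rfl)
  exacts [H' f2, k2 _ ha (h.a_mem ha (m _ ha) a1.symm) e3.symm f2,
    k2 _ (m a ha) (h.b_mem ha (m a ha) a1.symm) e4.symm f2, k3 f2, f3 rfl, f4 rfl]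

end Cf

end Lv

end CfsgH1.Q4
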