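import Cfsg.Agent.H1.Q4L7a

set_option autoImplicit false
set_option linter.unusedSectionVars false

/-! Levels with blocks of size seven have `23` points. -/

namespace CfsgH1.Q4

open MulAction Subgroup CfsgH5 CfsgH6 CfsgFT

universe u

variable {G : Type u} {Ω : Type*} [Group G] [Finite G] [MulAction G Ω] [Finite Ω]

/-- two fixed-point-free involutions of a `4`-set agreeing at a point agree -/
theorem agree_four {Q : Set Ω} (hQ : Q.ncard = 4) {v w : G} (v2 : v * v = 1) (w2 : w * w = 1)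
    (hv : ∀ y ∈ Q, v • y ∈ Q ∧ v • y ≠ y) (hw : ∀ y ∈ Q, w • y ∈ Q ∧ w • y ≠ y) {e : Ω} (he : e ∈ Q)
    (h : v • e = w • e) : ∀ y ∈ Q, v • y = w • y := fun y hy => by
  by_cases h1 : y = e
  · rw [h1, h]
  by_cases h2 : y = w • e
  · rw [h2, invol_smul w2, ← h, invol_smul v2]
  have k : ∀ {t : G}, t * t = 1 → t • e = w • e → t • y ∉ ({e, w • e} : Set Ω) := fun {t} t2 ht => by
    rintro (e' | e')
    · exact h2 (by rw [← ht, ← e', invol_smul t2])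
    · exact h1 (MulAction.injective t (e'.trans ht.symm))
  refine two_swap (T := Q \ {e, w • e}) ?_ ⟨hy, by simp [h1, h2]⟩ ⟨(hv y hy).1, k v2 h⟩
    ⟨(hw y hy).1, k w2 rfl⟩ (hv y hy).2 (hw y hy).2
  rw [Set.ncard_diff (by rintro _ (rfl | rfl); exacts [he, (hw e he).1]), Set.ncard_pair (hw e he).2.symm, hQ]

namespace Lv

variable {L : Lv G Ω} {B B' : Set Ω} {u g w : G} {x a b c : Ω}

/-- two blocks meeting in three points, `K B'` containing a four-group preserving the first -/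
structure Rich (L : Lv G Ω) (B B' : Set Ω) (a b c : Ω) (v w : G) : Prop where
  hB : B.ncard = 4
  hB' : B'.ncard = 4
  ab : a ≠ b
  ac : a ≠ c
  bc : b ≠ c
  int : L.bl B ∩ L.bl B' = {a, b, c}
  hv : v ∈ L.K B' ⊓ N (L.K B)
  hw : w ∈ L.K B' ⊓ N (L.K B)
  v2 : v * v = 1
  w2 : w * w = 1
  v1 : v ≠ 1
  w1 : w ≠ 1
  vw : v ≠ w

theorem free_diff (hB : B.ncard = 4) (hB' : B'.ncard = 4) :
    (∀ e ∈ L.K B' ⊓ N (L.K B), ∀ y ∈ L.bl B \ L.bl B', e • y ∈ L.bl B \ L.bl B') ∧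
    ∀ e ∈ L.K B' ⊓ N (L.K B), ∀ y ∈ L.bl B \ L.bl B', e • y = y → e = 1 :=
  ⟨fun _ he y hy => ⟨L.maps he.2 y hy.1, maps_compl (L.maps (le_N _ he.1)) y hy.2⟩,
    fun _ he _ hy => L.eq_one hB' he.1 hy.2⟩

theorem card_diff (hk : L.k = 7) (hB : B.ncard = 4) (h : (L.bl B ∩ L.bl B').ncard = 3) :
    (L.bl B \ L.bl B').ncard = 4 := by
  have := Set.ncard_inter_add_ncard_diff_eq_ncard (L.bl B) (L.bl B')
  rw [L.card_bl hB, hk] at this
  omega

namespace Rich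

variable {v : G} (R : L.Rich B B' a b c v w)
include R

theorem c3 : (L.bl B ∩ L.bl B').ncard = 3 := R.int ▸ ncard_triple R.ab R.ac R.bc

theorem c3' : (L.bl B' ∩ L.bl B).ncard = 3 := Set.inter_comm _ _ ▸ R.c3

theorem ne : L.bl B' ≠ L.bl B := fun e => by
  have := R.c3
  have := L.four
  rw [e, Set.inter_self, L.card_bl R.hB] at *
  omega

theorem ma : a ∈ L.bl B ∩ L.bl B' := by rw [R.int]; simp
theorem mb : b ∈ L.bl B ∩ L.bl B' := by rw [R.int]; simp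
theorem mc : c ∈ L.bl B ∩ L.bl B' := by rw [R.int]; simp

theorem d4 (hx : x ∉ L.bl B) : D4 a b c x :=
  ⟨R.ab, R.ac, fun e => hx (e ▸ R.ma.1), R.bc, fun e => hx (e ▸ R.mb.1), fun e => hx (e ▸ R.mc.1)⟩

theorem comm {s t : G} (hs : s ∈ L.K B ⊓ N (L.K B')) (ht : t ∈ L.K B' ⊓ N (L.K B)) : Commute s t :=
  L.comm_of_N R.hB R.hB' R.ne hs.1 ht.1 hs.2 ht.2

theorem mem_U {s t : G} (hs : s ∈ L.K B) (ht : t ∈ L.K B') (t1 : t ≠ 1) (h : Commute s t) :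
    s ∈ L.K B ⊓ N (L.K B') := ⟨hs, L.mem_N_of_comm R.hB' ht t1 h⟩

variable (hk : L.k = 7)
include hk

theorem le4 : Nat.card ↥(L.K B ⊓ N (L.K B')) ∣ 4 :=
  card_diff hk R.hB' R.c3' ▸ card_dvd_of_free (free_diff R.hB' R.hB).1 (free_diff R.hB' R.hB).2

theorem four : (∀ t ∈ L.K B' ⊓ N (L.K B), t = 1 ∨ t = v ∨ t = w ∨ t = v * w) ∧
    (∀ t ∈ L.K B' ⊓ N (L.K B), t * t = 1) ∧ Nat.card ↥(L.K B' ⊓ N (L.K B)) = 4 :=
  eq_four (Nat.le_of_dvd (by omega) (card_diff hk R.hB R.c3 ▸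
    card_dvd_of_free (free_diff R.hB R.hB').1 (free_diff R.hB R.hB').2)) R.hv R.hw R.v2 R.w2 R.v1 R.w1 R.vw

theorem trans {y z : Ω} (hy : y ∈ L.bl B \ L.bl B') (hz : z ∈ L.bl B \ L.bl B') :
    ∃ t ∈ L.K B' ⊓ N (L.K B), t • y = z :=
  trans_of_free (free_diff R.hB R.hB').1 (free_diff R.hB R.hB').2
    (by rw [card_diff hk R.hB R.c3, (R.four hk).2.2]) hy hz

/-- an involution of `K B` preserving the second block preserves all blocks through `a, b, c` -/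
theorem pres (hu : u ∈ L.K B ⊓ N (L.K B')) (u2 : u * u = 1) (hx : x ∉ L.bl B) :
    u • x ∈ L.bl {a, b, c, x} := by
  by_cases u1 : u = 1
  · rw [u1, one_smul]; exact L.sub (R.d4 hx).ncard (by simp)
  have h : L.Cf B u x := ⟨R.hB, hu.1, u2, u1, hx⟩
  have ha := R.ma.1
  have hb := R.mb.1
  by_cases H : c ∈ L.bl {a, b, x, u • x}
  · rw [L.bl_eq (h.d4 ha hb R.ab).ncard (R.d4 hx).ncard (by
      rintro _ (rfl | rfl | rfl | rfl)
      exacts [h.a_mem ha hb R.ab, h.b_mem ha hb R.ab, H, h.x_mem ha hb R.ab])]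
    exact h.y_mem ha hb R.ab
  exfalso
  obtain ⟨e, e1, e2, e3, e4⟩ := h.exists_e hk ha hb R.ab
  obtain ⟨t, t1, t2, t3, t4⟩ := h.exists_w ha hb R.ab
  have ta := L.fix t1 (h.a_mem ha hb R.ab)
  have tb := L.fix t1 (h.b_mem ha hb R.ab)
  have te := L.fix t1 e2
  have tc : t • c ≠ c := fun e => H ((h.fix_iff hk ha hb R.ab t1 t3).1 e)
  have ec : e ≠ c := fun e' => H (e' ▸ e2)
  have k : ∀ y ∈ L.bl B, y ≠ a → y ≠ b → y ≠ c → y ∈ L.bl B \ L.bl B' := fun y hy h1 h2 h3 =>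
    ⟨hy, fun H => by simpa [h1, h2, h3] using (R.int ▸ ⟨hy, H⟩ : y ∈ ({a, b, c} : Set Ω))⟩
  have i : ∀ {y z : Ω}, y ≠ z → t • z = z → t • y ≠ z := fun h1 h2 e =>
    h1 (MulAction.injective t (e.trans h2.symm))
  have e5 := k e e1 e3.symm e4.symm ec
  have e6 := k _ (h.maps t4.symm c R.mc.1) (i R.ac.symm ta) (i R.bc.symm tb) tc
  obtain ⟨s, s1, s2⟩ := R.trans hk e5 e6
  have s3 := (R.four hk).2.1 s s1
  have s4 : s ≠ 1 := by rintro rfl; exact i ec.symm te (by rw [← s2, one_smul])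
  have c2 : ((L.bl B \ L.bl B') \ {e, t • c}).ncard = 2 := by
    rw [Set.ncard_diff (by rintro _ (rfl | rfl); exacts [e5, e6]), Set.ncard_pair (i ec.symm te).symm,
      card_diff hk R.hB R.c3]
  have f : ∀ y ∈ (L.bl B \ L.bl B') \ {e, t • c}, (s * t) • y = y := fun y hy => by
    have y1 : y ≠ e := fun e => hy.2 (.inl e)
    have y2 : y ≠ t • c := fun e => hy.2 (.inr e)
    have y3 : y ≠ a := fun e => hy.1.2 (e ▸ R.ma.2)
    have y4 : y ≠ b := fun e => hy.1.2 (e ▸ R.mb.2)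
    have y5 : y ≠ c := fun e => hy.1.2 (e ▸ R.mc.2)
    rw [mul_smul, two_swap c2.le hy (y := t • y) (z := s • y) ⟨k _ (h.maps t4.symm y hy.1.1) (i y3 ta) (i y4 tb)
      fun e => y2 (by rw [← e, invol_smul t2]), ?_⟩ ⟨(free_diff R.hB R.hB').1 s s1 y hy.1, ?_⟩ ?_
      fun e => s4 ((free_diff R.hB R.hB').2 s s1 y hy.1 e), invol_smul s3]
    · rintro (e | e)
      exacts [i y1 te e, y5 (MulAction.injective t e)]
    · rintro (e | e)
      exacts [y2 (by rw [← s2, ← e, invol_smul s3]), y1 (MulAction.injective s (e.trans s2.symm))]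
    · intro e'
      rcases h.ln_eq hk ha hb R.ab e1 e2 e3 e4 hy.1.1 ((h.fix_iff hk ha hb R.ab t1 t3).1 e') with e | e | e
      exacts [y3 e, y4 e, y1 e]
  obtain ⟨y, z, yz, e7⟩ := Set.ncard_eq_two.1 c2
  have y1 : y ∈ (L.bl B \ L.bl B') \ {e, t • c} := by rw [e7]; simp
  have z1 : z ∈ (L.bl B \ L.bl B') \ {e, t • c} := by rw [e7]; simp
  have m := L.cen' R.hB hu.1 u1 ((R.comm hu s1).symm.mul_left t4.symm) (D4.le_ncard (a := a) (b := b) (c := y) (d := z)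
    ⟨R.ab, fun e => y1.1.2 (e ▸ R.ma.2), fun e => z1.1.2 (e ▸ R.ma.2), fun e => y1.1.2 (e ▸ R.mb.2),
      fun e => z1.1.2 (e ▸ R.mb.2), yz⟩ ⟨ha, by rw [mem_Fx, mul_smul, ta, L.fix s1.1 R.ma.2]⟩
    ⟨hb, by rw [mem_Fx, mul_smul, tb, L.fix s1.1 R.mb.2]⟩ ⟨y1.1.1, f y y1⟩ ⟨z1.1.1, f z z1⟩)
  have := L.fix m R.mc.1
  rw [mul_smul, ← s2, invol_smul s3] at this
  exact ec this

theorem vw1 : v * w ≠ 1 := fun e => R.vw (by rw [← inv_eq_of_invol R.w2]; exact eq_inv_of_mul_eq_one_left e)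

theorem two : IsPGroup 2 (L.K B) := by
  refine isPGroup_of_Opc (L.nilp R.hB) (eq_bot_iff.2 fun r hr => ?_)
  have hO : ¬ 2 ∣ Nat.card (Opc 2 (L.K B)) := not_dvd_card_Opc Nat.prime_two _
  have k : ∀ t ∈ L.K B' ⊓ N (L.K B), t ≠ 1 → t * r * t⁻¹ = r⁻¹ := fun t ht t1 =>
    inv_of_fpf ((R.four hk).2.1 t ht) (((nrm_N _).Opi _).le_N ht.2) (fun s hs hc => by
      have h1 := (orderOf_dvd_card' (R.mem_U (Opi_le _ _ hs) ht.1 t1 hc.symm)).trans (R.le4 hk)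
      have h2 : ¬ 2 ∣ orderOf s := fun h => hO (h.trans (orderOf_dvd_card' hs))
      exact orderOf_eq_one_iff.1 (Nat.Coprime.eq_one_of_dvd (m := 4)
        (Nat.Coprime.pow_right 2 ((Nat.prime_two.coprime_iff_not_dvd).2 h2).symm) h1)) hr
  have h1 := k _ (mul_mem R.hv R.hw) (R.vw1 hk)
  rw [(comm_of_inv (k v R.hv R.v1) (k w R.hw R.w1)).eq, mul_inv_cancel_right] at h1
  exact eq_one_of_odd hO hr (mul_eq_one_iff_eq_inv.2 h1)

theorem K_le (hU : ∀ s ∈ L.K B ⊓ N (L.K B'), s * s = 1 → s = 1 ∨ s = u) : L.K B ≤ N (L.K B') := by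
  haveI := Fact.mk Nat.prime_two
  set U := L.K B ⊓ N (L.K B')
  set V := L.K B' ⊓ N (L.K B)
  have nV : Nrm V (L.K B) := nrm_of_le_N inf_le_right
  have nU : Nrm V U := nV.inf ((Nrm.of_le inf_le_left).N)
  have hV : IsPGroup 2 V := IsPGroup.of_card (n := 2) (R.four hk).2.2
  have dis : ∀ s ∈ L.K B, s ∈ U ⊔ V → s ∈ U := fun s hs h => by
    obtain ⟨y, hy, z, hz, rfl⟩ := (mem_sup_nrm' nU).1 h
    exact ⟨hs, mul_mem hy.2 (le_N _ hz.1)⟩
  by_contra H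
  obtain ⟨g, g1, g2, g3⟩ := exists_nrm_of_lt (X := U ⊔ V)
    (isPGroup_sup Nat.prime_two (R.two hk) hV (.inr nV)) (lt_of_le_of_ne (sup_le_sup_right inf_le_left _)
      fun e => H fun s hs => (dis s hs (e ▸ mem_sup_left hs)).2)
  obtain ⟨e, e1, z, hz, rfl⟩ := (mem_sup_nrm' nV).1 g1
  have e2 : e ∈ N (U ⊔ V) := by
    simpa using mul_mem g3 (inv_mem (le_N _ (mem_sup_right hz : z ∈ U ⊔ V)))
  have e3 : e ∉ U := fun h => g2 (mul_mem (mem_sup_left h) (mem_sup_right hz))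
  have k : ∀ t ∈ V, t ≠ 1 → e * t * e⁻¹ = u * t := fun t ht t1 => by
    have t2 := (R.four hk).2.1 t ht
    have a1 : e * t * e⁻¹ * t⁻¹ ∈ U := dis _ (by
      simpa only [mul_assoc] using mul_mem e1 (conj_mem_of_mem_N ht.2 (inv_mem e1)))
      (mul_mem (conj_mem_of_mem_N e2 (mem_sup_right ht)) (inv_mem (mem_sup_right ht)))
    have a2 := (R.comm a1 ht).eq
    rw [inv_eq_of_invol t2] at a1 a2
    rcases hU _ a1 (by
      calc e * t * e⁻¹ * t * (e * t * e⁻¹ * t) = e * t * e⁻¹ * (t * (e * t * e⁻¹ * t)) := by group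
        _ = e * (t * t) * e⁻¹ * (t * t) := by rw [← a2]; group
        _ = 1 := by simp [t2]) with a3 | a3
    · exact absurd (R.mem_U e1 ht.1 t1 (by
        rw [mul_eq_one_iff_eq_inv, inv_eq_of_invol t2, mul_inv_eq_iff_eq_mul] at a3; exact a3)) e3
    · rw [← a3, mul_assoc _ t t, t2, mul_one]
  have h1 := k _ (mul_mem R.hv R.hw) (R.vw1 hk)
  have h2 : e * (v * w) * e⁻¹ = u * v * (u * w) := by rw [← k v R.hv R.v1, ← k w R.hw R.w1]; group
  have h3 : v * w = v * (u * w) := mul_left_cancel (a := u) (by rw [← h1, h2, mul_assoc])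
  have h4 : u = 1 := by simpa using h3
  have h5 := k v R.hv R.v1
  rw [h4, one_mul, mul_inv_eq_iff_eq_mul] at h5
  exact e3 (R.mem_U e1 R.hv.1 R.v1 h5)

theorem ncard_Fx {t : G} (t2 : t * t = 1) (t1 : t ≠ 1) (ta : t • a = a) (tb : t • b = b) (tc : t • c = c) :
    (Fx Ω t \ {a, b, c}).ncard ≤ 4 := by
  rw [Set.ncard_diff (by rintro _ (rfl | rfl | rfl) <;> assumption), ncard_triple R.ab R.ac R.bc]
  by_contra H
  obtain ⟨D, d1, d2⟩ := exists_four (F := Fx Ω t) (by omega)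
  rw [L.Fx_eq d2 (L.mem_invol d2 t2 d1) t1, L.card_bl d2, hk] at H
  omega

theorem cover {t1 t2 t3 : G} (h : ∀ t ∈ ({t1, t2, t3} : Set G), (Fx Ω t \ {a, b, c}).ncard ≤ 4)
    (h' : ∀ x, x ∉ L.bl B → x ∉ L.bl B' → t1 • x = x ∨ t2 • x = x ∨ t3 • x = x) : Nat.card Ω ≤ 23 := by
  have h1 : (Set.univ : Set Ω) ⊆ L.bl B ∪ (L.bl B' \ L.bl B ∪ (Fx Ω t1 \ {a, b, c} ∪
      (Fx Ω t2 \ {a, b, c} ∪ Fx Ω t3 \ {a, b, c}))) := fun x _ => by
    by_cases h1 : x ∈ L.bl B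
    · exact .inl h1
    by_cases h2 : x ∈ L.bl B'
    · exact .inr (.inl ⟨h2, h1⟩)
    have h3 : x ∉ ({a, b, c} : Set Ω) := fun e => h1 (R.int.ge e).1
    rcases h' x h1 h2 with e | e | e
    exacts [.inr (.inr (.inl ⟨e, h3⟩)), .inr (.inr (.inr (.inl ⟨e, h3⟩))), .inr (.inr (.inr (.inr ⟨e, h3⟩)))]
  have h2 := (Set.ncard_le_ncard h1).trans ((Set.ncard_union_le _ _).trans (Nat.add_le_add_left
    ((Set.ncard_union_le _ _).trans (Nat.add_le_add_left ((Set.ncard_union_le _ _).trans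
      (Nat.add_le_add_left (Set.ncard_union_le _ _) _)) _)) _))
  rw [Set.ncard_univ, L.card_bl R.hB, hk, card_diff hk R.hB' R.c3'] at h2
  have := h t1 (by simp)
  have := h t2 (by simp)
  have := h t3 (by simp)
  omega

theorem inter_blk (hx : x ∉ L.bl B) : L.bl B ∩ L.bl {a, b, c, x} = {a, b, c} :=
  eq_triple ⟨R.ma.1, L.sub (R.d4 hx).ncard (by simp)⟩ ⟨R.mb.1, L.sub (R.d4 hx).ncard (by simp)⟩
    ⟨R.mc.1, L.sub (R.d4 hx).ncard (by simp)⟩ R.ab R.ac R.bc (by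
      by_contra H
      exact hx (L.bl_eq_of_four R.hB (R.d4 hx).ncard (by omega) ▸ L.sub (R.d4 hx).ncard (by simp)))

theorem mem_N (hu : u ∈ L.K B ⊓ N (L.K B')) (u2 : u * u = 1) (hx : x ∉ L.bl B) :
    u ∈ N (L.K {a, b, c, x}) := CfsgFT.mem_N.2 (by
  rw [← L.K_smul (R.d4 hx).ncard]
  refine L.K_eq (R.d4 hx).ncard (by rw [ncard_smul, (R.d4 hx).ncard]) ?_
  rintro _ ⟨y, hy, rfl⟩
  show u • y ∈ _
  rcases hy with rfl | rfl | rfl | rfl
  · rw [L.fix hu.1 R.ma.1]; exact L.sub (R.d4 hx).ncard (by simp)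
  · rw [L.fix hu.1 R.mb.1]; exact L.sub (R.d4 hx).ncard (by simp)
  · rw [L.fix hu.1 R.mc.1]; exact L.sub (R.d4 hx).ncard (by simp)
  · exact R.pres hk hu u2 hx)

theorem card_le (hu : u ∈ L.K B ⊓ N (L.K B')) (u2 : u * u = 1) (u1 : u ≠ 1) : Nat.card Ω ≤ 23 := by
  have k : ∀ s ∈ L.K B ⊓ N (L.K B'), s * s = 1 → ∀ t ∈ L.K B' ⊓ N (L.K B), t ≠ 1 →
      (Fx Ω (s * t) \ {a, b, c}).ncard ≤ 4 := fun s hs s2 t ht t1 =>
    R.ncard_Fx hk (by
      rw [mul_assoc, ← mul_assoc t, ← (R.comm hs ht).eq, mul_assoc, (R.four hk).2.1 t ht, mul_one, s2])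
      (fun e => R.ne ((L.Fx_eq R.hB' ht.1 t1).symm.trans (L.Fx_eq R.hB
        (eq_inv_of_mul_eq_one_right e ▸ inv_mem hs.1) t1)))
      (by rw [mul_smul, L.fix ht.1 R.ma.2, L.fix hs.1 R.ma.1])
      (by rw [mul_smul, L.fix ht.1 R.mb.2, L.fix hs.1 R.mb.1])
      (by rw [mul_smul, L.fix ht.1 R.mc.2, L.fix hs.1 R.mc.1])
  by_cases hU : ∀ s ∈ L.K B ⊓ N (L.K B'), s * s = 1 → s = 1 ∨ s = u
  · refine R.cover hk (t1 := u * v) (t2 := u * w) (t3 := u * (v * w)) (by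
      rintro _ (rfl | rfl | rfl)
      exacts [k u hu u2 v R.hv R.v1, k u hu u2 w R.hw R.w1, k u hu u2 _ (mul_mem R.hv R.hw) (R.vw1 hk)])
      fun x hx hx' => ?_
    have c4 := (R.d4 hx).ncard
    obtain ⟨_, i1, i2⟩ := L.inv c4
    obtain ⟨t, t1, t2, t3, t4⟩ := exists_comm_invol (L.nilp c4) i1 i2 u2 (R.mem_N hk hu u2 hx)
    have tN := L.mem_N_of_comm R.hB hu.1 u1 t4.symm
    have e0 : L.bl B \ L.bl {a, b, c, x} = L.bl B \ L.bl B' := by
      rw [← Set.diff_self_inter, R.inter_blk hk hx, ← R.int, Set.diff_self_inter]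
    have ht : ∀ y ∈ L.bl B \ L.bl B', t • y ∈ L.bl B \ L.bl B' ∧ t • y ≠ y := fun y hy =>
      e0 ▸ ⟨(free_diff R.hB c4).1 t ⟨t1, tN⟩ y (e0 ▸ hy), fun e => t3
        ((free_diff R.hB c4).2 t ⟨t1, tN⟩ y (e0 ▸ hy) e)⟩
    have c5 := card_diff hk R.hB R.c3
    obtain ⟨e, he⟩ := (Set.ncard_pos (s := L.bl B \ L.bl B')).1 (by omega)
    obtain ⟨s, s1, s2⟩ := R.trans hk he (ht e he).1
    have s3 := (R.four hk).2.1 s s1
    have s4 : s ≠ 1 := by rintro rfl; exact (ht e he).2 (by rw [← s2, one_smul])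
    have ag := agree_four c5 s3 t2 (fun y hy => ⟨(free_diff R.hB R.hB').1 s s1 y hy,
      fun e => s4 ((free_diff R.hB R.hB').2 s s1 y hy e)⟩) ht he s2
    have m : t * s ∈ L.K B := L.cen' R.hB hu.1 u1 (t4.symm.mul_left (R.comm hu s1).symm)
      (c5 ▸ Set.ncard_le_ncard fun y hy => ⟨hy.1, by rw [mem_Fx, mul_smul, ag y hy, invol_smul t2]⟩)
    have m' : t * s ∈ L.K B ⊓ N (L.K B') := ⟨m, R.K_le hk hU m⟩
    have xm : x ∈ L.bl {a, b, c, x} := L.sub c4 (by simp)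
    rcases hU _ m' (by
      calc t * s * (t * s) = t * (s * (t * s)) := mul_assoc _ _ _
        _ = t * t * (s * s) := by rw [← (R.comm m' s1).eq]; group
        _ = 1 := by rw [s3, t2, mul_one]) with e' | e'
    · refine absurd (L.Fx_eq R.hB' s1.1 s4 ▸ (?_ : x ∈ Fx Ω s)) hx'
      rw [eq_inv_of_mul_eq_one_right e', Fx_inv]; exact L.fix t1 xm
    have e'' : (u * s) • x = x := by rw [← e', mul_assoc, s3, mul_one]; exact L.fix t1 xm
    rcases (R.four hk).1 s s1 with rfl | rfl | rfl | rfl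
    exacts [absurd rfl s4, .inl e'', .inr (.inl e''), .inr (.inr e'')]
  push Not at hU
  obtain ⟨s, s1, s2, s3, s4⟩ := hU
  have R' : L.Rich B' B a b c u s :=
    ⟨R.hB', R.hB, R.ab, R.ac, R.bc, Set.inter_comm _ _ ▸ R.int, hu, s1, u2, s2, u1, s3, s4.symm⟩
  refine R.cover hk (t1 := u * v) (t2 := s * v) (t3 := u * s * v) (by
    rintro _ (rfl | rfl | rfl)
    exacts [k u hu u2 v R.hv R.v1, k s s1 s2 v R.hv R.v1,
      k _ (mul_mem hu s1) ((R'.four hk).2.1 _ (mul_mem hu s1)) v R.hv R.v1]) fun x hx hx' => ?_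
  have c4 := (R.d4 hx).ncard
  have xm : x ∈ L.bl {a, b, c, x} := L.sub c4 (by simp)
  obtain ⟨t, t1, t2⟩ := trans_of_free (E := L.K B ⊓ N (L.K B')) (S := L.bl {a, b, c, x} \ L.bl B)
    (fun t ht y hy => (free_diff c4 R.hB).1 t ⟨ht.1, R.mem_N hk ht ((R'.four hk).2.1 t ht) hx⟩ y hy)
    (fun t ht y hy => L.eq_one R.hB ht.1 hy.2) (by
      rw [(R'.four hk).2.2, card_diff hk c4 (by
        rw [Set.inter_comm, R.inter_blk hk hx, ncard_triple R.ab R.ac R.bc])])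
    ⟨R'.pres hk R.hv R.v2 hx', maps_compl (L.maps R.hv.2) x hx⟩ ⟨xm, hx⟩
  rw [← mul_smul] at t2
  rcases (R'.four hk).1 t t1 with rfl | rfl | rfl | rfl
  exacts [absurd (L.eq_one R.hB' R.hv.1 hx' (by simpa using t2)) R.v1, .inl t2, .inr (.inl t2), .inr (.inr t2)]

end Rich

/-- the output of the analysis for blocks of size seven -/
structure L7 (L : Lv G Ω) (B : Set Ω) : Prop where
  card : Nat.card Ω = 23
  two : IsPGroup 2 (L.K B)
  three : ¬ 3 ∣ L.κ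
  le5 : ∀ g : G, orderOf g = 3 → (Fx Ω g).ncard ≤ 5
  exg : ∃ g ∈ N (L.K B), orderOf g = 3 ∧ (L.bl B ∩ Fx Ω g).ncard = 1 ∧ 4 ≤ (Fx Ω g).ncard
  line : ∃ a ∈ L.bl B, ∃ b ∈ L.bl B, ∃ c ∈ L.bl B, a ≠ b ∧ a ≠ c ∧ b ≠ c ∧ ∃ u ∈ L.K B, u * u = 1 ∧ u ≠ 1 ∧
    ∀ x, x ∉ L.bl B → u • x ∈ L.bl {a, b, c, x}

theorem l7 (hk : L.k = 7) (hB : B.ncard = 4) : L.L7 B := by
  obtain ⟨u, x, h⟩ := L.exists_Cf hB
  obtain ⟨g, w0, g3, gc, gx, gw⟩ := h.exists_real hk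
  obtain ⟨a, ha, a1, a2⟩ := h.inv_line hk g3 gc gx
  have m := h.maps gc
  have g3' : g ^ 3 = 1 := g3 ▸ pow_orderOf_eq_one g
  have g4 : g • g • g • a = a := by rw [← mul_smul, ← mul_smul, mul_assoc, ← pow_three, g3', one_smul]
  have a3 : g • a ≠ g • g • a := fun e => a1 (MulAction.injective g e).symm
  have a4 : a ≠ g • g • a := fun e => a1 (by rw [e, g4, ← e])
  have c4 := (h.d4 ha (m a ha) a1.symm).ncard
  have int := eq_triple (S := L.bl B ∩ L.bl {a, g • a, x, u • x}) ⟨ha, h.a_mem ha (m a ha) a1.symm⟩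
    ⟨m a ha, h.b_mem ha (m a ha) a1.symm⟩ ⟨m _ (m a ha), a2⟩ a1.symm a4 a3 (h.inter_le ha (m a ha) a1.symm)
  have gN : g ∈ N (L.K {a, g • a, x, u • x}) := L.mem_N' c4 fun y hy => by
    rw [← h.bl_congr ha (m a ha) a1.symm (m a ha) (m _ (m a ha)) a3 (h.b_mem ha (m a ha) a1.symm) a2]
    exact h.ln_smul gc gx ha (m a ha) a1.symm hy
  obtain ⟨w, w1, w2, w3, w4⟩ := h.exists_w ha (m a ha) a1.symm
  have wN := L.mem_N_of_comm hB h.mem h.ne w4.symm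
  have f1 := h.fix_one hk g3 gc gx
  have nf : ∀ y ∈ L.bl B ∩ L.bl {a, g • a, x, u • x}, g • y ≠ y := by
    rw [int]
    rintro _ (rfl | rfl | rfl)
    exacts [a1, a3.symm, by rw [g4]; exact a4]
  have R : L.Rich B {a, g • a, x, u • x} a (g • a) (g • g • a) w (g * w * g⁻¹) :=
    ⟨hB, c4, a1.symm, a4, a3, int, ⟨w1, wN⟩, ⟨conj_mem_of_mem_N gN w1, (N (L.K B)).mul_mem ((N (L.K B)).mul_mem
      (L.mem_N_of_comm hB h.mem h.ne gc) wN) ((N (L.K B)).inv_mem (L.mem_N_of_comm hB h.mem h.ne gc))⟩, w2,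
      by rw [conj_mul, w2]; simp, w3, by simpa using w3, fun e => by
        obtain ⟨p, hp⟩ := Set.ncard_eq_one.1 f1
        have p1 : p ∈ L.bl B ∩ Fx Ω g := by rw [hp]; rfl
        have p2 : w • p ∈ ({p} : Set Ω) := hp ▸ ⟨L.maps wN p p1.1,
          smul_mem_Fx (show Commute w g from (mul_inv_eq_iff_eq_mul.1 e.symm).symm) p1.2⟩
        exact nf p ⟨p1.1, (h.fix_iff hk ha (m a ha) a1.symm w1 w3).1 p2⟩ p1.2⟩
  have hu : u ∈ L.K B ⊓ N (L.K {a, g • a, x, u • x}) := ⟨h.mem, h.mem_N ha (m a ha) a1.symm⟩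
  have c5 := card_diff hk c4 R.c3'
  have f2 : L.bl {a, g • a, x, u • x} \ L.bl B ⊆ Fx Ω g := by
    have m1 := ncard_modEq1 Nat.prime_three (S := L.bl {a, g • a, x, u • x} \ L.bl B)
      (fun y hy => ⟨L.maps gN y hy.1, maps_compl m y hy.2⟩) g3'
    have m2 := two_le_ncard (S := (L.bl {a, g • a, x, u • x} \ L.bl B) ∩ Fx Ω g)
      ⟨⟨h.x_mem ha (m a ha) a1.symm, h.out⟩, gx⟩ ⟨⟨h.y_mem ha (m a ha) a1.symm, h.out'⟩, h.fix_y gc gx⟩ h.ne_x
    refine Set.inter_eq_left.1 (Set.eq_of_subset_of_ncard_le Set.inter_subset_left ?_)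
    unfold Nat.ModEq at m1
    omega
  have n3 : ¬ 3 ∣ L.κ := fun H => by
    have := L.cop c5 f2 fun H' => a1 (L.fix H' (by
      rw [L.bl_eq c4 c5 Set.diff_subset]; exact h.a_mem ha (m a ha) a1.symm))
    rw [g3] at this
    exact absurd (this.eq_one_of_dvd H) (by decide)
  have f3 : 5 ≤ (Fx Ω g).ncard := by
    have := Set.ncard_le_ncard (Set.union_subset f2 (Set.inter_subset_right (s := L.bl B)))
    rw [Set.ncard_union_eq (Set.disjoint_left.2 fun y hy hy' => hy.2 hy'.1), c5, f1] at this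
    exact this
  have le5 : ∀ g' : G, orderOf g' = 3 → (Fx Ω g').ncard ≤ 5 := fun g' h' => L.r5 n3 h' g3 (by omega) gw
  refine ⟨?_, R.two hk, n3, le5, ⟨g, L.mem_N_of_comm hB h.mem h.ne gc, g3, f1, by omega⟩, a, ha, _, m a ha, _,
    m _ (m a ha), a1.symm, a4, a3, u, h.mem, h.sq, h.ne, fun y hy => R.pres hk hu h.sq hy⟩
  have h1 := R.card_le hk hu h.sq h.ne
  have h2 := L.dvd_card
  have h3 := L.lt
  have h4 := card_modEq (Ω := Ω) Nat.prime_three g3'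
  have h5 := le5 g g3
  rw [hk] at h2 h3
  unfold Nat.ModEq at h4
  refine (show Nat.card Ω = 23 ∨ Nat.card Ω = 11 by omega).elim id fun h11 => False.elim ?_
  obtain ⟨e, he⟩ := (Set.ncard_pos (s := L.bl B \ L.bl {a, g • a, x, u • x})).1 (by
    rw [card_diff hk hB R.c3]; omega)
  have d : D4 a (g • a) e x := ⟨a1.symm, fun e' => he.2 (e' ▸ R.ma.2), fun e' => h.out (e' ▸ ha),
    fun e' => he.2 (e' ▸ R.mb.2), fun e' => h.out (e' ▸ m a ha), fun e' => h.out (e' ▸ he.1)⟩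
  have i1 : (L.bl {a, g • a, e, x} ∩ L.bl B).ncard ≤ 3 := by
    by_contra H
    exact h.out (L.bl_eq_of_four d.ncard hB (by omega) ▸ L.sub d.ncard (by simp))
  have i2 := Set.ncard_inter_add_ncard_diff_eq_ncard (L.bl {a, g • a, e, x}) (L.bl B)
  have i3 := Set.ncard_add_ncard_compl (L.bl B)
  rw [L.card_bl d.ncard, hk] at i2
  rw [L.card_bl hB, hk] at i3
  have i4 : L.bl {a, g • a, e, x} \ L.bl B = (L.bl B)ᶜ :=
    Set.eq_of_subset_of_ncard_le (fun _ hy => hy.2) (by omega)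
  refine he.2 (L.bl_eq_of_four c4 d.ncard ?_ ▸ L.sub d.ncard (by simp))
  exact c5 ▸ Set.ncard_le_ncard fun y hy => ⟨hy.1, (i4.ge hy.2).1⟩

end Lv

end CfsgH1.Q4
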