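import Cfsg.Agent.H1.Q4L7b

set_option autoImplicit false
set_option linter.unusedSectionVars false

/-! Levels with blocks of size seven contain a `3²` all of whose elements fix four points. -/

namespace CfsgH1.Q4

open MulAction Subgroup CfsgH5 CfsgH6 CfsgFT

universe u

variable {G : Type u} {Ω : Type*} [Group G] [Finite G] [MulAction G Ω] [Finite Ω]

/-- setwise stabilizer -/
def Stb (G : Type u) {Ω : Type*} [Group G] [Finite G] [MulAction G Ω] [Finite Ω] (β : Set Ω) :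
    Subgroup G where
  carrier := {g | ∀ x ∈ β, g • x ∈ β}
  one_mem' := fun x hx => by rwa [one_smul]
  mul_mem' := fun {a b} ha hb x hx => by rw [mul_smul]; exact ha _ (hb x hx)
  inv_mem' := fun ha => inv_maps ha

theorem mem_Stb {β : Set Ω} {g : G} : g ∈ Stb G β ↔ ∀ x ∈ β, g • x ∈ β := Iff.rfl

theorem mem_zpowers_three {c e : G} (h : orderOf c = 3) (he : e ∈ zpowers c) :
    e = 1 ∨ e = c ∨ e = c ^ 2 := by
  classical
  rw [mem_zpowers_iff_mem_range_orderOf, h] at he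
  obtain ⟨i, i1, rfl⟩ := Finset.mem_image.1 he
  obtain rfl | rfl | rfl : i = 0 ∨ i = 1 ∨ i = 2 := by have := Finset.mem_range.1 i1; omega
  all_goals simp

theorem isPGroup_zpowers {p : ℕ} {c : G} (h : orderOf c = p) : IsPGroup p (zpowers c) :=
  IsPGroup.of_card (n := 1) (by rw [Nat.card_zpowers, h, pow_one])

theorem Fx_sq {t : G} (h : t ^ 3 = 1) : Fx Ω (t ^ 2) = Fx Ω t := by
  rw [← Fx_inv, ← mul_eq_one_iff_eq_inv'.1 (show t ^ 2 * t = 1 by rw [← pow_succ, h])]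

/-- a group `3²` given by two commuting generators -/
structure Nine (c d : G) : Prop where
  hc : orderOf c = 3
  hd : orderOf d = 3
  comm : Commute c d
  ne : d ∉ zpowers c

namespace Nine

variable {c d : G} (h : Nine c d)
include h

theorem le_C : zpowers d ≤ C (zpowers c) := by
  rw [C_zpowers, zpowers_le]; exact mem_C1.2 h.comm.symm.eq

theorem ab : Ab (zpowers c ⊔ zpowers d) := (ab_zpowers c).sup (ab_zpowers d) (le_C_symm h.le_C)

theorem card : Nat.card ↥(zpowers c ⊔ zpowers d) = 9 := by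
  rw [card_sup_of_inf_eq_bot (.inr (nrm_of_le_C h.le_C)), Nat.card_zpowers, Nat.card_zpowers, h.hc, h.hd]
  rw [inf_comm]
  exact (le_or_inf_eq_bot_of_prime_card (by rw [Nat.card_zpowers, h.hd]; exact Nat.prime_three) _).resolve_left
    fun H => h.ne (H (mem_zpowers d))

theorem c3 : c ^ 3 = 1 := h.hc ▸ pow_orderOf_eq_one c
theorem d3 : d ^ 3 = 1 := h.hd ▸ pow_orderOf_eq_one d

theorem enum {e : G} (he : e ∈ zpowers c ⊔ zpowers d) :
    e = 1 ∨ ∃ t ∈ ({c, d, c * d, c ^ 2 * d} : Set G), e = t ∨ e = t ^ 2 := by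
  obtain ⟨x, hx, y, hy, rfl⟩ := (mem_sup_nrm' (nrm_of_le_C h.le_C)).1 he
  rcases mem_zpowers_three h.hc hx with rfl | rfl | rfl <;>
    rcases mem_zpowers_three h.hd hy with rfl | rfl | rfl
  · simp
  · exact .inr ⟨y, by simp, by simp⟩
  · exact .inr ⟨d, by simp, by simp⟩
  · exact .inr ⟨x, by simp, by simp⟩
  · exact .inr ⟨x * y, by simp, by simp⟩
  · exact .inr ⟨x ^ 2 * d, by simp, .inr (by
      rw [(h.comm.pow_left 2).mul_pow, ← pow_mul, show 2 * 2 = 3 + 1 by rfl, pow_succ x 3, h.c3, one_mul])⟩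
  · exact .inr ⟨c, by simp, by simp⟩
  · exact .inr ⟨c ^ 2 * y, by simp, by simp⟩
  · exact .inr ⟨c * d, by simp, .inr (h.comm.mul_pow 2).symm⟩

theorem cd3 : (c * d) ^ 3 = 1 := by rw [h.comm.mul_pow, h.c3, h.d3, mul_one]

theorem ccd3 : (c ^ 2 * d) ^ 3 = 1 := by
  rw [(h.comm.pow_left 2).mul_pow, h.d3, ← pow_mul, mul_comm 2, pow_mul, h.c3, one_pow, mul_one]

theorem pow3 {e : G} (he : e ∈ zpowers c ⊔ zpowers d) : e ^ 3 = 1 := by
  rcases h.enum he with rfl | ⟨t, ht, rfl | rfl⟩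
  · simp
  · rcases ht with rfl | rfl | rfl | rfl
    exacts [h.c3, h.d3, h.cd3, h.ccd3]
  · rw [← pow_mul, mul_comm, pow_mul]
    rcases ht with rfl | rfl | rfl | rfl
    exacts [by rw [h.c3, one_pow], by rw [h.d3, one_pow], by rw [h.cd3, one_pow], by rw [h.ccd3, one_pow]]

theorem not_cyclic : ¬ IsCyclic ↥(zpowers c ⊔ zpowers d) := fun H => by
  obtain ⟨g, hg⟩ := H.exists_ofOrder_eq_natCard
  rw [h.card, ← Subgroup.orderOf_coe] at hg
  exact absurd (hg ▸ orderOf_dvd_of_pow_eq_one (h.pow3 g.2)) (by decide)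

theorem isPGroup : IsPGroup 3 ↥(zpowers c ⊔ zpowers d) := IsPGroup.of_card (n := 2) h.card

theorem cd_ne : c * d ≠ 1 := fun e => h.ne (eq_inv_of_mul_eq_one_right e ▸ inv_mem (mem_zpowers c))

theorem ccd_ne : c ^ 2 * d ≠ 1 :=
  fun e => h.ne (eq_inv_of_mul_eq_one_right e ▸ inv_mem (pow_mem (mem_zpowers c) 2))

end Nine

theorem exists_nine {β : Set Ω} {c d : G} (c3 : orderOf c = 3) (d3 : orderOf d = 3) (hc : Commute c d)
    (mc : ∀ y ∈ β, c • y ∈ β) (md : ∀ y ∈ β, d • y ∈ β) (h7 : β.ncard = 7) (f4 : (β ∩ Fx Ω c).ncard = 4)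
    (f1 : (β ∩ Fx Ω d).ncard = 1) :
    ∃ e : G, Nine c e ∧ (∀ y ∈ β, e • y ∈ β) ∧ 4 ≤ (β ∩ Fx Ω e).ncard := by
  obtain ⟨p, hp⟩ := Set.ncard_eq_one.1 f1
  have p1 : p ∈ β ∩ Fx Ω d := by rw [hp]; rfl
  have p2 : c • p = p := (hp ▸ ⟨mc p p1.1, smul_mem_Fx hc p1.2⟩ : c • p ∈ ({p} : Set Ω))
  have o3 := Set.ncard_inter_add_ncard_diff_eq_ncard β (Fx Ω c)
  obtain ⟨s, hs⟩ := (Set.ncard_pos (s := β \ Fx Ω c)).1 (by omega)
  have c3' : c ^ 3 = 1 := c3 ▸ pow_orderOf_eq_one c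
  have m : ∀ {t : G}, Commute t c → (∀ y ∈ β, t • y ∈ β) → ∀ y ∈ β \ Fx Ω c, t • y ∈ β \ Fx Ω c :=
    fun ht mt y hy => ⟨mt y hy.1, maps_compl (fun _ => smul_mem_Fx ht) y hy.2⟩
  have s1 := m (Commute.refl c) mc s hs
  have s2 := m (Commute.refl c) mc _ s1
  have n1 : s ≠ c • s := fun e => hs.2 e.symm
  have n2 : s ≠ c • c • s := fun e => hs.2 (Fx_sq (Ω := Ω) c3' ▸ by rw [mem_Fx, pow_two, mul_smul]; exact e.symm)
  have n3 : c • s ≠ c • c • s := fun e => s1.2 e.symm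
  have e := eq_triple hs s1 s2 n1 n2 n3 (by omega)
  obtain ⟨i, hi⟩ : ∃ i : ℕ, (c ^ i * d) • s = s := by
    rcases (e ▸ m hc.symm md s hs : d • s ∈ ({s, c • s, c • c • s} : Set Ω)) with e' | e' | e'
    · exact absurd ((hp ▸ ⟨hs.1, e'⟩ : s ∈ ({p} : Set Ω)) ▸ p2) hs.2
    · exact ⟨2, by rw [mul_smul, e', ← mul_smul, ← pow_succ, c3', one_smul]⟩
    · exact ⟨1, by
        rw [mul_smul, show d • s = c • c • s from e', ← mul_smul, ← mul_smul, pow_one, mul_assoc, ← pow_three,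
          c3', one_smul]⟩
  have cc : Commute c (c ^ i * d) := ((Commute.refl c).pow_right i).mul_right hc
  have nz : c ^ i * d ∉ zpowers c := fun H => by
    have : d ∈ zpowers c := by simpa using mul_mem (inv_mem (pow_mem (mem_zpowers c) i)) H
    have := Set.ncard_le_ncard (s := β ∩ Fx Ω c) (t := β ∩ Fx Ω d) fun y hy =>
      ⟨hy.1, (FxS_zpowers (Ω := Ω) c).ge hy.2 d this⟩
    omega
  refine ⟨c ^ i * d, ⟨c3, orderOf_eq_prime ?_ fun e => nz (e ▸ one_mem _), cc, nz⟩, fun y hy => ?_,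
    D4.le_ncard (a := p) (b := s) (c := c • s) (d := c • c • s)
      ⟨fun e => hs.2 (e ▸ p2), fun e => s1.2 (e ▸ p2), fun e => s2.2 (e ▸ p2), n1, n2, n3⟩
      ⟨p1.1, by rw [mem_Fx, mul_smul, mem_Fx.1 p1.2]; exact Fx_le_pow c i p2⟩ ⟨hs.1, hi⟩
      ⟨s1.1, smul_mem_Fx cc hi⟩ ⟨s2.1, smul_mem_Fx cc (smul_mem_Fx cc hi)⟩⟩
  · rw [(hc.pow_left i).mul_pow, ← pow_mul, mul_comm, pow_mul, c3', one_pow, one_mul, ← d3, pow_orderOf_eq_one]
  · exact mul_mem (pow_mem (mem_Stb.2 mc) i) (mem_Stb.2 md) y hy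

theorem Nine.four {β : Set Ω} {c d : G} (h : Nine c d) (mc : ∀ y ∈ β, c • y ∈ β) (md : ∀ y ∈ β, d • y ∈ β)
    (h7 : β.ncard = 7) (h23 : Nat.card Ω = 23) (fc : 4 ≤ (β ∩ Fx Ω c).ncard) (fd : 4 ≤ (β ∩ Fx Ω d).ncard)
    (le5 : ∀ g : G, orderOf g = 3 → (Fx Ω g).ncard ≤ 5) :
    ∀ e ∈ zpowers c ⊔ zpowers d, 4 ≤ (Fx Ω e).ncard := by
  haveI := Fact.mk Nat.prime_three
  have m : ∀ e ∈ zpowers c ⊔ zpowers d, ∀ y ∈ β, e • y ∈ β :=
    fun e he => sup_le (zpowers_le.2 (mem_Stb.2 mc)) (zpowers_le.2 (mem_Stb.2 md)) he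
  have w16 : βᶜ.ncard = 16 := by have := Set.ncard_add_ncard_compl β; omega
  have k : ∀ e ∈ zpowers c ⊔ zpowers d, e ≠ 1 → (βᶜ ∩ Fx Ω e).ncard % 3 = 1 ∧ (β ∩ Fx Ω e).ncard % 3 = 1 ∧
      (β ∩ Fx Ω e).ncard + (βᶜ ∩ Fx Ω e).ncard = (Fx Ω e).ncard ∧ (Fx Ω e).ncard ≤ 5 := fun e he e1 => by
    have a1 := ncard_modEq1 Nat.prime_three (maps_compl (m e he)) (S := βᶜ) (h.pow3 he)
    have a2 := ncard_modEq1 Nat.prime_three (m e he) (h.pow3 he)
    have a3 := Set.ncard_inter_add_ncard_diff_eq_ncard (Fx Ω e) β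
    rw [Set.diff_eq, Set.inter_comm, Set.inter_comm _ βᶜ] at a3
    unfold Nat.ModEq at a1 a2
    exact ⟨by omega, by omega, a3, le5 e (orderOf_eq_prime (h.pow3 he) e1)⟩
  have hc : c ∈ zpowers c ⊔ zpowers d := mem_sup_left (mem_zpowers c)
  have hd : d ∈ zpowers c ⊔ zpowers d := mem_sup_right (mem_zpowers d)
  have kc := k c hc (by rintro rfl; simpa using h.hc)
  have kd := k d hd (by rintro rfl; simpa using h.hd)
  obtain ⟨x, hx⟩ := Set.ncard_eq_one.1 (show (βᶜ ∩ Fx Ω c).ncard = 1 by omega)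
  have x1 : x ∈ βᶜ ∩ Fx Ω c := by rw [hx]; rfl
  have x2 : ∀ e ∈ zpowers c ⊔ zpowers d, e • x = x := fun e he =>
    (hx ▸ ⟨maps_compl (m e he) x x1.1, smul_mem_Fx (h.ab.comm he hc) x1.2⟩ : e • x ∈ ({x} : Set Ω))
  have key : ∀ e0 ∈ zpowers c ⊔ zpowers d, ∀ e1 ∈ zpowers c ⊔ zpowers d, e0 ≠ 1 → e1 ≠ 1 →
      (∀ t ∈ ({c, d, c * d, c ^ 2 * d} : Set G), t = c ∨ t = d ∨ t = e0 ∨ t = e1) → 4 ≤ (Fx Ω e0).ncard := by
    intro e0 h0 e1 h1 n0 n1 ht
    by_contra H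
    have k0 := k e0 h0 n0
    have k1 := k e1 h1 n1
    have u : ∀ e ∈ zpowers c ⊔ zpowers d, (βᶜ ∩ Fx Ω e).ncard = 1 → ∀ y ∈ βᶜ \ Fx Ω e1, e • y ≠ y :=
      fun e he h1' y hy e' => hy.2 (by
        rw [(Set.ncard_le_one (Set.toFinite _)).1 h1'.le y ⟨hy.1, e'⟩ x ⟨x1.1, x2 e he⟩]; exact x2 e1 h1)
    have := card_dvd_of_free (E := zpowers c ⊔ zpowers d) (S := βᶜ \ Fx Ω e1)
      (fun e he y hy => ⟨maps_compl (m e he) y hy.1, maps_compl (fun _ => smul_mem_Fx (h.ab.comm he h1)) y hy.2⟩)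
      fun e he y hy e' => by
        refine (h.enum he).elim id fun ⟨t, t1, t2⟩ => False.elim ?_
        have t3 : t ∈ zpowers c ⊔ zpowers d := by
          rcases t1 with rfl | rfl | rfl | rfl
          exacts [hc, hd, mul_mem hc hd, mul_mem (pow_mem hc 2) hd]
        have t4 : t • y = y := by
          rcases t2 with rfl | rfl
          exacts [e', (Fx_sq (Ω := Ω) (h.pow3 t3)).le e']
        rcases ht t t1 with rfl | rfl | rfl | rfl
        exacts [u _ hc (by omega) y hy t4, u _ hd (by omega) y hy t4, u _ h0 (by omega) y hy t4, hy.2 t4]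
    have a3 := Set.ncard_inter_add_ncard_diff_eq_ncard βᶜ (Fx Ω e1)
    rw [h.card] at this
    omega
  have k1 := key _ (mul_mem hc hd) _ (mul_mem (pow_mem hc 2) hd) h.cd_ne h.ccd_ne (by simp)
  have k2 := key _ (mul_mem (pow_mem hc 2) hd) _ (mul_mem hc hd) h.ccd_ne h.cd_ne (by simp)
  intro e he
  rcases h.enum he with rfl | ⟨t, t1, t2⟩
  · rw [show Fx Ω (1 : G) = Set.univ from Set.eq_univ_of_forall (one_smul G), Set.ncard_univ]; omega
  have t3 : 4 ≤ (Fx Ω t).ncard := by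
    rcases t1 with rfl | rfl | rfl | rfl
    exacts [by omega, by omega, k1, k2]
  rcases t2 with rfl | rfl
  exacts [t3, t3.trans (Set.ncard_le_ncard (Fx_le_pow t 2))]

theorem Lv.three_sq {L : Lv G Ω} (hk : L.k = 7) :
    ∃ c d : G, Nine c d ∧ ∀ e ∈ zpowers c ⊔ zpowers d, 4 ≤ (Fx Ω e).ncard := by
  haveI := Fact.mk Nat.prime_three
  obtain ⟨B, hB⟩ := L.exists_B
  obtain ⟨g, -, g3, -, g4⟩ := (Lv.l7 hk hB).exg
  obtain ⟨D, d1, d2⟩ := exists_four g4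
  have h := Lv.l7 hk d2
  have c7 : (L.bl D).ncard = 7 := hk ▸ L.card_bl d2
  obtain ⟨d, dN, d3, d4, -⟩ := h.exg
  have gN : g ∈ N (L.K D) := L.mem_N d2 fun y hy => by rw [mem_Fx.1 (d1 hy)]; exact hy
  have k : ∀ z ∈ N (L.K D), orderOf z = 3 → (L.bl D ∩ Fx Ω z).ncard = 1 ∨ (L.bl D ∩ Fx Ω z).ncard = 4 :=
    fun z hz z3 => by
      have a1 := ncard_modEq1 Nat.prime_three (L.maps hz) (z3 ▸ pow_orderOf_eq_one z)
      have a2 := (Set.ncard_le_ncard (Set.inter_subset_right (s := L.bl D))).trans (h.le5 z z3)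
      unfold Nat.ModEq at a1
      omega
  have g5 : (L.bl D ∩ Fx Ω g).ncard = 4 := (k g gN g3).resolve_left (by
    have := Set.ncard_le_ncard (Set.subset_inter (L.sub d2) d1); omega)
  obtain ⟨S, s1, s2⟩ := exists_sylIn_ge (zpowers_le.2 gN) (isPGroup_zpowers g3)
  obtain ⟨n, n1, n2⟩ := s2.exists_le_cj (zpowers_le.2 dN) (isPGroup_zpowers d3)
  have d5 := mem_cj.1 (n2 (mem_zpowers d))
  have d6 : orderOf (n⁻¹ * d * n) = 3 := by
    rw [← d3]; simpa using orderOf_injective (MulAut.conj n⁻¹).toMonoidHom (MulAut.conj n⁻¹).injective d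
  have d7 : (L.bl D ∩ Fx Ω (n⁻¹ * d * n)).ncard = 1 := by
    rw [← d4, ← ncard_smul n⁻¹ (L.bl D ∩ Fx Ω d), Set.image_inter (MulAction.injective _), ← Fx_conj, inv_inv,
      image_eq_of_maps (L.maps (inv_mem n1))]
  obtain ⟨z, z1, z3⟩ := exists_mem_orderOf_eq Nat.prime_three (prime_dvd_card_of_isPGroup Nat.prime_three
    (s2.isPGroup.to_le (Z_le S)) (Z_ne_bot_of_nilpotent (nilpotent_of_isPGroup Nat.prime_three s2.isPGroup)
      fun e => by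
        have := mem_bot.1 (e ▸ s1 (mem_zpowers g))
        rw [this] at g3; simp at g3))
  have zN := s2.le z1.1
  obtain ⟨c, d', c3, d3', cd, cN, dN', f4, f1⟩ : ∃ c d' : G, orderOf c = 3 ∧ orderOf d' = 3 ∧ Commute c d' ∧
      c ∈ N (L.K D) ∧ d' ∈ N (L.K D) ∧ (L.bl D ∩ Fx Ω c).ncard = 4 ∧ (L.bl D ∩ Fx Ω d').ncard = 1 := by
    rcases k z zN z3 with e | e
    · exact ⟨g, z, g3, z3, mem_C.1 z1.2 g (s1 (mem_zpowers g)), gN, zN, g5, e⟩
    · exact ⟨z, _, z3, d6, (mem_C.1 z1.2 _ d5).symm, zN, s2.le d5, e, d7⟩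
  obtain ⟨e, e1, e2, e3⟩ := exists_nine c3 d3' cd (L.maps cN) (L.maps dN') c7 f4 f1
  exact ⟨c, e, e1, e1.four (L.maps cN) e2 c7 h.card f4.ge e3 h.le5⟩

end CfsgH1.Q4
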