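import Mathlib
import Cfsg.Agent.H1.SpConc

/-!
The symplectic group as an amalgam: the induction.
-/

set_option autoImplicit false

namespace CfsgH1

open Matrix Subgroup Sum

variable {F : Type*} [Field F] {n : ℕ} {Γ : Type*} [Group Γ]

/-- `π` is injective on `K` -/
def InjK {E : Type*} [Group E] (π : Γ →* E) (K : Subgroup Γ) : Prop := ∀ g ∈ K, π g = 1 → g = 1

theorem InjK.commute {E : Type*} [Group E] {π : Γ →* E} {K K' : Subgroup Γ} (h : InjK π (K ⊔ K'))
    {a b : Γ} (ha : a ∈ K) (hb : b ∈ K') (e : Commute (π a) (π b)) : Commute a b := by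
  have ha' := mem_sup_left (T := K') ha
  have hb' := mem_sup_right (S := K) hb
  rw [← commutatorElement_eq_one_iff_commute] at e ⊢
  exact h _ (mul_mem (mul_mem (mul_mem ha' hb') (inv_mem ha')) (inv_mem hb'))
    (by rw [map_commutatorElement, e])

theorem sp_amalgam (hF : ∃ a : F, a ≠ 0 ∧ a ≠ 1) (π : Γ →* symplecticGroup (Fin n) F)
    (S M : Fin n → Subgroup Γ) (hS : ∀ k, (S k).map π = FxS F {c | ix c ∉ ({k} : Set (Fin n))})
    (hM : ∀ i i' : Fin n, i'.val = i + 1 → (M i).map π = FxS F {c | c ≠ inr i ∧ c ≠ inr i'})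
    (fS : ∀ j, InjK π (S j)) (fSS : ∀ j l, j ≠ l → InjK π (S j ⊔ S l))
    (fMM : ∀ i i' : Fin n, i ≠ i' → i.val + 1 < n → i'.val + 1 < n → InjK π (M i ⊔ M i'))
    (fMS : ∀ i j : Fin n, i.val + 1 < n → InjK π (M i ⊔ S j)) (k : ℕ) (hk : k < n) :
    ∃ G : Subgroup Γ, (∀ C : Subgroup Γ, (∀ j : Fin n, j.val ≤ k → S j ≤ C) →
        (∀ i : Fin n, i.val < k → M i ≤ C) → G ≤ C) ∧
      (∀ j : Fin n, j.val ≤ k → S j ≤ G) ∧ (∀ i : Fin n, i.val < k → M i ≤ G) ∧ InjK π G ∧
      G.map π = FxS F {c | ix c ∉ {j : Fin n | j.val ≤ k}} ∧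
      ∀ C : Subgroup Γ, (∀ s ∈ S ⟨k, hk⟩, π s ∈ FxS F {inl ⟨k, hk⟩} → s ∈ C) →
        (∀ j : Fin n, j.val < k → S j ≤ C) → (∀ i : Fin n, i.val < k → M i ≤ C) →
        ∀ γ ∈ G, π γ ∈ FxS F {inl ⟨k, hk⟩} → γ ∈ C := by
  induction k with
  | zero =>
    refine ⟨S ⟨0, hk⟩, fun C h _ => h _ le_rfl, fun j hj => ?_, by simp, fS _, ?_,
      fun C h _ _ => h⟩
    · obtain rfl : j = ⟨0, hk⟩ := Fin.ext (by simpa using hj)
      rfl
    · rw [hS]
      congr 1
      ext c
      simp [Fin.ext_iff]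
  | succ k ih =>
    obtain ⟨G, g1, g2, g3, g4, g5, g6⟩ := ih (by omega)
    letI : DistribMulAction Γ (Fin n ⊕ Fin n → F) := DistribMulAction.compHom _ π
    have sm' : ∀ (g : Γ) (v : Fin n ⊕ Fin n → F), g • v = π g • v := fun _ _ => rfl
    haveI : SMulCommClass Γ F (Fin n ⊕ Fin n → F) := ⟨fun g c v => smul_comm (π g) c v⟩
    generalize hl : (⟨k, by omega⟩ : Fin n) = l at g6
    generalize hm : (⟨k + 1, hk⟩ : Fin n) = m
    have vl : l.val = k := by rw [← hl]
    have vm : m.val = k + 1 := by rw [← hm]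
    have lm : l ≠ m := fun e => by rw [e] at vl; omega
    have hM' := hM l m (by omega)
    have fa : ∀ K, InjK π K → Faith (Fin n ⊕ Fin n → F) K := fun K h g hg e =>
      h g hg (sp_ext fun v => (e v).trans (one_smul _ _).symm)
    have mp : ∀ {K : Subgroup Γ} {L}, K.map π = L → ∀ g ∈ K, π g ∈ L :=
      fun e g hg => e ▸ mem_map_of_mem π hg
    have hX : ∀ {K : Subgroup Γ} {A}, K.map π = FxS F {c | ix c ∉ A} →
        HasX (BJ F (Fin n)) K (VA F A) := fun e a ha c => by
      obtain ⟨g, hg⟩ := exists_isX a c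
      obtain ⟨x, hx, rfl⟩ := e.ge (hg.mem_FxS fun d hd => ha _ (by simpa using hd))
      exact ⟨x, hx, hg⟩
    have fx : ∀ (g : Γ) c, g • (Pi.single c 1 : Fin n ⊕ Fin n → F) = Pi.single c 1 ↔
        π g ∈ FxS F {c} := fun g c => by simp [mem_FxS, sm']
    have sfix : ∀ j, ∀ s ∈ S j, π s ∈ FxS F {inl j} → π s ∈ FxS F {c | c ≠ inr j} :=
      fun j s hs e => mem_FxS.2 fun c hc => by
        by_cases e' : ix c = j
        · exact mem_FxS.1 e c (((ix_eq_iff (b := inl j)).1 e').resolve_right hc)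
        · exact mem_FxS.1 (mp (hS j) s hs) c e'
    have cMS : ∀ i j : Fin n, i.val + 1 < n → j ≠ i → j.val ≠ i + 1 → ∀ a ∈ M i, ∀ s ∈ S j,
        Commute a s := fun i j hi e1 e2 a ha s hs =>
      (fMS i j hi).commute ha hs (commute_FxS (mp (hM i ⟨_, hi⟩ rfl) a ha) (mp (hS j) s hs) (by
        rintro (c | c)
        · simp
        · by_cases e : c = j
          · exact .inl (by simpa [e, e1, Fin.ext_iff] using e2)
          · exact .inr e))
    have cMS' : ∀ j : Fin n, ∀ a ∈ M l, ∀ s ∈ S j, π s ∈ FxS F {inl j} → Commute a s :=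
      fun j a ha s hs e => (fMS l j (by omega)).commute ha hs
        (commute_FxS (mp hM' a ha) (sfix j s hs e) (by rintro (c | c) <;> simp))
    have cent : ∀ {K : Subgroup Γ} {a : Γ}, (∀ b ∈ K, Commute a b) → K ≤ centralizer {a} :=
      fun h b hb => mem_centralizer_singleton_iff.2 (h b hb).symm
    have h : SpSetup (BJ F (Fin n)) (Pi.single (inl m) 1) (Pi.single (inr m) 1) (Pi.single (inl l) 1)
        (Pi.single (inr l) 1) (VA F {m}) (VA F {l}) (VA F {j | j.val ≤ k}) (S m) (S l) G (M l) :=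
      { alt := BJ_alt
        inv := fun g => BJ_smul (π g)
        two := hF
        ef := by simp [BJ_inr]
        ef₁ := by simp [BJ_inr]
        memU := mem_VA_single m
        memU₁ := mem_VA_single l
        UW := fun v hv c hc => hv c fun e => hc (by simp [Set.mem_singleton_iff.1 e, vl])
        orth := fun u hu w hw => orth_VA (by simp [vm]) hu hw
        ndW := ndOn_VA _
        SU := fun s hs u hu => smul_mem_VA (mp (hS m) s hs) hu
        SW := fun s hs w hw => smul_eq_of_VA (by simp [vm]) (mp (hS m) s hs) hw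
        GU := fun g hg u hu => smul_eq_of_VA (fun i hi e => by
          rw [Set.mem_singleton_iff.1 e] at hi; simp [vm] at hi) (mp g5 g hg) hu
        GW := fun g hg u hu => smul_mem_VA (mp g5 g hg) hu
        SG := g2 l vl.le
        XS := hX (hS m)
        XS₁ := hX (hS l)
        XG := hX g5
        comm := fun s hs g hg => (mem_centralizer_singleton_iff.1 (g1 (centralizer {s})
          (fun j hj => cent fun b hb => (fSS m j (fun e => by rw [← e] at hj; omega)).commute hs hb
            (commute_FxS (mp (hS m) s hs) (mp (hS j) b hb) fun c => by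
              by_cases e : ix c = m
              · exact .inr (by simp [e, Fin.ext_iff]; omega)
              · exact .inl e))
          (fun i hi => cent fun b hb => (cMS i m (by omega) (fun e => by rw [← e] at hi; omega)
            (by omega) b hb s hs).symm) hg)).symm
        Me := fun c => by
          obtain ⟨g, hg⟩ := exists_isX (Pi.single (inl m) 1) c
          obtain ⟨x, hx, rfl⟩ := hM'.ge (hg.mem_FxS fun d hd =>
            Pi.single_eq_of_ne (fun e => hd.2 (swap_eq_iff.1 e)) _)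
          exact ⟨x, hx, hg⟩
        Me₁ := fun c => by
          obtain ⟨g, hg⟩ := exists_isX (Pi.single (inl l) 1) c
          obtain ⟨x, hx, rfl⟩ := hM'.ge (hg.mem_FxS fun d hd =>
            Pi.single_eq_of_ne (fun e => hd.1 (swap_eq_iff.1 e)) _)
          exact ⟨x, hx, hg⟩
        MT := fun c => by
          obtain ⟨g, hg⟩ := exists_isT (u := Pi.single (inl m) (1 : F))
            (v := c • Pi.single (inl l) 1) (by simp [BJ_inl])
          obtain ⟨x, hx, rfl⟩ := hM'.ge (hg.mem_FxS
            (fun d hd => Pi.single_eq_of_ne (fun e => hd.2 (swap_eq_iff.1 e)) _) fun d hd => by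
              rw [Pi.smul_apply, Pi.single_eq_of_ne (fun e => hd.1 (swap_eq_iff.1 e)), smul_zero])
          exact ⟨x, hx, hg⟩
        M1 := fun x hx => by
          refine ⟨(x • (Pi.single (inr m) 1 : Fin n ⊕ Fin n → F)) (inl m),
            (x • (Pi.single (inr m) 1 : Fin n ⊕ Fin n → F)) (inl l), funext fun c => ?_⟩
          by_cases e1 : c = inl m
          · simp [e1, lm.symm]
          by_cases e2 : c = inl l
          · simp [e2, lm]
          · rw [sm', smul_apply_eq (mp hM' x hx) _ ⟨mt swap_eq_iff.1 e2, mt swap_eq_iff.1 e1⟩]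
            simp [e1, e2]
        M2 := fun x hx e => by
          obtain ⟨s, hs, e'⟩ := (hS l).ge (mem_FxS.2 fun c hc => by
            by_cases e' : c = inr m
            · exact e' ▸ e
            · exact mem_FxS.1 (mp hM' x hx) c ⟨fun e => hc (by simp [e, ix]), e'⟩ :
              π x ∈ _)
          have := fMS l l (by omega) _ (mul_mem (inv_mem (mem_sup_right hs)) (mem_sup_left hx))
            (by simp [e'])
          exact inv_mul_eq_one.1 this ▸ g2 l vl.le hs
        faith₀ := fa _ (fMS l m (by omega))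
        faith₁ := fa _ (fMS l l (by omega))
        cS := fun s hs e a ha => (cMS' m a ha s hs ((fx _ _).1 e)).symm
        cG := fun g hg e a ha => mem_centralizer_singleton_iff.1 (g6 (centralizer {a})
          (fun s hs e => mem_centralizer_singleton_iff.2 (cMS' l a ha s hs e).symm)
          (fun j hj => cent (cMS l j (by omega) (fun e => by rw [e] at hj; omega) (by omega) a ha))
          (fun i hi => cent fun b hb => (fMM l i (fun e => by rw [← e] at hi; omega) (by omega)
            (by omega)).commute ha hb (commute_FxS (mp hM' a ha)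
              (mp (hM i ⟨_, by omega⟩ rfl) b hb) (by rintro (c | c) <;> simp)))
          g hg ((fx _ _).1 e)) }
    have ins : {j : Fin n | j.val ≤ k + 1} = insert m {j | j.val ≤ k} := by
      ext j
      simp [Fin.ext_iff]
      omega
    have le : (S m ⊔ G ⊔ M l).map π ≤ FxS F {c | ix c ∉ {j : Fin n | j.val ≤ k + 1}} := by
      rw [Subgroup.map_sup, Subgroup.map_sup, hS, g5, hM', ins]
      refine sup_le (sup_le (FxS_mono fun c hc e => hc (.inl e)) (FxS_mono fun c hc e => hc (.inr e)))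
        (FxS_mono fun c hc => ⟨fun e => hc (.inr (by simp [e, ix, vl])), fun e => hc (.inl (by
          simp [e, ix]))⟩)
    refine ⟨S m ⊔ G ⊔ M l, fun C h1 h2 => sup_le (sup_le (h1 m vm.le) (g1 C
      (fun j hj => h1 j (by omega)) fun i hi => h2 i (by omega))) (h2 l (by omega)), fun j hj => ?_,
      fun i hi => ?_, fun g hg e => ?_, le_antisymm le fun g hg => ?_, fun C h1 h2 h3 γ hγ e => ?_⟩
    · by_cases e : j = m
      · exact e ▸ le_sup_left.trans le_sup_left
      · exact (g2 j (by have := Fin.val_ne_of_ne e; omega)).trans (le_sup_right.trans le_sup_left)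
    · by_cases e : i = l
      · exact e ▸ le_sup_right
      · exact (g3 i (by have := Fin.val_ne_of_ne e; omega)).trans (le_sup_right.trans le_sup_left)
    · refine h.faith (fa _ g4) (fun s hs e1 e2 => fS m s hs (sp_ext fun v => ?_)) g hg fun x => by
        rw [sm', e, one_smul]
      rw [one_smul]
      refine smul_eq_self (T := Set.univ) (mem_FxS.2 fun c _ => ?_) (by simp)
      by_cases e' : c = inr m
      · exact e' ▸ e2
      · exact mem_FxS.1 (sfix m s hs ((fx _ _).1 e1)) c e'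
    · have hv : ∀ c, ix c = m → (Pi.single c 1 : Fin n ⊕ Fin n → F) ∈
          VA F {j : Fin n | j.val ≤ k + 1} := fun c hc d hd =>
        Pi.single_eq_of_ne (fun e => hd (by simp [e, hc, vm])) _
      obtain ⟨u, hu, w, hw, e1⟩ := exists_decomp (ins ▸ smul_mem_VA hg (hv (inl m) rfl))
      obtain ⟨γ, hγ, e2⟩ := h.exists_smul_eq hu hw (by
        rw [e1, Ne, smul_eq_zero_iff_eq]
        exact h.e0)
      have hg' := mul_mem (inv_mem (le (mem_map_of_mem π hγ))) hg
      have e3 : ((π γ)⁻¹ * g) • (Pi.single (inl m) 1 : Fin n ⊕ Fin n → F) = Pi.single (inl m) 1 := by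
        rw [mul_smul, ← e1, ← e2, sm', inv_smul_smul]
      obtain ⟨u', hu', w', hw', e4⟩ := exists_decomp (ins ▸ smul_mem_VA hg' (hv (inr m) rfl))
      obtain ⟨δ, hδ, e5, e6⟩ := h.exists_smul_eq' hu' hw' (by rw [e4, ← e3, BJ_smul, h.ef])
      have hg'' := mul_mem (inv_mem (le (mem_map_of_mem π hδ))) hg'
      obtain ⟨x, hx, e7⟩ := g5.ge (mem_FxS.2 fun c hc => by
        by_cases e' : ix c = m
        · rcases (ix_eq_iff (b := inl m)).1 e' with rfl | rfl
          · rw [mul_smul, e3, inv_smul_eq_iff, ← sm', e5]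
          · rw [mul_smul, inv_smul_eq_iff, swap_inl, ← e4, ← e6, sm']
        · exact mem_FxS.1 hg'' c (by rw [ins]; exact not_or.2 ⟨e', hc⟩) :
          (π δ)⁻¹ * ((π γ)⁻¹ * g) ∈ _)
      exact ⟨γ * (δ * x), mul_mem hγ (mul_mem hδ (mem_sup_left (mem_sup_right hx))), by simp [e7]⟩
    · exact h.mem_of_fix (fun s hs e => h1 s hs ((fx _ _).1 e)) (g1 C (fun j hj => h2 j (by omega))
        fun i hi => h3 i (by omega)) (h3 l (by omega)) hγ ((fx _ _).2 e)

/-- the graph of a homomorphism on a subgroup -/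
def graphOf {E H : Type*} [Group E] [Group H] (K : Subgroup E) (σ : K →* H) : Subgroup (E × H) :=
  (K.subtype.prod σ).range

theorem map_graphOf {E H : Type*} [Group E] [Group H] (K : Subgroup E) (σ : K →* H) :
    (graphOf K σ).map (MonoidHom.fst E H) = K := by
  rw [graphOf, MonoidHom.map_range, MonoidHom.fst_comp_prod, range_subtype]

theorem injK_graphOf {E H : Type*} [Group E] [Group H] (K : Subgroup E) (σ : K →* H) :
    InjK (MonoidHom.fst E H) (graphOf K σ) := by
  rintro _ ⟨x, rfl⟩ e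
  obtain rfl : x = 1 := Subtype.ext e
  exact map_one _

theorem injK_sup {E H : Type*} [Group E] [Group H] {K K' : Subgroup E} {σ : K →* H} {σ' : K' →* H}
    (h : ∃ Ψ : ↥(K ⊔ K') →* H, (∀ g (hg : g ∈ K), Ψ ⟨g, mem_sup_left hg⟩ = σ ⟨g, hg⟩) ∧
      ∀ g (hg : g ∈ K'), Ψ ⟨g, mem_sup_right hg⟩ = σ' ⟨g, hg⟩) :
    InjK (MonoidHom.fst E H) (graphOf K σ ⊔ graphOf K' σ') := by
  obtain ⟨Ψ, h1, h2⟩ := h
  refine fun g hg => injK_graphOf _ Ψ g ((sup_le ?_ ?_ : _ ≤ graphOf _ Ψ) hg)
  · rintro _ ⟨x, rfl⟩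
    exact ⟨⟨x, mem_sup_left x.2⟩, Prod.ext rfl (h1 x x.2)⟩
  · rintro _ ⟨x, rfl⟩
    exact ⟨⟨x, mem_sup_right x.2⟩, Prod.ext rfl (h2 x x.2)⟩

end CfsgH1
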