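import Cfsg.Agent.H6.VC0
import Cfsg.Agent.SZ.SUZ_fin
import Cfsg.Agent.SZ.SUZ5_c

set_option autoImplicit false
set_option linter.unusedSectionVars false

/-! V-case, last step: Suzuki's theorem makes the regular normal complement a `2`-group. -/

namespace CfsgSE

open Subgroup CfsgH5 CfsgH6 CfsgFT CfsgSZ CfsgSZ.PS

universe u

variable {G Ω : Type u} [Group G] [Finite G] [MulAction G Ω] {V : Ω → Subgroup G}

theorem VN.two_group {a b : Ω} {Q : Subgroup G} (h : VN V) (hab : a ≠ b)
    (hQ : SDP Q (St G a ⊓ St G b) (St G a)) (hV : V a ≤ Q) : IsPGroup 2 Q := by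
  obtain ⟨u, hu, rfl⟩ := h.se.exists_J hab
  obtain ⟨n, hn, hc⟩ := h.card_pow a
  let S : Suz0 G :=
    { X := ⊤, H := St G a, Q := Q, D := St G a ⊓ St G (u • a), t := u
      H_le := le_top, t_mem := mem_top _, t_not := hab.symm, tt := hu.sq
      D_eq := by rw [cj_St], sdp := hQ
      two := fun g _ hg => by
        obtain ⟨k, hk, e⟩ := h.two (α := a) (β := u • a) (γ := g • a) hab.symm hg
        refine ⟨k, hk, u⁻¹ * k⁻¹ * g, ?_, by group⟩
        rw [mem_St, mul_smul, mul_smul, ← e, inv_smul_smul, inv_smul_smul]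
      even := by
        refine even_iff_two_dvd.2 (Dvd.dvd.trans ?_ (card_dvd_of_le' hV))
        rw [hc]; exact dvd_pow_self 2 (by omega)
      odd := h.se.odd_D hab }
  have hq : 2 < S.q := by
    have : Nat.card (V a) ≤ Nat.card (Om1 2 Q) := card_le_of_le ((h.elAb a).le_Om1 hV)
    have := h.card a
    change 2 < Nat.card (Om1 2 Q)
    omega
  obtain ⟨S', e⟩ := S.exists_suz
  have := (S'.concl (by rw [e]; exact hq) (Or.inr inferInstance)).isPGroup
  rw [e] at this
  exact this

end CfsgSE
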